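import Cfsg.Agent.H294.PU.Gen_m3
import Cfsg.Agent.H802.FusBasic
import Mathlib
import Cfsg.Agent.H805.PU.Main_m3
import Cfsg.Agent.H767.PU.Card_m3
import Cfsg.Agent.LieClassical.HermBasic
import Cfsg.Agent.H781.Realized
import Cfsg.Agent.H756.PU.AsmGen
import Cfsg.Agent.H659.PU.Over_m3
import Cfsg.Agent.Solvable.SZ
import Cfsg.Agent.FastGrp
import Cfsg.Agent.Prune
set_option linter.all false

section
prune_inst 0x7ff0bcfb8ff8addfdfff7e7fa698cffc3d90dfffa6dff94bffe06bef0f9f030209c12bad8de090fc0ee2621410b87853f9ffceffe06bd87ffffd5df41ffbee0ff5f7b508511488340fbc0ff703f0778e7f3fffffffffffffffffffffffffffbeffbfffffffff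

-- part: H776/P4/Stmts2
section
set_option linter.all false

/-!
# S5210: further statements (used by the assembly)
-/

set_option autoImplicit false

namespace Cfsg.Agent.H776.P4

open Cfsg Cfsg.FusionSystem
open Cfsg.Agent.H756.PU (HypK Ess Inv Com NormAut TIAut AF)

universe u v

/-- (TW2) twisting a system over the whole group `G0` by an automorphism, with all the automizers -/
def StTwist2 : Prop :=
  ∀ {G0 : Type u} [Group G0] [Finite G0] {p : ℕ} [Fact p.Prime] (F : FusionSystem (⊤ : Subgroup G0)) (θ : MulAut G0),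
    F.IsSaturated p →
    ∃ F' : FusionSystem (⊤ : Subgroup G0), F'.IsSaturated p ∧ (F'.IsRealizable p ↔ F.IsRealizable p) ∧
      AF F' = (AF F).map (MulAut.conj θ).toMonoidHom ∧
      (∀ E : Subgroup G0, F.IsEssential p E ↔ F'.IsEssential p (E.map θ.toMonoidHom)) ∧
      (∀ (Q : Subgroup G0) (t : MulAut Q), (∀ e : Q, ((t e : Q) : G0) = θ e) →
        F'.autGroup Q = (F.autGroup Q).map (MulAut.conj t).toMonoidHom)

/-- (EP) calculus of the automorphisms `ε_κ` (`p = 3`): composition, conjugation by the torus, action on the points -/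
def StEp : Prop :=
  ∀ {K : Type u} [Field K] [StarRing K] {p n : ℕ}, HypK K p n → p ^ n = 3 →
    (∀ (κ κ' : K) (ε ε' : MulAut (PG K)), IsEp κ ε → IsEp κ' ε' → IsEp (κ + κ') (ε * ε')) ∧
    (∀ (κ : K) (d ε : MulAut (PG K)) (s l : K) (τ : K ≃+* K), IsTorP d s l τ → IsEp κ ε →
      IsEp (actK s l τ κ) (d * ε * d⁻¹)) ∧
    (∀ (κ : K) (ε : MulAut (PG K)) (t : MulAut (PV K)), IsEp κ ε → IsRP ε t → t = 1) ∧
    (∀ (κ : K) (ε : MulAut (PG K)) (t : MulAut (PQ K)) (Γ : Subgroup (MulAut (PQ K))), IsEp κ ε → IsRP ε t →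
      autInducedBy ⊤ (PQ K) ≤ Γ → Pt (Γ.map (MulAut.conj t).toMonoidHom) = {x | ∃ y ∈ Pt Γ, x = κ + y}) ∧
    (∀ (d : MulAut (PG K)) (s l : K) (τ : K ≃+* K) (t : MulAut (PQ K)) (Γ : Subgroup (MulAut (PQ K))), IsTorP d s l τ →
      IsRP d t → autInducedBy ⊤ (PQ K) ≤ Γ →
      Pt (Γ.map (MulAut.conj t).toMonoidHom) = {x | ∃ y ∈ Pt Γ, x = actK s l τ y}) ∧
    (LamP ({0} : Set K) = LamQ K)

/-- (LN) the torus with field automorphisms normalizes `LamV` and `LamQ` -/
def StLamN : Prop :=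
  ∀ {K : Type u} [Field K] [StarRing K] {p n : ℕ}, HypK K p n →
    ∀ d ∈ TP K, (∀ δ : MulAut (PV K), IsRP d δ → (LamV K).map (MulAut.conj δ).toMonoidHom = LamV K) ∧
      (∀ δ : MulAut (PQ K), IsRP d δ → (LamQ K).map (MulAut.conj δ).toMonoidHom = LamQ K)

/-- (3T) for `q = 3`: the subgroups `D` of `TP K` (order `32`) compatible with the configuration `T` -/
def StThreeT : Prop :=
  ∀ {K : Type u} [Field K] [StarRing K] {p n : ℕ}, HypK K p n → p ^ n = 3 → ∀ ι : K, ι * ι = -1 →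
    Nat.card (TP K) = 32 ∧
    (∀ (κ : K) (T T' : Fin 6), {x | ∃ y ∈ Cfg ι T, x = κ + y} = Cfg ι T' → T = T') ∧
    (∃ (α : MulAut (PG K)) (s l : K) (τ : K ≃+* K), IsTorP α s l τ ∧
      Cfg ι 1 = {x | ∃ y ∈ Cfg ι 2, x = actK s l τ y} ∧ Cfg ι 3 = {x | ∃ y ∈ Cfg ι 4, x = actK s l τ y}) ∧
    (∀ (T : Fin 6) (D : Subgroup (MulAut (PG K))), D ≤ TP K →
      HasTorP D (fun t => t ^ 2) (fun t => (t * star t)⁻¹) → InvK D (Cfg ι T) →
      (∀ (α : MulAut (PG K)) (s l : K) (τ : K ≃+* K), IsTorP α s l τ → CfgMap ι T (actK s l τ) → α ∈ D) →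
      (T = 1 ∨ T = 2 ∨ T = 3 ∨ T = 4 → Nat.card D = 8 ∨ Nat.card D = 16) ∧ (T = 5 → Nat.card D = 32) ∧
      (∀ D' : Subgroup (MulAut (PG K)), T ≠ 0 → D' ≤ TP K →
        HasTorP D' (fun t => t ^ 2) (fun t => (t * star t)⁻¹) → InvK D' (Cfg ι T) →
        (∀ (α : MulAut (PG K)) (s l : K) (τ : K ≃+* K), IsTorP α s l τ → CfgMap ι T (actK s l τ) → α ∈ D') →
        Nat.card D = Nat.card D' → D = D'))

end Cfsg.Agent.H776.P4
end

-- part: H38/P4/Main_mg
section
prune_inst 0xd0100300012200000018009471001c028200049200080000000101060480cc4060000020b4a025114000004400380040031000800240000000200400011c00800080000020400000020080000080000000000000000000000000000000000000000000000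
set_option linter.all false
open scoped Cfsg.Agent.FastGrp

-- part: H38/P4/Nine
section
/-!
# S5210, `q = 3`: the field with nine elements (helper38)
-/

set_option autoImplicit false

namespace Cfsg.Agent.H38.P4

open Cfsg Cfsg.Agent.H776.P4

universe u

/-- the field with nine elements and its involution -/
structure N9 (K : Type u) [Field K] [StarRing K] : Prop where
  fin : Finite K
  three : (3 : K) = 0
  st : ∀ x : K, star x = x ^ 3
  ex : ∃ i : K, i * i = -1

theorem N9.of_hyp {K : Type u} [Field K] [StarRing K] {p n : ℕ} (h : Cfsg.Agent.H756.PU.HypK K p n)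
    (hq : p ^ n = 3) : N9 K := by
  have hp3 : p = 3 := by
    have h1 : p ∣ 3 := by
      rw [← hq]
      exact dvd_pow_self p (by have := h.hn; omega)
    rcases (Nat.dvd_prime Nat.prime_three).1 h1 with h2 | h2
    · exact absurd h2 h.pp.one_lt.ne'
    · exact h2
  have := h.fin
  have hc := h.char
  rw [hp3] at hc
  refine ⟨h.fin, ?_, ?_, ?_⟩
  · exact_mod_cast (CharP.cast_eq_zero K 3)
  · intro x
    rw [h.star_eq, hq]
  · have : Fintype K := Fintype.ofFinite K
    have h1 : Fintype.card K = 9 := by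
      rw [← Nat.card_eq_fintype_card, h.card, hq]
      norm_num
    obtain ⟨i, hi⟩ := (FiniteField.isSquare_neg_one_iff (F := K)).2 (by rw [h1]; norm_num)
    exact ⟨i, hi.symm⟩

variable {K : Type u} [Field K] [StarRing K]

theorem star_I (h : N9 K) {i : K} (hi : i * i = -1) : star i = -i := by
  rw [h.st]
  linear_combination i * hi

theorem fixed (h : N9 K) {x : K} (hx : star x = x) : x = 0 ∨ x = 1 ∨ x = -1 := by
  rw [h.st] at hx
  have h1 : x * ((x - 1) * (x + 1)) = 0 := by linear_combination hx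
  rcases mul_eq_zero.1 h1 with h2 | h2
  · exact Or.inl h2
  · rcases mul_eq_zero.1 h2 with h3 | h3
    · exact Or.inr (Or.inl (sub_eq_zero.1 h3))
    · exact Or.inr (Or.inr (eq_neg_of_add_eq_zero_left h3))

theorem dec (h : N9 K) {i : K} (hi : i * i = -1) (x : K) : ∃ u v : K, star u = u ∧ star v = v ∧ x = u + v * i := by
  have h3 := h.three
  have hs := star_I h hi
  refine ⟨-(x + star x), i * (x - star x), ?_, ?_, ?_⟩
  · rw [star_neg, star_add, star_star]; ring
  · rw [star_mul', star_sub, star_star, hs]; ring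
  · linear_combination x * h3 - (x - star x) * hi

/-- additive maps of the field with nine elements -/
theorem additive (h : N9 K) {φ : K → K} (hφ : ∀ x y, φ (x + y) = φ x + φ y) : ∃ α β : K, ∀ x, φ x = α * x + β * star x := by
  obtain ⟨i, hi⟩ := h.ex
  have h3 := h.three
  have hs := star_I h hi
  have h0 : φ 0 = 0 := by
    have := hφ 0 0
    rw [add_zero] at this
    exact left_eq_add.1 this
  have hneg : ∀ x, φ (-x) = -φ x := by
    intro x
    have := hφ x (-x)
    rw [add_neg_cancel, h0] at this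
    linear_combination -this
  refine ⟨i * φ i - φ 1, -φ 1 - i * φ i, fun x => ?_⟩
  obtain ⟨u, v, hu, hv, rfl⟩ := dec h hi x
  have e1 : φ u = (i * φ i - φ 1) * u + (-φ 1 - i * φ i) * star u := by
    rw [hu]
    rcases fixed h hu with rfl | rfl | rfl
    · rw [h0]; ring
    · linear_combination φ 1 * h3
    · rw [hneg]; linear_combination -φ 1 * h3
  have e2 : φ (v * i) = (i * φ i - φ 1) * (v * i) + (-φ 1 - i * φ i) * star (v * i) := by
    rw [star_mul', hv, hs]
    rcases fixed h hv with rfl | rfl | rfl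
    · rw [zero_mul, h0]; ring
    · rw [one_mul]; linear_combination φ i * h3 - 2 * φ i * hi
    · rw [neg_one_mul, hneg]; linear_combination -φ i * h3 + 2 * φ i * hi
  rw [hφ, e1, e2, star_add]
  ring

/-- additive maps into the fixed field -/
theorem additive_fixed (h : N9 K) {φ : K → K} (hφ : ∀ x y, φ (x + y) = φ x + φ y) (hf : ∀ x, star (φ x) = φ x) :
    ∃ α : K, ∀ x, φ x = α * x + star α * star x := by
  obtain ⟨α, β, hab⟩ := additive h hφ
  obtain ⟨i, hi⟩ := h.ex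
  have h3 := h.three
  have hs := star_I h hi
  have h1 := hf 1
  have h2 := hf i
  rw [hab, star_add, star_mul', star_mul', star_star, star_one, mul_one, mul_one] at h1
  rw [hab, star_add, star_mul', star_mul', star_star, hs] at h2
  have h4 : star α = β := by
    have h5 : i * (2 * (star α - β)) = 0 := by linear_combination i * h1 - h2
    have hi0 : i ≠ 0 := by
      rintro rfl
      rw [zero_mul, zero_eq_neg] at hi
      exact one_ne_zero hi
    have h6 := (mul_eq_zero.1 h5).resolve_left hi0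
    linear_combination -h6 + (star α - β) * h3
  exact ⟨α, fun x => by rw [hab, h4]⟩

end Cfsg.Agent.H38.P4
end

-- part: H38/P4/Act
section
/-!
# S5210, `q = 3`: the action of `Aut(Q)` on `Q/Z` (helper38)

`Fr γ r b`, `Fb γ r b` are the coordinates of the image of `(r, b)`.
-/

set_option autoImplicit false

namespace Cfsg.Agent.H38.P4

open Cfsg Cfsg.FusionSystem Cfsg.Agent.H776.P4

universe u

variable {K : Type u} [Field K] [StarRing K]

/-- the element `(r; 0, b, 0)` -/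
def mk (r b : K) : PQ K := ⟨⟨r, 0, b, 0, star_zero _, star_zero _⟩, rfl⟩

/-- the element `(0; a, 0, 0)` -/
def zz (a : K) (ha : star a = a) : PQ K := ⟨⟨0, a, 0, 0, ha, star_zero _⟩, rfl⟩

@[simp] theorem mk_r (r b : K) : ((mk r b : PQ K) : PG K).r = r := rfl
@[simp] theorem mk_b (r b : K) : ((mk r b : PQ K) : PG K).b = b := rfl
@[simp] theorem mk_a (r b : K) : ((mk r b : PQ K) : PG K).a = 0 := rfl
@[simp] theorem zz_r (a : K) (ha : star a = a) : ((zz a ha : PQ K) : PG K).r = 0 := rfl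
@[simp] theorem zz_b (a : K) (ha : star a = a) : ((zz a ha : PQ K) : PG K).b = 0 := rfl
@[simp] theorem zz_a (a : K) (ha : star a = a) : ((zz a ha : PQ K) : PG K).a = a := rfl

theorem q_c (e : PQ K) : (e : PG K).c = 0 := e.2

theorem q_mul_r (e e' : PQ K) : ((e * e' : PQ K) : PG K).r = (e : PG K).r + (e' : PG K).r := rfl

theorem q_mul_b (e e' : PQ K) : ((e * e' : PQ K) : PG K).b = (e : PG K).b + (e' : PG K).b := by
  show ((e : PG K) * (e' : PG K)).b = _
  rw [PG.mul_b, q_c e', mul_zero, add_zero]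

theorem q_mul_a (e e' : PQ K) : ((e * e' : PQ K) : PG K).a = (e : PG K).a + (e' : PG K).a +
    (e : PG K).r * star (e' : PG K).b + star (e : PG K).r * (e' : PG K).b := by
  show ((e : PG K) * (e' : PG K)).a = _
  rw [PG.mul_a, q_c e', mul_zero, add_zero]

theorem q_ext {e e' : PQ K} (hr : (e : PG K).r = (e' : PG K).r) (ha : (e : PG K).a = (e' : PG K).a)
    (hb : (e : PG K).b = (e' : PG K).b) : e = e' :=
  Subtype.ext (PG.ext hr ha hb ((q_c e).trans (q_c e').symm))

/-- the form -/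
def fm (r b r' b' : K) : K := r * star b' + star r * b' - r' * star b - star r' * b

theorem star_fm (r b r' b' : K) : star (fm r b r' b') = fm r b r' b' := by
  unfold fm
  simp only [star_sub, star_add, star_mul', star_star]
  ring

theorem comm_eq (e e' : PQ K) :
    e * e' = zz (fm (e : PG K).r (e : PG K).b (e' : PG K).r (e' : PG K).b) (star_fm _ _ _ _) * (e' * e) := by
  apply q_ext
  · rw [q_mul_r, q_mul_r, q_mul_r, zz_r]; ring
  · rw [q_mul_a, q_mul_a, q_mul_a, zz_r, zz_a, star_zero]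
    unfold fm
    ring
  · rw [q_mul_b, q_mul_b, q_mul_b, zz_b]; ring

theorem zz_inj {a a' : K} {ha : star a = a} {ha' : star a' = a'} (h : zz a ha = zz a' ha') : a = a' := by
  have := congrArg (fun e : PQ K => (e : PG K).a) h
  exact this

theorem commute_iff (e e' : PQ K) :
    e * e' = e' * e ↔ fm (e : PG K).r (e : PG K).b (e' : PG K).r (e' : PG K).b = 0 := by
  rw [comm_eq e e']
  constructor
  · intro h
    have h1 : zz (fm (e : PG K).r (e : PG K).b (e' : PG K).r (e' : PG K).b) (star_fm _ _ _ _) = zz 0 (star_zero K) := by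
      have h2 := mul_eq_right.1 h
      rw [h2]
      exact q_ext rfl rfl rfl
    exact zz_inj h1
  · intro h
    apply mul_eq_right.2
    apply q_ext
    · rfl
    · exact h
    · rfl

theorem mul_star_eq_zero {r : K} (h : r * star r = 0) : r = 0 := by
  rcases mul_eq_zero.1 h with h | h
  · exact h
  · rwa [star_eq_zero] at h

/-- the centre -/
theorem central_iff (h3 : (3 : K) = 0) (e : PQ K) :
    (∀ e', e * e' = e' * e) ↔ (e : PG K).r = 0 ∧ (e : PG K).b = 0 := by
  constructor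
  · intro h
    have h1 := (commute_iff _ _).1 (h (mk 0 (e : PG K).r))
    have h2 := (commute_iff _ _).1 (h (mk (e : PG K).b 0))
    unfold fm at h1 h2
    simp only [mk_r, mk_b, star_zero, mul_zero, zero_mul, add_zero, sub_zero, zero_add, zero_sub] at h1 h2
    constructor
    · apply mul_star_eq_zero
      linear_combination -h1 + (e : PG K).r * star (e : PG K).r * h3
    · apply mul_star_eq_zero
      linear_combination h2 + (e : PG K).b * star (e : PG K).b * h3
  · rintro ⟨h1, h2⟩ e'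
    rw [commute_iff]
    unfold fm
    rw [h1, h2, star_zero]
    ring

/-- first coordinate of the action -/
def Fr (γ : MulAut (PQ K)) (r b : K) : K := ((γ (mk r b) : PQ K) : PG K).r

/-- second coordinate of the action -/
def Fb (γ : MulAut (PQ K)) (r b : K) : K := ((γ (mk r b) : PQ K) : PG K).b

theorem central_map (h3 : (3 : K) = 0) (γ : MulAut (PQ K)) {e : PQ K} (h : (e : PG K).r = 0 ∧ (e : PG K).b = 0) :
    ((γ e : PQ K) : PG K).r = 0 ∧ ((γ e : PQ K) : PG K).b = 0 := by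
  rw [← central_iff h3] at h ⊢
  intro e'
  obtain ⟨e'', rfl⟩ := γ.surjective e'
  rw [← map_mul, h, map_mul]

theorem eq_mk_mul (e : PQ K) : e = mk (e : PG K).r (e : PG K).b * zz (e : PG K).a (e : PG K).ha := by
  apply q_ext
  · rw [q_mul_r, mk_r, zz_r, add_zero]
  · rw [q_mul_a, mk_a, zz_a, zz_b, star_zero, mul_zero, mul_zero, zero_add, add_zero, add_zero]
  · rw [q_mul_b, mk_b, zz_b, add_zero]

theorem act_r (h3 : (3 : K) = 0) (γ : MulAut (PQ K)) (e : PQ K) :
    ((γ e : PQ K) : PG K).r = Fr γ (e : PG K).r (e : PG K).b := by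
  have h := central_map h3 γ (e := zz (e : PG K).a (e : PG K).ha) ⟨rfl, rfl⟩
  conv_lhs => rw [eq_mk_mul e]
  rw [map_mul, q_mul_r, h.1, add_zero]
  rfl

theorem act_b (h3 : (3 : K) = 0) (γ : MulAut (PQ K)) (e : PQ K) :
    ((γ e : PQ K) : PG K).b = Fb γ (e : PG K).r (e : PG K).b := by
  have h := central_map h3 γ (e := zz (e : PG K).a (e : PG K).ha) ⟨rfl, rfl⟩
  conv_lhs => rw [eq_mk_mul e]
  rw [map_mul, q_mul_b, h.2, add_zero]
  rfl

theorem Fr_add (h3 : (3 : K) = 0) (γ : MulAut (PQ K)) (r b r' b' : K) :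
    Fr γ (r + r') (b + b') = Fr γ r b + Fr γ r' b' := by
  have h := act_r h3 γ (mk r b * mk r' b')
  rw [map_mul, q_mul_r, q_mul_r, q_mul_b] at h
  exact h.symm

theorem Fb_add (h3 : (3 : K) = 0) (γ : MulAut (PQ K)) (r b r' b' : K) :
    Fb γ (r + r') (b + b') = Fb γ r b + Fb γ r' b' := by
  have h := act_b h3 γ (mk r b * mk r' b')
  rw [map_mul, q_mul_b, q_mul_r, q_mul_b] at h
  exact h.symm

theorem Fr_mul (h3 : (3 : K) = 0) (γ δ : MulAut (PQ K)) (r b : K) :
    Fr (γ * δ) r b = Fr γ (Fr δ r b) (Fb δ r b) := act_r h3 γ (δ (mk r b))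

theorem Fb_mul (h3 : (3 : K) = 0) (γ δ : MulAut (PQ K)) (r b : K) :
    Fb (γ * δ) r b = Fb γ (Fr δ r b) (Fb δ r b) := act_b h3 γ (δ (mk r b))

theorem F_inv_mul (h3 : (3 : K) = 0) (γ : MulAut (PQ K)) (r b : K) :
    Fr γ⁻¹ (Fr γ r b) (Fb γ r b) = r ∧ Fb γ⁻¹ (Fr γ r b) (Fb γ r b) = b := by
  rw [← Fr_mul h3, ← Fb_mul h3, inv_mul_cancel]
  exact ⟨rfl, rfl⟩

theorem F_mul_inv (h3 : (3 : K) = 0) (γ : MulAut (PQ K)) (r b : K) :
    Fr γ (Fr γ⁻¹ r b) (Fb γ⁻¹ r b) = r ∧ Fb γ (Fr γ⁻¹ r b) (Fb γ⁻¹ r b) = b := by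
  rw [← Fr_mul h3, ← Fb_mul h3, mul_inv_cancel]
  exact ⟨rfl, rfl⟩

theorem Fr_zero (h3 : (3 : K) = 0) (γ : MulAut (PQ K)) : Fr γ 0 0 = 0 := by
  have := Fr_add h3 γ 0 0 0 0
  rw [add_zero] at this
  exact left_eq_add.1 this

theorem Fb_zero (h3 : (3 : K) = 0) (γ : MulAut (PQ K)) : Fb γ 0 0 = 0 := by
  have := Fb_add h3 γ 0 0 0 0
  rw [add_zero] at this
  exact left_eq_add.1 this

theorem Fr_neg (h3 : (3 : K) = 0) (γ : MulAut (PQ K)) (r b : K) : Fr γ (-r) (-b) = -Fr γ r b := by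
  have := Fr_add h3 γ r b (-r) (-b)
  rw [add_neg_cancel, add_neg_cancel, Fr_zero h3] at this
  linear_combination -this

theorem Fb_neg (h3 : (3 : K) = 0) (γ : MulAut (PQ K)) (r b : K) : Fb γ (-r) (-b) = -Fb γ r b := by
  have := Fb_add h3 γ r b (-r) (-b)
  rw [add_neg_cancel, add_neg_cancel, Fb_zero h3] at this
  linear_combination -this

/-- `γ` multiplies the form by `χ` -/
def Mult (γ : MulAut (PQ K)) (χ : K) : Prop :=
  ∀ r b r' b', fm (Fr γ r b) (Fb γ r b) (Fr γ r' b') (Fb γ r' b') = χ * fm r b r' b'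

theorem exists_mult (h : N9 K) (γ : MulAut (PQ K)) : ∃ χ : K, (χ = 1 ∨ χ = -1) ∧ Mult γ χ := by
  have h3 := h.three
  have hz : ∀ (a : K) (ha : star a = a), ∃ (a' : K) (ha' : star a' = a'), γ (zz a ha) = zz a' ha' := by
    intro a ha
    have h1 := central_map h3 γ (e := zz a ha) ⟨rfl, rfl⟩
    exact ⟨_, ((γ (zz a ha) : PQ K) : PG K).ha, q_ext h1.1 rfl h1.2⟩
  obtain ⟨χ, hχ, h1⟩ := hz 1 (star_one K)
  have hzero : ∀ ha : star (0 : K) = 0, (zz (0 : K) ha) = 1 := fun _ => q_ext rfl rfl rfl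
  have hχ1 : χ = 1 ∨ χ = -1 := by
    rcases fixed h hχ with h0 | h0
    · exfalso
      subst h0
      rw [hzero, map_eq_one_iff γ γ.injective] at h1
      have h2 : (1 : K) = 0 := congrArg (fun e : PQ K => (e : PG K).a) h1
      exact one_ne_zero h2
    · exact h0
  have hall : ∀ (a : K) (ha : star a = a), ((γ (zz a ha) : PQ K) : PG K).a = χ * a := by
    intro a ha
    rcases fixed h ha with h0 | h0 | h0
    · subst h0
      rw [hzero, map_one, mul_zero]
      rfl
    · subst h0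
      rw [h1, mul_one]
      rfl
    · subst h0
      have h4 : zz (-1 : K) ha = (zz 1 (star_one K))⁻¹ := by
        rw [eq_inv_iff_mul_eq_one]
        apply q_ext
        · rw [q_mul_r]; simp
        · rw [q_mul_a]; simp only [_root_.Cfsg.Agent.H38.P4.zz_a, _root_.neg_add_cancel, _root_.Cfsg.Agent.H38.P4.zz_r, _root_.Cfsg.Agent.H38.P4.zz_b, _root_.star_zero, _root_.MulZeroClass.mul_zero, _root_.add_zero, _root_.OneMemClass.coe_one, _root_.Cfsg.Agent.H776.P4.PG.one_a]
        · rw [q_mul_b]; simp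
      rw [h4, map_inv, h1]
      have h5 : (zz χ hχ)⁻¹ = zz (χ * -1) (by rw [star_mul', star_neg, star_one, hχ]) := by
        rw [inv_eq_iff_mul_eq_one]
        apply q_ext
        · rw [q_mul_r]; simp only [_root_.Cfsg.Agent.H38.P4.zz_r, _root_.mul_neg, _root_.mul_one, _root_.add_zero, _root_.OneMemClass.coe_one, _root_.Cfsg.Agent.H776.P4.PG.one_r]
        · rw [q_mul_a]; simp only [_root_.Cfsg.Agent.H38.P4.zz_a, _root_.mul_neg, _root_.mul_one, _root_.add_neg_cancel, _root_.Cfsg.Agent.H38.P4.zz_r, _root_.Cfsg.Agent.H38.P4.zz_b, _root_.star_zero, _root_.MulZeroClass.mul_zero, _root_.add_zero, _root_.OneMemClass.coe_one, _root_.Cfsg.Agent.H776.P4.PG.one_a]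
        · rw [q_mul_b]; simp only [_root_.Cfsg.Agent.H38.P4.zz_b, _root_.mul_neg, _root_.mul_one, _root_.add_zero, _root_.OneMemClass.coe_one, _root_.Cfsg.Agent.H776.P4.PG.one_b]
      rw [h5]
      rfl
  refine ⟨χ, hχ1, fun r b r' b' => ?_⟩
  have h6 := congrArg γ (comm_eq (mk r b) (mk r' b'))
  rw [map_mul, map_mul, map_mul, comm_eq (γ (mk r b)) (γ (mk r' b'))] at h6
  have h7 := mul_right_cancel h6
  have h8 := congrArg (fun e : PQ K => (e : PG K).a) h7
  have h9 : fm (Fr γ r b) (Fb γ r b) (Fr γ r' b') (Fb γ r' b') =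
      ((γ (zz (fm r b r' b') (star_fm _ _ _ _)) : PQ K) : PG K).a := h8
  rw [h9, hall]

theorem Mult.mul (h3 : (3 : K) = 0) {γ δ : MulAut (PQ K)} {χ χ' : K} (h : Mult γ χ) (h' : Mult δ χ') :
    Mult (γ * δ) (χ * χ') := by
  intro r b r' b'
  rw [Fr_mul h3, Fb_mul h3, Fr_mul h3, Fb_mul h3, h, h', mul_assoc]

theorem Mult.inv (h3 : (3 : K) = 0) {γ : MulAut (PQ K)} {χ : K} (hχ : χ = 1 ∨ χ = -1) (h : Mult γ χ) :
    Mult γ⁻¹ χ := by
  intro r b r' b'
  have h1 := h (Fr γ⁻¹ r b) (Fb γ⁻¹ r b) (Fr γ⁻¹ r' b') (Fb γ⁻¹ r' b')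
  rw [(F_mul_inv h3 γ r b).1, (F_mul_inv h3 γ r b).2, (F_mul_inv h3 γ r' b').1, (F_mul_inv h3 γ r' b').2] at h1
  have h2 : χ * χ = 1 := by rcases hχ with rfl | rfl <;> ring
  rw [h1, ← mul_assoc, h2, one_mul]

/-! ### automorphisms acting trivially on `Q/Z` -/

theorem inner_of_triv (h : N9 K) {γ : MulAut (PQ K)} (hr : ∀ r b, Fr γ r b = r) (hb : ∀ r b, Fb γ r b = b) :
    ∃ g : PQ K, ∀ e : PQ K, γ e = g * e * g⁻¹ := by
  have h3 := h.three
  have hr' : ∀ e : PQ K, ((γ e : PQ K) : PG K).r = (e : PG K).r := fun e => by rw [act_r h3, hr]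
  have hb' : ∀ e : PQ K, ((γ e : PQ K) : PG K).b = (e : PG K).b := fun e => by rw [act_b h3, hb]
  -- the difference
  set d : PQ K → K := fun e => ((γ e : PQ K) : PG K).a - (e : PG K).a with hd
  have hdm : ∀ e e', d (e * e') = d e + d e' := by
    intro e e'
    rw [hd]
    simp only
    rw [map_mul, q_mul_a, q_mul_a, hr', hb']
    ring
  have hds : ∀ e, star (d e) = d e := by
    intro e
    rw [hd]
    simp only
    rw [star_sub, ((γ e : PQ K) : PG K).ha, (e : PG K).ha]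
  have hcomm : ∀ e e' : PQ K, d (zz (fm (e : PG K).r (e : PG K).b (e' : PG K).r (e' : PG K).b) (star_fm _ _ _ _)) = 0 := by
    intro e e'
    have h1 := hdm e e'
    rw [comm_eq e e', hdm, hdm] at h1
    linear_combination h1
  have hz : ∀ (a : K) (ha : star a = a), d (zz a ha) = 0 := by
    intro a ha
    have h1 := hcomm (mk 1 0) (mk 0 (-a))
    have h2 : zz (fm ((mk (1 : K) 0 : PQ K) : PG K).r ((mk (1 : K) 0 : PQ K) : PG K).b ((mk 0 (-a) : PQ K) : PG K).r
        ((mk 0 (-a) : PQ K) : PG K).b) (star_fm _ _ _ _) = zz a ha := by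
      apply q_ext
      · rfl
      · show fm 1 0 0 (-a) = a
        unfold fm
        rw [star_neg, ha, star_one, star_zero]
        linear_combination -a * h3
      · rfl
    rwa [h2] at h1
  have hdmk : ∀ e : PQ K, d e = d (mk (e : PG K).r 0) + d (mk 0 (e : PG K).b) := by
    intro e
    have h1 : mk (e : PG K).r (e : PG K).b = mk 0 (e : PG K).b * mk (e : PG K).r 0 := by
      apply q_ext
      · rw [q_mul_r]; simp
      · rw [q_mul_a]; simp
      · rw [q_mul_b]; simp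
    conv_lhs => rw [eq_mk_mul e, hdm, hz, add_zero, h1, hdm]
    ring
  obtain ⟨α, hα⟩ := additive_fixed h (φ := fun r => d (mk r 0)) (fun x y => by
    rw [← hdm]
    congr 1
    apply q_ext
    · rw [q_mul_r]; simp
    · rw [q_mul_a]; simp only [_root_.Cfsg.Agent.H38.P4.mk_a, _root_.add_zero, _root_.Cfsg.Agent.H38.P4.mk_r, _root_.Cfsg.Agent.H38.P4.mk_b, _root_.star_zero, _root_.MulZeroClass.mul_zero]
    · rw [q_mul_b]; simp) (fun x => hds _)
  obtain ⟨β, hβ⟩ := additive_fixed h (φ := fun b => d (mk 0 b)) (fun x y => by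
    rw [← hdm]
    congr 1
    apply q_ext
    · rw [q_mul_r]; simp
    · rw [q_mul_a]; simp only [_root_.Cfsg.Agent.H38.P4.mk_a, _root_.add_zero, _root_.Cfsg.Agent.H38.P4.mk_r, _root_.Cfsg.Agent.H38.P4.mk_b, _root_.MulZeroClass.zero_mul, _root_.star_zero]
    · rw [q_mul_b]; simp) (fun x => hds _)
  refine ⟨mk (star β) (-star α), fun e => ?_⟩
  rw [eq_mul_inv_iff_mul_eq]
  apply q_ext
  · rw [q_mul_r, q_mul_r, hr']; ring
  · have h1 : ((γ e : PQ K) : PG K).a = (e : PG K).a + d e := by rw [hd]; ring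
    rw [q_mul_a, q_mul_a, hr', h1, hdmk, mk_r, mk_b, mk_a]
    have h2 : d (mk (e : PG K).r 0) = _ := hα (e : PG K).r
    have h4 : d (mk 0 (e : PG K).b) = _ := hβ (e : PG K).b
    rw [h2, h4, star_neg, star_star, star_star]
    ring
  · rw [q_mul_b, q_mul_b, hb']; ring

end Cfsg.Agent.H38.P4
end

-- part: H38/P4/Par
section
/-!
# S5210, `q = 3`: `Aut_S(Q)`, its normaliser, the elements `W_κ` (helper38)
-/

set_option autoImplicit false

namespace Cfsg.Agent.H38.P4

open Cfsg Cfsg.FusionSystem Cfsg.Agent.H776.P4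
open Cfsg.Agent.H756.PU (NormAut TIAut)

universe u

variable {K : Type u} [Field K] [StarRing K]

/-- `Aut_S(Q)` -/
abbrev AS (K : Type u) [Field K] [StarRing K] : Subgroup (MulAut (PQ K)) := autInducedBy ⊤ (PQ K)

theorem mem_AS {γ : MulAut (PQ K)} : γ ∈ AS K ↔ ∃ g : PG K, ∀ e : PQ K, ((γ e : PQ K) : PG K) = g * e * g⁻¹ := by
  rw [Cfsg.Agent.H802.mem_autInducedBy_iff]
  exact ⟨fun ⟨g, _, h⟩ => ⟨g, h⟩, fun ⟨g, h⟩ => ⟨g, Subgroup.mem_top g, h⟩⟩

theorem mem_AS_of_inner {γ : MulAut (PQ K)} {g : PQ K} (h : ∀ e : PQ K, γ e = g * e * g⁻¹) : γ ∈ AS K :=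
  mem_AS.2 ⟨g, fun e => by rw [h]; rfl⟩

/-- the element of `S` -/
def gc (c : K) (hc : star c = c) : PG K := ⟨0, 0, 0, c, star_zero _, hc⟩

theorem conj_r (g : PG K) (e : PQ K) : (g * e * g⁻¹).r = (e : PG K).r := by
  simp only [PG.mul_r, PG.inv_r]; ring

theorem conj_b (g : PG K) (e : PQ K) : (g * e * g⁻¹).b = (e : PG K).b - (e : PG K).r * g.c := by
  simp only [PG.mul_b, PG.mul_r, PG.inv_b, PG.inv_c, q_c e]; ring

theorem PQ_normal (g : PG K) : g ∈ Subgroup.normalizer (PQ K : Set (PG K)) := by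
  rw [Subgroup.mem_normalizer_iff]
  intro x
  show x.c = 0 ↔ (g * x * g⁻¹).c = 0
  simp only [PG.mul_c, PG.inv_c]
  constructor
  · intro h; rw [h]; ring
  · intro h; linear_combination h

theorem exists_conj (g : PG K) : ∃ γ : MulAut (PQ K), ∀ e : PQ K, ((γ e : PQ K) : PG K) = g * e * g⁻¹ :=
  Cfsg.Agent.H802.exists_conjAut (PQ_normal g)

theorem F_conj {γ : MulAut (PQ K)} {g : PG K} (h : ∀ e : PQ K, ((γ e : PQ K) : PG K) = g * e * g⁻¹) (r b : K) :
    Fr γ r b = r ∧ Fb γ r b = b - r * g.c := by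
  unfold Fr Fb
  rw [h]
  exact ⟨conj_r g (mk r b), conj_b g (mk r b)⟩

/-- automorphisms with the same action on `Q/Z` -/
theorem mem_of_same (h : N9 K) {H : Subgroup (MulAut (PQ K))} (hH : AS K ≤ H) {γ δ : MulAut (PQ K)} (hδ : δ ∈ H)
    (hr : ∀ r b, Fr γ r b = Fr δ r b) (hb : ∀ r b, Fb γ r b = Fb δ r b) : γ ∈ H := by
  have h3 := h.three
  have h1 : γ * δ⁻¹ ∈ AS K := by
    obtain ⟨g, hg⟩ := inner_of_triv h (γ := γ * δ⁻¹) (fun r b => by
      rw [Fr_mul h3, hr]; exact (F_mul_inv h3 δ r b).1) (fun r b => by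
      rw [Fb_mul h3, hb]; exact (F_mul_inv h3 δ r b).2)
    exact mem_AS_of_inner hg
  have h2 := H.mul_mem (hH h1) hδ
  rwa [inv_mul_cancel_right] at h2

/-- the element `x` of the root group: `b ↦ b - r c` -/
theorem exists_x (c : K) (hc : star c = c) : ∃ x ∈ AS K, ∀ r b, Fr x r b = r ∧ Fb x r b = b - r * c := by
  obtain ⟨γ, hγ⟩ := exists_conj (gc c hc)
  exact ⟨γ, mem_AS.2 ⟨_, hγ⟩, fun r b => F_conj hγ r b⟩

section sylow

variable {Γ : Subgroup (MulAut (PQ K))}

theorem PG_card_pow (h3 : (3 : K) = 0) (g : PG K) : g ^ 9 = 1 := by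
  have h1 : (g ^ 3).r = 0 ∧ (g ^ 3).c = 0 := by
    rw [pow_succ, pow_two]
    simp only [PG.mul_r, PG.mul_c]
    exact ⟨by linear_combination g.r * h3, by linear_combination g.c * h3⟩
  have h2 : (g ^ 3).b = 0 := by
    rw [pow_succ, pow_two]
    simp only [PG.mul_b, PG.mul_r]
    linear_combination (g.b + g.r * g.c) * h3
  have h4 : ∀ z : PG K, z.r = 0 → z.c = 0 → z.b = 0 → z ^ 3 = 1 := by
    intro z hr hc hb
    rw [pow_succ, pow_two]
    apply PG.ext
    · simp [hr]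
    · simp only [PG.mul_a, PG.mul_b, PG.mul_r, PG.mul_c, hr, hc, hb, star_zero, PG.one_a]
      linear_combination z.a * h3
    · simp only [PG.mul_b, PG.mul_r, hr, hb, hc, PG.one_b]; ring
    · simp [hc]
  have h5 : g ^ 9 = (g ^ 3) ^ 3 := by rw [← pow_mul]
  rw [h5]
  exact h4 _ h1.1 h1.2 h2

/-- the group of all elements of `Γ` trivial on `C` and on `V/C` -/
def UU (h3 : (3 : K) = 0) (Γ : Subgroup (MulAut (PQ K))) : Subgroup (MulAut (PQ K)) where
  carrier := {γ | γ ∈ Γ ∧ (∀ r b, Fr γ r b = r) ∧ ∀ b, Fb γ 0 b = b}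
  one_mem' := ⟨Γ.one_mem, fun _ _ => rfl, fun _ => rfl⟩
  mul_mem' := by
    rintro γ δ ⟨h1, h2, h4⟩ ⟨k1, k2, k4⟩
    exact ⟨Γ.mul_mem h1 k1, fun r b => by rw [Fr_mul h3, h2, k2], fun b => by rw [Fb_mul h3, k2, k4, h4]⟩
  inv_mem' := by
    rintro γ ⟨h1, h2, h4⟩
    refine ⟨Γ.inv_mem h1, fun r b => ?_, fun b => ?_⟩
    · have h5 := (F_mul_inv h3 γ r b).1
      rwa [h2] at h5
    · have h5 := F_inv_mul h3 γ 0 b
      rw [h2, h4] at h5
      exact h5.2

theorem UU_Fb (h3 : (3 : K) = 0) {γ : MulAut (PQ K)} (hγ : γ ∈ UU h3 Γ) (r b : K) : Fb γ r b = b + Fb γ r 0 := by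
  have h1 := Fb_add h3 γ 0 b r 0
  rw [zero_add, add_zero, hγ.2.2] at h1
  exact h1

theorem UU_isPGroup (h : N9 K) : IsPGroup 3 (UU h.three Γ) := by
  have h3 := h.three
  rintro ⟨γ, hγ⟩
  have hcube : ∀ r b, Fr (γ ^ 3) r b = r ∧ Fb (γ ^ 3) r b = b := by
    intro r b
    rw [pow_succ, pow_two]
    refine ⟨?_, ?_⟩
    · rw [Fr_mul h3, Fr_mul h3, hγ.2.1, hγ.2.1, hγ.2.1]
    · rw [Fb_mul h3, Fb_mul h3, hγ.2.1, hγ.2.1, UU_Fb h3 hγ r, UU_Fb h3 hγ r (Fb γ r b), UU_Fb h3 hγ r b]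
      linear_combination Fb γ r 0 * h3
  obtain ⟨g, hg⟩ := inner_of_triv h (fun r b => (hcube r b).1) (fun r b => (hcube r b).2)
  have h9 : (γ ^ 3) ^ 9 = 1 := by
    have h4 : γ ^ 3 = MulAut.conj g := by
      ext1 e
      rw [hg, MulAut.conj_apply]
    rw [h4, ← map_pow]
    have h5 : g ^ 9 = 1 := Subtype.ext (PG_card_pow h3 (g : PG K))
    rw [h5, map_one]
  refine ⟨3, Subtype.ext ?_⟩
  show γ ^ 27 = 1
  rw [← h9, ← pow_mul]

theorem AS_le_UU (h3 : (3 : K) = 0) (hΓ : AS K ≤ Γ) : AS K ≤ UU h3 Γ := by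
  intro γ hγ
  obtain ⟨g, hg⟩ := mem_AS.1 hγ
  refine ⟨hΓ hγ, fun r b => (F_conj hg r b).1, fun b => ?_⟩
  rw [(F_conj hg 0 b).2]
  ring

theorem fin_PG (h : N9 K) : Finite (PG K) := by
  have := h.fin
  refine Finite.of_injective (fun g : PG K => (g.r, g.a, g.b, g.c)) ?_
  intro g g' hg
  simp only [Prod.mk.injEq] at hg
  exact PG.ext hg.1 hg.2.1 hg.2.2.1 hg.2.2.2

/-- a 3-subgroup of `Γ` containing `Aut_S(Q)` is `Aut_S(Q)` -/
theorem eq_AS (h : N9 K)
    (hsyl : ∀ P : Subgroup (MulAut (PQ K)), P ≤ Γ → IsPGroup 3 P → ∃ g ∈ Γ, ∀ x ∈ P, g * x * g⁻¹ ∈ AS K)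
    {P : Subgroup (MulAut (PQ K))} (hP : P ≤ Γ) (hP3 : IsPGroup 3 P) (hle : AS K ≤ P) : P = AS K := by
  have := fin_PG h
  have hfin : Finite (MulAut (PQ K)) := inferInstance
  obtain ⟨g, -, hg⟩ := hsyl P hP hP3
  have h1 : P.map (MulAut.conj g).toMonoidHom ≤ AS K := by
    rintro _ ⟨x, hx, rfl⟩
    exact hg x hx
  have h2 : Nat.card P ≤ Nat.card (AS K) := by
    have h4 : Nat.card (P.map (MulAut.conj g).toMonoidHom) = Nat.card P :=
      Subgroup.card_map_of_injective (MulAut.conj g).injective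
    rw [← h4]
    exact Subgroup.card_le_of_le h1
  exact (Subgroup.eq_of_le_of_card_ge hle h2).symm

/-- an element of `Γ` stabilising `C` normalises `Aut_S(Q)` -/
theorem normAut_of (h : N9 K) (hΓ : AS K ≤ Γ)
    (hsyl : ∀ P : Subgroup (MulAut (PQ K)), P ≤ Γ → IsPGroup 3 P → ∃ g ∈ Γ, ∀ x ∈ P, g * x * g⁻¹ ∈ AS K)
    {γ : MulAut (PQ K)} (hγ : γ ∈ Γ) (hC : ∀ b, Fr γ 0 b = 0) : NormAut (⊤ : Subgroup (PG K)) γ := by
  have h3 := h.three
  have hU : UU h3 Γ = AS K := eq_AS h hsyl (fun x hx => hx.1) (UU_isPGroup h) (AS_le_UU h3 hΓ)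
  intro x hx
  show γ * x * γ⁻¹ ∈ AS K
  rw [← hU]
  have hx' := hx
  obtain ⟨g, hg⟩ := mem_AS.1 hx
  -- the inverse stabilises C
  have hinj : Function.Injective fun b : K => Fb γ 0 b := by
    intro b b' hb
    have h1 : Fb γ 0 b = Fb γ 0 b' := hb
    have h2 := (F_inv_mul h3 γ 0 b).2
    have h4 := (F_inv_mul h3 γ 0 b').2
    rw [hC, h1] at h2
    rw [hC] at h4
    rw [← h2, h4]
  have := h.fin
  have hsurj := Finite.surjective_of_injective hinj
  have hCi : ∀ b, Fr γ⁻¹ 0 b = 0 := by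
    intro b
    obtain ⟨b', hb'⟩ := hsurj b
    have h1 := (F_inv_mul h3 γ 0 b').1
    rw [hC] at h1
    have h2 : Fb γ 0 b' = b := hb'
    rwa [h2] at h1
  have hkey : ∀ r b, Fr γ (Fr γ⁻¹ r b) (Fb γ⁻¹ r b - Fr γ⁻¹ r b * g.c) = r := by
    intro r b
    have h1 := Fr_add h3 γ (Fr γ⁻¹ r b) (Fb γ⁻¹ r b) 0 (-(Fr γ⁻¹ r b * g.c))
    rw [add_zero, hC, add_zero, (F_mul_inv h3 γ r b).1, ← sub_eq_add_neg] at h1
    exact h1
  refine ⟨Γ.mul_mem (Γ.mul_mem hγ (hΓ hx')) (Γ.inv_mem hγ), fun r b => ?_, fun b => ?_⟩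
  · rw [Fr_mul h3, Fr_mul h3, (F_conj hg _ _).1, (F_conj hg _ _).2]
    exact hkey r b
  · rw [Fb_mul h3, Fb_mul h3, (F_conj hg _ _).1, (F_conj hg _ _).2, hCi, zero_mul, sub_zero]
    have h1 := F_mul_inv h3 γ 0 b
    rw [hCi] at h1
    exact h1.2

end sylow

end Cfsg.Agent.H38.P4
end

-- part: H38/P4/Wk
section
/-!
# S5210, `q = 3`: the elements `W_κ` (helper38)
-/

set_option autoImplicit false

namespace Cfsg.Agent.H38.P4

open Cfsg Cfsg.FusionSystem Cfsg.Agent.H776.P4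
open Cfsg.Agent.H756.PU (NormAut TIAut)

universe u

variable {K : Type u} [Field K] [StarRing K]

/-- restriction to `Q` -/
theorem exists_res {α : MulAut (PG K)} (hα : ∀ g : PG K, (α g).c = 0 ↔ g.c = 0) : ∃ γ : MulAut (PQ K), IsRP α γ := by
  have h1 : (PQ K).map α.toMonoidHom = PQ K := by
    ext g
    constructor
    · rintro ⟨e, he, rfl⟩
      exact (hα e).2 he
    · intro hg
      refine ⟨α.symm g, ?_, α.apply_symm_apply g⟩
      have h2 : (α (α.symm g)).c = 0 := by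
        rw [α.apply_symm_apply]
        exact hg
      exact (hα _).1 h2
  exact ⟨(α.subgroupMap (PQ K)).trans (MulEquiv.subgroupCongr h1), fun e => rfl⟩

theorem tor_res {α : MulAut (PG K)} {s l : K} {τ : K ≃+* K} (h : IsTorP α s l τ) : ∃ γ : MulAut (PQ K), IsRP α γ :=
  exists_res fun g => by
    rw [h.c]
    constructor
    · intro h1
      rcases mul_eq_zero.1 h1 with h2 | h2
      · exact absurd h2 h.nl
      · exact (map_eq_zero_iff τ τ.injective).1 h2
    · intro h1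
      rw [h1, map_zero, mul_zero]

theorem tor_F {α : MulAut (PG K)} {s l : K} {τ : K ≃+* K} (h : IsTorP α s l τ) {γ : MulAut (PQ K)} (hγ : IsRP α γ)
    (r b : K) : Fr γ r b = s * τ r ∧ Fb γ r b = s * l * τ b := by
  unfold Fr Fb
  rw [hγ, h.r, h.b]
  exact ⟨rfl, rfl⟩

theorem ep_res {κ : K} {ε : MulAut (PG K)} (h : IsEp κ ε) : ∃ t : MulAut (PQ K), IsRP ε t :=
  exists_res fun g => by rw [h.c]

theorem ep_F {κ : K} {ε : MulAut (PG K)} (h : IsEp κ ε) {t : MulAut (PQ K)} (ht : IsRP ε t) (r b : K) :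
    Fr t r b = r ∧ Fb t r b = b + κ * star r := by
  unfold Fr Fb
  rw [ht, h.r, h.b]
  exact ⟨rfl, rfl⟩

theorem wq_F {n : MulAut (PQ K)} (h : IsWQ n) (r b : K) : Fr n r b = b ∧ Fb n r b = -r := by
  unfold Fr Fb
  rw [h.r, h.b]
  exact ⟨rfl, rfl⟩

theorem wk_F (h3 : (3 : K) = 0) {κ : K} {γ : MulAut (PQ K)} (h : IsWk κ γ) (r b : K) :
    Fr γ r b = b - κ * star r ∧ Fb γ r b = -r + κ * star (b - κ * star r) := by
  obtain ⟨ε, n, t, h1, h2, h4, rfl⟩ := h
  have h5 : Fr t⁻¹ r b = r ∧ Fb t⁻¹ r b = b - κ * star r := by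
    have h6 := F_mul_inv h3 t r b
    rw [(ep_F h1 h4 _ _).1, (ep_F h1 h4 _ _).2] at h6
    refine ⟨h6.1, ?_⟩
    have h7 := h6.2
    rw [h6.1] at h7
    exact eq_sub_of_add_eq h7
  rw [Fr_mul h3, Fr_mul h3, Fb_mul h3, Fb_mul h3, (ep_F h1 h4 _ _).1, (ep_F h1 h4 _ _).2, (wq_F h2 _ _).1,
    (wq_F h2 _ _).2, h5.1, h5.2]
  exact ⟨rfl, rfl⟩

/-- inverse of an element with square `-1` -/
theorem inv_of_sq (h3 : (3 : K) = 0) {J : MulAut (PQ K)}
    (hJJ : ∀ r b, Fr J (Fr J r b) (Fb J r b) = -r ∧ Fb J (Fr J r b) (Fb J r b) = -b) (r b : K) :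
    Fr J⁻¹ r b = -Fr J r b ∧ Fb J⁻¹ r b = -Fb J r b := by
  have h1 := F_inv_mul h3 J (-Fr J r b) (-Fb J r b)
  rw [Fr_neg h3, Fb_neg h3, (hJJ r b).1, (hJJ r b).2, neg_neg, neg_neg] at h1
  exact h1

theorem wk_sq (h3 : (3 : K) = 0) {κ : K} {γ : MulAut (PQ K)} (h : IsWk κ γ) (r b : K) :
    Fr γ (Fr γ r b) (Fb γ r b) = -r ∧ Fb γ (Fr γ r b) (Fb γ r b) = -b := by
  have h1 : Fr γ (Fr γ r b) (Fb γ r b) = -r := by
    rw [(wk_F h3 h _ _).1, (wk_F h3 h r b).1, (wk_F h3 h r b).2]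
    ring
  refine ⟨h1, ?_⟩
  rw [(wk_F h3 h (Fr γ r b) _).2, ← (wk_F h3 h (Fr γ r b) (Fb γ r b)).1, h1, (wk_F h3 h r b).1, star_neg]
  ring

/-- the elements with square `-1` and multiplier `-1` -/
theorem main_J (h : N9 K) {Γ : Subgroup (MulAut (PQ K))} (hWk : ∀ κ : K, ∃ γ : MulAut (PQ K), IsWk κ γ)
    (hΓ : AS K ≤ Γ)
    (hsyl : ∀ P : Subgroup (MulAut (PQ K)), P ≤ Γ → IsPGroup 3 P → ∃ g ∈ Γ, ∀ x ∈ P, g * x * g⁻¹ ∈ AS K)
    {J : MulAut (PQ K)} (hJ : J ∈ Γ) (hM : Mult J (-1))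
    (hJJ : ∀ r b, Fr J (Fr J r b) (Fb J r b) = -r ∧ Fb J (Fr J r b) (Fb J r b) = -b) :
    ∃ l ∈ LamP (Pt Γ), ∃ ν ∈ Γ, NormAut (⊤ : Subgroup (PG K)) ν ∧ J = l * ν := by
  have h3 := h.three
  obtain ⟨i, hi⟩ := h.ex
  have hs := star_I h hi
  obtain ⟨α, β, hφ'⟩ := additive h (φ := fun b => Fr J 0 b) (fun x y => by
    have := Fr_add h3 J 0 x 0 y
    rwa [add_zero] at this)
  have hφ : ∀ b, Fr J 0 b = α * b + β * star b := hφ'
  have hsym : ∀ b b', Fr J 0 b * star b' + star (Fr J 0 b) * b' +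
      (Fr J 0 b' * star b + star (Fr J 0 b') * b) = 0 := by
    intro b b'
    have h1 := hM 0 b (Fr J 0 b') (Fb J 0 b')
    rw [(hJJ 0 b').1, (hJJ 0 b').2] at h1
    unfold fm at h1
    rw [star_neg, neg_zero, star_zero] at h1
    linear_combination -h1
  have e1 := hsym 1 1
  have e2 := hsym i i
  have e3 := hsym 1 i
  rw [hφ, star_add, star_mul', star_mul', star_star, star_one] at e1
  rw [hφ, star_add, star_mul', star_mul', star_star, hs] at e2
  rw [hφ, hφ, star_add, star_mul', star_mul', star_star, star_add, star_mul', star_mul', star_star, hs, star_one] at e3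
  have hα : α + star α = 0 := by
    linear_combination e1 + e2 - (α + star α) * h3 + 2 * ((α + star α) - (β + star β)) * hi
  have hβ : β + star β = 0 := by
    linear_combination e1 - e2 - (β + star β) * h3 + 2 * ((β + star β) - (α + star α)) * hi
  have hβ0 : β = 0 := by
    linear_combination i * e3 + 2 * (β - star β) * hi + 2 * hβ - β * h3
  subst hβ0
  have hφ2 : ∀ b, Fr J 0 b = α * b := fun b => by rw [hφ, zero_mul, add_zero]
  have hcase : α = 0 ∨ α * α = -1 := by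
    obtain ⟨u, v, hu, hv, hα'⟩ := dec h hi α
    rw [hα', star_add, star_mul', hu, hv, hs] at hα
    have hu0 : u = 0 := by linear_combination -hα + u * h3
    rw [hu0, zero_add] at hα'
    rcases fixed h hv with hv0 | hv0 | hv0
    · left
      rw [hα', hv0, zero_mul]
    · right
      rw [hα', hv0]
      linear_combination hi
    · right
      rw [hα', hv0]
      linear_combination hi
  rcases hcase with hα0 | hαα
  · refine ⟨1, one_mem _, J, hJ, normAut_of h hΓ hsyl hJ (fun b => ?_), (one_mul J).symm⟩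
    rw [hφ2, hα0, zero_mul]
  -- the transversal case
  have hsα : star α = -α := by linear_combination hα
  obtain ⟨c0, κ, hω'⟩ := additive h (φ := fun r => Fb J 0 (-(α * r))) (fun x y => by
    have := Fb_add h3 J 0 (-(α * x)) 0 (-(α * y))
    rw [add_zero] at this
    show Fb J 0 (-(α * (x + y))) = _
    rw [← this]
    congr 1
    ring)
  have hω : ∀ r, Fb J 0 (-(α * r)) = c0 * r + κ * star r := hω'
  have hψ : ∀ b, Fb J 0 b = c0 * (α * b) + κ * star (α * b) := by
    intro b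
    rw [← hω]
    congr 1
    linear_combination b * hαα
  have hc0 : star c0 = c0 := by
    have h1 := hM 0 (-(α * i)) 0 (-(α * 1))
    rw [hω, hω, hφ2, hφ2] at h1
    have h2 : α * -(α * i) = i := by linear_combination -i * hαα
    have h4 : α * -(α * 1) = 1 := by linear_combination -hαα
    rw [h2, h4] at h1
    unfold fm at h1
    rw [star_add, star_add, star_mul', star_mul', star_mul', star_mul', star_star, star_star, star_one, star_zero,
      hs] at h1
    linear_combination i * h1 - 2 * (star c0 - c0) * hi + (star c0 - c0) * h3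
  -- the action of `J`
  have hJr : ∀ r b, Fr J r b = α * (b - (c0 * r + κ * star r)) := by
    intro r b
    have h1 := (hJJ 0 (-(α * r))).1
    rw [hφ2, hω] at h1
    have h2 : α * -(α * r) = r := by linear_combination -r * hαα
    rw [h2] at h1
    have h4 := Fr_add h3 J r (c0 * r + κ * star r) 0 (b - (c0 * r + κ * star r))
    rw [add_zero, add_sub_cancel, h1, hφ2] at h4
    rw [h4]
    ring
  have hJi := inv_of_sq h3 hJJ
  obtain ⟨x, hx, hxF⟩ := exists_x (K := K) (-1) (by rw [star_neg, star_one])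
  obtain ⟨x', hx', hxF'⟩ := exists_x (K := K) 1 (star_one K)
  obtain ⟨X, hX, hXF⟩ := exists_x c0 hc0
  obtain ⟨X', hX', hXF'⟩ := exists_x (-c0) (by rw [star_neg, hc0])
  have hy : ∀ r b, Fr (J * x * J⁻¹) r b = r + (b - (c0 * r + κ * star r)) ∧
      Fb (J * x * J⁻¹) r b = b + (c0 * (b - (c0 * r + κ * star r)) + κ * star (b - (c0 * r + κ * star r))) := by
    intro r b
    have h1 := F_mul_inv h3 J r b
    have h2 : α * Fr J⁻¹ r b = b - (c0 * r + κ * star r) := by
      rw [(hJi r b).1, hJr]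
      linear_combination -(b - (c0 * r + κ * star r)) * hαα
    rw [Fr_mul h3, Fr_mul h3, Fb_mul h3, Fb_mul h3, (hxF _ _).1, (hxF _ _).2]
    have h4 : Fb J⁻¹ r b - Fr J⁻¹ r b * -1 = Fb J⁻¹ r b + Fr J⁻¹ r b := by ring
    rw [h4]
    have h5 := Fr_add h3 J (Fr J⁻¹ r b) (Fb J⁻¹ r b) 0 (Fr J⁻¹ r b)
    have h6 := Fb_add h3 J (Fr J⁻¹ r b) (Fb J⁻¹ r b) 0 (Fr J⁻¹ r b)
    rw [add_zero, h1.1, hφ2, h2] at h5
    rw [add_zero, h1.2, hψ, h2] at h6
    exact ⟨h5, h6⟩
  have hyΓ : J * x * J⁻¹ ∈ Γ := Γ.mul_mem (Γ.mul_mem hJ (hΓ hx)) (Γ.inv_mem hJ)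
  generalize J * x * J⁻¹ = y at hy hyΓ
  obtain ⟨W, hW⟩ := hWk κ
  have hWF := wk_F h3 hW
  have hwΓ : X * (y * x' * y) * X' ∈ Γ :=
    Γ.mul_mem (Γ.mul_mem (hΓ hX) (Γ.mul_mem (Γ.mul_mem hyΓ (hΓ hx')) hyΓ)) (hΓ hX')
  have hWΓ : W ∈ Γ := by
    refine mem_of_same h hΓ hwΓ (fun r b => ?_) (fun r b => ?_)
    · simp only [Fr_mul h3, Fb_mul h3, hXF, hXF', hxF', hy, hWF]
      simp only [star_add, star_sub, star_mul', star_star, star_neg, star_one, hc0]
      ring
    · simp only [Fr_mul h3, Fb_mul h3, hXF, hXF', hxF', hy, hWF]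
      simp only [star_add, star_sub, star_mul', star_star, star_neg, star_one, hc0]
      ring
  have hκ : κ ∈ Pt Γ := ⟨W, hWΓ, hW⟩
  have hνΓ : W⁻¹ * (X * J) ∈ Γ := Γ.mul_mem (Γ.inv_mem hWΓ) (Γ.mul_mem (hΓ hX) hJ)
  refine ⟨X⁻¹ * W, mul_mem (_root_.InvMemClass.inv_mem ((le_sup_left : AS K ≤ _) hX))
    ((le_sup_right : Subgroup.closure _ ≤ _) (Subgroup.subset_closure ⟨κ, hκ, hW⟩)), W⁻¹ * (X * J), hνΓ,
    normAut_of h hΓ hsyl hνΓ (fun b => ?_), by group⟩
  have h1 := (F_inv_mul h3 W 0 (α * b)).1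
  rw [(hWF _ _).1, (hWF _ _).2, star_zero, mul_zero, sub_zero, neg_zero, zero_add] at h1
  rw [Fr_mul h3, Fr_mul h3, Fb_mul h3, (hXF _ _).1, (hXF _ _).2, hφ2, hψ]
  have h2 : c0 * (α * b) + κ * star (α * b) - α * b * c0 = κ * star (α * b) := by ring
  rw [h2]
  exact h1

/-- conjugation of `W_κ` by a torus element -/
theorem mem_conj_iff (h : N9 K) {H : Subgroup (MulAut (PQ K))} (hH : AS K ≤ H) {d : MulAut (PG K)} {s l : K}
    {τ : K ≃+* K} (hd : IsTorP d s l τ) {δ : MulAut (PQ K)} (hδ : IsRP d δ) {κ : K} {W W' : MulAut (PQ K)}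
    (hW : IsWk κ W) (hW' : IsWk (actK s l τ κ) W') : δ * W * δ⁻¹ ∈ H ↔ W' ∈ H := by
  have h3 := h.three
  have hl : l = 1 ∨ l = -1 := (fixed h hd.sl).resolve_left hd.nl
  have hll : l * l = 1 := by rcases hl with h1 | h1 <;> rw [h1] <;> ring
  have hss : star s ≠ 0 := by
    intro h1
    rw [star_eq_zero] at h1
    exact hd.ns h1
  have key : ∀ r b, Fr δ (Fr W r b) (Fb W r b) = l * Fr W' (Fr δ r b) (Fb δ r b) ∧
      Fb δ (Fr W r b) (Fb W r b) = l * Fb W' (Fr δ r b) (Fb δ r b) := by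
    intro r b
    have h5 : ∀ z, star (s * τ z) = star s * τ (star z) := fun z => by rw [star_mul', hd.tst]
    have h6 : ∀ z : K, l * s * (star s)⁻¹ * τ κ * (star s * z) = l * s * τ κ * z := by
      intro z
      field_simp
    have h7 := wk_F h3 hW r b
    have h8 := wk_F h3 hW' (Fr δ r b) (Fb δ r b)
    have h9 : Fr δ (Fr W r b) (Fb W r b) = l * Fr W' (Fr δ r b) (Fb δ r b) := by
      rw [(tor_F hd hδ _ _).1, h7.1, h8.1, (tor_F hd hδ r b).1, (tor_F hd hδ r b).2]
      unfold actK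
      rw [h5, h6, map_sub, map_mul]
      linear_combination (-s * τ b + s * (τ κ * τ (star r))) * hll
    refine ⟨h9, ?_⟩
    have h10 : Fb W' (Fr δ r b) (Fb δ r b) = -(s * τ r) + actK s l τ κ * star (Fr W' (Fr δ r b) (Fb δ r b)) := by
      rw [h8.2, h8.1, (tor_F hd hδ r b).1]
    have h11 : Fr W' (Fr δ r b) (Fb δ r b) = l * (s * τ (Fr W r b)) := by
      rw [(tor_F hd hδ (Fr W r b) (Fb W r b)).1] at h9
      linear_combination l * (-h9) - Fr W' (Fr δ r b) (Fb δ r b) * hll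
    rw [h10, h11, star_mul', hd.sl, h5, (tor_F hd hδ _ _).2]
    have h12 : Fb W r b = -r + κ * star (Fr W r b) := by rw [h7.2, h7.1]
    rw [h12, map_add, map_neg, map_mul]
    unfold actK
    have h13 : l * s * (star s)⁻¹ * τ κ * (l * (star s * τ (star (Fr W r b)))) = s * τ κ * τ (star (Fr W r b)) := by
      have h14 := h6 (l * τ (star (Fr W r b)))
      linear_combination h14 + s * τ κ * τ (star (Fr W r b)) * hll
    rw [h13]
    ring
  have key2 : ∀ r b, Fr (δ * W * δ⁻¹) r b = l * Fr W' r b ∧ Fb (δ * W * δ⁻¹) r b = l * Fb W' r b := by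
    intro r b
    have h1 := key (Fr δ⁻¹ r b) (Fb δ⁻¹ r b)
    rw [(F_mul_inv h3 δ r b).1, (F_mul_inv h3 δ r b).2] at h1
    rw [Fr_mul h3, Fr_mul h3, Fb_mul h3, Fb_mul h3]
    exact h1
  rcases hl with rfl | rfl
  · have h1 : ∀ r b, Fr (δ * W * δ⁻¹) r b = Fr W' r b := fun r b => by rw [(key2 r b).1, one_mul]
    have h2 : ∀ r b, Fb (δ * W * δ⁻¹) r b = Fb W' r b := fun r b => by rw [(key2 r b).2, one_mul]
    exact ⟨fun h4 => mem_of_same h hH h4 (fun r b => (h1 r b).symm) (fun r b => (h2 r b).symm),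
      fun h4 => mem_of_same h hH h4 h1 h2⟩
  · have hi := inv_of_sq h3 (wk_sq h3 hW')
    have h1 : ∀ r b, Fr (δ * W * δ⁻¹) r b = Fr W'⁻¹ r b := fun r b => by rw [(key2 r b).1, (hi r b).1, neg_one_mul]
    have h2 : ∀ r b, Fb (δ * W * δ⁻¹) r b = Fb W'⁻¹ r b := fun r b => by rw [(key2 r b).2, (hi r b).2, neg_one_mul]
    exact ⟨fun h4 => inv_mem_iff.1 (mem_of_same h hH h4 (fun r b => (h1 r b).symm) (fun r b => (h2 r b).symm)),
      fun h4 => mem_of_same h hH (H.inv_mem h4) h1 h2⟩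

end Cfsg.Agent.H38.P4
end

-- part: H38/P4/Main
section
/-!
# S5210, `q = 3`: (3A) (helper38)
-/

set_option autoImplicit false

namespace Cfsg.Agent.H38.P4

open Cfsg Cfsg.FusionSystem Cfsg.Agent.H776.P4
open Cfsg.Agent.H756.PU (NormAut TIAut)

universe u

variable {K : Type u} [Field K] [StarRing K]

/-- the automorphisms trivial on `Q/Z` -/
def TT (h3 : (3 : K) = 0) : Subgroup (MulAut (PQ K)) where
  carrier := {γ | (∀ r b, Fr γ r b = r) ∧ ∀ r b, Fb γ r b = b}
  one_mem' := ⟨fun _ _ => rfl, fun _ _ => rfl⟩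
  mul_mem' := by
    rintro γ δ ⟨h2, h4⟩ ⟨k2, k4⟩
    exact ⟨fun r b => by rw [Fr_mul h3, h2, k2], fun r b => by rw [Fb_mul h3, h4, k4]⟩
  inv_mem' := by
    rintro γ ⟨h2, h4⟩
    refine ⟨fun r b => ?_, fun r b => ?_⟩
    · have h5 := (F_mul_inv h3 γ r b).1
      rwa [h2] at h5
    · have h5 := (F_mul_inv h3 γ r b).2
      rwa [h4] at h5

theorem TT_normal (h3 : (3 : K) = 0) : (TT h3 : Subgroup (MulAut (PQ K))).Normal := ⟨by
  rintro γ ⟨h2, h4⟩ g
  refine ⟨fun r b => ?_, fun r b => ?_⟩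
  · rw [Fr_mul h3, Fr_mul h3, h2, h4]
    exact (F_mul_inv h3 g r b).1
  · rw [Fb_mul h3, Fb_mul h3, h2, h4]
    exact (F_mul_inv h3 g r b).2⟩

theorem TT_le (h : N9 K) : TT h.three ≤ AS K := by
  rintro γ ⟨h2, h4⟩
  obtain ⟨g, hg⟩ := inner_of_triv h h2 h4
  exact mem_AS_of_inner hg

/-- closure under the group operations in a finite group -/
theorem inv_mem_of_finite {G : Type*} [Group G] [Finite G] (M : Submonoid G) {x : G} (hx : x ∈ M) : x⁻¹ ∈ M := by
  have h1 : x⁻¹ = x ^ (Nat.card G - 1) := by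
    rw [inv_eq_iff_mul_eq_one, ← pow_succ', Nat.sub_add_cancel Nat.card_pos, pow_card_eq_one']
  rw [h1]
  exact M.pow_mem hx _

section main

variable {Γ : Subgroup (MulAut (PQ K))} {D : Subgroup (MulAut (PG K))}

theorem normAut_mul {γ δ : MulAut (PQ K)} (h1 : NormAut (⊤ : Subgroup (PG K)) γ)
    (h2 : NormAut (⊤ : Subgroup (PG K)) δ) : NormAut (⊤ : Subgroup (PG K)) (γ * δ) := by
  intro x hx
  have := h1 _ (h2 x hx)
  have e : γ * δ * x * (γ * δ)⁻¹ = γ * (δ * x * δ⁻¹) * γ⁻¹ := by group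
  rw [e]
  exact this

/-- the structure needed -/
structure Dat (K : Type u) [Field K] [StarRing K] (Γ : Subgroup (MulAut (PQ K))) (D : Subgroup (MulAut (PG K))) :
    Prop where
  nine : N9 K
  wk : ∀ κ : K, ∃ γ : MulAut (PQ K), IsWk κ γ
  tp : ∀ α ∈ TP K, ∃ s l τ, IsTorP α s l τ
  par : ParP 3 (PQ K) Γ D
  ex1 : ∃ d ∈ D, ∃ i : K, i * i = -1 ∧ IsTorP d i (-1) (RingEquiv.refl K)

theorem Dat.inv (H : Dat K Γ D) : InvK D (Pt Γ) := by
  intro d hd s l τ ht κ hκ
  obtain ⟨W, hWΓ, hW⟩ := hκ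
  obtain ⟨W', hW'⟩ := H.wk (actK s l τ κ)
  obtain ⟨δ, hδ⟩ := tor_res ht
  have hδΓ : δ ∈ Γ := H.par.D_res d hd δ hδ
  exact ⟨W', (mem_conj_iff H.nine H.par.indu ht hδ hW hW').1 (Γ.mul_mem (Γ.mul_mem hδΓ hWΓ) (Γ.inv_mem hδΓ)), hW'⟩

theorem Dat.lam_le (H : Dat K Γ D) : LamP (Pt Γ) ≤ Γ := by
  have h3 := H.nine.three
  refine sup_le H.par.indu ((Subgroup.closure_le _).2 ?_)
  rintro γ ⟨κ, ⟨W, hWΓ, hW⟩, hγ⟩
  refine mem_of_same H.nine H.par.indu hWΓ (fun r b => ?_) (fun r b => ?_)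
  · rw [(wk_F h3 hγ r b).1, (wk_F h3 hW r b).1]
  · rw [(wk_F h3 hγ r b).2, (wk_F h3 hW r b).2]

/-- the decomposition of the normaliser -/
theorem Dat.norm (H : Dat K Γ D) {ν : MulAut (PQ K)} (hν : ν ∈ Γ) (hN : NormAut (⊤ : Subgroup (PG K)) ν) :
    ∃ x ∈ AS K, ∃ d ∈ D, ∃ δ : MulAut (PQ K), IsRP d δ ∧ (∃ s l τ, IsTorP d s l τ) ∧ ν = x * δ := by
  obtain ⟨g, d, hd, h1⟩ := H.par.norm ν hν hN
  obtain ⟨s, l, τ, ht⟩ := H.tp d (H.par.D_le hd)
  obtain ⟨δ, hδ⟩ := tor_res ht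
  obtain ⟨x, hx⟩ := exists_conj g
  refine ⟨x, mem_AS.2 ⟨g, hx⟩, d, hd, δ, hδ, ⟨s, l, τ, ht⟩, ?_⟩
  ext1 e
  apply Subtype.ext
  rw [h1]
  show _ = ((x (δ e) : PQ K) : PG K)
  rw [hx, hδ]

theorem AS_le_lam (P : Set K) : AS K ≤ LamP P := le_sup_left

theorem wk_mem_lam {P : Set K} {κ : K} (hκ : κ ∈ P) {W : MulAut (PQ K)} (hW : IsWk κ W) : W ∈ LamP P :=
  (le_sup_right : Subgroup.closure _ ≤ LamP P) (Subgroup.subset_closure ⟨κ, hκ, hW⟩)

theorem Dat.conj_lam (H : Dat K Γ D) {ν : MulAut (PQ K)} (hν : ν ∈ Γ) (hN : NormAut (⊤ : Subgroup (PG K)) ν)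
    {l : MulAut (PQ K)} (hl : l ∈ LamP (Pt Γ)) : ν * l * ν⁻¹ ∈ LamP (Pt Γ) := by
  obtain ⟨x, hx, d, hd, δ, hδ, ⟨s, m, τ, ht⟩, hνx⟩ := H.norm hν hN
  have h1 : LamP (Pt Γ) ≤ (LamP (Pt Γ)).comap (MulAut.conj ν).toMonoidHom := by
    refine sup_le (fun y hy => AS_le_lam _ (hN y hy)) ((Subgroup.closure_le _).2 ?_)
    rintro W ⟨κ, hκ, hW⟩
    obtain ⟨W', hW'⟩ := H.wk (actK s m τ κ)
    have h2 := (mem_conj_iff H.nine (AS_le_lam (Pt Γ)) ht hδ hW hW').2
      (wk_mem_lam (H.inv d hd s m τ ht κ hκ) hW')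
    show ν * W * ν⁻¹ ∈ LamP (Pt Γ)
    have h3 : ν * W * ν⁻¹ = x * (δ * W * δ⁻¹) * x⁻¹ := by rw [hνx]; group
    rw [h3]
    exact mul_mem (mul_mem (AS_le_lam _ hx) h2) (_root_.InvMemClass.inv_mem (AS_le_lam _ hx))
  exact h1 hl

theorem fin_aut (h : N9 K) : Finite (MulAut (PQ K)) := by
  have := fin_PG h
  infer_instance

/-- the submonoid of the elements which decompose -/
def Dat.M (H : Dat K Γ D) : Submonoid (MulAut (PQ K)) where
  carrier := {γ | ∃ l ∈ LamP (Pt Γ), ∃ ν ∈ Γ, NormAut (⊤ : Subgroup (PG K)) ν ∧ γ = l * ν}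
  one_mem' := ⟨1, one_mem _, 1, one_mem _, fun x hx => by rwa [one_mul, inv_one, mul_one], (one_mul 1).symm⟩
  mul_mem' := by
    rintro _ _ ⟨l, hl, ν, hν, hN, rfl⟩ ⟨l', hl', ν', hν', hN', rfl⟩
    exact ⟨l * (ν * l' * ν⁻¹), mul_mem hl (H.conj_lam hν hN hl'), ν * ν', mul_mem hν hν', normAut_mul hN hN', by group⟩

/-- the subgroup of the elements which decompose -/
def Dat.G1 (H : Dat K Γ D) : Subgroup (MulAut (PQ K)) :=
  { H.M with
    inv_mem' := by
      intro x hx
      have := fin_aut H.nine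
      exact inv_mem_of_finite H.M hx }

theorem Dat.lam_le_G1 (H : Dat K Γ D) : LamP (Pt Γ) ≤ H.G1 := fun l hl =>
  ⟨l, hl, 1, one_mem _, fun x hx => by rwa [one_mul, inv_one, mul_one], (mul_one l).symm⟩

theorem Dat.norm_mem_G1 (H : Dat K Γ D) {ν : MulAut (PQ K)} (hν : ν ∈ Γ)
    (hN : NormAut (⊤ : Subgroup (PG K)) ν) : ν ∈ H.G1 :=
  ⟨1, one_mem _, ν, hν, hN, (one_mul ν).symm⟩

theorem Dat.all (H : Dat K Γ D) {γ : MulAut (PQ K)} (hγ : γ ∈ Γ) : γ ∈ H.G1 := by
  classical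
  have h := H.nine
  have h3 := h.three
  have hfin := fin_aut h
  haveI : Fact (Nat.Prime 3) := ⟨Nat.prime_three⟩
  have hsyl := H.par.syl
  have hΓ := H.par.indu
  obtain ⟨d1, hd1, i, hi, ht⟩ := H.ex1
  obtain ⟨δ1, hδ1⟩ := tor_res ht
  have hδΓ : δ1 ∈ Γ := H.par.D_res d1 hd1 δ1 hδ1
  have hs := star_I h hi
  have hF : ∀ r b, Fr δ1 r b = i * r ∧ Fb δ1 r b = -(i * b) := by
    intro r b
    refine ⟨(tor_F ht hδ1 r b).1, ?_⟩
    rw [(tor_F ht hδ1 r b).2]
    show i * -1 * b = _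
    ring
  have hM1 : Mult δ1 (-1) := by
    intro r b r' b'
    rw [(hF r b).1, (hF r b).2, (hF r' b').1, (hF r' b').2]
    unfold fm
    rw [star_neg, star_neg, star_mul', star_mul', star_mul', star_mul', hs]
    linear_combination (r * star b' + star r * b' - r' * star b - star r' * b) * hi
  -- the conjugates
  have hconj : ∀ g ∈ Γ, g * δ1 * g⁻¹ ∈ H.G1 := by
    intro g hg
    obtain ⟨χ, hχ, hMg⟩ := exists_mult h g
    have hχ2 : χ * -1 * χ = -1 := by rcases hχ with h1 | h1 <;> rw [h1] <;> ring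
    have hM : Mult (g * δ1 * g⁻¹) (-1) := by
      have h1 := ((hMg.mul h3 hM1).mul h3 (hMg.inv h3 hχ))
      rwa [hχ2] at h1
    refine main_J h H.wk hΓ hsyl (Γ.mul_mem (Γ.mul_mem hg hδΓ) (Γ.inv_mem hg)) hM (fun r b => ?_)
    have h1 : ∀ r b, Fr (g * δ1 * g⁻¹ * (g * δ1 * g⁻¹)) r b = -r ∧ Fb (g * δ1 * g⁻¹ * (g * δ1 * g⁻¹)) r b = -b := by
      intro r b
      have e : g * δ1 * g⁻¹ * (g * δ1 * g⁻¹) = g * (δ1 * δ1) * g⁻¹ := by group
      have e1 : ∀ r b, Fr (δ1 * δ1) r b = -r ∧ Fb (δ1 * δ1) r b = -b := by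
        intro r b
        rw [Fr_mul h3, Fb_mul h3, (hF _ _).1, (hF _ _).2, (hF _ _).1, (hF _ _).2]
        exact ⟨by linear_combination r * hi, by linear_combination b * hi⟩
      rw [e, Fr_mul h3 (g * (δ1 * δ1)), Fb_mul h3 (g * (δ1 * δ1)), Fr_mul h3 g, Fb_mul h3 g, (e1 _ _).1, (e1 _ _).2,
        Fr_neg h3, Fb_neg h3]
      exact ⟨by rw [(F_mul_inv h3 g r b).1], by rw [(F_mul_inv h3 g r b).2]⟩
    have h2 := h1 r b
    rwa [Fr_mul h3 (g * δ1 * g⁻¹), Fb_mul h3 (g * δ1 * g⁻¹)] at h2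
  -- the Sylow subgroup
  have hAS3 : IsPGroup 3 (AS K) := (UU_isPGroup (Γ := Γ) h).to_le (AS_le_UU h3 hΓ)
  let P0 : Sylow 3 ↥Γ :=
    { toSubgroup := (AS K).subgroupOf Γ
      isPGroup' := hAS3.comap_of_injective _ Γ.subtype_injective
      is_maximal' := by
        intro P hP hle
        have h1 : P.map Γ.subtype = AS K := by
          refine eq_AS h hsyl (Subgroup.map_subtype_le P) (hP.map _) ?_
          intro x hx
          exact ⟨⟨x, hΓ hx⟩, hle (Subgroup.mem_subgroupOf.2 hx), rfl⟩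
        ext x
        rw [Subgroup.mem_subgroupOf, ← h1]
        constructor
        · intro hx
          exact ⟨x, hx, rfl⟩
        · rintro ⟨y, hy, hyx⟩
          rwa [← Subtype.ext hyx] }
  haveI := TT_normal (K := K) h3
  let N1 : Subgroup ↥Γ := Subgroup.normalClosure {(⟨δ1, hδΓ⟩ : ↥Γ)} ⊔ (TT h3).subgroupOf Γ
  have hN1 : N1.Normal := inferInstance
  have hδN : (⟨δ1, hδΓ⟩ : ↥Γ) ∈ N1 := (le_sup_left : _ ≤ N1) (Subgroup.subset_normalClosure rfl)
  have hPN : (P0 : Subgroup ↥Γ) ≤ N1 := by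
    intro x hx
    have hx1 : (x : MulAut (PQ K)) ∈ AS K := hx
    obtain ⟨g, hg⟩ := mem_AS.1 hx1
    have hxF := fun r b => F_conj hg r b
    -- `x = (x⁻¹ δ x) δ⁻¹` modulo the trivial automorphisms
    have h1 : x⁻¹ * ⟨δ1, hδΓ⟩ * x * (⟨δ1, hδΓ⟩ : ↥Γ)⁻¹ ∈ N1 := by
      have h4 := hN1.conj_mem _ hδN x⁻¹
      rw [inv_inv] at h4
      exact N1.mul_mem h4 (N1.inv_mem hδN)
    have h2 : x * (x⁻¹ * ⟨δ1, hδΓ⟩ * x * (⟨δ1, hδΓ⟩ : ↥Γ)⁻¹)⁻¹ ∈ N1 := by
      refine (le_sup_right : _ ≤ N1) (Subgroup.mem_subgroupOf.2 ?_)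
      have e : x * (x⁻¹ * ⟨δ1, hδΓ⟩ * x * (⟨δ1, hδΓ⟩ : ↥Γ)⁻¹)⁻¹ = x * ⟨δ1, hδΓ⟩ * x⁻¹ * (⟨δ1, hδΓ⟩ : ↥Γ)⁻¹ * x := by group
      rw [e]
      have hxi : ∀ r b, Fr (x : MulAut (PQ K))⁻¹ r b = r ∧ Fb (x : MulAut (PQ K))⁻¹ r b = b + r * g.c := by
        intro r b
        have h4 := F_mul_inv h3 (x : MulAut (PQ K)) r b
        rw [(hxF _ _).1, (hxF _ _).2] at h4
        refine ⟨h4.1, ?_⟩
        have h5 := h4.2
        rw [h4.1] at h5
        linear_combination h5
      have hδi : ∀ r b, Fr δ1⁻¹ r b = -(i * r) ∧ Fb δ1⁻¹ r b = i * b := by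
        intro r b
        have h4 := F_mul_inv h3 δ1 r b
        rw [(hF _ _).1, (hF _ _).2] at h4
        exact ⟨by linear_combination -i * h4.1 + Fr δ1⁻¹ r b * hi, by linear_combination i * h4.2 + Fb δ1⁻¹ r b * hi⟩
      have hall : ∀ r b, Fr ((x : MulAut (PQ K)) * δ1 * (x : MulAut (PQ K))⁻¹ * δ1⁻¹ * (x : MulAut (PQ K))) r b = r ∧
          Fb ((x : MulAut (PQ K)) * δ1 * (x : MulAut (PQ K))⁻¹ * δ1⁻¹ * (x : MulAut (PQ K))) r b = b := by
        intro r b
        simp only [Fr_mul h3, Fb_mul h3, hxF, hxi, hδi, hF]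
        exact ⟨by linear_combination -r * hi, by linear_combination (-b + 3 * r * g.c) * hi - r * g.c * h3⟩
      exact ⟨fun r b => (hall r b).1, fun r b => (hall r b).2⟩
    have h4 := N1.mul_mem h2 h1
    rwa [inv_mul_cancel_right] at h4
  have htop := Sylow.normalizer_sup_eq_top' P0 hPN
  have hle : (⊤ : Subgroup ↥Γ) ≤ H.G1.subgroupOf Γ := by
    rw [← htop]
    refine sup_le ?_ (sup_le ?_ ?_)
    · intro x hx
      rw [Subgroup.mem_subgroupOf]
      refine H.norm_mem_G1 x.2 ?_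
      intro y hy
      have h1 := (Subgroup.mem_normalizer_iff.1 hx ⟨y, hΓ hy⟩).1 hy
      exact h1
    · rw [Subgroup.normalClosure, Subgroup.closure_le]
      intro x hx
      obtain ⟨a, ha, hax⟩ := Group.mem_conjugatesOfSet_iff.1 hx
      rw [Set.mem_singleton_iff] at ha
      subst ha
      obtain ⟨c, hc⟩ := isConj_iff.1 hax
      rw [← hc]
      exact hconj _ c.2
    · intro x hx
      exact H.lam_le_G1 (AS_le_lam _ (TT_le h (Subgroup.mem_subgroupOf.1 hx)))
  exact Subgroup.mem_subgroupOf.1 (hle (Subgroup.mem_top (⟨γ, hγ⟩ : ↥Γ)))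

theorem Dat.ne (H : Dat K Γ D) : (Pt Γ).Nonempty := by
  rw [Set.nonempty_iff_ne_empty]
  intro h0
  apply H.par.nn
  intro γ hγ
  obtain ⟨l, hl, ν, hν, hN, rfl⟩ := H.all hγ
  have h1 : LamP (Pt Γ) ≤ AS K := by
    rw [h0]
    refine sup_le le_rfl ((Subgroup.closure_le _).2 ?_)
    rintro _ ⟨κ, hκ, -⟩
    exact absurd hκ (Set.notMem_empty κ)
  have hl' := h1 hl
  refine normAut_mul (fun x hx => ?_) hN
  exact mul_mem (mul_mem hl' hx) (_root_.InvMemClass.inv_mem hl')

theorem Dat.eq (H : Dat K Γ D) : EqLD Γ (LamP (Pt Γ)) D := by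
  intro γ
  constructor
  · intro hγ
    obtain ⟨l, hl, ν, hν, hN, rfl⟩ := H.all hγ
    obtain ⟨x, hx, d, hd, δ, hδ, -, rfl⟩ := H.norm hν hN
    exact ⟨l * x, mul_mem hl (AS_le_lam _ hx), d, hd, δ, hδ, (mul_assoc _ _ _).symm⟩
  · rintro ⟨l, hl, d, hd, δ, hδ, rfl⟩
    exact mul_mem (H.lam_le hl) (H.par.D_res d hd δ hδ)

end main

/-- (3A) -/
theorem stThreeA (hG : StGrp.{u}) : StThreeA.{u} := by
  intro K _ _ p n hyp hq Γ D hpar htor
  have h := N9.of_hyp hyp hq
  have hp3 : p = 3 := by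
    have h1 : p ∣ 3 := by
      rw [← hq]
      exact dvd_pow_self p (by have := hyp.hn; omega)
    rcases (Nat.dvd_prime Nat.prime_three).1 h1 with h2 | h2
    · exact absurd h2 hyp.pp.one_lt.ne'
    · exact h2
  subst hp3
  obtain ⟨-, -, g1, g2, -, g3, -, g4⟩ := hG hyp
  have H : Dat K Γ D := by
    refine ⟨h, fun κ => ?_, g2, hpar, ?_⟩
    · obtain ⟨ε, hε⟩ := g3 rfl κ
      obtain ⟨n, hn⟩ := g4
      obtain ⟨t, ht⟩ := ep_res hε
      exact ⟨t * n * t⁻¹, ε, n, t, hε, hn, ht, rfl⟩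
    · obtain ⟨i, hi⟩ := h.ex
      have hs := star_I h hi
      have h3 := h.three
      have hi0 : i ≠ 0 := by
        rintro rfl
        rw [zero_mul, zero_eq_neg] at hi
        exact one_ne_zero hi
      obtain ⟨α, hα⟩ := g1 i (-1) (RingEquiv.refl K) hi0 (neg_ne_zero.2 one_ne_zero) (by rw [star_neg, star_one])
      have e1 : (1 - i) ^ 2 = i := by linear_combination hi - i * h3
      have e2 : ((1 - i) * star (1 - i))⁻¹ = -1 := by
        rw [star_sub, star_one, hs]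
        have e3 : (1 - i) * (1 - -i) = -1 := by linear_combination -hi + h3
        rw [e3, inv_neg, inv_one]
      refine ⟨α, htor (1 - i) ?_ α ?_, i, hi, hα⟩
      · intro h0
        rw [h0] at e1
        exact hi0 (by rw [← e1]; ring)
      · show IsTorP α ((1 - i) ^ 2) (((1 - i) * star (1 - i))⁻¹) (RingEquiv.refl K)
        rw [e1, e2]
        exact hα
  exact ⟨H.ne, H.inv, H.eq⟩

end Cfsg.Agent.H38.P4
end

-- part: H753/P4/Coord
section
/-!
# S5210, q = 3: coordinates on `Q / Z` (helper753)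

`K` has nine elements, `ι² = -1`; `Q/Z = K × K` has `F₃`-coordinates; every automorphism of `Q` acts by a `4 × 4` matrix.
-/

set_option autoImplicit false

namespace Cfsg.Agent.H753.P4

open Cfsg Cfsg.FusionSystem Cfsg.Agent.H776.P4
open Cfsg.Agent.H756.PU (HypK NormAut)

universe u

/-- matrices over `F₃` -/
abbrev Mat := Matrix (Fin 4) (Fin 4) (ZMod 3)

section
variable {K : Type u} [Field K] [StarRing K]

/-- the field with nine elements -/
structure F9 (ι : K) : Prop where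
  fin : Finite K
  card : Nat.card K = 9
  st : ∀ x : K, star x = x ^ 3
  sq : ι * ι = -1

variable [CharP K 3]

variable (K) in
/-- the prime field -/
abbrev cs : ZMod 3 →+* K := ZMod.castHom (dvd_refl 3) K

/-- `a + b ι` -/
def el (ι : K) (a b : ZMod 3) : K := cs K a + cs K b * ι

omit [StarRing K] in
theorem three_eq : (3 : K) = 0 := by
  have := CharP.cast_eq_zero K 3
  exact_mod_cast this

omit [StarRing K] in
theorem cs_inj {a b : ZMod 3} (h : cs K a = cs K b) : a = b := (cs K).injective h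

variable {ι : K} (h9 : F9 ι)

include h9

theorem star_cs (a : ZMod 3) : star (cs K a) = cs K a := by
  rw [h9.st, ← map_pow]
  congr 1
  revert a
  decide

theorem star_io : star ι = - ι := by
  rw [h9.st]
  linear_combination ι * h9.sq

theorem star_el (a b : ZMod 3) : star (el ι a b) = el ι a (-b) := by
  unfold el
  rw [star_add, star_mul', star_cs h9, star_cs h9, star_io h9, map_neg]
  ring

theorem el_inj {a b a' b' : ZMod 3} (h : el ι a b = el ι a' b') : a = a' ∧ b = b' := by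
  unfold el at h
  have h1 : cs K (a - a') = cs K (b' - b) * ι := by
    rw [map_sub, map_sub]
    linear_combination h
  have hb : b = b' := by
    by_contra hb
    have hb' : b' - b ≠ 0 := sub_ne_zero.2 (Ne.symm hb)
    have hk : cs K (b' - b) ≠ 0 := by
      intro h0
      exact hb' (cs_inj (h0.trans (map_zero _).symm))
    have h2 : cs K ((a - a') * (a - a')) = cs K (-((b' - b) * (b' - b))) := by
      rw [map_mul, map_neg, map_mul, h1]
      linear_combination (cs K (b' - b)) ^ 2 * h9.sq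
    have h3 := cs_inj h2
    revert h3
    generalize a - a' = x
    generalize hy : b' - b = y at hb' ⊢
    revert hb'
    clear hk hy h1 h2 h hb
    revert x y
    decide
  refine ⟨?_, hb⟩
  rw [hb, sub_self, map_zero, zero_mul] at h1
  exact sub_eq_zero.1 (cs_inj (h1.trans (map_zero _).symm))

theorem el_surj (x : K) : ∃ a b, x = el ι a b := by
  have hf := h9.fin
  have hinj : Function.Injective (fun y : ZMod 3 × ZMod 3 => el ι y.1 y.2) := by
    rintro ⟨a, b⟩ ⟨a', b'⟩ h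
    obtain ⟨h1, h2⟩ := el_inj h9 h
    exact Prod.ext h1 h2
  have hc : Nat.card (ZMod 3 × ZMod 3) = Nat.card K := by
    rw [h9.card, Nat.card_prod, Nat.card_zmod]
  have hs := (Function.Injective.bijective_of_nat_card_le hinj hc.ge).2
  obtain ⟨⟨a, b⟩, h⟩ := hs x
  exact ⟨a, b, h.symm⟩

theorem fixed {x : K} (hx : star x = x) : ∃ a, x = cs K a := by
  obtain ⟨a, b, rfl⟩ := el_surj h9 x
  rw [star_el h9] at hx
  have h1 := (el_inj h9 hx).2
  have h2 : b = 0 := by
    revert h1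
    clear hx
    revert b
    decide
  refine ⟨a, ?_⟩
  unfold el
  rw [h2, map_zero, zero_mul, add_zero]

omit h9

/-- the coordinates of an element of `Q` modulo `Z` -/
def Co (ι : K) (g : PG K) (v : Fin 4 → ZMod 3) : Prop := g.r = el ι (v 0) (v 1) ∧ g.b = el ι (v 2) (v 3)

include h9

theorem co_unique {g : PG K} {v w : Fin 4 → ZMod 3} (hv : Co ι g v) (hw : Co ι g w) : v = w := by
  obtain ⟨h1, h2⟩ := el_inj h9 (hv.1.symm.trans hw.1)
  obtain ⟨h3, h4⟩ := el_inj h9 (hv.2.symm.trans hw.2)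
  funext i
  fin_cases i <;> assumption

theorem co_exists (g : PG K) : ∃ v, Co ι g v := by
  obtain ⟨a, b, h1⟩ := el_surj h9 g.r
  obtain ⟨c, d, h2⟩ := el_surj h9 g.b
  exact ⟨![a, b, c, d], h1, h2⟩

omit h9

/-- an element with given coordinates -/
def mk (ι : K) (v : Fin 4 → ZMod 3) : PQ K :=
  ⟨{ r := el ι (v 0) (v 1), a := 0, b := el ι (v 2) (v 3), c := 0, ha := by simp, hc := by simp }, rfl⟩

theorem co_mk (v : Fin 4 → ZMod 3) : Co ι (mk ι v : PG K) v := ⟨rfl, rfl⟩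

theorem el_add (a b a' b' : ZMod 3) : el ι (a + a') (b + b') = el ι a b + el ι a' b' := by
  unfold el
  rw [map_add, map_add]
  ring

theorem co_mul {x y : PQ K} {v w : Fin 4 → ZMod 3} (hv : Co ι (x : PG K) v) (hw : Co ι (y : PG K) w) :
    Co ι ((x * y : PQ K) : PG K) (v + w) := by
  have hy : (y : PG K).c = 0 := y.2
  constructor
  · rw [Subgroup.coe_mul, PG.mul_r, hv.1, hw.1, Pi.add_apply, Pi.add_apply, el_add]
  · rw [Subgroup.coe_mul, PG.mul_b, hv.2, hw.2, hy, mul_zero, add_zero, Pi.add_apply, Pi.add_apply, el_add]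

/-- `γ` acts as `M` on `Q/Z` -/
def Acts (ι : K) (γ : MulAut (PQ K)) (M : Mat) : Prop :=
  ∀ (e : PQ K) (v : Fin 4 → ZMod 3), Co ι (e : PG K) v → Co ι ((γ e : PQ K) : PG K) (M.mulVec v)

theorem Acts.mul {γ γ' : MulAut (PQ K)} {M M' : Mat} (h : Acts ι γ M) (h' : Acts ι γ' M') :
    Acts ι (γ * γ') (M * M') := by
  intro e v hv
  rw [← Matrix.mulVec_mulVec]
  exact h _ _ (h' _ _ hv)

theorem acts_one : Acts ι (1 : MulAut (PQ K)) 1 := by
  intro e v hv
  rw [Matrix.one_mulVec]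
  exact hv

include h9

theorem Acts.unique {γ : MulAut (PQ K)} {M M' : Mat} (h : Acts ι γ M) (h' : Acts ι γ M') : M = M' := by
  apply Matrix.ext_of_mulVec_single
  intro i
  exact co_unique h9 (h _ _ (co_mk _)) (h' _ _ (co_mk _))

theorem Acts.inv {γ : MulAut (PQ K)} {M M' : Mat} (h : Acts ι γ M) (hM : M' * M = 1) : Acts ι γ⁻¹ M' := by
  intro e v hv
  obtain ⟨w, hw⟩ := co_exists h9 ((γ⁻¹ e : PQ K) : PG K)
  have h1 := h _ _ hw
  rw [MulAut.apply_inv_self] at h1
  have h2 := co_unique h9 hv h1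
  rw [h2, Matrix.mulVec_mulVec, hM, Matrix.one_mulVec]
  exact hw

omit h9

theorem comm_formula (x y : PQ K) : (x : PG K) * y = y * x ↔
    (x : PG K).r * star (y : PG K).b + star (x : PG K).r * (y : PG K).b =
      (y : PG K).r * star (x : PG K).b + star (y : PG K).r * (x : PG K).b := by
  have hx : (x : PG K).c = 0 := x.2
  have hy : (y : PG K).c = 0 := y.2
  constructor
  · intro h
    have h1 := congrArg PG.a h
    rw [PG.mul_a, PG.mul_a, hx, hy] at h1
    linear_combination h1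
  · intro h
    ext
    · rw [PG.mul_r, PG.mul_r, add_comm]
    · rw [PG.mul_a, PG.mul_a, hx, hy]
      linear_combination h
    · rw [PG.mul_b, PG.mul_b, hx, hy]; ring
    · rw [PG.mul_c, PG.mul_c, add_comm]

include h9

theorem two_ne : (2 : K) ≠ 0 := by
  intro h
  have h3 : (3 : K) = 0 := three_eq
  have : (1 : K) = 0 := by linear_combination h3 - h
  exact one_ne_zero this

theorem central_iff (x : PQ K) : (∀ y : PQ K, (x : PG K) * y = y * x) ↔ (x : PG K) ∈ PZ K := by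
  have hx : (x : PG K).c = 0 := x.2
  constructor
  · intro h
    -- test elements
    have key : ∀ (r b : K), (x : PG K).r * star b + star (x : PG K).r * b =
        r * star (x : PG K).b + star r * (x : PG K).b := by
      intro r b
      have h1 := h ⟨{ r := r, a := 0, b := b, c := 0, ha := by simp, hc := by simp }, rfl⟩
      exact (comm_formula x _).1 h1
    have h1 := key 0 1
    have h2 := key 0 ι
    have h3 := key 1 0
    have h4 := key ι 0
    simp only [star_zero, star_one, mul_one, mul_zero, zero_mul, add_zero, one_mul, star_io h9] at h1 h2 h3 h4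
    have hi : ι ≠ 0 := by
      intro h0
      have := h9.sq
      rw [h0, mul_zero] at this
      exact one_ne_zero (neg_eq_zero.1 this.symm)
    have h2' : ι * (star (x : PG K).r - (x : PG K).r) = 0 := by linear_combination h2
    have h4' : ι * (star (x : PG K).b - (x : PG K).b) = 0 := by linear_combination - h4
    have e1 := (mul_eq_zero.1 h2').resolve_left hi
    have e2 := (mul_eq_zero.1 h4').resolve_left hi
    have f1 : (2 : K) * (x : PG K).r = 0 := by linear_combination h1 - e1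
    have f2 : (2 : K) * (x : PG K).b = 0 := by linear_combination - h3 - e2
    exact ⟨(mul_eq_zero.1 f1).resolve_left (two_ne h9), (mul_eq_zero.1 f2).resolve_left (two_ne h9), hx⟩
  · rintro ⟨h1, h2, -⟩ y
    rw [comm_formula, h1, h2]
    simp only [_root_.MulZeroClass.zero_mul, _root_.star_zero, _root_.add_zero, _root_.MulZeroClass.mul_zero]

theorem map_PZ (γ : MulAut (PQ K)) {e : PQ K} (he : (e : PG K) ∈ PZ K) : ((γ e : PQ K) : PG K) ∈ PZ K := by
  rw [← central_iff h9] at he ⊢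
  intro y
  have h1 := he (γ⁻¹ y)
  have h2 : e * γ⁻¹ y = γ⁻¹ y * e := Subtype.ext h1
  have h3 := congrArg γ h2
  rw [map_mul, map_mul, MulAut.apply_inv_self] at h3
  exact congrArg Subtype.val h3

/-- every automorphism of `Q` acts by a matrix -/
theorem exists_acts (γ : MulAut (PQ K)) : ∃ M, Acts ι γ M := by
  -- the map on coordinates
  choose F hF using fun v : Fin 4 → ZMod 3 => co_exists h9 ((γ (mk ι v) : PQ K) : PG K)
  have hdep : ∀ (e : PQ K) (v : Fin 4 → ZMod 3), Co ι (e : PG K) v → Co ι ((γ e : PQ K) : PG K) (F v) := by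
    intro e v hv
    have hc : (e : PG K).c = 0 := e.2
    have h1 : (((mk ι v)⁻¹ * e : PQ K) : PG K) ∈ PZ K := by
      refine ⟨?_, ?_, ?_⟩
      · show (-(mk ι v : PG K).r + (e : PG K).r) = 0
        rw [hv.1]; exact neg_add_cancel _
      · show ((mk ι v : PG K)⁻¹ * (e : PG K)).b = 0
        rw [PG.mul_b, PG.inv_b, hc, hv.2]
        have h1 : (mk ι v : PG K).b = el ι (v 2) (v 3) := rfl
        have h2 : (mk ι v : PG K).c = 0 := rfl
        rw [h1, h2]; ring
      · show (-(mk ι v : PG K).c + (e : PG K).c) = 0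
        have h2 : (mk ι v : PG K).c = 0 := rfl
        rw [h2, hc]; ring
    obtain ⟨k1, k2, k3⟩ := map_PZ h9 γ h1
    have h2 : γ e = γ (mk ι v) * γ ((mk ι v)⁻¹ * e) := by
      rw [← map_mul, mul_inv_cancel_left]
    rw [h2]
    refine ⟨?_, ?_⟩
    · rw [Subgroup.coe_mul, PG.mul_r, k1, add_zero]; exact (hF v).1
    · rw [Subgroup.coe_mul, PG.mul_b, k2, k3, mul_zero, add_zero, add_zero]; exact (hF v).2
  have hadd : ∀ v w, F (v + w) = F v + F w := by
    intro v w
    have h1 := hdep _ _ (co_mul (co_mk (ι := ι) v) (co_mk (ι := ι) w))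
    rw [map_mul] at h1
    exact co_unique h9 h1 (co_mul (hF v) (hF w))
  let f : (Fin 4 → ZMod 3) →+ (Fin 4 → ZMod 3) := AddMonoidHom.mk' F hadd
  let L : (Fin 4 → ZMod 3) →ₗ[ZMod 3] (Fin 4 → ZMod 3) := f.toZModLinearMap 3
  refine ⟨LinearMap.toMatrix' L, fun e v hv => ?_⟩
  rw [LinearMap.toMatrix'_mulVec]
  exact hdep e v hv

end

end Cfsg.Agent.H753.P4
end

-- part: H753/P4/Norm
section
/-!
# S5210, q = 3: the normalizer of `Aut_S(Q)` and the orbit counting (helper753)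
-/

set_option autoImplicit false

namespace Cfsg.Agent.H753.P4

open Cfsg Cfsg.FusionSystem Cfsg.Agent.H776.P4
open Cfsg.Agent.H756.PU (HypK NormAut)

universe u

/-! ### Matrices -/

/-- equal up to sign -/
def Pm (A B : Mat) : Prop := A = B ∨ A = -B

instance (A B : Mat) : Decidable (Pm A B) := inferInstanceAs (Decidable (_ ∨ _))

/-- `M` conjugates `N` to `± N'` -/
def Cj (M N N' : Mat) : Prop := Pm (M * N) (N' * M)

instance (M N N' : Mat) : Decidable (Cj M N N') := inferInstanceAs (Decidable (Pm _ _))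

theorem Cj.mul {M M' N N' N'' : Mat} (h : Cj M N N') (h' : Cj M' N' N'') : Cj (M' * M) N N'' := by
  unfold Cj Pm at *
  rcases h with h | h <;> rcases h' with h' | h'
  · left; rw [mul_assoc, h, ← mul_assoc, h', mul_assoc]
  · right; rw [mul_assoc, h, ← mul_assoc, h', neg_mul, mul_assoc]
  · right; rw [mul_assoc, h, mul_neg, ← mul_assoc, h', mul_assoc]
  · left; rw [mul_assoc, h, mul_neg, ← mul_assoc, h', neg_mul, neg_neg, mul_assoc]

theorem Cj.one (N : Mat) : Cj 1 N N := Or.inl (by rw [one_mul, mul_one])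

theorem Cj.inv {M M' N N' : Mat} (h : Cj M N N') (h1 : M' * M = 1) (h2 : M * M' = 1) : Cj M' N' N := by
  unfold Cj Pm at *
  rcases h with h | h
  · left
    calc M' * N' = M' * (N' * M) * M' := by rw [mul_assoc, mul_assoc, h2, mul_one]
      _ = N * M' := by rw [← h, ← mul_assoc, h1, one_mul]
  · right
    have h3 : N' * M = -(M * N) := by rw [h, neg_neg]
    calc M' * N' = M' * (N' * M) * M' := by rw [mul_assoc, mul_assoc, h2, mul_one]
      _ = -(N * M') := by rw [h3, mul_neg, ← mul_assoc, h1, one_mul, neg_mul]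

/-- the nilpotent map `(r, b) ↦ (0, r)` -/
def N0 : Mat := !![0, 0, 0, 0; 0, 0, 0, 0; 1, 0, 0, 0; 0, 1, 0, 0]

/-- `W_κ`, `κ = u + v ι` -/
def WM (u v : ZMod 3) : Mat :=
  !![-u, -v, 1, 0; -v, u, 0, 1; -1 - u * u - v * v, 0, u, v; 0, -1 - u * u - v * v, v, -u]

/-- `ε_κ` -/
def EM (u v : ZMod 3) : Mat := !![1, 0, 0, 0; 0, 1, 0, 0; u, v, 1, 0; v, -u, 0, 1]

theorem EM_inv (u v : ZMod 3) : EM (-u) (-v) * EM u v = 1 := by
  revert u v
  decide +kernel

theorem WM_eq (u v : ZMod 3) : EM u v * WM 0 0 * EM (-u) (-v) = WM u v := by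
  revert u v
  decide +kernel

theorem pow_N0 (t : ZMod 3) : 1 + t • N0 = (1 + N0) ^ t.val := by
  revert t
  decide +kernel

theorem N0_ne : N0 ≠ 0 := by decide +kernel

/-! ### Counting cosets -/

theorem comm_central {G : Type*} [Group G] {x y z1 z2 : G} (c1 : ∀ g, z1 * g = g * z1) (c2 : ∀ g, z2 * g = g * z2) :
    (x * z1) * (y * z2) * (x * z1)⁻¹ * (y * z2)⁻¹ = x * y * x⁻¹ * y⁻¹ := by
  rw [mul_inv_rev, mul_inv_rev]
  calc x * z1 * (y * z2) * (z1⁻¹ * x⁻¹) * (z2⁻¹ * y⁻¹)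
      = x * (z1 * (y * z2) * z1⁻¹) * x⁻¹ * (z2⁻¹ * y⁻¹) := by simp only [mul_assoc]
    _ = x * (y * z2) * x⁻¹ * (z2⁻¹ * y⁻¹) := by rw [c1 (y * z2), mul_inv_cancel_right]
    _ = x * y * (z2 * x⁻¹) * z2⁻¹ * y⁻¹ := by simp only [mul_assoc]
    _ = x * y * x⁻¹ * y⁻¹ := by rw [c2 x⁻¹]; simp only [mul_assoc, mul_inv_cancel_left]

theorem card_of_table {G : Type*} [Group G] [Finite G] (H : Subgroup G) (n : ℕ) (t : Fin n → G)
    (ht : ∀ i j, (t i)⁻¹ * t j ∈ H → i = j) (hc : ∀ g, ∃ i, (t i)⁻¹ * g ∈ H) :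
    Nat.card G = n * Nat.card H := by
  have hb : Function.Bijective (fun i : Fin n => (t i : G ⧸ H)) := by
    constructor
    · intro i j h
      exact ht i j (QuotientGroup.eq.1 h)
    · intro q
      induction q using QuotientGroup.induction_on with
      | H g =>
        obtain ⟨i, hi⟩ := hc g
        exact ⟨i, QuotientGroup.eq.2 hi⟩
  have h1 : H.index = n := by
    rw [Subgroup.index, ← Nat.card_congr (Equiv.ofBijective _ hb), Nat.card_fin]
  rw [← H.card_mul_index, h1, mul_comm]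

section
variable {K : Type u} [Field K] [StarRing K] [CharP K 3] {ι : K} (h9 : F9 ι)

/-- the matrix of an automorphism of `Q` -/
noncomputable def rho (γ : MulAut (PQ K)) : Mat := (exists_acts h9 γ).choose

theorem acts_rho (γ : MulAut (PQ K)) : Acts ι γ (rho h9 γ) := (exists_acts h9 γ).choose_spec

theorem rho_eq {γ : MulAut (PQ K)} {M : Mat} (h : Acts ι γ M) : rho h9 γ = M := (acts_rho h9 γ).unique h9 h

theorem rho_mul (γ γ' : MulAut (PQ K)) : rho h9 (γ * γ') = rho h9 γ * rho h9 γ' :=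
  rho_eq h9 ((acts_rho h9 γ).mul (acts_rho h9 γ'))

theorem rho_one : rho h9 1 = 1 := rho_eq h9 acts_one

theorem rho_inv_mul (γ : MulAut (PQ K)) : rho h9 γ⁻¹ * rho h9 γ = 1 := by
  rw [← rho_mul, inv_mul_cancel, rho_one]

theorem rho_mul_inv (γ : MulAut (PQ K)) : rho h9 γ * rho h9 γ⁻¹ = 1 := by
  rw [← rho_mul, mul_inv_cancel, rho_one]

omit [CharP K 3] in
theorem PQ_normal : (PQ K).Normal := by
  refine ⟨fun n hn g => ?_⟩
  have hn' : n.c = 0 := hn
  show (g * n * g⁻¹).c = 0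
  rw [PG.mul_c, PG.mul_c, PG.inv_c, hn']
  ring

omit [CharP K 3] in
theorem conj_r (g : PG K) (e : PQ K) : (g * (e : PG K) * g⁻¹).r = (e : PG K).r := by
  rw [PG.mul_r, PG.mul_r, PG.inv_r]
  ring

omit [CharP K 3] in
theorem conj_b (g : PG K) (e : PQ K) : (g * (e : PG K) * g⁻¹).b = (e : PG K).b - (e : PG K).r * g.c := by
  have he : (e : PG K).c = 0 := e.2
  rw [PG.mul_b, PG.mul_b, PG.mul_r, PG.inv_b, PG.inv_c, he]
  ring

omit [StarRing K] in
theorem el_sub_mul (a b c d t : ZMod 3) : el ι c d - el ι a b * cs K t = el ι (c - t * a) (d - t * b) := by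
  unfold el
  rw [map_sub, map_sub, map_mul, map_mul]
  ring

theorem N0_mulVec (t : ZMod 3) (v : Fin 4 → ZMod 3) :
    (1 + t • N0).mulVec v = ![v 0, v 1, v 2 + t * v 0, v 3 + t * v 1] := by
  funext i
  fin_cases i <;> simp [N0, Matrix.mulVec, dotProduct, Fin.sum_univ_four, add_comm]

/-- conjugation by `g` acts on `Q/Z` as `1 - c N₀` -/
theorem acts_conj {g : PG K} {t : ZMod 3} (ht : g.c = cs K t) {y : MulAut (PQ K)}
    (hy : ∀ e : PQ K, ((y e : PQ K) : PG K) = g * e * g⁻¹) : Acts ι y (1 + (-t) • N0) := by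
  intro e v hv
  rw [N0_mulVec]
  constructor
  · rw [hy, conj_r]; exact hv.1
  · rw [hy, conj_b, hv.1, hv.2, ht, el_sub_mul]
    show el ι (v 2 - t * v 0) (v 3 - t * v 1) = el ι (v 2 + -t * v 0) (v 3 + -t * v 1)
    congr 1 <;> ring

include h9

theorem mem_R {y : MulAut (PQ K)} (hy : y ∈ autInducedBy ⊤ (PQ K)) : ∃ t : ZMod 3, rho h9 y = 1 + t • N0 := by
  obtain ⟨g, -, hg⟩ := (Cfsg.Agent.H802.mem_autInducedBy_iff _ _ _).1 hy
  obtain ⟨t, ht⟩ := fixed h9 g.hc
  exact ⟨-t, rho_eq h9 (acts_conj ht hg)⟩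

theorem exists_R (t : ZMod 3) : ∃ y ∈ autInducedBy ⊤ (PQ K), rho h9 y = 1 + t • N0 := by
  have := PQ_normal (K := K)
  let g : PG K := { r := 0, a := 0, b := 0, c := cs K (-t), ha := by simp, hc := star_cs h9 _ }
  refine ⟨MulAut.conjNormal g, (Cfsg.Agent.H802.mem_autInducedBy_iff _ _ _).2
    ⟨g, Subgroup.mem_top _, fun e => MulAut.conjNormal_apply g e⟩, ?_⟩
  have h1 := acts_conj (ι := ι) (g := g) (t := -t) rfl (y := MulAut.conjNormal g) (fun e => MulAut.conjNormal_apply g e)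
  rw [neg_neg] at h1
  exact rho_eq h9 h1

omit h9

theorem neg_el (a b : ZMod 3) : - el ι a b = el ι (-a) (-b) := by
  unfold el
  rw [map_neg, map_neg]
  ring

include h9

theorem el_mul_star (u v a b : ZMod 3) : el ι u v * star (el ι a b) = el ι (u * a + v * b) (v * a - u * b) := by
  rw [star_el h9]
  unfold el
  simp only [map_add, map_sub, map_mul, map_neg]
  linear_combination (-(cs K v * cs K b)) * h9.sq

theorem acts_WQ {n : MulAut (PQ K)} (hn : IsWQ n) : Acts ι n (WM 0 0) := by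
  intro e v hv
  have h1 : (WM 0 0).mulVec v = ![v 2, v 3, -v 0, -v 1] := by
    funext i
    (revert i; simp only [WM, Matrix.mulVec, dotProduct, Fin.sum_univ_four, _root_.Fin.forall_fin_succ, _root_.neg_zero, _root_.MulZeroClass.mul_zero, _root_.sub_zero, _root_.Matrix.of_apply, _root_.Matrix.cons_val', _root_.Matrix.cons_val_fin_one, Fin.isValue, _root_.Matrix.cons_val_zero, _root_.Matrix.cons_val_one, _root_.Matrix.cons_val, _root_.Nat.succ_eq_add_one, Nat.reduceAdd, _root_.MulZeroClass.zero_mul, _root_.add_zero, _root_.one_mul, _root_.zero_add, _root_.Matrix.cons_val_succ, _root_.neg_mul, _root_.implies_true, _root_.and_self])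
  rw [h1]
  constructor
  · rw [hn.r, hv.2]; rfl
  · rw [hn.b, hv.1, neg_el]; rfl

theorem acts_Ep {u v : ZMod 3} {ε : MulAut (PG K)} (hε : IsEp (el ι u v) ε) {t : MulAut (PQ K)} (ht : IsRP ε t) :
    Acts ι t (EM u v) := by
  intro e w hw
  have h1 : (EM u v).mulVec w = ![w 0, w 1, w 2 + (u * w 0 + v * w 1), w 3 + (v * w 0 - u * w 1)] := by
    funext i
    (revert i; simp only [EM, Matrix.mulVec, dotProduct, Fin.sum_univ_four, _root_.Fin.forall_fin_succ, _root_.Matrix.of_apply, _root_.Matrix.cons_val', _root_.Matrix.cons_val_fin_one, Fin.isValue, _root_.Matrix.cons_val_zero, _root_.Matrix.cons_val_one, _root_.Matrix.cons_val, _root_.Nat.succ_eq_add_one, Nat.reduceAdd, _root_.one_mul, _root_.MulZeroClass.zero_mul, _root_.add_zero, _root_.Matrix.cons_val_succ, _root_.zero_add, _root_.neg_mul, _root_.forall_const, _root_.true_and]) <;> (repeat' with_reducible apply And.intro) <;> ring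
  rw [h1]
  constructor
  · rw [ht, hε.r, hw.1]; rfl
  · rw [ht, hε.b, hw.1, hw.2, el_mul_star h9, ← el_add]; rfl

theorem rho_Wk {u v : ZMod 3} {γ : MulAut (PQ K)} (h : IsWk (el ι u v) γ) : rho h9 γ = WM u v := by
  obtain ⟨ε, n, t, h1, h2, h3, rfl⟩ := h
  have ht := acts_Ep h9 h1 h3
  have h4 := ((ht.mul (acts_WQ h9 h2)).mul (ht.inv h9 (EM_inv u v)))
  rw [WM_eq] at h4
  exact rho_eq h9 h4

/-- the automorphisms trivial on `Q/Z` -/
theorem ker_pgroup {γ : MulAut (PQ K)} (h : rho h9 γ = 1) : γ ^ 3 = 1 := by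
  have hact := acts_rho h9 γ
  rw [h] at hact
  -- `γ e = e * z`
  have hz : ∀ e : PQ K, ((e⁻¹ * γ e : PQ K) : PG K) ∈ PZ K := by
    intro e
    obtain ⟨v, hv⟩ := co_exists h9 (e : PG K)
    have h1 := hact e v hv
    rw [Matrix.one_mulVec] at h1
    have hc : (e : PG K).c = 0 := e.2
    have hc' : ((γ e : PQ K) : PG K).c = 0 := (γ e).2
    refine ⟨?_, ?_, ?_⟩
    · show -(e : PG K).r + ((γ e : PQ K) : PG K).r = 0
      rw [hv.1, h1.1]; exact neg_add_cancel _
    · show ((e : PG K)⁻¹ * ((γ e : PQ K) : PG K)).b = 0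
      rw [PG.mul_b, PG.inv_b, hc, hc', hv.2, h1.2]; ring
    · show -(e : PG K).c + ((γ e : PQ K) : PG K).c = 0
      rw [hc, hc']; ring
  -- `γ` is trivial on `Z`
  have hcent : ∀ z : PQ K, (z : PG K) ∈ PZ K → ∀ y : PQ K, z * y = y * z := fun z hz y =>
    Subtype.ext ((central_iff h9 z).2 hz y)
  have hZ : ∀ z : PQ K, (z : PG K) ∈ PZ K → γ z = z := by
    intro z hzz
    obtain ⟨k1, k2, k3⟩ := hzz
    -- `z` is a commutator
    obtain ⟨t, ht⟩ := fixed h9 (z : PG K).ha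
    let x : PQ K := ⟨{ r := 1, a := 0, b := 0, c := 0, ha := by simp, hc := by simp }, rfl⟩
    let y : PQ K := ⟨{ r := 0, a := 0, b := cs K (-t), c := 0, ha := by simp, hc := by simp }, rfl⟩
    have hxy : x * y * x⁻¹ * y⁻¹ = z := by
      apply Subtype.ext
      show (x : PG K) * y * (x : PG K)⁻¹ * (y : PG K)⁻¹ = z
      have e1 : (x : PG K).r = 1 := rfl
      have e2 : (x : PG K).a = 0 := rfl
      have e3 : (x : PG K).b = 0 := rfl
      have e4 : (x : PG K).c = 0 := rfl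
      have e5 : (y : PG K).r = 0 := rfl
      have e6 : (y : PG K).a = 0 := rfl
      have e7 : (y : PG K).b = cs K (-t) := rfl
      have e8 : (y : PG K).c = 0 := rfl
      ext
      · simp only [PG.mul_r, PG.inv_r, e1, e5, k1]; ring
      · simp only [PG.mul_a, PG.mul_b, PG.mul_c, PG.mul_r, PG.inv_r, PG.inv_a, PG.inv_b, PG.inv_c, e1, e2, e3, e4, e5, e6, e7,
          e8, ht, star_zero, star_one, star_neg, star_cs h9, star_add, star_mul']
        rw [map_neg]
        have h3 : (3 : K) = 0 := three_eq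
        linear_combination (-cs K t) * h3
      · simp only [PG.mul_b, PG.mul_c, PG.mul_r, PG.inv_r, PG.inv_b, PG.inv_c, e1, e3, e4, e5, e7, e8, k2]; ring
      · simp only [PG.mul_c, PG.inv_c, e4, e8, k3]; ring
    have hx := hz x
    have hy := hz y
    have f1 : γ x = x * (x⁻¹ * γ x) := (mul_inv_cancel_left _ _).symm
    have f2 : γ y = y * (y⁻¹ * γ y) := (mul_inv_cancel_left _ _).symm
    have c1 := hcent _ hx
    have c2 := hcent _ hy
    rw [← hxy, map_mul, map_mul, map_mul, map_inv, map_inv]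
    generalize x⁻¹ * γ x = z1 at f1 c1
    generalize y⁻¹ * γ y = z2 at f2 c2
    rw [f1, f2]
    exact (comm_central c1 c2 :)
  have hz3 : ∀ z : PQ K, (z : PG K) ∈ PZ K → z * z * z = 1 := by
    rintro z ⟨k1, k2, k3⟩
    have h3 : (3 : K) = 0 := three_eq
    apply Subtype.ext
    show (z : PG K) * z * z = 1
    ext
    · simp only [PG.mul_r, k1, PG.one_r]; ring
    · simp only [PG.mul_a, PG.mul_r, k1, k2, k3, PG.one_a, star_zero]
      linear_combination (z : PG K).a * h3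
    · simp only [PG.mul_b, PG.mul_r, k1, k2, k3, PG.one_b]; ring
    · simp only [PG.mul_c, k3, PG.one_c]; ring
  ext1 e
  have h1 := hz e
  set z := e⁻¹ * γ e with hzz
  have f1 : γ e = e * z := by rw [hzz, mul_inv_cancel_left]
  have f2 := hZ z h1
  show (γ ^ 3) e = e
  rw [pow_succ, pow_two, MulAut.mul_apply, MulAut.mul_apply, f1, map_mul, f1, f2, map_mul, map_mul, f1, f2, mul_assoc, mul_assoc,
    ← mul_assoc z z z, hz3 z h1, mul_one]

end

end Cfsg.Agent.H753.P4
end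

-- part: H753/P4/Orb
section
/-!
# S5210, q = 3: `|Γ|` by the orbit of `Aut_S(Q)` (helper753)
-/

set_option autoImplicit false

namespace Cfsg.Agent.H753.P4

open Cfsg Cfsg.FusionSystem Cfsg.Agent.H776.P4
open Cfsg.Agent.H756.PU (HypK NormAut)

universe u

/-- a table for the orbit of `± N₀` under `1 + N₀` and the `W_κ` -/
structure Tab {n : ℕ} (ks : List (ZMod 3 × ZMod 3)) (L : Fin n → Mat) : Prop where
  reach : ∃ i0, L i0 = N0 ∧ ∀ S : Fin n → Prop, S i0 → (∀ i j, S i → Cj (1 + N0) (L i) (L j) → S j) →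
    (∀ κ ∈ ks, ∀ i j, S i → Cj (WM κ.1 κ.2) (L i) (L j) → S j) → ∀ j, S j
  cx : ∀ i, ∃ j, Cj (1 + N0) (L i) (L j)
  cw : ∀ κ ∈ ks, ∀ i, ∃ j, Cj (WM κ.1 κ.2) (L i) (L j)
  dist : ∀ i j, Pm (L i) (L j) → i = j

section
variable {K : Type u} [Field K] [StarRing K] [CharP K 3] {ι : K} (h9 : F9 ι)

include h9

theorem card_PZ : Nat.card (PZ K) = 3 := by
  let f : ZMod 3 → PZ K := fun t =>
    ⟨{ r := 0, a := cs K t, b := 0, c := 0, ha := star_cs h9 t, hc := by simp }, rfl, rfl, rfl⟩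
  have hf : Function.Bijective f := by
    constructor
    · intro s t h
      have h1 : cs K s = cs K t := congrArg (fun x : PZ K => (x : PG K).a) h
      exact cs_inj h1
    · rintro ⟨g, h1, h2, h3⟩
      obtain ⟨t, ht⟩ := fixed h9 g.ha
      refine ⟨t, Subtype.ext ?_⟩
      ext
      · exact h1.symm
      · exact ht.symm
      · exact h2.symm
      · exact h3.symm
  rw [← Nat.card_congr (Equiv.ofBijective f hf), Nat.card_zmod]

theorem smul_N0_inj {s t : ZMod 3} (h : (1 : Mat) + s • N0 = 1 + t • N0) : s = t := by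
  have h1 := congrFun (congrFun h 2) 0
  simpa [N0] using h1

theorem card_R (h729 : Nat.card (PG K) = 729) : Nat.card (autInducedBy ⊤ (PQ K)) = 243 := by
  have hn := PQ_normal (K := K)
  have e1 : autInducedBy ⊤ (PQ K) = (MulAut.conjNormal : PG K →* MulAut (PQ K)).range := by
    ext y
    rw [Cfsg.Agent.H802.mem_autInducedBy_iff]
    constructor
    · rintro ⟨g, -, hg⟩
      refine ⟨g, ?_⟩
      ext1 e
      exact Subtype.ext ((MulAut.conjNormal_apply g e).trans (hg e).symm)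
    · rintro ⟨g, rfl⟩
      exact ⟨g, Subgroup.mem_top _, fun e => MulAut.conjNormal_apply g e⟩
  have e2 : (MulAut.conjNormal : PG K →* MulAut (PQ K)).ker = PZ K := by
    ext g
    rw [MonoidHom.mem_ker]
    constructor
    · intro h
      obtain ⟨t, ht⟩ := fixed h9 g.hc
      have h1 := rho_eq h9 (acts_conj (ι := ι) ht (y := MulAut.conjNormal g) (fun e => MulAut.conjNormal_apply g e))
      rw [h, rho_one] at h1
      have h2 : (0 : ZMod 3) = -t := smul_N0_inj h9 (by rw [zero_smul, add_zero]; exact h1)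
      have h3 : t = 0 := by rw [← neg_eq_zero]; exact h2.symm
      have hc : g.c = 0 := by rw [ht, h3, map_zero]
      refine (central_iff h9 ⟨g, hc⟩).1 fun y => ?_
      have h4 : ((MulAut.conjNormal g y : PQ K) : PG K) = y := by rw [h]; rfl
      rw [MulAut.conjNormal_apply] at h4
      exact mul_inv_eq_iff_eq_mul.1 h4
    · intro h
      have hc : g.c = 0 := h.2.2
      have h1 := (central_iff h9 ⟨g, hc⟩).2 h
      ext1 e
      apply Subtype.ext
      rw [MulAut.conjNormal_apply]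
      exact mul_inv_eq_iff_eq_mul.2 (h1 e)
  have h1 := (MulAut.conjNormal : PG K →* MulAut (PQ K)).ker.card_mul_index
  rw [Subgroup.index_ker, e2, card_PZ h9, h729, ← e1] at h1
  omega

variable {Γ : Subgroup (MulAut (PQ K))} {D : Subgroup (MulAut (PG K))}

theorem mem_R_of_ker (hpar : ParP 3 (PQ K) Γ D) {γ : MulAut (PQ K)} (hγ : γ ∈ Γ) (h : rho h9 γ = 1) :
    γ ∈ autInducedBy ⊤ (PQ K) := by
  let P0 : Subgroup (MulAut (PQ K)) :=
    { carrier := {x | x ∈ Γ ∧ rho h9 x = 1}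
      one_mem' := ⟨Γ.one_mem, rho_one h9⟩
      mul_mem' := by
        rintro a b ⟨h1, h2⟩ ⟨h3, h4⟩
        exact ⟨Γ.mul_mem h1 h3, by rw [rho_mul, h2, h4, mul_one]⟩
      inv_mem' := by
        rintro a ⟨h1, h2⟩
        refine ⟨Γ.inv_mem h1, ?_⟩
        have h3 := rho_inv_mul h9 a
        rwa [h2, mul_one] at h3 }
  have hP : IsPGroup 3 P0 := by
    rintro ⟨x, hx⟩
    refine ⟨1, Subtype.ext ?_⟩
    rw [pow_one]
    exact ker_pgroup h9 hx.2
  obtain ⟨g, hg, hgP⟩ := hpar.syl P0 (fun x hx => hx.1) hP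
  have h1 : g⁻¹ * γ * g ∈ P0 := by
    refine ⟨Γ.mul_mem (Γ.mul_mem (Γ.inv_mem hg) hγ) hg, ?_⟩
    rw [rho_mul, rho_mul, h, mul_one, rho_inv_mul]
  have h2 := hgP _ h1
  have h3 : g * (g⁻¹ * γ * g) * g⁻¹ = γ := by group
  rwa [h3] at h2

theorem cj_of_norm {δ : MulAut (PQ K)} (h : NormAut (⊤ : Subgroup (PG K)) δ) : Cj (rho h9 δ) N0 N0 := by
  obtain ⟨y, hy, h1⟩ := exists_R h9 1
  obtain ⟨t, ht⟩ := mem_R h9 (h y hy)
  rw [rho_mul, rho_mul, h1, one_smul] at ht
  have h2 : rho h9 δ * (1 + N0) = (1 + t • N0) * rho h9 δ := by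
    rw [← ht, mul_assoc, rho_inv_mul, mul_one]
  have h3 : rho h9 δ * N0 = t • (N0 * rho h9 δ) := by
    rw [mul_add, add_mul, mul_one, one_mul, smul_mul_assoc] at h2
    exact add_left_cancel h2
  have h4 : t = 0 ∨ t = 1 ∨ t = -1 := by
    clear ht h2 h3
    revert t
    decide
  rcases h4 with rfl | rfl | rfl
  · exfalso
    rw [zero_smul] at h3
    apply N0_ne
    calc N0 = rho h9 δ⁻¹ * (rho h9 δ * N0) := by rw [← mul_assoc, rho_inv_mul, one_mul]
      _ = 0 := by rw [h3, mul_zero]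
  · left; rw [h3, one_smul]
  · right; rw [h3, neg_smul, one_smul]

theorem norm_of_cj (hpar : ParP 3 (PQ K) Γ D) {γ : MulAut (PQ K)} (hγ : γ ∈ Γ) (h : Cj (rho h9 γ) N0 N0) :
    NormAut (⊤ : Subgroup (PG K)) γ := by
  intro x hx
  obtain ⟨t, ht⟩ := mem_R h9 hx
  have h1 : ∃ s : ZMod 3, rho h9 (γ * x * γ⁻¹) = 1 + s • N0 := by
    rw [rho_mul, rho_mul, ht, mul_add, mul_one, mul_smul_comm, add_mul, rho_mul_inv, smul_mul_assoc]
    rcases h with h | h
    · exact ⟨t, by rw [h, mul_assoc, rho_mul_inv, mul_one]⟩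
    · exact ⟨-t, by rw [h, neg_mul, mul_assoc, rho_mul_inv, mul_one, smul_neg, neg_smul]⟩
  obtain ⟨s, hs⟩ := h1
  obtain ⟨y, hy, hy1⟩ := exists_R h9 s
  have h2 : y⁻¹ * (γ * x * γ⁻¹) ∈ autInducedBy ⊤ (PQ K) := by
    apply mem_R_of_ker h9 hpar
    · exact Γ.mul_mem (Γ.inv_mem (hpar.indu hy)) (Γ.mul_mem (Γ.mul_mem hγ (hpar.indu hx)) (Γ.inv_mem hγ))
    · rw [rho_mul, hs, ← hy1, rho_inv_mul]
  have h3 := Subgroup.mul_mem _ hy h2
  rwa [mul_inv_cancel_left] at h3

omit h9 in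
theorem exists_res {d : MulAut (PG K)} {s l : K} {τ : K ≃+* K} (hd : IsTorP d s l τ) :
    ∃ δ : MulAut (PQ K), IsRP d δ := by
  have h1 : ∀ e : PQ K, d e ∈ PQ K := by
    intro e
    have he : (e : PG K).c = 0 := e.2
    show (d e).c = 0
    rw [hd.c, he, map_zero, mul_zero]
  have h2 : ∀ e : PQ K, d.symm e ∈ PQ K := by
    intro e
    have he : (e : PG K).c = 0 := e.2
    show (d.symm e).c = 0
    have h3 := hd.c (d.symm e)
    rw [d.apply_symm_apply, he] at h3
    have h4 := (mul_eq_zero.1 h3.symm).resolve_left hd.nl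
    exact τ.map_eq_zero_iff.1 h4
  exact ⟨{ toFun := fun e => ⟨d e, h1 e⟩
           invFun := fun e => ⟨d.symm e, h2 e⟩
           left_inv := fun e => Subtype.ext (d.symm_apply_apply e)
           right_inv := fun e => Subtype.ext (d.apply_symm_apply e)
           map_mul' := fun x y => Subtype.ext (map_mul d (x : PG K) (y : PG K)) }, fun e => rfl⟩

omit h9 in
theorem norm_res {d : MulAut (PG K)} {δ : MulAut (PQ K)} (hδ : IsRP d δ) : NormAut (⊤ : Subgroup (PG K)) δ := by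
  intro x hx
  obtain ⟨g, -, hg⟩ := (Cfsg.Agent.H802.mem_autInducedBy_iff _ _ _).1 hx
  refine (Cfsg.Agent.H802.mem_autInducedBy_iff _ _ _).2 ⟨d g, Subgroup.mem_top _, fun e => ?_⟩
  rw [MulAut.mul_apply, MulAut.mul_apply, hδ, hg, map_mul, map_mul, map_inv, ← hδ, MulAut.apply_inv_self]

omit h9 in
/-- a restriction of a torus element acting like a conjugation is trivial -/
theorem tor_eq {d d' : MulAut (PG K)} {s l s' l' : K} {τ τ' : K ≃+* K} (hd : IsTorP d s l τ) (hd' : IsTorP d' s' l' τ')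
    {δ δ' : MulAut (PQ K)} (hδ : IsRP d δ) (hδ' : IsRP d' δ') {y y' : MulAut (PQ K)} (hy : y ∈ autInducedBy ⊤ (PQ K))
    (hy' : y' ∈ autInducedBy ⊤ (PQ K)) (h : y * δ = y' * δ') : d = d' := by
  obtain ⟨g, -, hg⟩ := (Cfsg.Agent.H802.mem_autInducedBy_iff _ _ _).1 hy
  obtain ⟨g', -, hg'⟩ := (Cfsg.Agent.H802.mem_autInducedBy_iff _ _ _).1 hy'
  have hr : ∀ e : PQ K, s * τ (e : PG K).r = s' * τ' (e : PG K).r := by
    intro e
    have h1 : (((y * δ) e : PQ K) : PG K).r = (((y' * δ') e : PQ K) : PG K).r := by rw [h]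
    rw [MulAut.mul_apply, MulAut.mul_apply, hg, hg', conj_r, conj_r, hδ, hδ', hd.r, hd'.r] at h1
    exact h1
  have hr' : ∀ x : K, s * τ x = s' * τ' x := fun x =>
    hr ⟨{ r := x, a := 0, b := 0, c := 0, ha := by simp, hc := by simp }, rfl⟩
  have hs : s = s' := by
    have h1 := hr' 1
    rwa [map_one, map_one, mul_one, mul_one] at h1
  have hτ : ∀ x, τ x = τ' x := by
    intro x
    have h1 := hr' x
    rw [← hs] at h1
    exact mul_left_cancel₀ hd.ns h1
  have hl : l = l' := by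
    let e : PQ K := ⟨{ r := 0, a := 0, b := 1, c := 0, ha := by simp, hc := by simp }, rfl⟩
    have h1 : (((y * δ) e : PQ K) : PG K).b = (((y' * δ') e : PQ K) : PG K).b := by rw [h]
    have e1 : (e : PG K).r = 0 := rfl
    have e2 : (e : PG K).b = 1 := rfl
    rw [MulAut.mul_apply, MulAut.mul_apply, hg, hg', conj_b, conj_b, hδ, hδ', hd.r, hd'.r, hd.b, hd'.b, e1, e2, map_zero,
      map_zero, map_one, map_one, mul_zero, mul_zero, zero_mul, zero_mul, sub_zero, sub_zero, mul_one, mul_one, ← hs] at h1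
    exact mul_left_cancel₀ hd.ns h1
  ext1 g
  ext
  · rw [hd.r, hd'.r, hs, hτ]
  · rw [hd.a, hd'.a, hs, hl, hτ]
  · rw [hd.b, hd'.b, hs, hl, hτ]
  · rw [hd.c, hd'.c, hl, hτ]

/-- the stabilizer of `± N₀` in `Γ` -/
def HN (Γ : Subgroup (MulAut (PQ K))) : Subgroup Γ where
  carrier := {γ | Cj (rho h9 γ) N0 N0}
  one_mem' := by
    show Cj (rho h9 1) N0 N0
    rw [rho_one]
    exact Cj.one _
  mul_mem' := by
    intro a b ha hb
    show Cj (rho h9 ((a : MulAut (PQ K)) * b)) N0 N0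
    rw [rho_mul]
    exact Cj.mul hb ha
  inv_mem' := by
    intro a ha
    show Cj (rho h9 ((a : MulAut (PQ K))⁻¹)) N0 N0
    exact Cj.inv ha (rho_inv_mul h9 _) (rho_mul_inv h9 _)

theorem cj_R {y : MulAut (PQ K)} (hy : y ∈ autInducedBy ⊤ (PQ K)) : Cj (rho h9 y) N0 N0 := by
  obtain ⟨t, ht⟩ := mem_R h9 hy
  left
  rw [ht, add_mul, mul_add, one_mul, mul_one, smul_mul_assoc, mul_smul_comm]

theorem card_HN (h729 : Nat.card (PG K) = 729) (hT : ∀ α ∈ TP K, ∃ s l τ, IsTorP α s l τ)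
    (hpar : ParP 3 (PQ K) Γ D) : Nat.card (HN h9 Γ) = 243 * Nat.card D := by
  have hD : ∀ d : D, ∃ δ : MulAut (PQ K), IsRP (d : MulAut (PG K)) δ := by
    intro d
    obtain ⟨s, l, τ, h⟩ := hT _ (hpar.D_le d.2)
    exact exists_res h
  choose res hres using hD
  have hcj : ∀ d : D, Cj (rho h9 (res d)) N0 N0 := fun d => cj_of_norm h9 (norm_res (hres d))
  let f : autInducedBy ⊤ (PQ K) × D → HN h9 Γ := fun z =>
    ⟨⟨(z.1 : MulAut (PQ K)) * res z.2, Γ.mul_mem (hpar.indu z.1.2) (hpar.D_res _ z.2.2 _ (hres z.2))⟩, by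
      show Cj (rho h9 ((z.1 : MulAut (PQ K)) * res z.2)) N0 N0
      rw [rho_mul]
      exact Cj.mul (hcj z.2) (cj_R h9 z.1.2)⟩
  have hf : Function.Bijective f := by
    constructor
    · rintro ⟨y, d⟩ ⟨y', d'⟩ h
      have h1 : (y : MulAut (PQ K)) * res d = y' * res d' := congrArg (fun x : HN h9 Γ => ((x : Γ) : MulAut (PQ K))) h
      obtain ⟨s, l, τ, h2⟩ := hT _ (hpar.D_le d.2)
      obtain ⟨s', l', τ', h2'⟩ := hT _ (hpar.D_le d'.2)
      have h3 : d = d' := Subtype.ext (tor_eq h2 h2' (hres d) (hres d') y.2 y'.2 h1)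
      rw [h3] at h1
      have h4 : y = y' := Subtype.ext (mul_right_cancel h1)
      rw [h3, h4]
    · rintro ⟨⟨γ, hγ⟩, hγ2⟩
      obtain ⟨x, d, hd, hx⟩ := hpar.norm γ hγ (norm_of_cj h9 hpar hγ hγ2)
      have h1 : γ * (res ⟨d, hd⟩)⁻¹ ∈ autInducedBy ⊤ (PQ K) := by
        refine (Cfsg.Agent.H802.mem_autInducedBy_iff _ _ _).2 ⟨x, Subgroup.mem_top _, fun e => ?_⟩
        rw [MulAut.mul_apply, hx]
        have h2 := hres ⟨d, hd⟩ ((res ⟨d, hd⟩)⁻¹ e)
        rw [MulAut.apply_inv_self] at h2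
        rw [← h2]
      refine ⟨⟨⟨_, h1⟩, ⟨d, hd⟩⟩, Subtype.ext (Subtype.ext ?_)⟩
      show γ * (res ⟨d, hd⟩)⁻¹ * res ⟨d, hd⟩ = γ
      rw [inv_mul_cancel_right]
  rw [← Nat.card_congr (Equiv.ofBijective f hf), Nat.card_prod, card_R h9 h729]

theorem cj_pow {n : ℕ} {L : Fin n → Mat} {M : Mat} (h : ∀ i, ∃ j, Cj M (L i) (L j)) (k : ℕ) :
    ∀ i, ∃ j, Cj (M ^ k) (L i) (L j) := by
  induction k with
  | zero => intro i; exact ⟨i, by rw [pow_zero]; exact Cj.one _⟩
  | succ k ih =>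
    intro i
    obtain ⟨j, hj⟩ := h i
    obtain ⟨l, hl⟩ := ih j
    exact ⟨l, by rw [pow_succ]; exact hj.mul hl⟩

/-- **`|Γ|` from a table** -/
theorem card_Gamma (h729 : Nat.card (PG K) = 729) (hT : ∀ α ∈ TP K, ∃ s l τ, IsTorP α s l τ)
    (hpar : ParP 3 (PQ K) Γ D) (hE : EqLD Γ (LamP (Pt Γ)) D) {n : ℕ} {ks : List (ZMod 3 × ZMod 3)} {L : Fin n → Mat}
    (ht : Tab ks L) (hP : ∀ x : K, x ∈ Pt Γ ↔ ∃ κ ∈ ks, x = el ι κ.1 κ.2) :
    Nat.card Γ = n * (243 * Nat.card D) := by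
  have hfin : Finite (PG K) := Nat.finite_of_card_ne_zero (by rw [h729]; norm_num)
  have hfinM : Finite (MulAut (PQ K)) := inferInstance
  obtain ⟨i0, hi0, hreach⟩ := ht.reach
  -- elements of `LamP` act on the table
  let S : Subgroup (MulAut (PQ K)) :=
    { carrier := {γ | ∀ i, ∃ j, Cj (rho h9 γ) (L i) (L j)}
      one_mem' := fun i => ⟨i, by rw [rho_one]; exact Cj.one _⟩
      mul_mem' := by
        intro a b ha hb i
        obtain ⟨j, hj⟩ := hb i
        obtain ⟨l, hl⟩ := ha j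
        exact ⟨l, by rw [rho_mul]; exact hj.mul hl⟩
      inv_mem' := by
        intro a ha i
        have h1 : ∀ k : ℕ, rho h9 (a ^ k) = rho h9 a ^ k := by
          intro k
          induction k with
          | zero => rw [pow_zero, pow_zero, rho_one]
          | succ k ih => rw [pow_succ, rho_mul, ih, pow_succ]
        have h2 : a⁻¹ = a ^ (orderOf a - 1) := by
          have h3 : 0 < orderOf a := orderOf_pos a
          have h4 : a * a ^ (orderOf a - 1) = 1 := by
            rw [← pow_succ', Nat.sub_add_cancel h3, pow_orderOf_eq_one]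
          exact inv_eq_of_mul_eq_one_right h4
        obtain ⟨j, hj⟩ := cj_pow h9 ha (orderOf a - 1) i
        exact ⟨j, by rw [h2, h1]; exact hj⟩ }
  have hS : LamP (Pt Γ) ≤ S := by
    unfold LamP
    refine sup_le ?_ ?_
    · intro y hy i
      obtain ⟨t, ht'⟩ := mem_R h9 hy
      rw [ht', pow_N0]
      exact cj_pow h9 ht.cx t.val i
    · rw [Subgroup.closure_le]
      rintro γ ⟨κ, hκ, hw⟩ i
      obtain ⟨κ', hκ', rfl⟩ := (hP κ).1 hκ
      rw [rho_Wk h9 hw]
      exact ht.cw κ' hκ' i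
  -- every point of the table is reached
  have hR : ∀ i, ∃ γ : Γ, Cj (rho h9 (γ : MulAut (PQ K))) N0 (L i) := by
    apply hreach
    · refine ⟨1, ?_⟩
      show Cj (rho h9 1) N0 (L i0)
      rw [rho_one, hi0]
      exact Cj.one _
    · rintro i j ⟨γ, hγ⟩ h
      obtain ⟨y, hy, hy1⟩ := exists_R h9 1
      rw [one_smul] at hy1
      refine ⟨⟨y, hpar.indu hy⟩ * γ, ?_⟩
      show Cj (rho h9 (y * (γ : MulAut (PQ K)))) N0 (L j)
      rw [rho_mul, hy1]
      exact hγ.mul h
    · rintro κ hκ i j ⟨γ, hγ⟩ h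
      obtain ⟨w, hw, hw1⟩ := (hP _).2 ⟨κ, hκ, rfl⟩
      refine ⟨⟨w, hw⟩ * γ, ?_⟩
      show Cj (rho h9 (w * (γ : MulAut (PQ K)))) N0 (L j)
      rw [rho_mul, rho_Wk h9 hw1]
      exact hγ.mul h
  choose t htt using hR
  rw [card_of_table (HN h9 Γ) n t ?_ ?_, card_HN h9 h729 hT hpar]
  · intro i j hij
    apply ht.dist
    have h1 : Cj (rho h9 ((t i : MulAut (PQ K))⁻¹ * (t j : MulAut (PQ K)))) N0 N0 := hij
    have h2 := h1.mul (htt i)
    rw [← rho_mul, mul_inv_cancel_left] at h2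
    have h3 := htt j
    have h4 := rho_mul_inv h9 (t j : MulAut (PQ K))
    -- `L i * M = ± M * N0 = ± L j * M`
    set M := rho h9 (t j : MulAut (PQ K)) with hM
    set M' := rho h9 (t j : MulAut (PQ K))⁻¹ with hM'
    have key : ∀ A B : Mat, A * M = B * M → A = B := by
      intro A B h
      calc A = A * M * M' := by rw [mul_assoc, h4, mul_one]
        _ = B * M * M' := by rw [h]
        _ = B := by rw [mul_assoc, h4, mul_one]
    rcases h2 with h2 | h2 <;> rcases h3 with h3 | h3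
    · left; exact key _ _ (h2.symm.trans h3)
    · right; apply key; rw [neg_mul, ← h3, h2]
    · right; apply key; rw [neg_mul, ← h3, h2, neg_neg]
    · left; exact key _ _ (neg_injective (h2.symm.trans h3))
  · rintro ⟨γ, hγ⟩
    obtain ⟨l, hl, d, hd, δ, hδ, rfl⟩ := (hE γ).1 hγ
    obtain ⟨i, hi⟩ := hS hl i0
    rw [hi0] at hi
    refine ⟨i, ?_⟩
    show Cj (rho h9 ((t i : MulAut (PQ K))⁻¹ * (l * δ))) N0 N0
    rw [rho_mul, rho_mul]
    exact ((cj_of_norm h9 (norm_res hδ)).mul hi).mul ((htt i).inv (rho_inv_mul h9 _) (rho_mul_inv h9 _))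

end

end Cfsg.Agent.H753.P4
end

-- part: H753/P4/ThreeN
section
/-!
# S5210, q = 3: StThreeN (helper753)

The orbits of `± N₀` (the conjugates of `Aut_S(Q)`) under the six configurations: 4, 16, 16, 10, 10, 40.
-/

set_option autoImplicit false
set_option maxRecDepth 100000

namespace Cfsg.Agent.H753.P4

open Cfsg Cfsg.FusionSystem Cfsg.Agent.H776.P4
open Cfsg.Agent.H756.PU (HypK NormAut)

universe u

theorem tab_of_raw {n : ℕ} {ks : List (ZMod 3 × ZMod 3)} {L : Fin (n + 1) → Mat}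
    (nx : Fin ks.length → Fin (n + 1) → Fin (n + 1)) (n0 : Fin (n + 1) → Fin (n + 1)) (par : Fin (n + 1) → Fin (n + 1))
    (h0 : L 0 = N0) (h1 : ∀ i, Cj (1 + N0) (L i) (L (n0 i)))
    (h2 : ∀ k i, Cj (WM (ks.get k).1 (ks.get k).2) (L i) (L (nx k i))) (h3 : ∀ i j, Pm (L i) (L j) → i = j)
    (h4 : ∀ i, i = 0 ∨ (par i < i ∧ (n0 (par i) = i ∨ ∃ k, nx k (par i) = i))) : Tab ks L where
  reach := by
    refine ⟨0, h0, fun S hS hx hw => ?_⟩
    intro j
    induction j using WellFoundedLT.induction with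
    | ind j ih =>
      rcases h4 j with h | ⟨hlt, h | ⟨k, h⟩⟩
      · rw [h]; exact hS
      · have h5 := hx _ _ (ih _ hlt) (h1 (par j))
        rwa [h] at h5
      · have h5 := hw _ (List.get_mem ks k) _ _ (ih _ hlt) (h2 k (par j))
        rwa [h] at h5
  cx := fun i => ⟨_, h1 i⟩
  cw := by
    intro κ hκ i
    obtain ⟨k, hk⟩ := List.mem_iff_get.1 hκ
    rw [← hk]
    exact ⟨_, h2 k i⟩
  dist := h3

private def toL {n m p : ℕ} (A : Matrix (Fin n) (Fin m) (ZMod p)) : List (List ℕ) :=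
  List.ofFn fun i => List.ofFn fun j => (A i j).val

private noncomputable def dotL (r : List ℕ) : List ℕ → ℕ :=
  List.rec (motive := fun _ => List ℕ → ℕ) (fun _ => 0)
    (fun a _ ih c => List.rec (motive := fun _ => ℕ) 0 (fun b c' _ => Nat.add (Nat.mul a b) (ih c')) c) r

private noncomputable def mapL {α β : Type} (f : α → β) (l : List α) : List β := List.rec [] (fun a _ ih => f a :: ih) l

private noncomputable def mulL (p : ℕ) (X C : List (List ℕ)) : List (List ℕ) := mapL (fun r => mapL (fun c => Nat.mod (dotL r c) p) C) X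

private noncomputable def negL (p : ℕ) (X : List (List ℕ)) : List (List ℕ) := mapL (mapL fun a => Nat.mod (Nat.sub p a) p) X

private noncomputable def eqR (r : List ℕ) : List ℕ → Bool :=
  List.rec (motive := fun _ => List ℕ → Bool) (fun _ => true)
    (fun a _ ih c => List.rec (motive := fun _ => Bool) true (fun b c' _ => Bool.rec false (ih c') (Nat.beq a b)) c) r

private noncomputable def eqL (r : List (List ℕ)) : List (List ℕ) → Bool :=
  List.rec (motive := fun _ => List (List ℕ) → Bool) (fun _ => true)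
    (fun a _ ih c => List.rec (motive := fun _ => Bool) true (fun b c' _ => Bool.rec false (ih c') (eqR a b)) c) r

private theorem rec_and (a b : Bool) : Bool.rec (motive := fun _ => Bool) false b a = (a && b) := by cases a <;> rfl

private theorem mapL_ofFn {α β : Type} (f : α → β) {n : ℕ} (g : Fin n → α) : mapL f (List.ofFn g) = List.ofFn fun i => f (g i) := by
  induction n with
  | zero => rw [List.ofFn_zero, List.ofFn_zero]; rfl
  | succ n ih => rw [List.ofFn_succ, List.ofFn_succ, ← ih]; rfl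

private theorem dotL_ofFn {n : ℕ} (f g : Fin n → ℕ) : dotL (List.ofFn f) (List.ofFn g) = ∑ i, f i * g i := by
  induction n with
  | zero => rw [List.ofFn_zero]; rfl
  | succ n ih => rw [List.ofFn_succ, List.ofFn_succ, Fin.sum_univ_succ, ← ih]; rfl

private theorem eqR_ofFn {n : ℕ} (f g : Fin n → ℕ) : eqR (List.ofFn f) (List.ofFn g) = true ↔ ∀ i, f i = g i := by
  induction n with
  | zero => rw [List.ofFn_zero]; exact ⟨fun _ i => i.elim0, fun _ => rfl⟩
  | succ n ih =>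
    rw [List.ofFn_succ, List.ofFn_succ, Fin.forall_fin_succ, ← ih, ← Nat.beq_eq, ← Bool.and_eq_true]
    exact Iff.of_eq (congrArg (· = true) (rec_and _ _))

private theorem eqL_ofFn {n : ℕ} (f g : Fin n → List ℕ) : eqL (List.ofFn f) (List.ofFn g) = true ↔ ∀ i, eqR (f i) (g i) = true := by
  induction n with
  | zero => rw [List.ofFn_zero]; exact ⟨fun _ i => i.elim0, fun _ => rfl⟩
  | succ n ih =>
    rw [List.ofFn_succ, List.ofFn_succ, Fin.forall_fin_succ, ← ih, ← Bool.and_eq_true]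
    exact Iff.of_eq (congrArg (· = true) (rec_and _ _))

private theorem eq_iffL {n m p : ℕ} [NeZero p] (A B : Matrix (Fin n) (Fin m) (ZMod p)) : A = B ↔ eqL (toL A) (toL B) = true := by
  simp only [toL, eqL_ofFn, eqR_ofFn, (ZMod.val_injective p).eq_iff, Matrix.ext_iff]

private theorem toL_mul {n m k p : ℕ} [NeZero p] (A : Matrix (Fin n) (Fin m) (ZMod p)) (B : Matrix (Fin m) (Fin k) (ZMod p)) :
    toL (A * B) = mulL p (toL A) (toL B.transpose) := by
  simp only [toL, mulL, mapL_ofFn, dotL_ofFn, Matrix.mul_apply, Matrix.transpose_apply]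
  refine congrArg _ (funext fun i => congrArg _ (funext fun j => ?_))
  rw [show ∀ a, Nat.mod a p = a % p from fun _ => rfl, ← ZMod.val_natCast]
  simp only [Nat.cast_sum, Nat.cast_mul, ZMod.natCast_zmod_val]

private theorem toL_neg {n m p : ℕ} [NeZero p] (A : Matrix (Fin n) (Fin m) (ZMod p)) : toL (-A) = negL p (toL A) := by
  simp only [toL, negL, mapL_ofFn, Matrix.neg_apply, ZMod.neg_val']
  rfl

private noncomputable def nthL {α : Type} (d : α) (l : List α) (k : ℕ) : α :=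
  Nat.rec (motive := fun _ => List α → α) (fun l => List.rec d (fun a _ _ => a) l)
    (fun _ ih l => List.rec d (fun _ t _ => ih t) l) k l

private theorem nthL_ofFn {α : Type} (d : α) {n : ℕ} (f : Fin n → α) (i : Fin n) : nthL d (List.ofFn f) i.val = f i := by
  induction n with
  | zero => exact i.elim0
  | succ n ih =>
    rw [List.ofFn_succ]
    refine Fin.cases rfl (fun i => ?_) i
    exact ih (fun i => f i.succ) i

private theorem ofFn_cons {α : Type} {n : ℕ} (a : α) (s : Fin n → α) : List.ofFn (Matrix.vecCons a s) = a :: List.ofFn s := by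
  rw [List.ofFn_succ]; rfl

private theorem ofFn_nil {α : Type} : List.ofFn (Matrix.vecEmpty : Fin 0 → α) = [] := List.ofFn_zero

private noncomputable def pmb (X Y : List (List ℕ)) : Bool := eqL X Y || eqL X (negL 3 Y)

private theorem pmb_iff (A B : Mat) : pmb (toL A) (toL B) = true ↔ Pm A B := by
  rw [pmb, Bool.or_eq_true, ← toL_neg, ← eq_iffL, ← eq_iffL]; rfl

private theorem cj_of {M N N' : Mat} (h : pmb (mulL 3 (toL M) (toL N.transpose)) (mulL 3 (toL N') (toL M.transpose)) = true) :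
    Cj M N N' := by
  rw [← toL_mul, ← toL_mul] at h; exact (pmb_iff _ _).1 h

private theorem tab_fast {n : ℕ} {ks : List (ZMod 3 × ZMod 3)} {L : Fin (n + 1) → Mat}
    (nx : Fin ks.length → Fin (n + 1) → Fin (n + 1)) (n0 : Fin (n + 1) → Fin (n + 1)) (par : Fin (n + 1) → Fin (n + 1))
    {LL : List Mat} (hL : List.ofFn L = LL) (h0 : L 0 = N0)
    (h : (∀ i : Fin (n + 1), pmb (mulL 3 (toL (1 + N0)) (nthL [] (mapL (fun A => toL A.transpose) LL) i))
      (mulL 3 (nthL [] (mapL toL LL) (n0 i)) (toL (1 + N0).transpose)) = true) ∧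
      (∀ k (i : Fin (n + 1)), pmb (mulL 3 (toL (WM (ks.get k).1 (ks.get k).2)) (nthL [] (mapL (fun A => toL A.transpose) LL) i))
      (mulL 3 (nthL [] (mapL toL LL) (nx k i)) (toL (WM (ks.get k).1 (ks.get k).2).transpose)) = true) ∧
      ∀ i j : Fin (n + 1), pmb (nthL [] (mapL toL LL) i) (nthL [] (mapL toL LL) j) = true → i = j)
    (h4 : ∀ i, i = 0 ∨ (par i < i ∧ (n0 (par i) = i ∨ ∃ k, nx k (par i) = i))) : Tab ks L := by
  subst hL
  simp only [mapL_ofFn, nthL_ofFn] at h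
  exact tab_of_raw nx n0 par h0 (fun i => cj_of (h.1 i)) (fun k i => cj_of (h.2.1 k i))
    (fun i j k => h.2.2 i j ((pmb_iff _ _).2 k)) h4

/-- the points of the configuration 0 -/
def ks0 : List (ZMod 3 × ZMod 3) := [(0, 0)]

/-- the orbit of `± N₀` -/
def L0 : Fin (3 + 1) → Mat := ![
  !![0, 0, 0, 0; 0, 0, 0, 0; 1, 0, 0, 0; 0, 1, 0, 0],
  !![0, 0, 2, 0; 0, 0, 0, 2; 0, 0, 0, 0; 0, 0, 0, 0],
  !![1, 0, 2, 0; 0, 1, 0, 2; 1, 0, 2, 0; 0, 1, 0, 2],
  !![2, 0, 2, 0; 0, 2, 0, 2; 1, 0, 1, 0; 0, 1, 0, 1]]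

theorem tab0 : Tab ks0 L0 :=
  tab_fast
    (![![1, 0, 3, 2]] : Fin 1 → Fin (3 + 1) → Fin (3 + 1))
    ![0, 2, 3, 1]
    ![0, 0, 1, 2]
    (by delta L0; (repeat rewrite [ofFn_cons]); rewrite [ofFn_nil]; rfl) (by decide +kernel) (by decide +kernel) (by decide +kernel)

/-- the points of the configuration 1 -/
def ks1 : List (ZMod 3 × ZMod 3) := [(0, 0), (1, 0), (2, 0)]

/-- the orbit of `± N₀` -/
def L1 : Fin (15 + 1) → Mat := ![
  !![0, 0, 0, 0; 0, 0, 0, 0; 1, 0, 0, 0; 0, 1, 0, 0],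
  !![0, 0, 2, 0; 0, 0, 0, 2; 0, 0, 0, 0; 0, 0, 0, 0],
  !![1, 0, 2, 0; 0, 2, 0, 2; 1, 0, 2, 0; 0, 1, 0, 1],
  !![2, 0, 2, 0; 0, 1, 0, 2; 1, 0, 1, 0; 0, 1, 0, 2],
  !![1, 0, 2, 0; 0, 1, 0, 2; 1, 0, 2, 0; 0, 1, 0, 2],
  !![2, 0, 2, 0; 0, 0, 0, 2; 1, 0, 1, 0; 0, 0, 0, 0],
  !![0, 0, 2, 0; 0, 2, 0, 2; 0, 0, 0, 0; 0, 1, 0, 1],
  !![2, 0, 2, 0; 0, 2, 0, 2; 1, 0, 1, 0; 0, 1, 0, 1],
  !![0, 0, 0, 0; 0, 0, 0, 2; 1, 0, 0, 0; 0, 0, 0, 0],
  !![0, 0, 2, 0; 0, 0, 0, 0; 0, 0, 0, 0; 0, 1, 0, 0],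
  !![0, 0, 2, 0; 0, 1, 0, 2; 0, 0, 0, 0; 0, 1, 0, 2],
  !![1, 0, 2, 0; 0, 0, 0, 0; 1, 0, 2, 0; 0, 1, 0, 0],
  !![0, 0, 0, 0; 0, 2, 0, 2; 1, 0, 0, 0; 0, 1, 0, 1],
  !![1, 0, 2, 0; 0, 0, 0, 2; 1, 0, 2, 0; 0, 0, 0, 0],
  !![0, 0, 0, 0; 0, 1, 0, 2; 1, 0, 0, 0; 0, 1, 0, 2],
  !![2, 0, 2, 0; 0, 0, 0, 0; 1, 0, 1, 0; 0, 1, 0, 0]]

theorem tab1 : Tab ks1 L1 :=
  tab_fast
    (![![1, 0, 3, 2, 7, 11, 14, 4, 9, 8, 12, 5, 10, 15, 6, 13],
      ![2, 3, 0, 1, 8, 10, 15, 9, 4, 7, 5, 12, 11, 14, 13, 6],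
      ![3, 2, 1, 0, 9, 12, 13, 8, 7, 4, 11, 10, 5, 6, 15, 14]] : Fin 3 → Fin (15 + 1) → Fin (15 + 1))
    ![0, 4, 5, 6, 7, 10, 13, 1, 14, 11, 2, 15, 8, 3, 12, 9]
    ![0, 0, 0, 0, 1, 2, 3, 4, 4, 4, 5, 5, 5, 6, 6, 6]
    (by delta L1; (repeat rewrite [ofFn_cons]); rewrite [ofFn_nil]; rfl) (by decide +kernel) (by decide +kernel) (by decide +kernel)

/-- the points of the configuration 2 -/
def ks2 : List (ZMod 3 × ZMod 3) := [(0, 0), (0, 1), (0, 2)]

/-- the orbit of `± N₀` -/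
def L2 : Fin (15 + 1) → Mat := ![
  !![0, 0, 0, 0; 0, 0, 0, 0; 1, 0, 0, 0; 0, 1, 0, 0],
  !![0, 0, 2, 0; 0, 0, 0, 2; 0, 0, 0, 0; 0, 0, 0, 0],
  !![0, 1, 2, 0; 1, 0, 0, 2; 1, 0, 0, 2; 0, 1, 2, 0],
  !![0, 2, 2, 0; 2, 0, 0, 2; 1, 0, 0, 1; 0, 1, 1, 0],
  !![1, 0, 2, 0; 0, 1, 0, 2; 1, 0, 2, 0; 0, 1, 0, 2],
  !![1, 1, 2, 0; 1, 1, 0, 2; 2, 2, 2, 2; 2, 2, 2, 2],
  !![1, 2, 2, 0; 2, 1, 0, 2; 2, 1, 2, 1; 1, 2, 1, 2],
  !![2, 0, 2, 0; 0, 2, 0, 2; 1, 0, 1, 0; 0, 1, 0, 1],
  !![0, 0, 1, 2; 0, 0, 2, 1; 2, 2, 0, 0; 2, 2, 0, 0],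
  !![0, 0, 1, 1; 0, 0, 1, 1; 2, 1, 0, 0; 1, 2, 0, 0],
  !![2, 1, 2, 0; 1, 2, 0, 2; 2, 1, 1, 2; 1, 2, 2, 1],
  !![2, 2, 1, 1; 2, 2, 1, 1; 1, 0, 1, 1; 0, 1, 1, 1],
  !![1, 2, 1, 2; 2, 1, 2, 1; 1, 0, 2, 1; 0, 1, 1, 2],
  !![2, 2, 2, 0; 2, 2, 0, 2; 2, 2, 1, 1; 2, 2, 1, 1],
  !![2, 1, 1, 2; 1, 2, 2, 1; 1, 0, 1, 2; 0, 1, 2, 1],
  !![1, 1, 1, 1; 1, 1, 1, 1; 1, 0, 2, 2; 0, 1, 2, 2]]

theorem tab2 : Tab ks2 L2 :=
  tab_fast
    (![![1, 0, 3, 2, 7, 11, 14, 4, 9, 8, 12, 5, 10, 15, 6, 13],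
      ![2, 3, 0, 1, 8, 10, 15, 9, 4, 7, 5, 12, 11, 14, 13, 6],
      ![3, 2, 1, 0, 9, 12, 13, 8, 7, 4, 11, 10, 5, 6, 15, 14]] : Fin 3 → Fin (15 + 1) → Fin (15 + 1))
    ![0, 4, 5, 6, 7, 10, 13, 1, 14, 11, 2, 15, 8, 3, 12, 9]
    ![0, 0, 0, 0, 1, 2, 3, 4, 4, 4, 5, 5, 5, 6, 6, 6]
    (by delta L2; (repeat rewrite [ofFn_cons]); rewrite [ofFn_nil]; rfl) (by decide +kernel) (by decide +kernel) (by decide +kernel)

/-- the points of the configuration 3 -/
def ks3 : List (ZMod 3 × ZMod 3) := [(1, 1), (2, 2)]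

/-- the orbit of `± N₀` -/
def L3 : Fin (9 + 1) → Mat := ![
  !![0, 0, 0, 0; 0, 0, 0, 0; 1, 0, 0, 0; 0, 1, 0, 0],
  !![1, 1, 2, 0; 1, 2, 0, 2; 2, 0, 2, 2; 0, 2, 2, 1],
  !![2, 2, 2, 0; 2, 1, 0, 2; 2, 0, 1, 1; 0, 2, 1, 2],
  !![2, 1, 2, 0; 1, 0, 0, 2; 2, 2, 1, 2; 2, 1, 2, 0],
  !![0, 2, 2, 0; 2, 2, 0, 2; 1, 1, 0, 1; 1, 2, 1, 1],
  !![0, 1, 2, 0; 1, 1, 0, 2; 1, 1, 0, 2; 1, 2, 2, 2],
  !![1, 1, 2, 2; 1, 2, 2, 1; 1, 1, 2, 2; 1, 2, 2, 1],
  !![1, 2, 2, 0; 2, 0, 0, 2; 2, 2, 2, 1; 2, 1, 1, 0],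
  !![1, 1, 1, 1; 1, 2, 1, 2; 2, 2, 2, 2; 2, 1, 2, 1],
  !![0, 0, 1, 1; 0, 0, 1, 2; 0, 0, 0, 0; 0, 0, 0, 0]]

theorem tab3 : Tab ks3 L3 :=
  tab_fast
    (![![1, 0, 2, 5, 6, 3, 4, 8, 7, 9],
      ![2, 1, 0, 6, 7, 8, 3, 4, 5, 9]] : Fin 2 → Fin (9 + 1) → Fin (9 + 1))
    ![0, 3, 4, 5, 7, 1, 8, 2, 9, 6]
    ![0, 0, 0, 1, 2, 3, 3, 4, 5, 8]
    (by delta L3; (repeat rewrite [ofFn_cons]); rewrite [ofFn_nil]; rfl) (by decide +kernel) (by decide +kernel) (by decide +kernel)

/-- the points of the configuration 4 -/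
def ks4 : List (ZMod 3 × ZMod 3) := [(1, 2), (2, 1)]

/-- the orbit of `± N₀` -/
def L4 : Fin (9 + 1) → Mat := ![
  !![0, 0, 0, 0; 0, 0, 0, 0; 1, 0, 0, 0; 0, 1, 0, 0],
  !![1, 2, 2, 0; 2, 2, 0, 2; 2, 0, 2, 1; 0, 2, 1, 1],
  !![2, 1, 2, 0; 1, 1, 0, 2; 2, 0, 1, 2; 0, 2, 2, 2],
  !![2, 2, 2, 0; 2, 0, 0, 2; 2, 1, 1, 1; 1, 1, 1, 0],
  !![0, 1, 2, 0; 1, 2, 0, 2; 1, 2, 0, 2; 2, 2, 2, 1],
  !![0, 2, 2, 0; 2, 1, 0, 2; 1, 2, 0, 1; 2, 2, 1, 2],
  !![1, 2, 2, 1; 2, 2, 1, 1; 1, 2, 2, 1; 2, 2, 1, 1],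
  !![1, 1, 2, 0; 1, 0, 0, 2; 2, 1, 2, 2; 1, 1, 2, 0],
  !![1, 2, 1, 2; 2, 2, 2, 2; 2, 1, 2, 1; 1, 1, 1, 1],
  !![0, 0, 1, 2; 0, 0, 2, 2; 0, 0, 0, 0; 0, 0, 0, 0]]

theorem tab4 : Tab ks4 L4 :=
  tab_fast
    (![![1, 0, 2, 5, 6, 3, 4, 8, 7, 9],
      ![2, 1, 0, 6, 7, 8, 3, 4, 5, 9]] : Fin 2 → Fin (9 + 1) → Fin (9 + 1))
    ![0, 3, 4, 5, 7, 1, 8, 2, 9, 6]
    ![0, 0, 0, 1, 2, 3, 3, 4, 5, 8]
    (by delta L4; (repeat rewrite [ofFn_cons]); rewrite [ofFn_nil]; rfl) (by decide +kernel) (by decide +kernel) (by decide +kernel)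

/-- the points of the configuration 5 -/
def ks5 : List (ZMod 3 × ZMod 3) := [(0, 0), (1, 0), (2, 0), (0, 1), (0, 2)]

/-- the orbit of `± N₀` -/
def L5 : Fin (39 + 1) → Mat := ![
  !![0, 0, 0, 0; 0, 0, 0, 0; 1, 0, 0, 0; 0, 1, 0, 0],
  !![0, 0, 2, 0; 0, 0, 0, 2; 0, 0, 0, 0; 0, 0, 0, 0],
  !![1, 0, 2, 0; 0, 2, 0, 2; 1, 0, 2, 0; 0, 1, 0, 1],
  !![2, 0, 2, 0; 0, 1, 0, 2; 1, 0, 1, 0; 0, 1, 0, 2],
  !![0, 1, 2, 0; 1, 0, 0, 2; 1, 0, 0, 2; 0, 1, 2, 0],
  !![0, 2, 2, 0; 2, 0, 0, 2; 1, 0, 0, 1; 0, 1, 1, 0],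
  !![1, 0, 2, 0; 0, 1, 0, 2; 1, 0, 2, 0; 0, 1, 0, 2],
  !![2, 0, 2, 0; 0, 0, 0, 2; 1, 0, 1, 0; 0, 0, 0, 0],
  !![0, 0, 2, 0; 0, 2, 0, 2; 0, 0, 0, 0; 0, 1, 0, 1],
  !![1, 1, 2, 0; 1, 1, 0, 2; 2, 2, 2, 2; 2, 2, 2, 2],
  !![1, 2, 2, 0; 2, 1, 0, 2; 2, 1, 2, 1; 1, 2, 1, 2],
  !![2, 0, 2, 0; 0, 2, 0, 2; 1, 0, 1, 0; 0, 1, 0, 1],
  !![0, 0, 0, 0; 0, 0, 0, 2; 1, 0, 0, 0; 0, 0, 0, 0],
  !![0, 0, 2, 0; 0, 0, 0, 0; 0, 0, 0, 0; 0, 1, 0, 0],
  !![0, 0, 1, 2; 0, 0, 2, 1; 2, 2, 0, 0; 2, 2, 0, 0],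
  !![0, 0, 1, 1; 0, 0, 1, 1; 2, 1, 0, 0; 1, 2, 0, 0],
  !![0, 0, 2, 0; 0, 1, 0, 2; 0, 0, 0, 0; 0, 1, 0, 2],
  !![1, 0, 2, 0; 0, 0, 0, 0; 1, 0, 2, 0; 0, 1, 0, 0],
  !![0, 0, 0, 0; 0, 2, 0, 2; 1, 0, 0, 0; 0, 1, 0, 1],
  !![2, 0, 1, 2; 2, 1, 2, 2; 1, 2, 1, 1; 2, 2, 0, 2],
  !![2, 0, 1, 1; 1, 1, 1, 2; 1, 1, 1, 2; 1, 2, 0, 2],
  !![1, 0, 2, 0; 0, 0, 0, 2; 1, 0, 2, 0; 0, 0, 0, 0],
  !![0, 0, 0, 0; 0, 1, 0, 2; 1, 0, 0, 0; 0, 1, 0, 2],
  !![2, 0, 2, 0; 0, 0, 0, 0; 1, 0, 1, 0; 0, 1, 0, 0],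
  !![1, 2, 2, 2; 0, 2, 2, 1; 2, 2, 2, 0; 2, 1, 1, 1],
  !![1, 1, 2, 1; 0, 2, 1, 1; 2, 1, 2, 0; 1, 1, 2, 1],
  !![2, 1, 2, 0; 1, 2, 0, 2; 2, 1, 1, 2; 1, 2, 2, 1],
  !![2, 2, 1, 1; 2, 2, 1, 1; 1, 0, 1, 1; 0, 1, 1, 1],
  !![1, 2, 1, 2; 2, 1, 2, 1; 1, 0, 2, 1; 0, 1, 1, 2],
  !![2, 2, 2, 0; 2, 2, 0, 2; 2, 2, 1, 1; 2, 2, 1, 1],
  !![2, 1, 1, 2; 1, 2, 2, 1; 1, 0, 1, 2; 0, 1, 2, 1],
  !![1, 1, 1, 1; 1, 1, 1, 1; 1, 0, 2, 2; 0, 1, 2, 2],
  !![2, 2, 2, 1; 0, 1, 1, 1; 2, 1, 1, 0; 1, 1, 1, 2],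
  !![2, 1, 2, 2; 0, 1, 2, 1; 2, 2, 1, 0; 2, 1, 2, 2],
  !![1, 0, 1, 2; 1, 2, 2, 2; 1, 2, 2, 2; 2, 2, 0, 1],
  !![1, 0, 1, 1; 2, 2, 1, 2; 1, 1, 2, 1; 1, 2, 0, 1],
  !![0, 1, 2, 1; 2, 0, 1, 1; 1, 2, 0, 1; 2, 2, 2, 0],
  !![0, 2, 2, 2; 1, 0, 2, 1; 1, 1, 0, 2; 1, 2, 1, 0],
  !![0, 1, 1, 2; 2, 0, 2, 2; 2, 1, 0, 1; 1, 1, 2, 0],
  !![0, 2, 1, 1; 1, 0, 1, 2; 2, 2, 0, 2; 2, 1, 1, 0]]

theorem tab5 : Tab ks5 L5 :=
  tab_fast
    (![![1, 0, 3, 2, 5, 4, 11, 17, 22, 27, 30, 6, 13, 12, 15, 14, 18, 7, 16, 25, 24, 23, 8, 21, 20, 19, 28, 9, 26, 31, 10, 29, 34, 35, 32, 33, 36, 37, 38, 39],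
      ![2, 3, 0, 1, 4, 5, 12, 16, 23, 19, 20, 13, 6, 11, 15, 14, 7, 18, 17, 9, 10, 22, 21, 8, 30, 27, 32, 25, 34, 33, 24, 35, 26, 29, 28, 31, 36, 37, 39, 38],
      ![3, 2, 1, 0, 4, 5, 13, 18, 21, 24, 25, 12, 11, 6, 15, 14, 17, 16, 7, 30, 27, 8, 23, 22, 9, 10, 35, 20, 33, 34, 19, 32, 31, 28, 29, 26, 37, 36, 38, 39],
      ![4, 5, 2, 3, 0, 1, 14, 19, 24, 26, 31, 15, 13, 12, 6, 11, 32, 25, 34, 7, 22, 35, 20, 33, 8, 17, 9, 28, 27, 30, 29, 10, 16, 23, 18, 21, 36, 38, 37, 39],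
      ![5, 4, 2, 3, 1, 0, 15, 20, 25, 28, 29, 14, 13, 12, 11, 6, 33, 24, 35, 22, 7, 34, 19, 32, 17, 8, 27, 26, 9, 10, 31, 30, 23, 16, 21, 18, 39, 37, 38, 36]] : Fin 5 → Fin (39 + 1) → Fin (39 + 1))
    ![0, 6, 7, 8, 9, 10, 11, 16, 21, 26, 29, 1, 22, 17, 30, 27, 2, 23, 12, 32, 33, 3, 18, 13, 35, 34, 4, 31, 14, 5, 28, 15, 36, 37, 38, 39, 19, 20, 25, 24]
    ![0, 0, 0, 0, 0, 0, 1, 2, 3, 4, 5, 6, 6, 6, 6, 6, 7, 7, 7, 7, 7, 8, 8, 8, 8, 8, 9, 9, 9, 10, 10, 10, 16, 16, 18, 18, 32, 33, 34, 35]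
    (by delta L5; (repeat rewrite [ofFn_cons]); rewrite [ofFn_nil]; rfl) (by decide +kernel) (by decide +kernel) (by decide +kernel)

section
variable {K : Type u} [Field K] [StarRing K] [CharP K 3] {ι : K}

theorem el00 : el ι 0 0 = 0 := by simp [el]
theorem el10 : el ι 1 0 = 1 := by simp [el]
theorem el01 : el ι 0 1 = ι := by simp [el]
theorem el11 : el ι 1 1 = 1 + ι := by simp [el]
theorem cs_two : cs K 2 = -1 := by
  have h : (2 : ZMod 3) = -1 := by decide
  rw [h, map_neg, map_one]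
theorem el20 : el ι 2 0 = -1 := by unfold el; rw [cs_two, map_zero]; ring
theorem el02 : el ι 0 2 = -ι := by unfold el; rw [cs_two, map_zero]; ring
theorem el22 : el ι 2 2 = -(1 + ι) := by unfold el; rw [cs_two]; ring
theorem el12 : el ι 1 2 = 1 - ι := by unfold el; rw [cs_two, map_one]; ring
theorem el21 : el ι 2 1 = -(1 - ι) := by unfold el; rw [cs_two, map_one]; ring

end

/-- **(3N)** -/
theorem stThreeN (hG : StGrp.{u}) : StThreeN.{u} := by
  intro K _ _ p n hK hq ι hι Γ D hpar _ T hP hE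
  have hp : p = 3 := by
    have h1 : p ∣ 3 := by
      rw [← hq]
      exact dvd_pow_self p (Nat.one_le_iff_ne_zero.1 hK.hn)
    exact (Nat.prime_dvd_prime_iff_eq hK.pp Nat.prime_three).1 h1
  subst hp
  obtain ⟨hc, -, -, hT, -⟩ := hG hK
  have hchar : CharP K 3 := hK.char
  have h9 : F9 ι :=
    { fin := hK.fin
      card := by rw [hK.card, hq]; norm_num
      st := fun x => by rw [hK.star_eq, hq]
      sq := hι }
  have h729 : Nat.card (PG K) = 729 := by rw [hc, hq]; norm_num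
  have key : ∀ {m : ℕ} {ks : List (ZMod 3 × ZMod 3)} {L : Fin m → Mat}, Tab ks L →
      (∀ x : K, x ∈ Pt Γ ↔ ∃ κ ∈ ks, x = el ι κ.1 κ.2) → Nat.card Γ = m * (243 * Nat.card D) :=
    fun ht h => card_Gamma h9 h729 hT hpar hE ht h
  rw [hP] at key
  have k0 : T = 0 → Nat.card Γ = 4 * (243 * Nat.card D) := by
    rintro rfl
    refine key tab0 fun x => ?_
    simp only [ks0, List.mem_cons, List.not_mem_nil, or_false, exists_eq_or_imp, exists_eq_left, el00]
    rfl
  have k1 : T = 1 → Nat.card Γ = 16 * (243 * Nat.card D) := by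
    rintro rfl
    refine key tab1 fun x => ?_
    simp only [ks1, List.mem_cons, List.not_mem_nil, or_false, exists_eq_or_imp, exists_eq_left, el00, el10, el20]
    rfl
  have k2 : T = 2 → Nat.card Γ = 16 * (243 * Nat.card D) := by
    rintro rfl
    refine key tab2 fun x => ?_
    simp only [ks2, List.mem_cons, List.not_mem_nil, or_false, exists_eq_or_imp, exists_eq_left, el00, el01, el02]
    rfl
  have k3 : T = 3 → Nat.card Γ = 10 * (243 * Nat.card D) := by
    rintro rfl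
    refine key tab3 fun x => ?_
    simp only [ks3, List.mem_cons, List.not_mem_nil, or_false, exists_eq_or_imp, exists_eq_left, el11, el22]
    rfl
  have k4 : T = 4 → Nat.card Γ = 10 * (243 * Nat.card D) := by
    rintro rfl
    refine key tab4 fun x => ?_
    simp only [ks4, List.mem_cons, List.not_mem_nil, or_false, exists_eq_or_imp, exists_eq_left, el12, el21]
    rfl
  have k5 : T = 5 → Nat.card Γ = 40 * (243 * Nat.card D) := by
    rintro rfl
    refine key tab5 fun x => ?_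
    simp only [ks5, List.mem_cons, List.not_mem_nil, or_false, exists_eq_or_imp, exists_eq_left, el00, el10, el20, el01, el02]
    rfl
  refine ⟨fun h => ?_, fun h => ?_, fun h => ?_, fun h => ?_⟩
  · rw [k0 h]; ring
  · rcases h with h | h
    · rw [k1 h]; ring
    · rw [k2 h]; ring
  · rcases h with h | h
    · rw [k3 h]; ring
    · rw [k4 h]; ring
  · rw [k5 h]; ring

end Cfsg.Agent.H753.P4
end

-- part: H898/P4/ThreeB
section
/-!
# S5210, (3B): the third point, `q = 3`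

`n` is the Weyl element on `Q`, `s` the restriction of `ε_v`, `x` the conjugation by `(0, 0, 0, 1)`. Then
`s⁻¹ n s = x n x⁻¹ (s n s⁻¹) x⁻¹ n⁻¹ x` if `v v* = 1`, and `s = n (s⁻¹ n s) (s n s⁻¹) n⁻¹` if `v v* = -1`.
-/

set_option autoImplicit false

namespace Cfsg.Agent.H898.P4

open Cfsg Cfsg.FusionSystem
open Cfsg.Agent.H756.PU (HypK)
open Cfsg.Agent.H776.P4

universe u

section
variable {K : Type u} [Field K] [StarRing K]

/-- the restriction of `ε_κ` to `Q` -/
structure IsEpQ (κ : K) (t : MulAut (PQ K)) : Prop where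
  r : ∀ e : PQ K, ((t e : PQ K) : PG K).r = (e : PG K).r
  a : ∀ e : PQ K, ((t e : PQ K) : PG K).a =
    (e : PG K).a - (star κ * ((e : PG K).r * (e : PG K).r) + κ * star ((e : PG K).r * (e : PG K).r))
  b : ∀ e : PQ K, ((t e : PQ K) : PG K).b = (e : PG K).b + κ * star (e : PG K).r

/-- conjugation by `(0, 0, 0, c)` -/
structure IsXc (c : K) (x : MulAut (PQ K)) : Prop where
  r : ∀ e : PQ K, ((x e : PQ K) : PG K).r = (e : PG K).r
  a : ∀ e : PQ K, ((x e : PQ K) : PG K).a = (e : PG K).a - c * ((e : PG K).r * star (e : PG K).r)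
  b : ∀ e : PQ K, ((x e : PQ K) : PG K).b = (e : PG K).b - c * (e : PG K).r

/-- the inverse of the Weyl element -/
structure IsWi (γ : MulAut (PQ K)) : Prop where
  r : ∀ e : PQ K, ((γ e : PQ K) : PG K).r = - (e : PG K).b
  a : ∀ e : PQ K, ((γ e : PQ K) : PG K).a =
    (e : PG K).a - ((e : PG K).r * star (e : PG K).b + star (e : PG K).r * (e : PG K).b)
  b : ∀ e : PQ K, ((γ e : PQ K) : PG K).b = (e : PG K).r

theorem pq_ext {e f : PQ K} (hr : (e : PG K).r = (f : PG K).r) (ha : (e : PG K).a = (f : PG K).a)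
    (hb : (e : PG K).b = (f : PG K).b) : e = f :=
  Subtype.ext (PG.ext hr ha hb ((show (e : PG K).c = 0 from e.2).trans (show (f : PG K).c = 0 from f.2).symm))

theorem aut_ext {γ δ : MulAut (PQ K)} (hr : ∀ e, ((γ e : PQ K) : PG K).r = ((δ e : PQ K) : PG K).r)
    (ha : ∀ e, ((γ e : PQ K) : PG K).a = ((δ e : PQ K) : PG K).a)
    (hb : ∀ e, ((γ e : PQ K) : PG K).b = ((δ e : PQ K) : PG K).b) : γ = δ :=
  MulEquiv.ext fun e => pq_ext (hr e) (ha e) (hb e)

theorem isEpQ_of {κ : K} {ε : MulAut (PG K)} (hε : IsEp κ ε) {t : MulAut (PQ K)} (ht : IsRP ε t) : IsEpQ κ t :=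
  ⟨fun e => by rw [ht e, hε.r], fun e => by rw [ht e, hε.a], fun e => by rw [ht e, hε.b]⟩

theorem IsEpQ.eq {κ : K} {s t : MulAut (PQ K)} (hs : IsEpQ κ s) (ht : IsEpQ κ t) : s = t :=
  aut_ext (fun e => by rw [hs.r, ht.r]) (fun e => by rw [hs.a, ht.a]) (fun e => by rw [hs.b, ht.b])

theorem IsEpQ.inv {κ : K} {s : MulAut (PQ K)} (hs : IsEpQ κ s) : IsEpQ (-κ) s⁻¹ := by
  have key : ∀ e, s (s⁻¹ e) = e := fun e => MulAut.apply_inv_self _ s e
  have hr : ∀ e : PQ K, ((s⁻¹ e : PQ K) : PG K).r = (e : PG K).r := fun e => by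
    have h := hs.r (s⁻¹ e)
    rw [key] at h
    exact h.symm
  refine ⟨hr, fun e => ?_, fun e => ?_⟩
  · have h := hs.a (s⁻¹ e)
    rw [key, hr] at h
    rw [h, star_neg]
    ring
  · have h := hs.b (s⁻¹ e)
    rw [key, hr] at h
    rw [h]
    ring

theorem IsEpQ.mul {κ μ : K} {s t : MulAut (PQ K)} (hs : IsEpQ κ s) (ht : IsEpQ μ t) : IsEpQ (κ + μ) (s * t) := by
  refine ⟨fun e => ?_, fun e => ?_, fun e => ?_⟩
  · rw [MulAut.mul_apply, hs.r, ht.r]
  · rw [MulAut.mul_apply, hs.a, ht.r, ht.a, star_add]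
    ring
  · rw [MulAut.mul_apply, hs.b, ht.r, ht.b]
    ring

theorem IsEpQ.comm {κ μ : K} {s t : MulAut (PQ K)} (hs : IsEpQ κ s) (ht : IsEpQ μ t) : s * t = t * s := by
  have h := ht.mul hs
  rw [add_comm] at h
  exact (hs.mul ht).eq h

theorem isEpQ_one : IsEpQ (0 : K) 1 :=
  ⟨fun e => rfl, fun e => by simp only [_root_.MulAut.one_apply, _root_.star_zero, _root_.MulZeroClass.zero_mul, _root_.star_mul', _root_.add_zero, _root_.sub_zero], fun e => by simp only [_root_.MulAut.one_apply, _root_.MulZeroClass.zero_mul, _root_.add_zero]⟩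

theorem IsEpQ.pow {κ : K} {s : MulAut (PQ K)} (hs : IsEpQ κ s) (n : ℕ) : IsEpQ ((n : K) * κ) (s ^ n) := by
  induction n with
  | zero => simpa using isEpQ_one
  | succ n ih =>
    have h := ih.mul hs
    rw [pow_succ]
    have e : (n : K) * κ + κ = ((n + 1 : ℕ) : K) * κ := by push_cast; ring
    rwa [e] at h

theorem isWi_inv {n : MulAut (PQ K)} (hn : IsWQ n) : IsWi n⁻¹ := by
  have key : ∀ e, n (n⁻¹ e) = e := fun e => MulAut.apply_inv_self _ n e
  have hb : ∀ e : PQ K, ((n⁻¹ e : PQ K) : PG K).b = (e : PG K).r := fun e => by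
    have h := hn.r (n⁻¹ e)
    rw [key] at h
    exact h.symm
  have hr : ∀ e : PQ K, ((n⁻¹ e : PQ K) : PG K).r = - (e : PG K).b := fun e => by
    have h := hn.b (n⁻¹ e)
    rw [key] at h
    rw [h, neg_neg]
  refine ⟨hr, fun e => ?_, hb⟩
  have h := hn.a (n⁻¹ e)
  rw [key, hr, hb, star_neg] at h
  rw [h]
  ring

theorem IsWQ.eq' {n m : MulAut (PQ K)} (hn : IsWQ n) (hm : IsWQ m) : n = m :=
  aut_ext (fun e => by rw [hn.r, hm.r]) (fun e => by rw [hn.a, hm.a]) (fun e => by rw [hn.b, hm.b])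

/-- `ε_κ` commutes with the conjugations by `(0, 0, 0, c)` -/
theorem IsEpQ.comm_x {κ c : K} {s x : MulAut (PQ K)} (hs : IsEpQ κ s) (hx : IsXc c x) : s * x = x * s := by
  refine aut_ext (fun e => ?_) (fun e => ?_) (fun e => ?_)
  · rw [MulAut.mul_apply, MulAut.mul_apply, hs.r, hx.r, hx.r, hs.r]
  · rw [MulAut.mul_apply, MulAut.mul_apply, hs.a, hx.r, hx.a, hx.a, hs.r, hs.a]
    ring
  · rw [MulAut.mul_apply, MulAut.mul_apply, hs.b, hx.r, hx.b, hx.b, hs.r, hs.b]
    ring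

theorem IsXc.inv {c : K} {x : MulAut (PQ K)} (hx : IsXc c x) : IsXc (-c) x⁻¹ := by
  have key : ∀ e, x (x⁻¹ e) = e := fun e => MulAut.apply_inv_self _ x e
  have hr : ∀ e : PQ K, ((x⁻¹ e : PQ K) : PG K).r = (e : PG K).r := fun e => by
    have h := hx.r (x⁻¹ e)
    rw [key] at h
    exact h.symm
  refine ⟨hr, fun e => ?_, fun e => ?_⟩
  · have h := hx.a (x⁻¹ e)
    rw [key, hr] at h
    rw [h]
    ring
  · have h := hx.b (x⁻¹ e)
    rw [key, hr] at h
    rw [h]
    ring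

/-- the third point, `v v* = 1` -/
theorem word_one {v : K} (hv : v * star v = 1) (h3 : (3 : K) = 0) {n s x : MulAut (PQ K)} (hn : IsWQ n)
    (hs : IsEpQ v s) (hx : IsXc 1 x) :
    s⁻¹ * n * s = x * n * x⁻¹ * (s * n * s⁻¹) * x⁻¹ * n⁻¹ * x := by
  have hi := hs.inv
  have hxi := hx.inv
  have hw := isWi_inv hn
  refine aut_ext (fun e => ?_) (fun e => ?_) (fun e => ?_)
  all_goals
    simp only [MulAut.mul_apply, hn.r, hn.a, hn.b, hs.r, hs.a, hs.b, hi.r, hi.a, hi.b, hx.r, hx.a, hx.b, hxi.r, hxi.a, hxi.b,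
      hw.r, hw.a, hw.b, star_add, star_sub, star_mul', star_neg, star_star, star_one]
    generalize (e : PG K).r = r
    generalize (e : PG K).b = b
    generalize (e : PG K).a = a
  · linear_combination ((-1)*b + (1)*r) * hv +
        (0) * h3
  · linear_combination ((2)*star b*star b*v + (-6)*b*star b + (1)*b*star b*v*star v + (2)*b*b*star v
        + (-3)*star r*star b*v + (13)*star r*b + (-1)*star r*b*v*star v + (2)*star r*star r*v
        + (13)*r*star b + (-1)*r*star b*v*star v + (-3)*r*b*star v + (-15)*r*star r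
        + (1)*r*star r*v*star v + (2)*r*r*star v) * hv +
        ((1)*star b*star b*v + (-2)*b*star b + (1)*b*b*star v + (-2)*star r*star b*v + (4)*star r*b
        + (2)*star r*star r*v + (4)*r*star b + (-2)*r*b*star v + (-4)*r*star r + (2)*r*r*star v) * h3
  · linear_combination ((1)*b + (-2)*r) * hv +
        (0) * h3

/-- `ε_v` is a word if `v v* = -1` -/
theorem word_neg_one {v : K} (hv : v * star v = -1) (h3 : (3 : K) = 0) {n s : MulAut (PQ K)} (hn : IsWQ n)
    (hs : IsEpQ v s) : s = n * (s⁻¹ * n * s) * (s * n * s⁻¹) * n⁻¹ := by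
  have hi := hs.inv
  have hw := isWi_inv hn
  refine aut_ext (fun e => ?_) (fun e => ?_) (fun e => ?_)
  all_goals
    simp only [MulAut.mul_apply, hn.r, hn.a, hn.b, hs.r, hs.a, hs.b, hi.r, hi.a, hi.b,
      hw.r, hw.a, hw.b, star_add, star_mul', star_neg, star_star]
    generalize (e : PG K).r = r
    generalize (e : PG K).b = b
    generalize (e : PG K).a = a
  · linear_combination ((2)*star b*v + (2)*r) * hv +
        (0) * h3
  · linear_combination ((2)*star b*star b*v + (-8)*star b*star b*v*v*star v + (2)*b*b*star v + (-8)*b*b*v*star v*star v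
        + (12)*star r*b + (-16)*star r*b*v*star v + (-8)*star r*star r*v + (12)*r*star b
        + (-16)*r*star b*v*star v + (-8)*r*r*star v) * hv +
        ((-2)*star b*star b*v + (-2)*b*b*star v + (-4)*star r*b + (3)*star r*star r*v + (-4)*r*star b
        + (3)*r*r*star v) * h3
  · linear_combination ((2)*b) * hv +
        ((1)*star r*v) * h3

/-! ### Conjugations and restrictions -/

theorem conj_mem (g : PG K) {e : PG K} (he : e ∈ PQ K) : g * e * g⁻¹ ∈ PQ K := by
  have h : e.c = 0 := he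
  show (g * e * g⁻¹).c = 0
  simp [h]

/-- conjugation by `g` on `Q` -/
def cj (g : PG K) : MulAut (PQ K) where
  toFun e := ⟨g * e * g⁻¹, conj_mem g e.2⟩
  invFun e := ⟨g⁻¹ * e * g, by simpa using conj_mem g⁻¹ e.2⟩
  left_inv e := Subtype.ext (by simp [mul_assoc])
  right_inv e := Subtype.ext (by simp [mul_assoc])
  map_mul' e f := Subtype.ext (by simp only [mul_assoc, _root_.Subgroup.coe_mul, _root_.MulMemClass.mk_mul_mk, _root_.inv_mul_cancel_left])

theorem cj_mem (g : PG K) : cj g ∈ autInducedBy ⊤ (PQ K) :=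
  Subgroup.subset_closure ⟨g, Subgroup.mem_top _, fun _ => rfl⟩

theorem mem_A {γ : MulAut (PQ K)} : γ ∈ autInducedBy ⊤ (PQ K) ↔ ∃ g : PG K, γ = cj g := by
  rw [Cfsg.Agent.H802.mem_autInducedBy_iff]
  constructor
  · rintro ⟨g, -, hg⟩
    exact ⟨g, MulEquiv.ext fun e => Subtype.ext (hg e)⟩
  · rintro ⟨g, rfl⟩
    exact ⟨g, Subgroup.mem_top _, fun _ => rfl⟩

theorem cj_mul (g h : PG K) : cj (g * h) = cj g * cj h :=
  MulEquiv.ext fun e => Subtype.ext (by
    rw [MulAut.mul_apply]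
    show g * h * (e : PG K) * (g * h)⁻¹ = g * (h * e * h⁻¹) * g⁻¹
    group)

theorem cj_one : cj (1 : PG K) = 1 :=
  MulEquiv.ext fun e => Subtype.ext (by
    show (1 : PG K) * (e : PG K) * 1⁻¹ = e
    simp)

theorem cj_pow (g : PG K) (n : ℕ) : cj (g ^ n) = cj g ^ n := by
  induction n with
  | zero => simp [cj_one]
  | succ n ih => rw [pow_succ, pow_succ, cj_mul, ih]

theorem isXc_cj (c : K) (hc : star c = c) : IsXc c (cj ⟨0, 0, 0, c, star_zero K, hc⟩) := by
  refine ⟨fun e => ?_, fun e => ?_, fun e => ?_⟩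
  · show ((⟨0, 0, 0, c, star_zero K, hc⟩ : PG K) * e * (⟨0, 0, 0, c, star_zero K, hc⟩ : PG K)⁻¹).r = _
    simp
  · show ((⟨0, 0, 0, c, star_zero K, hc⟩ : PG K) * e * (⟨0, 0, 0, c, star_zero K, hc⟩ : PG K)⁻¹).a = _
    simp only [PG.mul_a, PG.inv_a, PG.inv_b, PG.inv_c, PG.mul_r, star_zero, star_add, star_neg, star_mul']
    ring
  · show ((⟨0, 0, 0, c, star_zero K, hc⟩ : PG K) * e * (⟨0, 0, 0, c, star_zero K, hc⟩ : PG K)⁻¹).b = _
    simp only [PG.mul_b, PG.inv_b, PG.inv_c, PG.mul_r]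
    ring

theorem cj_b (g : PG K) (e : PQ K) : ((cj g e : PQ K) : PG K).b = (e : PG K).b - g.c * (e : PG K).r := by
  have h : (e : PG K).c = 0 := e.2
  show (g * (e : PG K) * g⁻¹).b = _
  simp only [PG.mul_b, PG.inv_b, PG.inv_c, PG.mul_r, h]
  ring

theorem isRP_mul {α β : MulAut (PG K)} {γ δ : MulAut (PQ K)} (h : IsRP α γ) (h' : IsRP β δ) : IsRP (α * β) (γ * δ) :=
  fun e => by rw [MulAut.mul_apply, MulAut.mul_apply, h, h']

theorem isRP_inv {α : MulAut (PG K)} {γ : MulAut (PQ K)} (h : IsRP α γ) : IsRP α⁻¹ γ⁻¹ := fun e => by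
  have h1 := h (γ⁻¹ e)
  rw [MulAut.apply_inv_self] at h1
  rw [h1, MulAut.inv_apply_self]

theorem conj_cj {ε : MulAut (PG K)} {s : MulAut (PQ K)} (h : IsRP ε s) (g : PG K) : s * cj g * s⁻¹ = cj (ε g) :=
  MulEquiv.ext fun e => Subtype.ext (by
    rw [MulAut.mul_apply, MulAut.mul_apply, h]
    show ε (g * ((s⁻¹ e : PQ K) : PG K) * g⁻¹) = ε g * e * (ε g)⁻¹
    rw [isRP_inv h, map_mul, map_mul, map_inv, MulAut.apply_inv_self])

theorem conj_mem_A {ε : MulAut (PG K)} {s : MulAut (PQ K)} (h : IsRP ε s) {γ : MulAut (PQ K)}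
    (hγ : γ ∈ autInducedBy ⊤ (PQ K)) : s * γ * s⁻¹ ∈ autInducedBy ⊤ (PQ K) := by
  obtain ⟨g, rfl⟩ := mem_A.1 hγ
  rw [conj_cj h]
  exact cj_mem _

theorem mem_normalizer_A {ε : MulAut (PG K)} {s : MulAut (PQ K)} (h : IsRP ε s) :
    s ∈ Subgroup.normalizer ((autInducedBy ⊤ (PQ K) : Subgroup (MulAut (PQ K))) : Set (MulAut (PQ K))) := by
  rw [Subgroup.mem_normalizer_iff]
  refine fun γ => ⟨fun hγ => conj_mem_A h hγ, fun hγ => ?_⟩
  have h1 := conj_mem_A (isRP_inv h) hγ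
  rwa [inv_inv, show s⁻¹ * (s * γ * s⁻¹) * s = γ by group] at h1

theorem isEp_mul {κ μ : K} {s t : MulAut (PG K)} (hs : IsEp κ s) (ht : IsEp μ t) : IsEp (κ + μ) (s * t) := by
  refine ⟨fun e => ?_, fun e => ?_, fun e => ?_, fun e => ?_⟩
  · rw [MulAut.mul_apply, hs.r, ht.r]
  · rw [MulAut.mul_apply, hs.a, ht.r, ht.a, star_add]
    ring
  · rw [MulAut.mul_apply, hs.b, ht.r, ht.b]
    ring
  · rw [MulAut.mul_apply, hs.c, ht.c]

theorem isEp_inv {κ : K} {s : MulAut (PG K)} (hs : IsEp κ s) : IsEp (-κ) s⁻¹ := by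
  have key : ∀ e, s (s⁻¹ e) = e := fun e => MulAut.apply_inv_self _ s e
  have hr : ∀ e : PG K, (s⁻¹ e).r = e.r := fun e => by
    have h := hs.r (s⁻¹ e)
    rw [key] at h
    exact h.symm
  refine ⟨hr, fun e => ?_, fun e => ?_, fun e => ?_⟩
  · have h := hs.a (s⁻¹ e)
    rw [key, hr] at h
    rw [h, star_neg]
    ring
  · have h := hs.b (s⁻¹ e)
    rw [key, hr] at h
    rw [h]
    ring
  · have h := hs.c (s⁻¹ e)
    rw [key] at h
    exact h.symm

/-! ### `PG K` is a `3`-group -/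

theorem pg_pow_nine (h3 : (3 : K) = 0) (g : PG K) : g ^ 9 = 1 := by
  have hr : (g ^ 3).r = 0 := by
    simp only [pow_succ, pow_zero, one_mul, PG.mul_r]
    linear_combination g.r * h3
  have hc : (g ^ 3).c = 0 := by
    simp only [pow_succ, pow_zero, one_mul, PG.mul_c]
    linear_combination g.c * h3
  rw [show 9 = 3 * 3 from rfl, pow_mul]
  generalize g ^ 3 = x at hr hc
  ext
  · simp [pow_succ, hr]
  · simp only [pow_succ, pow_zero, one_mul, PG.mul_a, PG.mul_r, hr, hc, PG.one_a, add_zero, star_zero]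
    linear_combination x.a * h3
  · simp only [pow_succ, pow_zero, one_mul, PG.mul_b, PG.mul_r, hr, hc, PG.one_b]
    linear_combination x.b * h3
  · simp [pow_succ, hc]

theorem isPGroup_A (h3 : (3 : K) = 0) : IsPGroup 3 (autInducedBy ⊤ (PQ K) : Subgroup (MulAut (PQ K))) := by
  rintro ⟨γ, hγ⟩
  obtain ⟨g, rfl⟩ := mem_A.1 hγ
  refine ⟨2, Subtype.ext ?_⟩
  show cj g ^ (3 ^ 2) = 1
  rw [← cj_pow, show 3 ^ 2 = 9 from rfl, pg_pow_nine h3, cj_one]

theorem finite_PG [Finite K] : Finite (PG K) :=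
  Finite.of_injective (fun g : PG K => (g.r, g.a, g.b, g.c)) fun x y h => by
    simp only [Prod.mk.injEq] at h
    exact PG.ext h.1 h.2.1 h.2.2.1 h.2.2.2

/-- the Sylow condition excludes `ε_v`, `v ^ 4 = -1` -/
theorem not_mem_of_syl [Finite K] (h3 : (3 : K) = 0) (hst : ∀ x : K, star x = x ^ 3) {v : K} (hv : v ^ 4 = -1)
    {Γ : Subgroup (MulAut (PQ K))} (hA : autInducedBy ⊤ (PQ K) ≤ Γ)
    (hS : ∀ P : Subgroup (MulAut (PQ K)), P ≤ Γ → IsPGroup 3 P → ∃ g ∈ Γ, ∀ x ∈ P, g * x * g⁻¹ ∈ autInducedBy ⊤ (PQ K))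
    {ε : MulAut (PG K)} {s : MulAut (PQ K)} (hs : IsEpQ v s) (hε : IsRP ε s) : s ∉ Γ := by
  intro hsΓ
  have := Fact.mk Nat.prime_three
  have : Finite (PG K) := finite_PG
  have : Finite (MulAut (PQ K)) := DFunLike.finite _
  have hs3 : s ^ 3 = 1 := by
    have h := hs.pow 3
    have e : ((3 : ℕ) : K) * v = 0 := by
      push_cast
      rw [h3, zero_mul]
    rw [e] at h
    exact h.eq isEpQ_one
  have hz : IsPGroup 3 (Subgroup.zpowers s) := by
    rintro ⟨γ, hγ⟩
    obtain ⟨k, rfl⟩ := Subgroup.mem_zpowers_iff.1 hγ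
    refine ⟨1, Subtype.ext ?_⟩
    show (s ^ k) ^ (3 ^ 1) = 1
    rw [pow_one, ← zpow_natCast, ← zpow_mul, mul_comm, zpow_mul, zpow_natCast, hs3, one_zpow]
  have hP := hz.to_sup_of_normal_right' (isPGroup_A h3) ((Subgroup.zpowers_le).2 (mem_normalizer_A hε))
  obtain ⟨g, -, hgP⟩ := hS _ (sup_le ((Subgroup.zpowers_le).2 hsΓ) hA) hP
  set P : Subgroup (MulAut (PQ K)) := Subgroup.zpowers s ⊔ autInducedBy ⊤ (PQ K) with hPdef
  have hle : P.map (MulAut.conj g).toMonoidHom ≤ autInducedBy ⊤ (PQ K) := by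
    rintro _ ⟨x, hx, rfl⟩
    exact hgP x hx
  have hcard : Nat.card P ≤ Nat.card (autInducedBy ⊤ (PQ K) : Subgroup (MulAut (PQ K))) := by
    have h1 := Subgroup.card_le_of_le hle
    rwa [Subgroup.card_map_of_injective (MulAut.conj g).injective] at h1
  have hAP : autInducedBy ⊤ (PQ K) = P := Subgroup.eq_of_le_of_card_ge le_sup_right hcard
  have hsA : s ∈ autInducedBy ⊤ (PQ K) := by
    rw [hAP]
    exact le_sup_left (a := Subgroup.zpowers s) (Subgroup.mem_zpowers s)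
  obtain ⟨y, rfl⟩ := mem_A.1 hsA
  have h1 := hs.b ⟨⟨1, 0, 0, 0, star_zero K, star_zero K⟩, rfl⟩
  rw [cj_b] at h1
  simp only [star_one, mul_one, zero_sub, zero_add] at h1
  have h2 : v ^ 3 = v := by
    rw [← hst, ← h1, star_neg, y.hc]
  have h4 : v ^ 2 = -1 := by
    rw [← hv, show v ^ 4 = v ^ 3 * v by ring, h2]
    ring
  have h5 : v ^ 4 = v ^ 2 * v ^ 2 := by ring
  rw [h4, hv] at h5
  have h6 : (1 : K) = 0 := by linear_combination h3 + h5
  exact one_ne_zero h6

end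

/-- (3B) -/
theorem stThreeB : StThreeB.{u} := by
  intro K _ _ p n hK hq Γ hA
  have := hK.fin
  have hp3 : p = 3 := (Nat.prime_dvd_prime_iff_eq hK.pp Nat.prime_three).1 (by
    rw [← hq]
    exact dvd_pow_self p (by have := hK.hn; omega))
  subst hp3
  have h3 : (3 : K) = 0 := by
    have := hK.char
    exact_mod_cast CharP.cast_eq_zero K 3
  have hst : ∀ x : K, star x = x ^ 3 := fun x => by rw [hK.star_eq, hq]
  have hvv : ∀ v : K, v * star v = v ^ 4 := fun v => by rw [hst]; ring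
  refine ⟨?_, ?_⟩
  · rintro κ ⟨_, h0, ε₀, m, t₀, hε₀, hm, ht₀, rfl⟩ v hv ⟨_, h1, ε₁, m₁, t₁, hε₁, hm₁, ht₁, rfl⟩
    obtain rfl : m = m₁ := IsWQ.eq' hm hm₁
    have ht₀' := isEpQ_of hε₀ ht₀
    have ht₁' := isEpQ_of hε₁ ht₁
    have hs : IsEpQ v (t₀⁻¹ * t₁) := by
      have h := ht₀'.inv.mul ht₁'
      rwa [show -κ + (κ + v) = v by ring] at h
    have hx := isXc_cj (1 : K) (star_one K)
    have hxΓ := hA (cj_mem (⟨0, 0, 0, 1, star_zero K, star_one K⟩ : PG K))
    set x := cj (⟨0, 0, 0, 1, star_zero K, star_one K⟩ : PG K) with hxdef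
    have hc := ht₀'.comm_x hx
    have hw := word_one (by rw [hvv, hv]) h3 hm hs hx
    have hε : IsEp (κ - v) (ε₀ * (ε₁⁻¹ * ε₀)) := by
      have h := isEp_mul hε₀ (isEp_mul (isEp_inv hε₁) hε₀)
      rwa [show κ + (-(κ + v) + κ) = κ - v by ring] at h
    refine ⟨_, ?_, ε₀ * (ε₁⁻¹ * ε₀), m, t₀ * (t₁⁻¹ * t₀), hε, hm, isRP_mul ht₀ (isRP_mul (isRP_inv ht₁) ht₀), rfl⟩
    have key : t₀ * (t₁⁻¹ * t₀) * m * (t₀ * (t₁⁻¹ * t₀))⁻¹ =
        x * (t₀ * m * t₀⁻¹) * x⁻¹ * (t₁ * m * t₁⁻¹) * x⁻¹ * (t₀ * m * t₀⁻¹)⁻¹ * x := by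
      have e1 : t₀ * (t₁⁻¹ * t₀) * m * (t₀ * (t₁⁻¹ * t₀))⁻¹ =
          t₀ * ((t₀⁻¹ * t₁)⁻¹ * m * (t₀⁻¹ * t₁)) * t₀⁻¹ := by group
      rw [e1, hw]
      have e2 : t₀ * x * t₀⁻¹ = x := by rw [hc]; group
      have e3 : t₀ * (x * m * x⁻¹ * (t₀⁻¹ * t₁ * m * (t₀⁻¹ * t₁)⁻¹) * x⁻¹ * m⁻¹ * x) * t₀⁻¹ =
          (t₀ * x * t₀⁻¹) * (t₀ * m * t₀⁻¹) * (t₀ * x * t₀⁻¹)⁻¹ * (t₁ * m * t₁⁻¹) * (t₀ * x * t₀⁻¹)⁻¹ *
            (t₀ * m * t₀⁻¹)⁻¹ * (t₀ * x * t₀⁻¹) := by group
      rw [e3, e2]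
    rw [key]
    exact mul_mem (mul_mem (mul_mem (mul_mem (mul_mem (mul_mem hxΓ h0) (_root_.InvMemClass.inv_mem hxΓ)) h1) (_root_.InvMemClass.inv_mem hxΓ)) (_root_.InvMemClass.inv_mem h0)) hxΓ
  · rintro hS κ ⟨_, h0, ε₀, m, t₀, hε₀, hm, ht₀, rfl⟩ v hv ⟨_, h1, ε₁, m₁, t₁, hε₁, hm₁, ht₁, rfl⟩
      ⟨_, h2, ε₂, m₂, t₂, hε₂, hm₂, ht₂, rfl⟩
    obtain rfl : m = m₁ := IsWQ.eq' hm hm₁
    obtain rfl : m = m₂ := IsWQ.eq' hm hm₂
    have ht₀' := isEpQ_of hε₀ ht₀
    have ht₁' := isEpQ_of hε₁ ht₁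
    have ht₂' := isEpQ_of hε₂ ht₂
    have hs : IsEpQ v (t₀⁻¹ * t₁) := by
      have h := ht₀'.inv.mul ht₁'
      rwa [show -κ + (κ + v) = v by ring] at h
    have e0 : t₂ = t₀ * (t₀⁻¹ * t₁)⁻¹ := by
      refine ht₂'.eq ?_
      have h := ht₀'.mul hs.inv
      rwa [show κ + -v = κ - v by ring] at h
    have hw := word_neg_one (by rw [hvv, hv]) h3 hm hs
    refine not_mem_of_syl h3 hst hv hA hS hs (isRP_mul (isRP_inv ht₀) ht₁) ?_
    have e2 : t₀ * (t₀⁻¹ * t₁) * t₀⁻¹ = t₀⁻¹ * t₁ := by rw [ht₀'.comm hs]; group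
    have key : t₀⁻¹ * t₁ = (t₀ * m * t₀⁻¹) * (t₂ * m * t₂⁻¹) * (t₁ * m * t₁⁻¹) * (t₀ * m * t₀⁻¹)⁻¹ := by
      have e3 : (t₀ * m * t₀⁻¹) * (t₂ * m * t₂⁻¹) * (t₁ * m * t₁⁻¹) * (t₀ * m * t₀⁻¹)⁻¹ =
          t₀ * (m * ((t₀⁻¹ * t₁)⁻¹ * m * (t₀⁻¹ * t₁)) * ((t₀⁻¹ * t₁) * m * (t₀⁻¹ * t₁)⁻¹) * m⁻¹) * t₀⁻¹ := by
        rw [e0]
        group
      rw [e3, ← hw, e2]
    rw [key]
    exact mul_mem (mul_mem (mul_mem h0 h2) h1) (_root_.InvMemClass.inv_mem h0)

end Cfsg.Agent.H898.P4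
end

private theorem dce_d05b4fcb7e80 : _root_.True := by
  try have : _root_.True := by simp only [_root_.Cfsg.Agent.H753.P4.ks5.eq_1]
  try have : _root_.True := by simp only [_root_.Cfsg.Agent.H753.P4.ks0.eq_1]
  try have : _root_.True := by simp only [_root_.Cfsg.Agent.H753.P4.N0.eq_1]
  try have : _root_.True := by simp only [_root_.Cfsg.Agent.H753.P4.ks2.eq_1]
  try have : _root_.True := by simp only [_root_.Cfsg.Agent.H753.P4.cs.congr_simp]
  try have : _root_.True := by simp only [_root_.Cfsg.Agent.H38.P4.zz.congr_simp]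
  try have : _root_.True := by simp only [_root_.Cfsg.Agent.H753.P4.el.congr_simp]
  try have : _root_.True := by simp only [_root_.Cfsg.Agent.H753.P4.WM.eq_1]
  try have : _root_.True := by simp only [_root_.Cfsg.Agent.H753.P4.el.eq_1]
  try have : _root_.True := by simp only [_root_.Cfsg.Agent.H753.P4.EM.eq_1]
  try have : _root_.True := by simp only [_root_.Cfsg.Agent.H753.P4.ks4.eq_1]
  try have : _root_.True := by simp only [_root_.Cfsg.Agent.H753.P4.ks1.eq_1]
  try have : _root_.True := by simp only [_root_.Cfsg.Agent.H753.P4.ks3.eq_1]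
  try have : _root_.True := by simp only [_root_.Cfsg.Agent.H776.P4.PG.mk.congr_simp]
  exact _root_.True.intro
end

-- part: H834/P4/RegB
section
prune_inst 0xe4300600202202000018059671003c26d2000592006b0001d9010f060e87df634d042721f6a03f11590a2ae440380060031000f9425000000a200600411d00a080ab708e2334a90426008f80b887180c00000000000000000000000000041004000000000
set_option linter.all false
open scoped Cfsg.Agent.FastGrp

-- part: H834/P4/Reg
section
/-!
# S5210, q = 2: automorphism groups of a regular module of a four-group (helper834)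

`Reg a b e`: `V` is elementary abelian of order 16, free over the four-group `{1, a, b, ab}` with generator `e`.
Elements of `V` are coded by `W = Bool⁴`, automorphisms by `M4`.
-/

set_option autoImplicit false

namespace Cfsg.Agent.H834.P4

universe u

/-- codes -/
abbrev W := Bool × Bool × Bool × Bool

/-- sum of codes -/
def wadd (x y : W) : W := (xor x.1 y.1, xor x.2.1 y.2.1, xor x.2.2.1 y.2.2.1, xor x.2.2.2 y.2.2.2)

/-- multiple of a code -/
def wc (t : Bool) (m : W) : W := if t then m else (false, false, false, false)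

/-- matrices -/
abbrev M4 := W × W × W × W

/-- application -/
def app (M : M4) (x : W) : W :=
  wadd (wadd (wc x.1 M.1) (wc x.2.1 M.2.1)) (wadd (wc x.2.2.1 M.2.2.1) (wc x.2.2.2 M.2.2.2))

/-- product -/
def mul4 (M N : M4) : M4 := (app M N.1, app M N.2.1, app M N.2.2.1, app M N.2.2.2)

/-- unit vectors -/
def u0 : W := (true, false, false, false)
/-- unit vectors -/
def u1 : W := (false, true, false, false)
/-- unit vectors -/
def u2 : W := (false, false, true, false)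
/-- unit vectors -/
def u3 : W := (false, false, false, true)

/-- the identity -/
def I4 : M4 := (u0, u1, u2, u3)
/-- `a` -/
def A4 : M4 := (u1, u0, u3, u2)
/-- `b` -/
def B4 : M4 := (u2, u3, u0, u1)

/-- the matrix of `y` (commutes with `a`, inverted by `b`) with `y e = x` -/
def YA (x : W) : M4 := (x, app A4 x, app B4 (wadd u0 x), app A4 (app B4 (wadd u0 x)))
/-- the matrix of `y` (commutes with `b`, inverted by `a`) with `y e = x` -/
def YB (x : W) : M4 := (x, app A4 (wadd u0 x), app B4 x, app A4 (app B4 (wadd u0 x)))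
/-- the matrix of `y` (commutes with `ab`, inverted by `a`, `b`) with `y e = x` -/
def YC (x : W) : M4 := (x, app A4 (wadd u0 x), app B4 (wadd u0 x), app A4 (app B4 x))

/-- the word `a y z` -/
def wz (M N : M4) : M4 := mul4 A4 (mul4 M N)

/-- all codes -/
def Ws : List W :=
  [false, true].flatMap fun i => [false, true].flatMap fun j => [false, true].flatMap fun k =>
    [false, true].map fun l => (i, j, k, l)

theorem mem_Ws (x : W) : x ∈ Ws := by
  obtain ⟨i, j, k, l⟩ := x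
  cases i <;> cases j <;> cases k <;> cases l <;> decide

/-- the check for two -/
def tAB (x y : W) : Bool :=
  !(decide (app (YA x) x = wadd u0 x)) || !(decide (app (YB y) y = wadd u0 y)) ||
    decide (mul4 (YA x) (YB y) = mul4 (YB y) (YA x)) ||
    (decide (mul4 (mul4 (wz (YA x) (YB y)) (wz (YA x) (YB y))) (mul4 (wz (YA x) (YB y)) (wz (YA x) (YB y))) = I4) &&
      !(decide (mul4 (wz (YA x) (YB y)) (wz (YA x) (YB y)) = I4)))

/-- the check for three -/
def tABC (x y z : W) : Bool :=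
  !(decide (app (YA x) x = wadd u0 x)) || !(decide (app (YB y) y = wadd u0 y)) ||
    !(decide (app (YC z) z = wadd u0 z)) ||
    !(decide (mul4 (YA x) (YB y) = mul4 (YB y) (YA x))) || !(decide (mul4 (YA x) (YC z) = mul4 (YC z) (YA x))) ||
    !(decide (mul4 (YB y) (YC z) = mul4 (YC z) (YB y)))

theorem all_tAB : (Ws.all fun x => Ws.all fun y => tAB x y) = true := by decide +kernel

theorem all_tABC : (Ws.all fun x => Ws.all fun y => Ws.all fun z => tABC x y z) = true := by decide +kernel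

theorem chkAB (x y : W) (hx : app (YA x) x = wadd u0 x) (hy : app (YB y) y = wadd u0 y) :
    mul4 (YA x) (YB y) = mul4 (YB y) (YA x) ∨
    (mul4 (mul4 (wz (YA x) (YB y)) (wz (YA x) (YB y))) (mul4 (wz (YA x) (YB y)) (wz (YA x) (YB y))) = I4 ∧
      mul4 (wz (YA x) (YB y)) (wz (YA x) (YB y)) ≠ I4) := by
  have h := (List.all_eq_true.1 ((List.all_eq_true.1 all_tAB) x (mem_Ws x))) y (mem_Ws y)
  simpa [tAB, hx, hy] using h

theorem chkABC (x y z : W) (hx : app (YA x) x = wadd u0 x) (hy : app (YB y) y = wadd u0 y)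
    (hz : app (YC z) z = wadd u0 z) (h1 : mul4 (YA x) (YB y) = mul4 (YB y) (YA x))
    (h2 : mul4 (YA x) (YC z) = mul4 (YC z) (YA x)) (h3 : mul4 (YB y) (YC z) = mul4 (YC z) (YB y)) : False := by
  have h := (List.all_eq_true.1 ((List.all_eq_true.1 ((List.all_eq_true.1 all_tABC) x (mem_Ws x))) y (mem_Ws y)))
    z (mem_Ws z)
  simp [tABC, hx, hy, hz, h1, h2, h3] at h

variable {V : Type u} [Group V]

/-- `v ^ t` -/
def pw (v : V) (t : Bool) : V := if t then v else 1

/-- the element with a given code -/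
def cod (a b : MulAut V) (e : V) (x : W) : V :=
  pw e x.1 * pw (a e) x.2.1 * (pw (b e) x.2.2.1 * pw (a (b e)) x.2.2.2)

/-- `V` is elementary abelian of order 16 and free over the four-group `{1, a, b, ab}`, generated by `e` -/
structure Reg (a b : MulAut V) (e : V) : Prop where
  comm : ∀ x y : V, x * y = y * x
  sq : ∀ x : V, x * x = 1
  aa : a * a = 1
  bb : b * b = 1
  ab : a * b = b * a
  surj : ∀ v : V, ∃ x, cod a b e x = v
  inj : ∀ x y, cod a b e x = cod a b e y → x = y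

section

variable {a b : MulAut V} {e : V}

theorem Reg.pw_xor (h : Reg a b e) (v : V) (s t : Bool) : pw v (xor s t) = pw v s * pw v t := by
  cases s <;> cases t <;> simp [pw, h.sq]

theorem Reg.cod_add (h : Reg a b e) (x y : W) : cod a b e (wadd x y) = cod a b e x * cod a b e y := by
  let _ : CommGroup V := { ‹Group V› with mul_comm := h.comm }
  have key : ∀ p q r s p' q' r' s' : V, p * p' * (q * q') * (r * r' * (s * s')) =
      p * q * (r * s) * (p' * q' * (r' * s')) := by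
    intro p q r s p' q' r' s'
    rw [mul_mul_mul_comm p p' q q', mul_mul_mul_comm r r' s s', mul_mul_mul_comm (p * q) (p' * q')]
  unfold cod wadd
  simp only [h.pw_xor]
  exact key _ _ _ _ _ _ _ _

theorem cod_wc (t : Bool) (m : W) : cod a b e (wc t m) = pw (cod a b e m) t := by
  cases t <;> simp [wc, pw, cod]

theorem map_pw (y : MulAut V) (v : V) (t : Bool) : y (pw v t) = pw (y v) t := by
  cases t <;> simp [pw]

/-- `y` has the matrix `M` -/
def Rep (a b : MulAut V) (e : V) (y : MulAut V) (M : M4) : Prop :=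
  y e = cod a b e M.1 ∧ y (a e) = cod a b e M.2.1 ∧ y (b e) = cod a b e M.2.2.1 ∧ y (a (b e)) = cod a b e M.2.2.2

theorem Reg.rep_app (h : Reg a b e) {y : MulAut V} {M : M4} (hM : Rep a b e y M) (x : W) :
    y (cod a b e x) = cod a b e (app M x) := by
  obtain ⟨h0, h1, h2, h3⟩ := hM
  unfold app
  rw [h.cod_add, h.cod_add, h.cod_add, cod_wc, cod_wc, cod_wc, cod_wc, ← h0, ← h1, ← h2, ← h3]
  rw [cod, map_mul, map_mul, map_mul, map_pw, map_pw, map_pw, map_pw]

theorem Reg.rep_mul (h : Reg a b e) {y z : MulAut V} {M N : M4} (hM : Rep a b e y M) (hN : Rep a b e z N) :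
    Rep a b e (y * z) (mul4 M N) := by
  refine ⟨?_, ?_, ?_, ?_⟩
  · rw [MulAut.mul_apply, hN.1, h.rep_app hM]; rfl
  · rw [MulAut.mul_apply, hN.2.1, h.rep_app hM]; rfl
  · rw [MulAut.mul_apply, hN.2.2.1, h.rep_app hM]; rfl
  · rw [MulAut.mul_apply, hN.2.2.2, h.rep_app hM]; rfl

theorem Reg.rep_ext (h : Reg a b e) {y z : MulAut V} {M : M4} (hM : Rep a b e y M) (hN : Rep a b e z M) : y = z := by
  ext v
  obtain ⟨x, rfl⟩ := h.surj v
  rw [h.rep_app hM, h.rep_app hN]

theorem Reg.rep_unique (h : Reg a b e) {y : MulAut V} {M N : M4} (hM : Rep a b e y M) (hN : Rep a b e y N) :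
    M = N := by
  obtain ⟨m0, m1, m2, m3⟩ := M
  obtain ⟨n0, n1, n2, n3⟩ := N
  have e0 := h.inj _ _ (hM.1.symm.trans hN.1)
  have e1 := h.inj _ _ (hM.2.1.symm.trans hN.2.1)
  have e2 := h.inj _ _ (hM.2.2.1.symm.trans hN.2.2.1)
  have e3 := h.inj _ _ (hM.2.2.2.symm.trans hN.2.2.2)
  simp only at e0 e1 e2 e3
  rw [e0, e1, e2, e3]

theorem cod_u0 : cod a b e u0 = e := by simp [cod, u0, pw]
theorem cod_u1 : cod a b e u1 = a e := by simp [cod, u1, pw]
theorem cod_u2 : cod a b e u2 = b e := by simp [cod, u2, pw]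
theorem cod_u3 : cod a b e u3 = a (b e) := by simp [cod, u3, pw]

theorem rep_one : Rep a b e 1 I4 := by
  refine ⟨?_, ?_, ?_, ?_⟩
  · rw [MulAut.one_apply]; exact cod_u0.symm
  · rw [MulAut.one_apply]; exact cod_u1.symm
  · rw [MulAut.one_apply]; exact cod_u2.symm
  · rw [MulAut.one_apply]; exact cod_u3.symm

theorem Reg.aa' (h : Reg a b e) (v : V) : a (a v) = v := by
  rw [← MulAut.mul_apply, h.aa, MulAut.one_apply]

theorem Reg.bb' (h : Reg a b e) (v : V) : b (b v) = v := by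
  rw [← MulAut.mul_apply, h.bb, MulAut.one_apply]

theorem Reg.ab' (h : Reg a b e) (v : V) : a (b v) = b (a v) := by
  rw [← MulAut.mul_apply, h.ab, MulAut.mul_apply]

theorem Reg.rep_a (h : Reg a b e) : Rep a b e a A4 := by
  refine ⟨?_, ?_, ?_, ?_⟩
  · exact cod_u1.symm
  · rw [h.aa']; exact cod_u0.symm
  · exact cod_u3.symm
  · rw [h.aa']; exact cod_u2.symm

theorem Reg.rep_b (h : Reg a b e) : Rep a b e b B4 := by
  refine ⟨?_, ?_, ?_, ?_⟩
  · exact cod_u2.symm
  · rw [← h.ab']; exact cod_u3.symm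
  · rw [h.bb']; exact cod_u0.symm
  · rw [h.ab', h.bb']; exact cod_u1.symm

end

end Cfsg.Agent.H834.P4
end

-- part: H834/P4/RegY
section
/-!
# S5210, q = 2: the elements of order 3 (helper834)

`YS a b y`: `y` has order 3, commutes with `a` and is inverted by `b`.

* `Reg.swap`, `Reg.prod`: change of the basis of the four-group;
* `Reg.sq_of_fix`, `Reg.move`: the action on `C_V(a)`;
* `Reg.cd`, `Reg.ce`: two resp. three such elements.
-/

set_option autoImplicit false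

namespace Cfsg.Agent.H834.P4

universe u

variable {V : Type u} [Group V] {a b : MulAut V} {e : V}

/-- order 3, commutes with `a`, inverted by `b` -/
structure YS (a b y : MulAut V) : Prop where
  comm : y * a = a * y
  inv : b * y * b = y⁻¹
  cube : y * y * y = 1
  ne : y ≠ 1

theorem Reg.swap (h : Reg a b e) : Reg b a e := by
  have key : ∀ x : W, cod b a e x = cod a b e (x.1, x.2.2.1, x.2.1, x.2.2.2) := by
    intro x
    unfold cod
    simp only
    rw [← h.ab' e]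
    have hc := h.comm
    calc pw e x.1 * pw (b e) x.2.1 * (pw (a e) x.2.2.1 * pw (a (b e)) x.2.2.2)
        = pw e x.1 * (pw (b e) x.2.1 * pw (a e) x.2.2.1) * pw (a (b e)) x.2.2.2 := by simp only [mul_assoc]
      _ = pw e x.1 * (pw (a e) x.2.2.1 * pw (b e) x.2.1) * pw (a (b e)) x.2.2.2 := by rw [hc (pw (b e) x.2.1)]
      _ = pw e x.1 * pw (a e) x.2.2.1 * (pw (b e) x.2.1 * pw (a (b e)) x.2.2.2) := by simp only [mul_assoc]
  refine ⟨h.comm, h.sq, h.bb, h.aa, h.ab.symm, fun v => ?_, fun x y hxy => ?_⟩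
  · obtain ⟨x, rfl⟩ := h.surj v
    exact ⟨(x.1, x.2.2.1, x.2.1, x.2.2.2), by rw [key]⟩
  · rw [key, key] at hxy
    have h1 := h.inj _ _ hxy
    obtain ⟨x0, x1, x2, x3⟩ := x
    obtain ⟨y0, y1, y2, y3⟩ := y
    simp only [Prod.mk.injEq] at h1 ⊢
    tauto

theorem Reg.prod (h : Reg a b e) : Reg a (a * b) e := by
  have key : ∀ x : W, cod a (a * b) e x = cod a b e (x.1, x.2.1, x.2.2.2, x.2.2.1) := by
    intro x
    unfold cod
    simp only [MulAut.mul_apply]
    rw [h.aa' (b e), h.comm (pw (a (b e)) x.2.2.1)]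
  have e1 : a * b * (a * b) = 1 := by
    calc a * b * (a * b) = a * (b * a) * b := by group
      _ = a * (a * b) * b := by rw [h.ab]
      _ = (a * a) * (b * b) := by group
      _ = 1 := by rw [h.aa, h.bb, one_mul]
  refine ⟨h.comm, h.sq, h.aa, e1, ?_, fun v => ?_, fun x y hxy => ?_⟩
  · rw [mul_assoc, h.ab]
  · obtain ⟨x, rfl⟩ := h.surj v
    exact ⟨(x.1, x.2.1, x.2.2.2, x.2.2.1), by rw [key]⟩
  · rw [key, key] at hxy
    have h1 := h.inj _ _ hxy
    obtain ⟨x0, x1, x2, x3⟩ := x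
    obtain ⟨y0, y1, y2, y3⟩ := y
    simp only [Prod.mk.injEq] at h1 ⊢
    tauto

/-! ### The subgroup `C_V(a)` -/

/-- `e · a(e)` -/
def f1 (a : MulAut V) (e : V) : V := e * a e

theorem fixB : ∀ x : W, app A4 x = x → x = (false, false, false, false) ∨ x = (true, true, false, false) ∨
    x = (false, false, true, true) ∨ x = (true, true, true, true) := by
  rintro ⟨i, j, k, l⟩
  cases i <;> cases j <;> cases k <;> cases l <;> decide

theorem Reg.fix (h : Reg a b e) {v : V} (hv : a v = v) :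
    v = 1 ∨ v = f1 a e ∨ v = b (f1 a e) ∨ v = f1 a e * b (f1 a e) := by
  obtain ⟨x, rfl⟩ := h.surj v
  rw [h.rep_app h.rep_a] at hv
  have h1 := fixB x (h.inj _ _ hv)
  have e3 : b (a e) = a (b e) := (h.ab' e).symm
  rcases h1 with rfl | rfl | rfl | rfl
  · left; simp [cod, pw]
  · right; left; simp [cod, pw, f1]
  · right; right; left
    simp [cod, pw, f1, e3]
  · right; right; right
    simp only [cod, pw, f1, e3, ↓ _root_.reduceIte, _root_.map_mul]

theorem Reg.a_f1 (h : Reg a b e) : a (f1 a e) = f1 a e := by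
  rw [f1, map_mul, h.aa', h.comm]

theorem Reg.f1_ne (h : Reg a b e) : f1 a e ≠ 1 := by
  intro h1
  have h2 : cod a b e (true, true, false, false) = cod a b e (false, false, false, false) := by
    simpa only [cod, pw, f1, ↓ _root_.reduceIte, _root_.Bool.false_eq_true, _root_.mul_one] using h1
  have := h.inj _ _ h2
  simp at this

theorem Reg.bf_ne (h : Reg a b e) : b (f1 a e) ≠ f1 a e := by
  intro h1
  have e3 : b (a e) = a (b e) := (h.ab' e).symm
  have h2 : cod a b e (false, false, true, true) = cod a b e (true, true, false, false) := by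
    simpa only [cod, pw, f1, e3, _root_.Bool.false_eq_true, ↓ _root_.reduceIte, _root_.mul_one, _root_.one_mul, _root_.map_mul] using h1
  have := h.inj _ _ h2
  simp at this

theorem Reg.inv_eq (h : Reg a b e) (v : V) : v⁻¹ = v := by
  rw [inv_eq_iff_mul_eq_one]; exact h.sq v

theorem Reg.a_ne (h : Reg a b e) : a ≠ 1 := by
  intro h1
  apply h.f1_ne
  rw [f1, h1, MulAut.one_apply, h.sq]

/-- `y` commutes with `a` and fixes `C_V(a)` -/
theorem Reg.sq_of_fix (h : Reg a b e) {y : MulAut V} (hy : y * a = a * y) (h1 : y (f1 a e) = f1 a e)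
    (h2 : y (b (f1 a e)) = b (f1 a e)) : y * y = 1 := by
  have hya : ∀ v, y (a v) = a (y v) := fun v => by rw [← MulAut.mul_apply, hy, MulAut.mul_apply]
  have hfix : ∀ v, a v = v → y v = v := by
    intro v hv
    rcases h.fix hv with rfl | rfl | rfl | rfl
    · exact map_one y
    · exact h1
    · exact h2
    · rw [map_mul, h1, h2]
  ext v
  have k1 : y (v * a v) = v * a v := hfix _ (by rw [map_mul, h.aa', h.comm])
  rw [map_mul, hya] at k1
  -- `t = v · y v` is fixed by `a`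
  have k2 : a (v * y v) = v * y v := by
    have : v * y v * (a v * a (y v)) = 1 := by
      calc v * y v * (a v * a (y v)) = (y v * a (y v)) * (v * a v) := by
            rw [h.comm v (y v), mul_assoc, mul_assoc, ← mul_assoc v, h.comm (v * a v)]
        _ = 1 := by rw [k1, h.sq]
    rw [map_mul]
    rw [← inv_eq_iff_mul_eq_one, h.inv_eq] at this
    exact this.symm
  have k3 := hfix _ k2
  rw [map_mul] at k3
  -- y v * y (y v) = v * y v
  rw [MulAut.mul_apply, MulAut.one_apply]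
  have k4 : y v * y (y v) = y v * v := by rw [k3, h.comm]
  exact mul_left_cancel k4

theorem eq_one_of_odd {M : Type*} [Group M] {y : M} {n : ℕ} (hn : Odd n) (h : y ^ n = 1) (h2 : y * y = 1) : y = 1 := by
  obtain ⟨k, rfl⟩ := hn
  rwa [pow_succ, pow_mul, pow_two, h2, one_pow, one_mul] at h

/-- an element of odd order commuting with `a` moves the elements of `C_V(a)` -/
theorem Reg.move (h : Reg a b e) {y : MulAut V} (hy : y * a = a * y) {n : ℕ} (hn : Odd n) (hyn : y ^ n = 1)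
    (hy1 : y ≠ 1) : y (f1 a e) ≠ f1 a e ∧ y (b (f1 a e)) ≠ b (f1 a e) ∧
      y (f1 a e * b (f1 a e)) ≠ f1 a e * b (f1 a e) := by
  have hya : ∀ v, y (a v) = a (y v) := fun v => by rw [← MulAut.mul_apply, hy, MulAut.mul_apply]
  obtain ⟨f, hf⟩ : ∃ f, f = f1 a e := ⟨_, rfl⟩
  obtain ⟨g, hg⟩ : ∃ g, g = b (f1 a e) := ⟨_, rfl⟩
  rw [← hg, ← hf]
  have af : a f = f := by rw [hf]; exact h.a_f1
  have ag : a g = g := by rw [hg, h.ab', h.a_f1]
  have f_ne : f ≠ 1 := by rw [hf]; exact h.f1_ne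
  have g_ne : g ≠ 1 := by rw [hg]; exact fun h1 => h.f1_ne (b.injective (by rw [h1, map_one]))
  have fg : f ≠ g := by rw [hf, hg]; exact h.bf_ne.symm
  have cases : ∀ v, a v = v → v = 1 ∨ v = f ∨ v = g ∨ v = f * g := by
    intro v hv
    rw [hf, hg]
    rw [← hf]
    have := h.fix hv
    rw [← hf] at this
    exact this
  -- if the square fixes `f` and `g` then `y = 1`
  have key : y (y f) = f → y (y g) = g → False := by
    intro k1 k2
    apply hy1
    have h2 : (y * y) * (y * y) = 1 := by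
      refine h.sq_of_fix (y := y * y) ?_ ?_ ?_
      · rw [mul_assoc, hy, ← mul_assoc, hy, mul_assoc]
      · rw [MulAut.mul_apply, ← hf]; exact k1
      · rw [MulAut.mul_apply, ← hg]; exact k2
    have h3 : y * y = 1 := by
      refine eq_one_of_odd hn ?_ h2
      rw [← pow_two, ← pow_mul, mul_comm, pow_mul, hyn, one_pow]
    exact eq_one_of_odd hn hyn h3
  have yf := cases (y f) (by rw [← hya, af])
  have yg := cases (y g) (by rw [← hya, ag])
  have yf1 : y f ≠ 1 := fun h1 => f_ne (y.injective (by rw [h1, map_one]))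
  have yg1 : y g ≠ 1 := fun h1 => g_ne (y.injective (by rw [h1, map_one]))
  have yfg : y f ≠ y g := fun h1 => fg (y.injective h1)
  have ff := h.sq f
  have gg := h.sq g
  have gf := h.comm g f
  refine ⟨fun h1 => ?_, fun h1 => ?_, fun h1 => ?_⟩
  · rcases yg with h2 | h2 | h2 | h2
    · exact yg1 h2
    · exact yfg (h1.trans h2.symm)
    · exact key (by rw [h1, h1]) (by rw [h2, h2])
    · refine key (by rw [h1, h1]) ?_
      rw [h2, map_mul, h1, h2, ← mul_assoc, ff, one_mul]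
  · rcases yf with h2 | h2 | h2 | h2
    · exact yf1 h2
    · exact key (by rw [h2, h2]) (by rw [h1, h1])
    · exact yfg (h2.trans h1.symm)
    · refine key ?_ (by rw [h1, h1])
      rw [h2, map_mul, h1, h2, mul_assoc, gg, mul_one]
  · rw [map_mul] at h1
    rcases yf with h2 | h2 | h2 | h2
    · exact yf1 h2
    · rw [h2] at h1
      have h3 := mul_left_cancel h1
      exact key (by rw [h2, h2]) (by rw [h3, h3])
    · rw [h2] at h1
      have h3 : y g = f := by
        have : g * y g = g * f := by rw [h1, h.comm]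
        exact mul_left_cancel this
      exact key (by rw [h2, h3]) (by rw [h3, h2])
    · rw [h2] at h1
      have h3 : y g = 1 := by
        have : f * g * y g = f * g * 1 := by rw [h1, mul_one]
        exact mul_left_cancel this
      exact yg1 h3

/-- fixed-point-free -/
theorem Reg.fpf (h : Reg a b e) {y : MulAut V} (hy : y * a = a * y) {n : ℕ} (hn : Odd n) (hyn : y ^ n = 1)
    (hy1 : y ≠ 1) {v : V} (hv : y v = v) : v = 1 := by
  have hya : ∀ v, y (a v) = a (y v) := fun v => by rw [← MulAut.mul_apply, hy, MulAut.mul_apply]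
  obtain ⟨m1, m2, m3⟩ := h.move hy hn hyn hy1
  have key : ∀ v, a v = v → y v = v → v = 1 := by
    intro v hv hyv
    rcases h.fix hv with rfl | rfl | rfl | rfl
    · rfl
    · exact absurd hyv m1
    · exact absurd hyv m2
    · exact absurd hyv m3
  have h1 : v * a v = 1 := key _ (by rw [map_mul, h.aa', h.comm]) (by rw [map_mul, hya, hv])
  have h2 : a v = v := by
    rw [← inv_eq_iff_mul_eq_one, h.inv_eq] at h1
    exact h1.symm
  exact key v h2 hv

theorem YS.pow3 {y : MulAut V} (hy : YS a b y) : y ^ 3 = 1 := by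
  rw [pow_succ, pow_two]; exact hy.cube

theorem Reg.yy (h : Reg a b e) {y : MulAut V} (hy : YS a b y) (v : V) : y (y v) = v * y v := by
  have h3 : y (y (y v)) = v := by
    rw [← MulAut.mul_apply, ← MulAut.mul_apply, hy.cube, MulAut.one_apply]
  have h1 : v * y v * y (y v) = 1 := by
    refine h.fpf hy.comm (n := 3) (by decide) hy.pow3 hy.ne ?_
    rw [map_mul, map_mul, h3, h.comm _ v, ← mul_assoc]
  rw [← inv_eq_iff_mul_eq_one, h.inv_eq] at h1
  exact h1.symm

theorem Reg.yinv (h : Reg a b e) {y : MulAut V} (hy : YS a b y) (v : V) : y⁻¹ v = v * y v := by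
  rw [← h.yy hy, ← MulAut.mul_apply]
  congr 1
  rw [inv_eq_iff_mul_eq_one, ← mul_assoc]
  exact hy.cube

/-- the matrix of an element of order 3 which commutes with `a` -/
theorem Reg.repA (h : Reg a b e) {y : MulAut V} (hy : YS a b y) :
    ∃ x, Rep a b e y (YA x) ∧ app (YA x) x = wadd u0 x := by
  obtain ⟨x, hx⟩ := h.surj (y e)
  have hya : ∀ v, y (a v) = a (y v) := fun v => by rw [← MulAut.mul_apply, hy.comm, MulAut.mul_apply]
  have hyb : ∀ v, y (b v) = b (v * y v) := fun v => by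
    rw [← h.yinv hy, ← hy.inv, MulAut.mul_apply, MulAut.mul_apply, h.bb']
  have he : e * cod a b e x = cod a b e (wadd u0 x) := by rw [h.cod_add, cod_u0]
  have hr : Rep a b e y (YA x) := by
    refine ⟨hx.symm, ?_, ?_, ?_⟩
    · rw [hya, ← hx, h.rep_app h.rep_a]; rfl
    · rw [hyb, ← hx, he, h.rep_app h.rep_b]; rfl
    · rw [hya, hyb, ← hx, he, h.rep_app h.rep_b, h.rep_app h.rep_a]; rfl
  refine ⟨x, hr, h.inj _ _ ?_⟩
  rw [← h.rep_app hr, h.cod_add, cod_u0, hx, h.yy hy]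

theorem Reg.repB (h : Reg a b e) {y : MulAut V} (hy : YS b a y) :
    ∃ x, Rep a b e y (YB x) ∧ app (YB x) x = wadd u0 x := by
  obtain ⟨x, hx⟩ := h.surj (y e)
  have hyb : ∀ v, y (b v) = b (y v) := fun v => by rw [← MulAut.mul_apply, hy.comm, MulAut.mul_apply]
  have hya : ∀ v, y (a v) = a (v * y v) := fun v => by
    rw [← h.swap.yinv hy, ← hy.inv, MulAut.mul_apply, MulAut.mul_apply, h.aa']
  have he : e * cod a b e x = cod a b e (wadd u0 x) := by rw [h.cod_add, cod_u0]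
  have hr : Rep a b e y (YB x) := by
    refine ⟨hx.symm, ?_, ?_, ?_⟩
    · rw [hya, ← hx, he, h.rep_app h.rep_a]; rfl
    · rw [hyb, ← hx, h.rep_app h.rep_b]; rfl
    · rw [h.ab', hyb, hya, ← hx, he, h.rep_app h.rep_a, ← h.rep_app h.rep_a, ← h.ab', h.rep_app h.rep_b,
        h.rep_app h.rep_a]; rfl
  refine ⟨x, hr, h.inj _ _ ?_⟩
  rw [← h.rep_app hr, h.cod_add, cod_u0, hx, h.swap.yy hy]

theorem Reg.repC (h : Reg a b e) {y : MulAut V} (hy : YS (a * b) a y) :
    ∃ x, Rep a b e y (YC x) ∧ app (YC x) x = wadd u0 x := by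
  obtain ⟨x, hx⟩ := h.surj (y e)
  have h' : Reg (a * b) a e := h.prod.swap
  have hyc : ∀ v, y (a (b v)) = a (b (y v)) := fun v => by
    have := congrArg (fun f : MulAut V => f v) hy.comm
    simpa only [MulAut.mul_apply] using this
  have hya : ∀ v, y (a v) = a (v * y v) := fun v => by
    rw [← h'.yinv hy, ← hy.inv, MulAut.mul_apply, MulAut.mul_apply, h.aa']
  have hyb : ∀ v, y (b v) = b (v * y v) := fun v => by
    have h1 : y (a (a (b v))) = a (a (b v) * y (a (b v))) := hya _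
    rw [h.aa', hyc, ← map_mul, h.aa', ← map_mul] at h1
    exact h1
  have he : e * cod a b e x = cod a b e (wadd u0 x) := by rw [h.cod_add, cod_u0]
  have hr : Rep a b e y (YC x) := by
    refine ⟨hx.symm, ?_, ?_, ?_⟩
    · rw [hya, ← hx, he, h.rep_app h.rep_a]; rfl
    · rw [hyb, ← hx, he, h.rep_app h.rep_b]; rfl
    · rw [hyc, ← hx, h.rep_app h.rep_b, h.rep_app h.rep_a]; rfl
  refine ⟨x, hr, h.inj _ _ ?_⟩
  rw [← h.rep_app hr, h.cod_add, cod_u0, hx, h'.yy hy]

/-- two elements of order 3 commute or give an element of order 4 -/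
theorem Reg.cd (h : Reg a b e) {y z : MulAut V} (hy : YS a b y) (hz : YS b a z) :
    y * z = z * y ∨ ((a * (y * z)) * (a * (y * z)) * ((a * (y * z)) * (a * (y * z))) = 1 ∧
      (a * (y * z)) * (a * (y * z)) ≠ 1) := by
  obtain ⟨x, hx, kx⟩ := h.repA hy
  obtain ⟨x', hx', kx'⟩ := h.repB hz
  have hw : Rep a b e (a * (y * z)) (wz (YA x) (YB x')) := h.rep_mul h.rep_a (h.rep_mul hx hx')
  rcases chkAB x x' kx kx' with h1 | ⟨h1, h2⟩
  · left
    refine h.rep_ext (h.rep_mul hx hx') ?_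
    rw [h1]
    exact h.rep_mul hx' hx
  · right
    have h3 := h.rep_mul hw hw
    refine ⟨h.rep_ext (h.rep_mul h3 h3) ?_, fun h4 => h2 ?_⟩
    · rw [h1]; exact rep_one
    · rw [h4] at h3
      exact h.rep_unique h3 rep_one

/-- three of them do not commute -/
theorem Reg.ce (h : Reg a b e) {y z t : MulAut V} (hy : YS a b y) (hz : YS b a z) (ht : YS (a * b) a t)
    (h1 : y * z = z * y) (h2 : y * t = t * y) (h3 : z * t = t * z) : False := by
  obtain ⟨x, hx, kx⟩ := h.repA hy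
  obtain ⟨x', hx', kx'⟩ := h.repB hz
  obtain ⟨x'', hx'', kx''⟩ := h.repC ht
  refine chkABC x x' x'' kx kx' kx'' ?_ ?_ ?_
  · refine h.rep_unique (h.rep_mul hx hx') ?_
    rw [h1]; exact h.rep_mul hx' hx
  · refine h.rep_unique (h.rep_mul hx hx'') ?_
    rw [h2]; exact h.rep_mul hx'' hx
  · refine h.rep_unique (h.rep_mul hx' hx'') ?_
    rw [h3]; exact h.rep_mul hx'' hx'

end Cfsg.Agent.H834.P4
end

-- part: H834/P4/RegG
section
/-!
# S5210, q = 2: groups with the Sylow 2-subgroup `{1, a, b, ab}` acting regularly (helper834)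

* `GHyp a b e G`: `{1, a, b, ab}` is a Sylow 2-subgroup of `G`;
* `OddC G u`: a nontrivial element of odd order in `C_G(u)`;
* `GHyp.three`: not all of `OddC G a`, `OddC G b`, `OddC G (ab)`;
* `GHyp.norm`: if `OddC G a` then the Sylow subgroup is self-normalizing;
* `GHyp.card36`: if `OddC G a` and `OddC G b` then `|G| = 36`;
* `GHyp.central`: if `OddC G a` only, then `a` is central in `G`.
-/

set_option autoImplicit false

namespace Cfsg.Agent.H834.P4

universe u

variable {V : Type u} [Group V] {a b : MulAut V} {e : V}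

/-- the Sylow hypothesis -/
structure GHyp (a b : MulAut V) (e : V) (G : Subgroup (MulAut V)) : Prop where
  reg : Reg a b e
  ha : a ∈ G
  hb : b ∈ G
  syl : ∀ P : Subgroup (MulAut V), P ≤ G → IsPGroup 2 P →
    ∃ g ∈ G, ∀ x ∈ P, g * x * g⁻¹ = 1 ∨ g * x * g⁻¹ = a ∨ g * x * g⁻¹ = b ∨ g * x * g⁻¹ = a * b

/-- a nontrivial element of odd order in `C_G(u)` -/
def OddC (G : Subgroup (MulAut V)) (u : MulAut V) : Prop :=
  ∃ y ∈ G, y * u = u * y ∧ y ≠ 1 ∧ ∃ n : ℕ, Odd n ∧ y ^ n = 1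

variable {G : Subgroup (MulAut V)}

theorem Reg.ba (h : Reg a b e) : b * a = a * b := h.ab.symm

theorem Reg.a_ab (h : Reg a b e) : a * (a * b) = b := by rw [← mul_assoc, h.aa, one_mul]

theorem Reg.ab_a (h : Reg a b e) : a * b * a = b := by rw [mul_assoc, h.ba, h.a_ab]

theorem Reg.ab_b (h : Reg a b e) : a * b * b = a := by rw [mul_assoc, h.bb, mul_one]

theorem Reg.b_ab (h : Reg a b e) : b * (a * b) = a := by rw [← mul_assoc, h.ba, h.ab_b]

theorem Reg.abab (h : Reg a b e) : a * b * (a * b) = 1 := by rw [← mul_assoc, h.ab_a, h.bb]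

theorem GHyp.swap (h : GHyp a b e G) : GHyp b a e G := by
  refine ⟨h.reg.swap, h.hb, h.ha, fun P hP h2 => ?_⟩
  obtain ⟨g, hg, hx⟩ := h.syl P hP h2
  refine ⟨g, hg, fun x hxP => ?_⟩
  rw [h.reg.ba]
  have := hx x hxP
  (clear * - this; itauto)

theorem GHyp.prod (h : GHyp a b e G) : GHyp a (a * b) e G := by
  refine ⟨h.reg.prod, h.ha, G.mul_mem h.ha h.hb, fun P hP h2 => ?_⟩
  obtain ⟨g, hg, hx⟩ := h.syl P hP h2
  refine ⟨g, hg, fun x hxP => ?_⟩
  rw [h.reg.a_ab]
  have := hx x hxP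
  (clear * - this; itauto)

theorem Reg.finite (h : Reg a b e) : Finite V := Finite.of_surjective (cod a b e) h.surj

/-- the Sylow subgroup -/
def UU (h : Reg a b e) : Subgroup (MulAut V) where
  carrier := {x | x = 1 ∨ x = a ∨ x = b ∨ x = a * b}
  one_mem' := Or.inl rfl
  mul_mem' := by
    rintro x y (rfl | rfl | rfl | rfl) (rfl | rfl | rfl | rfl) <;>
      simp only [Set.mem_ofPred_eq, one_mul, mul_one, h.aa, h.bb, h.ba, h.a_ab, h.ab_a, h.ab_b, h.b_ab, h.abab,
        true_or, or_true]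
  inv_mem' := by
    have ia : a⁻¹ = a := by rw [inv_eq_iff_mul_eq_one]; exact h.aa
    have ib : b⁻¹ = b := by rw [inv_eq_iff_mul_eq_one]; exact h.bb
    rintro x (rfl | rfl | rfl | rfl) <;>
      simp only [Set.mem_ofPred_eq, inv_one, mul_inv_rev, ia, ib, h.ba, true_or, or_true]

theorem mem_UU (h : Reg a b e) {x : MulAut V} : x ∈ UU h ↔ x = 1 ∨ x = a ∨ x = b ∨ x = a * b := Iff.rfl

theorem Reg.b_ne (h : Reg a b e) : b ≠ 1 := h.swap.a_ne

theorem Reg.a_ne_b (h : Reg a b e) : a ≠ b := by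
  intro h1
  apply h.prod.b_ne
  rw [← h1, h.aa]

theorem Reg.ab_ne (h : Reg a b e) : a * b ≠ 1 := h.prod.b_ne

theorem GHyp.UU_le (h : GHyp a b e G) : UU h.reg ≤ G := by
  rintro x (rfl | rfl | rfl | rfl)
  · exact G.one_mem
  · exact h.ha
  · exact h.hb
  · exact G.mul_mem h.ha h.hb

theorem sq_UU (h : Reg a b e) {x : MulAut V} (hx : x ∈ UU h) : x * x = 1 := by
  rcases hx with rfl | rfl | rfl | rfl
  · exact one_mul 1
  · exact h.aa
  · exact h.bb
  · exact h.abab

theorem comm_UU (h : Reg a b e) {x y : MulAut V} (hx : x ∈ UU h) (hy : y ∈ UU h) : x * y = y * x := by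
  have h1 := sq_UU h ((UU h).mul_mem hx hy)
  have h2 := sq_UU h hx
  have h3 := sq_UU h hy
  calc x * y = x * y * ((y * x) * (x * y)) * (y * x * (y * x)) := by
        have e1 : (y * x) * (x * y) = 1 := by
          calc y * x * (x * y) = y * (x * x) * y := by group
            _ = 1 := by rw [h2, mul_one, h3]
        rw [e1, sq_UU h ((UU h).mul_mem hy hx), mul_one, mul_one]
    _ = x * y * (y * x) * (x * y) * (y * x) * (y * x) := by group
    _ = y * x := by
        have e1 : x * y * (y * x) = 1 := by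
          calc x * y * (y * x) = x * (y * y) * x := by group
            _ = 1 := by rw [h3, mul_one, h2]
        have e2 : (x * y) * (y * x) = 1 := e1
        rw [e1, one_mul, e2, one_mul]

/-- a 2-subgroup containing the Sylow subgroup -/
theorem GHyp.eq_UU (h : GHyp a b e G) {P : Subgroup (MulAut V)} (hP : P ≤ G) (h2 : IsPGroup 2 P)
    (hU : UU h.reg ≤ P) : P = UU h.reg := by
  have := h.reg.finite
  obtain ⟨g, -, hx⟩ := h.syl P hP h2
  symm
  apply Subgroup.eq_of_le_of_card_ge hU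
  have h3 : Nat.card P = Nat.card (P.map (MulAut.conj g).toMonoidHom) :=
    (Subgroup.card_map_of_injective (MulAut.conj g).injective).symm
  rw [h3]
  apply Subgroup.card_le_of_le
  rintro _ ⟨x, hxP, rfl⟩
  exact hx x hxP

theorem GHyp.sq_one (h : GHyp a b e G) {w : MulAut V} (hw : w ∈ G) (h4 : (w * w) * (w * w) = 1) : w * w = 1 := by
  have h2 : IsPGroup 2 (Subgroup.zpowers w) := by
    rintro ⟨x, hx⟩
    obtain ⟨k, rfl⟩ := Subgroup.mem_zpowers_iff.1 hx
    refine ⟨2, Subtype.ext ?_⟩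
    show (w ^ k) ^ (2 ^ 2) = 1
    have e1 : w ^ (2 ^ 2) = 1 := by
      rw [show (2 : ℕ) ^ 2 = 2 * 2 from rfl, pow_mul, pow_two, pow_two]; exact h4
    rw [← zpow_natCast, ← zpow_mul, mul_comm, zpow_mul, zpow_natCast, e1, one_zpow]
  obtain ⟨g, -, hx⟩ := h.syl _ (by rw [Subgroup.zpowers_le]; exact hw) h2
  have h3 := sq_UU h.reg (x := g * w * g⁻¹) (hx w (Subgroup.mem_zpowers w))
  have h5 : g * (w * w) * g⁻¹ = 1 := by
    rw [← h3]; group
  rwa [conj_eq_one_iff] at h5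

/-- the action of an element commuting with `a` and fixing `z = f·b(f)` -/
theorem Reg.fix_z (h : Reg a b e) {g : MulAut V} (hg : g * a = a * g)
    (hz : g (f1 a e * b (f1 a e)) = f1 a e * b (f1 a e)) :
    (g (f1 a e) = f1 a e ∧ g (b (f1 a e)) = b (f1 a e)) ∨ (g (f1 a e) = b (f1 a e) ∧ g (b (f1 a e)) = f1 a e) := by
  have hga : ∀ v, g (a v) = a (g v) := fun v => by rw [← MulAut.mul_apply, hg, MulAut.mul_apply]
  obtain ⟨f, hf⟩ : ∃ f, f = f1 a e := ⟨_, rfl⟩
  obtain ⟨k, hk⟩ : ∃ k, k = b (f1 a e) := ⟨_, rfl⟩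
  rw [← hk, ← hf] at hz ⊢
  have af : a f = f := by rw [hf]; exact h.a_f1
  have f_ne : f ≠ 1 := by rw [hf]; exact h.f1_ne
  have k_ne : k ≠ 1 := by rw [hk]; exact fun h1 => h.f1_ne (b.injective (by rw [h1, map_one]))
  have h1 := h.fix (v := g f) (by rw [← hga, af])
  rw [← hk, ← hf] at h1
  rcases h1 with h1 | h1 | h1 | h1
  · exact absurd (g.injective (by rw [h1, map_one])) f_ne
  · left
    refine ⟨h1, ?_⟩
    rw [map_mul, h1] at hz
    exact mul_left_cancel hz
  · right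
    refine ⟨h1, ?_⟩
    rw [map_mul, h1, h.comm f k] at hz
    exact mul_left_cancel hz
  · exfalso
    rw [map_mul, h1] at hz
    have h2 : g k = 1 := by
      have : f * k * g k = f * k * 1 := by rw [hz, mul_one]
      exact mul_left_cancel this
    exact k_ne (g.injective (by rw [h2, map_one]))

/-- **the centralizer of `z` in `C_G(a)`** -/
theorem GHyp.mem_UU' (h : GHyp a b e G) {g : MulAut V} (hg : g ∈ G) (hga : g * a = a * g)
    (hz : g (f1 a e * b (f1 a e)) = f1 a e * b (f1 a e)) : g ∈ UU h.reg := by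
  have hr := h.reg
  let P : Subgroup (MulAut V) :=
    { carrier := {g | g ∈ G ∧ g * a = a * g ∧ g (f1 a e * b (f1 a e)) = f1 a e * b (f1 a e)}
      one_mem' := ⟨G.one_mem, by rw [one_mul, mul_one], by rw [MulAut.one_apply]⟩
      mul_mem' := by
        rintro x y ⟨h1, h2, h3⟩ ⟨k1, k2, k3⟩
        refine ⟨G.mul_mem h1 k1, ?_, ?_⟩
        · rw [mul_assoc, k2, ← mul_assoc, h2, mul_assoc]
        · rw [MulAut.mul_apply, k3, h3]
      inv_mem' := by
        rintro x ⟨h1, h2, h3⟩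
        refine ⟨G.inv_mem h1, ?_, ?_⟩
        · have : Commute x a := h2
          exact this.inv_left
        · apply x.injective
          rw [h3, ← MulAut.mul_apply, mul_inv_cancel, MulAut.one_apply] }
  have hPG : P ≤ G := fun x hx => hx.1
  have h2 : IsPGroup 2 P := by
    rintro ⟨x, hx⟩
    refine ⟨2, Subtype.ext ?_⟩
    show x ^ (2 ^ 2) = 1
    rw [show (2 : ℕ) ^ 2 = 2 * 2 from rfl, pow_mul, pow_two, pow_two]
    have hxx : (x * x) * a = a * (x * x) := by rw [mul_assoc, hx.2.1, ← mul_assoc, hx.2.1, mul_assoc]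
    rcases hr.fix_z hx.2.1 hx.2.2 with ⟨h1, h2⟩ | ⟨h1, h2⟩
    · exact hr.sq_of_fix hxx (by rw [MulAut.mul_apply, h1, h1]) (by rw [MulAut.mul_apply, h2, h2])
    · exact hr.sq_of_fix hxx (by rw [MulAut.mul_apply, h1, h2]) (by rw [MulAut.mul_apply, h2, h1])
  have hU : UU hr ≤ P := by
    have ha : a ∈ P := by
      refine ⟨h.ha, rfl, ?_⟩
      rw [map_mul, hr.a_f1, hr.ab', hr.a_f1]
    have hb : b ∈ P := by
      refine ⟨h.hb, hr.ba, ?_⟩
      rw [map_mul, hr.bb', hr.comm]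
    rintro x (rfl | rfl | rfl | rfl)
    · exact P.one_mem
    · exact ha
    · exact hb
    · exact P.mul_mem ha hb
  rw [← h.eq_UU hPG h2 hU]
  exact ⟨hg, hga, hz⟩

/-- an element of odd order in `C_G(a)` has order 3 and is inverted by `b` -/
theorem GHyp.ys (h : GHyp a b e G) {y : MulAut V} (hyG : y ∈ G) (hy : y * a = a * y) {n : ℕ} (hn : Odd n)
    (hyn : y ^ n = 1) (hy1 : y ≠ 1) : YS a b y := by
  have hr := h.reg
  have hya : ∀ v, y (a v) = a (y v) := fun v => by rw [← MulAut.mul_apply, hy, MulAut.mul_apply]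
  obtain ⟨m1, m2, m3⟩ := hr.move hy hn hyn hy1
  obtain ⟨f, hf⟩ : ∃ f, f = f1 a e := ⟨_, rfl⟩
  obtain ⟨g, hg⟩ : ∃ g, g = b (f1 a e) := ⟨_, rfl⟩
  have bf : b f = g := by rw [hf, hg]
  have bg : b g = f := by rw [hg, hr.bb', hf]
  have z_eq : f1 a e * b (f1 a e) = f * g := by rw [← hf, bf]
  have sqf : ∀ {w : MulAut V}, w * a = a * w → w f = f → w g = g → w * w = 1 := by
    intro w hw h1 h2
    refine hr.sq_of_fix hw ?_ ?_
    · rw [← hf]; exact h1
    · rw [← hg]; exact h2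
  rw [← hf] at m1
  rw [← hg] at m2
  rw [z_eq] at m3
  have af : a f = f := by rw [hf]; exact hr.a_f1
  have ag : a g = g := by rw [hg, hr.ab', hr.a_f1]
  have f_ne : f ≠ 1 := by rw [hf]; exact hr.f1_ne
  have g_ne : g ≠ 1 := by rw [hg]; exact fun h1 => hr.f1_ne (b.injective (by rw [h1, map_one]))
  have cases : ∀ v, a v = v → v = 1 ∨ v = f ∨ v = g ∨ v = f * g := by
    intro v hv
    have := hr.fix hv
    rw [← hf, bf] at this
    exact this
  have yf := cases (y f) (by rw [← hya, af])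
  have yg := cases (y g) (by rw [← hya, ag])
  have yf1 : y f ≠ 1 := fun h1 => f_ne (y.injective (by rw [h1, map_one]))
  have yg1 : y g ≠ 1 := fun h1 => g_ne (y.injective (by rw [h1, map_one]))
  have ff := hr.sq f
  have gg := hr.sq g
  have gf := hr.comm g f
  have fp1 : g * (f * g) = f := by rw [← mul_assoc, gf, mul_assoc, gg, mul_one]
  have fp2 : f * (f * g) = g := by rw [← mul_assoc, ff, one_mul]
  -- the two cases
  have key : (y f = g ∧ y g = f * g) ∨ (y f = f * g ∧ y g = f) := by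
    rcases yf with h1 | h1 | h1 | h1
    · exact absurd h1 yf1
    · exact absurd h1 m1
    · left
      refine ⟨h1, ?_⟩
      rcases yg with h2 | h2 | h2 | h2
      · exact absurd h2 yg1
      · exfalso
        apply m3
        rw [map_mul, h1, h2, gf]
      · exact absurd h2 m2
      · exact h2
    · right
      refine ⟨h1, ?_⟩
      rcases yg with h2 | h2 | h2 | h2
      · exact absurd h2 yg1
      · exact h2
      · exact absurd h2 m2
      · exfalso
        have : y f = y g := by rw [h1, h2]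
        have h3 := y.injective this
        apply f_ne
        have h4 : f * g = 1 := by rw [h3, gg]
        rw [h4] at h1
        exact absurd h1 yf1
  -- order 3
  have hyy : (y * y) * a = a * (y * y) := by rw [mul_assoc, hy, ← mul_assoc, hy, mul_assoc]
  have hyyy : (y * y * y) * a = a * (y * y * y) := by rw [mul_assoc, hy, ← mul_assoc, hyy, mul_assoc]
  have y3f : y (y (y f)) = f := by
    rcases key with ⟨h1, h2⟩ | ⟨h1, h2⟩
    · rw [h1, h2, map_mul, h1, h2, fp1]
    · rw [h1, map_mul, h1, h2, mul_assoc, gf, ← mul_assoc, ff, one_mul, h2]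
  have y3g : y (y (y g)) = g := by
    rcases key with ⟨h1, h2⟩ | ⟨h1, h2⟩
    · rw [h2, map_mul, h1, h2, fp1, h1]
    · rw [h2, h1, map_mul, h1, h2, mul_assoc, gf, ← mul_assoc, ff, one_mul]
  have hcube : y * y * y = 1 := by
    refine eq_one_of_odd hn ?_ (sqf hyyy y3f y3g)
    have : y * y * y = y ^ 3 := by rw [pow_succ, pow_two]
    rw [this, ← pow_mul, mul_comm, pow_mul, hyn, one_pow]
  refine ⟨hy, ?_, hcube, hy1⟩
  -- `k = b y b y`
  have hbyb : (b * y * b) * a = a * (b * y * b) := by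
    calc b * y * b * a = b * y * (a * b) := by rw [mul_assoc, hr.ba]
      _ = b * (y * a) * b := by group
      _ = b * (a * y) * b := by rw [hy]
      _ = (b * a) * y * b := by group
      _ = (a * b) * y * b := by rw [hr.ba]
      _ = a * (b * y * b) := by group
  have hk : (b * y * b * y) * a = a * (b * y * b * y) := by
    rw [mul_assoc, hy, ← mul_assoc, hbyb, mul_assoc]
  have kf : (b * y * b * y) f = f := by
    simp only [MulAut.mul_apply]
    rcases key with ⟨h1, h2⟩ | ⟨h1, h2⟩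
    · rw [h1, bg, h1, bg]
    · rw [h1, map_mul, bf, bg, map_mul, h1, h2, fp2, bg]
  have kg : (b * y * b * y) g = g := by
    simp only [MulAut.mul_apply]
    rcases key with ⟨h1, h2⟩ | ⟨h1, h2⟩
    · rw [h2, map_mul, bf, bg, map_mul, h1, h2, mul_assoc, gg, mul_one, bf]
    · rw [h2, bf, h2, bf]
  have hkU : b * y * b * y ∈ UU hr := by
    refine h.mem_UU' (G.mul_mem (G.mul_mem (G.mul_mem h.hb hyG) h.hb) hyG) hk ?_
    rw [z_eq, map_mul, kf, kg]
  rcases hkU with h1 | h1 | h1 | h1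
  · rw [eq_inv_iff_mul_eq_one]; exact h1
  · exfalso
    have h2 : b * y * b = a * y⁻¹ := by rw [eq_mul_inv_iff_mul_eq]; exact h1
    have h3 : (b * y * b) * (b * y * b) * (b * y * b) = 1 := by
      calc (b * y * b) * (b * y * b) * (b * y * b) = b * y * (b * b) * y * (b * b) * y * b := by group
        _ = b * (y * y * y) * b := by rw [hr.bb]; group
        _ = 1 := by rw [hcube, mul_one, hr.bb]
    have c1 : Commute a y⁻¹ := (show Commute y a from hy).symm.inv_right
    have h4 : (a * y⁻¹) * (a * y⁻¹) * (a * y⁻¹) = a := by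
      calc (a * y⁻¹) * (a * y⁻¹) * (a * y⁻¹) = a * (y⁻¹ * a) * (y⁻¹ * a) * y⁻¹ := by group
        _ = a * (a * y⁻¹) * (a * y⁻¹) * y⁻¹ := by rw [c1.eq]
        _ = (a * a) * (y⁻¹ * a) * (y⁻¹ * y⁻¹) := by group
        _ = (a * a) * (a * y⁻¹) * (y⁻¹ * y⁻¹) := by rw [c1.eq]
        _ = (a * a) * a * (y * y * y)⁻¹ := by group
        _ = a := by rw [hcube, hr.aa]; group
    rw [h2, h4] at h3
    exact hr.a_ne h3
  · exfalso
    have := DFunLike.congr_fun h1 f
    rw [kf, bf] at this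
    exact hr.bf_ne (by rw [← hf, bf]; exact this.symm)
  · exfalso
    have := DFunLike.congr_fun h1 f
    rw [kf, MulAut.mul_apply, bf, ag] at this
    exact hr.bf_ne (by rw [← hf, bf]; exact this.symm)

theorem GHyp.ys' (h : GHyp a b e G) (ho : OddC G a) : ∃ y ∈ G, YS a b y := by
  obtain ⟨y, hy, h1, h2, n, hn, hyn⟩ := ho
  exact ⟨y, hy, h.ys hy h1 hn hyn h2⟩

/-- two elements of order 3 commute -/
theorem GHyp.comm3 (h : GHyp a b e G) {y z : MulAut V} (hyG : y ∈ G) (hzG : z ∈ G) (hy : YS a b y)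
    (hz : YS b a z) : y * z = z * y := by
  rcases h.reg.cd hy hz with h1 | ⟨h1, h2⟩
  · exact h1
  · exact absurd (h.sq_one (G.mul_mem h.ha (G.mul_mem hyG hzG)) h1) h2

theorem YS.other (h : Reg a b e) {y : MulAut V} (hy : YS a b y) : YS a (a * b) y := by
  refine ⟨hy.comm, ?_, hy.cube, hy.ne⟩
  rw [← hy.inv]
  calc a * b * y * (a * b) = (b * a) * y * (a * b) := by rw [h.ba]
    _ = b * (a * y) * (a * b) := by group
    _ = b * (y * a) * (a * b) := by rw [hy.comm]
    _ = b * y * (a * a) * b := by group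
    _ = b * y * b := by rw [h.aa, mul_one]

/-- **not all three** -/
theorem GHyp.three (h : GHyp a b e G) (h1 : OddC G a) (h2 : OddC G b) (h3 : OddC G (a * b)) : False := by
  obtain ⟨y, hyG, hy⟩ := h.ys' h1
  obtain ⟨z, hzG, hz⟩ := h.swap.ys' h2
  obtain ⟨t, htG, ht⟩ := h.prod.swap.ys' h3
  have hr := h.reg
  refine hr.ce hy hz ht (h.comm3 hyG hzG hy hz) ?_ ?_
  · exact h.prod.comm3 hyG htG (hy.other hr) ht
  · -- the pair `b`, `ab = ba`
    have h4 : GHyp b (b * a) e G := h.swap.prod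
    have e1 : YS (b * a) b t := by
      have := ht.other h.reg.prod.swap
      rw [h.reg.ab_a] at this
      rw [h.reg.ba]
      exact this
    exact h4.comm3 hzG htG (hz.other hr.swap) e1

end Cfsg.Agent.H834.P4
end

-- part: H834/P4/RegB
section
/-!
# S5210, q = 2: the structure of `G` (helper834)
-/

set_option autoImplicit false

open scoped Pointwise

namespace Cfsg.Agent.H834.P4

universe u

variable {V : Type u} [Group V] {a b : MulAut V} {e : V} {G : Subgroup (MulAut V)}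

/-- the elements fixed by `a` and `b` -/
theorem Reg.uniq (h : Reg a b e) {v : V} (hv : v ≠ 1) (h1 : a v = v) (h2 : b v = v) :
    v = f1 a e * b (f1 a e) := by
  rcases h.fix h1 with h3 | h3 | h3 | h3
  · exact absurd h3 hv
  · rw [h3] at h2; exact absurd h2 h.bf_ne
  · rw [h3, h.bb'] at h2; exact absurd h2.symm h.bf_ne
  · exact h3

theorem Reg.z_ne (h : Reg a b e) : f1 a e * b (f1 a e) ≠ 1 := by
  intro h1
  rw [← inv_eq_iff_mul_eq_one, h.inv_eq] at h1
  exact h.bf_ne h1.symm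

theorem GHyp.fixz (h : GHyp a b e G) {g : MulAut V} (hn : ∀ x ∈ UU h.reg, g * x * g⁻¹ ∈ UU h.reg) :
    g (f1 a e * b (f1 a e)) = f1 a e * b (f1 a e) := by
  have hr := h.reg
  have := hr.finite
  have hmap : (UU hr).map (MulAut.conj g).toMonoidHom = UU hr := by
    apply Subgroup.eq_of_le_of_card_ge
    · rintro _ ⟨x, hx, rfl⟩
      exact hn x hx
    · exact (Subgroup.card_map_of_injective (MulAut.conj g).injective).ge
  have az : a (f1 a e * b (f1 a e)) = f1 a e * b (f1 a e) := by rw [map_mul, hr.a_f1, hr.ab', hr.a_f1]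
  have bz : b (f1 a e * b (f1 a e)) = f1 a e * b (f1 a e) := by rw [map_mul, hr.bb', hr.comm]
  have key : ∀ u ∈ UU hr, u (g (f1 a e * b (f1 a e))) = g (f1 a e * b (f1 a e)) := by
    intro u hu
    rw [← hmap] at hu
    obtain ⟨x, hx, rfl⟩ := hu
    have hxz : x (f1 a e * b (f1 a e)) = f1 a e * b (f1 a e) := by
      rcases hx with rfl | rfl | rfl | rfl
      · rfl
      · exact az
      · exact bz
      · rw [MulAut.mul_apply, bz, az]
    show (g * x * g⁻¹) (g (f1 a e * b (f1 a e))) = _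
    rw [MulAut.mul_apply, MulAut.mul_apply, MulAut.inv_apply_self, hxz]
  refine hr.uniq (fun h1 => ?_) (key a (Or.inr (Or.inl rfl))) (key b (Or.inr (Or.inr (Or.inl rfl))))
  exact hr.z_ne (g.injective (by rw [h1, map_one]))

theorem OddC.conj {u g : MulAut V} (h : OddC G u) (hg : g ∈ G) : OddC G (g * u * g⁻¹) := by
  obtain ⟨y, hy, h1, h2, n, hn, hyn⟩ := h
  refine ⟨g * y * g⁻¹, G.mul_mem (G.mul_mem hg hy) (G.inv_mem hg), ?_, ?_, n, hn, ?_⟩
  · calc g * y * g⁻¹ * (g * u * g⁻¹) = g * (y * u) * g⁻¹ := by group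
      _ = g * (u * y) * g⁻¹ := by rw [h1]
      _ = g * u * g⁻¹ * (g * y * g⁻¹) := by group
  · rwa [Ne, conj_eq_one_iff]
  · rw [conj_pow, hyn, mul_one, mul_inv_cancel]

theorem conj_eq_comm {g x : MulAut V} (h : g * x * g⁻¹ = x) : g * x = x * g := by
  rwa [mul_inv_eq_iff_eq_mul] at h

/-- **the Sylow subgroup is self-normalizing** -/
theorem GHyp.norm (h : GHyp a b e G) (ho : OddC G a) {g : MulAut V} (hg : g ∈ G)
    (hn : ∀ x ∈ UU h.reg, g * x * g⁻¹ ∈ UU h.reg) : g ∈ UU h.reg := by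
  have hr := h.reg
  have hinj : ∀ {x y : MulAut V}, g * x * g⁻¹ = g * y * g⁻¹ → x = y := fun hxy =>
    mul_left_cancel (mul_right_cancel hxy)
  have hne : ∀ {x : MulAut V}, x ≠ 1 → g * x * g⁻¹ ≠ 1 := fun hx => by rwa [Ne, conj_eq_one_iff]
  have hab : g * (a * b) * g⁻¹ = (g * a * g⁻¹) * (g * b * g⁻¹) := by group
  have hsw : ∀ x ∈ UU h.swap.reg, g * x * g⁻¹ ∈ UU h.swap.reg := by
    intro x hx
    have h1 := hn x (by rw [mem_UU] at hx ⊢; rw [hr.ba] at hx; (clear * - hx; itauto))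
    rw [mem_UU] at h1 ⊢
    rw [hr.ba]
    (clear * - h1; itauto)
  have hpr : ∀ x ∈ UU h.prod.swap.reg, g * x * g⁻¹ ∈ UU h.prod.swap.reg := by
    intro x hx
    have h1 := hn x (by rw [mem_UU] at hx ⊢; rw [hr.ab_a] at hx; (clear * - hx; itauto))
    rw [mem_UU] at h1 ⊢
    rw [hr.ab_a]
    (clear * - h1; itauto)
  have c1 : g * a * g⁻¹ = a → g ∈ UU hr := fun h1 => h.mem_UU' hg (conj_eq_comm h1) (h.fixz hn)
  have c2 : g * b * g⁻¹ = b → g ∈ UU hr := fun h1 => by
    have h2 := h.swap.mem_UU' hg (conj_eq_comm h1) (h.swap.fixz hsw)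
    rw [mem_UU] at h2 ⊢
    rw [hr.ba] at h2
    (clear * - h2; itauto)
  have c3 : g * (a * b) * g⁻¹ = a * b → g ∈ UU hr := fun h1 => by
    have h2 := h.prod.swap.mem_UU' hg (conj_eq_comm h1) (h.prod.swap.fixz hpr)
    rw [mem_UU] at h2 ⊢
    rw [hr.ab_a] at h2
    (clear * - h2; itauto)
  rcases hn a (Or.inr (Or.inl rfl)) with h1 | h1 | h1 | h1
  · exact absurd h1 (hne hr.a_ne)
  · exact c1 h1
  · rcases hn b (Or.inr (Or.inr (Or.inl rfl))) with h2 | h2 | h2 | h2
    · exact absurd h2 (hne hr.b_ne)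
    · apply c3
      rw [hab, h1, h2, hr.ba]
    · exact absurd (hinj (h1.trans h2.symm)) hr.a_ne_b
    · exfalso
      have k1 := ho.conj hg
      rw [h1] at k1
      have k2 := k1.conj hg
      rw [h2] at k2
      exact h.three ho k1 k2
  · rcases hn b (Or.inr (Or.inr (Or.inl rfl))) with h2 | h2 | h2 | h2
    · exact absurd h2 (hne hr.b_ne)
    · exfalso
      have k1 := ho.conj hg
      rw [h1] at k1
      have k2 := k1.conj hg
      rw [hab, h1, h2, hr.ab_a] at k2
      exact h.three ho k2 k1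
    · exact c2 h2
    · exact absurd (hinj (h1.trans h2.symm)) hr.a_ne_b

/-- **Burnside**: the normal complement -/
theorem GHyp.compl (h : GHyp a b e G) (hN : ∀ g ∈ G, (∀ x ∈ UU h.reg, g * x * g⁻¹ ∈ UU h.reg) → g ∈ UU h.reg) :
    ∃ O : Subgroup (MulAut V), O ≤ G ∧ Odd (Nat.card O) ∧ (∀ g ∈ G, ∀ x ∈ O, g * x * g⁻¹ ∈ O) ∧
      (∀ g ∈ G, ∃ x ∈ O, ∃ u ∈ UU h.reg, g = x * u) ∧ (∀ y ∈ G, (∃ n : ℕ, Odd n ∧ y ^ n = 1) → y ∈ O) ∧
      Nat.card G = Nat.card O * Nat.card (UU h.reg) := by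
  have hr := h.reg
  have hfV := hr.finite
  have hUG := h.UU_le
  have : Fact (Nat.Prime 2) := ⟨Nat.prime_two⟩
  have h2U : IsPGroup 2 (UU hr) := by
    rintro ⟨x, hx⟩
    refine ⟨1, Subtype.ext ?_⟩
    show x ^ (2 ^ 1) = 1
    rw [pow_one, pow_two]
    exact sq_UU hr hx
  let U' : Subgroup G := (UU hr).subgroupOf G
  have h2U' : IsPGroup 2 U' := h2U.comap_of_injective G.subtype G.subtype_injective
  obtain ⟨P, hP⟩ := h2U'.exists_le_sylow
  have hPU : (P : Subgroup G) = U' := by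
    have h1 : (P : Subgroup G).map G.subtype = UU hr := by
      refine h.eq_UU (Subgroup.map_subtype_le _) (P.isPGroup'.map G.subtype) ?_
      intro x hx
      exact ⟨⟨x, hUG hx⟩, hP (Subgroup.mem_subgroupOf.2 hx), rfl⟩
    ext x
    rw [Subgroup.mem_subgroupOf, ← h1]
    constructor
    · intro hx
      exact ⟨x, hx, rfl⟩
    · rintro ⟨y, hy, hyx⟩
      have : y = x := Subtype.ext hyx
      rwa [← this]
  have hnc : Subgroup.normalizer ((P : Subgroup G) : Set G) ≤ Subgroup.centralizer ((P : Subgroup G) : Set G) := by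
    intro g hg
    rw [Subgroup.mem_normalizer_iff] at hg
    have hgU : (g : MulAut V) ∈ UU hr := by
      refine hN g g.2 fun x hx => ?_
      have h1 := (hg ⟨x, hUG hx⟩).1 (by rw [hPU]; exact Subgroup.mem_subgroupOf.2 hx)
      rw [hPU] at h1
      exact Subgroup.mem_subgroupOf.1 h1
    rw [Subgroup.mem_centralizer_iff]
    intro x hx
    rw [hPU] at hx
    exact Subtype.ext (comm_UU hr (Subgroup.mem_subgroupOf.1 hx) hgU)
  obtain ⟨T, hT⟩ : ∃ T : G →* P, T = MonoidHom.transferSylow P hnc := ⟨_, rfl⟩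
  obtain ⟨O', hO'⟩ : ∃ O' : Subgroup G, O' = T.ker := ⟨_, rfl⟩
  have hcompl : (Subgroup.IsComplement' O' (P : Subgroup G) :) := by
    rw [hO', hT]; exact MonoidHom.ker_transferSylow_isComplement' P hnc
  have hnd : ¬ 2 ∣ Nat.card O' := by
    rw [hO', hT]; exact MonoidHom.not_dvd_card_ker_transferSylow P hnc
  have hnor : O'.Normal := by rw [hO']; exact MonoidHom.normal_ker _
  have hcO : Nat.card (O'.map G.subtype) = Nat.card O' := Subgroup.card_map_of_injective G.subtype_injective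
  refine ⟨O'.map G.subtype, Subgroup.map_subtype_le _, ?_, ?_, ?_, ?_, ?_⟩
  · rw [hcO, ← Nat.not_even_iff_odd, even_iff_two_dvd]
    exact hnd
  · rintro g hg _ ⟨x, hx, rfl⟩
    exact ⟨(⟨g, hg⟩ * x * ⟨g, hg⟩⁻¹ :), hnor.conj_mem x hx _, rfl⟩
  · intro g hg
    have h1 := hcompl.mul_eq
    have h2 : (⟨g, hg⟩ : G) ∈ ((O' : Set G) * ((P : Subgroup G) : Set G)) := by rw [h1]; trivial
    obtain ⟨x, hx, u, hu, hxu⟩ := Set.mem_mul.1 h2
    have hu' : u ∈ (P : Subgroup G) := hu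
    rw [hPU] at hu'
    exact ⟨x, ⟨x, hx, rfl⟩, u, Subgroup.mem_subgroupOf.1 hu', (congrArg Subtype.val hxu).symm⟩
  · rintro y hy ⟨n, hn, hyn⟩
    refine ⟨⟨y, hy⟩, ?_, rfl⟩
    show (⟨y, hy⟩ : G) ∈ O'
    rw [hO', MonoidHom.mem_ker]
    have h1 : (T ⟨y, hy⟩) ^ n = 1 := by
      rw [← map_pow]
      have : (⟨y, hy⟩ : G) ^ n = 1 := Subtype.ext hyn
      rw [this, map_one]
    obtain ⟨k, hk⟩ := P.isPGroup' (T ⟨y, hy⟩)
    have h2 : orderOf (T ⟨y, hy⟩) ∣ n := orderOf_dvd_of_pow_eq_one h1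
    have h3 : orderOf (T ⟨y, hy⟩) ∣ 2 ^ k := orderOf_dvd_of_pow_eq_one hk
    have h4 : Nat.Coprime n (2 ^ k) := Nat.Coprime.pow_right k (Nat.coprime_two_right.2 hn)
    exact orderOf_eq_one_iff.1 (Nat.eq_one_of_dvd_coprimes h4 h2 h3)
  · rw [hcO, ← hcompl.card_mul_card, hPU]
    congr 1
    exact Nat.card_congr (Subgroup.subgroupOfEquivOfLe hUG).toEquiv

theorem card_UU (h : Reg a b e) : Nat.card (UU h) = 4 := by
  classical
  have h1 : ((UU h : Subgroup (MulAut V)) : Set (MulAut V)) = (({1, a, b, a * b} : Finset (MulAut V)) : Set (MulAut V)) := by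
    ext x
    simp only [Finset.coe_insert, Finset.coe_singleton, Set.mem_insert_iff, Set.mem_singleton_iff]
    exact Iff.rfl
  have h2 : Nat.card (UU h) = ((UU h : Subgroup (MulAut V)) : Set (MulAut V)).ncard := rfl
  rw [h2, h1, Set.ncard_coe_finset]
  have e1 : a ≠ a * b := fun h3 => h.b_ne (by
    have : a * 1 = a * b := by rw [mul_one]; exact h3
    exact (mul_left_cancel this).symm)
  have e2 : b ≠ a * b := fun h3 => h.a_ne (by
    have : 1 * b = a * b := by rw [one_mul]; exact h3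
    exact (mul_right_cancel this).symm)
  rw [Finset.card_insert_of_notMem, Finset.card_insert_of_notMem, Finset.card_insert_of_notMem,
    Finset.card_singleton]
  · simpa using e2
  · simp only [Finset.mem_insert, Finset.mem_singleton, not_or]
    exact ⟨h.a_ne_b, e1⟩
  · simp only [Finset.mem_insert, Finset.mem_singleton, not_or]
    exact ⟨h.a_ne.symm, h.b_ne.symm, h.ab_ne.symm⟩

/-- an involution without fixed points of odd order inverts the complement -/
theorem inv_of_not {O : Subgroup (MulAut V)} [Finite O] (hOG : O ≤ G) (hodd : Odd (Nat.card O)) {u : MulAut V}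
    (huu : u * u = 1) (hnor : ∀ x ∈ O, u * x * u⁻¹ ∈ O) (hu : ¬ OddC G u) :
    (∀ x ∈ O, u * x * u = x⁻¹) ∧ ∀ x ∈ O, ∀ y ∈ O, x * y = y * x := by
  have hui : u⁻¹ = u := by rw [inv_eq_iff_mul_eq_one]; exact huu
  let φ : O →* O :=
    { toFun := fun x => ⟨u * x * u⁻¹, hnor x x.2⟩
      map_one' := Subtype.ext (by simp)
      map_mul' := fun x y => Subtype.ext (by
        show u * (x * y) * u⁻¹ = u * x * u⁻¹ * (u * y * u⁻¹)
        group) }
  have hfp : MonoidHom.FixedPointFree φ := by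
    intro x hx
    by_contra hne
    apply hu
    refine ⟨x, hOG x.2, ?_, fun h1 => hne (Subtype.ext h1), Nat.card O, hodd, ?_⟩
    · have h1 : u * x * u⁻¹ = x := congrArg Subtype.val hx
      rw [mul_inv_eq_iff_eq_mul] at h1
      exact h1.symm
    · rw [← Subgroup.coe_pow, pow_card_eq_one', Subgroup.coe_one]
  have hinv : Function.Involutive φ := by
    intro x
    apply Subtype.ext
    show u * (u * x * u⁻¹) * u⁻¹ = x
    rw [hui]
    calc u * (u * (x : MulAut V) * u) * u = (u * u) * x * (u * u) := by group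
      _ = x := by rw [huu, one_mul, mul_one]
  refine ⟨fun x hx => ?_, fun x hx y hy => ?_⟩
  · have h1 := congrFun (hfp.coe_eq_inv_of_involutive hinv) ⟨x, hx⟩
    have h2 : u * x * u⁻¹ = x⁻¹ := congrArg Subtype.val h1
    rwa [hui] at h2
  · exact congrArg Subtype.val (hfp.commute_all_of_involutive hinv ⟨x, hx⟩ ⟨y, hy⟩).eq

/-- **only `a` has a centralizer of even order**: `a` is central -/
theorem GHyp.central (h : GHyp a b e G) (ho : OddC G a) (h1 : ¬ OddC G b) (h2 : ¬ OddC G (a * b)) :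
    ∀ g ∈ G, g * a = a * g := by
  have hr := h.reg
  have := hr.finite
  obtain ⟨O, hOG, hodd, hnor, hdec, -, -⟩ := h.compl fun g hg hn => h.norm ho hg hn
  obtain ⟨i1, -⟩ := inv_of_not hOG hodd hr.bb (fun x hx => hnor b h.hb x hx) h1
  obtain ⟨i2, -⟩ := inv_of_not hOG hodd hr.abab (fun x hx => hnor _ (G.mul_mem h.ha h.hb) x hx) h2
  have hax : ∀ x ∈ O, x * a = a * x := by
    intro x hx
    have e1 : a * b * x * (a * b) = a * (b * x * b) * a := by
      calc a * b * x * (a * b) = a * b * x * (b * a) := by rw [hr.ba]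
        _ = _ := by group
    have e2 : a * x⁻¹ * a = x⁻¹ := by rw [← i1 x hx, ← e1, i2 x hx, i1 x hx]
    have e3 : a * x⁻¹ = x⁻¹ * a := by
      calc a * x⁻¹ = a * x⁻¹ * (a * a) := by rw [hr.aa, mul_one]
        _ = a * x⁻¹ * a * a := by group
        _ = x⁻¹ * a := by rw [e2]
    have e4 : Commute a x⁻¹ := e3
    have e5 : Commute a x := by simpa using e4.inv_right
    exact e5.eq.symm
  intro g hg
  obtain ⟨x, hx, u, hu, rfl⟩ := hdec g hg
  rw [mul_assoc, comm_UU hr hu (Or.inr (Or.inl rfl)), ← mul_assoc, hax x hx, mul_assoc]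

/-- two elements of order 3 in `C_G(a)` commuting with each other -/
theorem Reg.eq_or (h : Reg a b e) {y s : MulAut V} (hy : YS a b y) (hs : YS a b s) (hc : s * y = y * s) :
    s = y ∨ s = y * y := by
  have hya : ∀ v, y (a v) = a (y v) := fun v => by rw [← MulAut.mul_apply, hy.comm, MulAut.mul_apply]
  have hsa : ∀ v, s (a v) = a (s v) := fun v => by rw [← MulAut.mul_apply, hs.comm, MulAut.mul_apply]
  obtain ⟨m1, -, -⟩ := h.move hy.comm (n := 3) (by decide) hy.pow3 hy.ne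
  obtain ⟨s1, -, -⟩ := h.move hs.comm (n := 3) (by decide) hs.pow3 hs.ne
  have af : a (f1 a e) = f1 a e := h.a_f1
  have hyy : y (y (f1 a e)) = f1 a e * y (f1 a e) := h.yy hy _
  -- an element of order 1 or 3 commuting with `a` and fixing `f` is trivial
  have key : ∀ w : MulAut V, w * a = a * w → w ^ 3 = 1 → w (f1 a e) = f1 a e → w = 1 := by
    intro w h1 h3 h4
    by_contra hne
    exact (h.move h1 (n := 3) (by decide) h3 hne).1 h4
  have sc : Commute s y := hc
  have ca : Commute y a := hy.comm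
  have cs : Commute s a := hs.comm
  have y3 : y ^ 3 = 1 := hy.pow3
  have s3 : s ^ 3 = 1 := hs.pow3
  -- `s f` is `y f` or `y y f`
  have hcase : s (f1 a e) = y (f1 a e) ∨ s (f1 a e) = y (y (f1 a e)) := by
    have q1 := h.fix (v := y (f1 a e)) (by rw [← hya, af])
    have q2 := h.fix (v := s (f1 a e)) (by rw [← hsa, af])
    have n1 : y (f1 a e) ≠ 1 := fun h1 => h.f1_ne (y.injective (by rw [h1, map_one]))
    have n2 : s (f1 a e) ≠ 1 := fun h1 => h.f1_ne (s.injective (by rw [h1, map_one]))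
    rw [hyy]
    have ff := h.sq (f1 a e)
    rcases q1 with q1 | q1 | q1 | q1
    · exact absurd q1 n1
    · exact absurd q1 m1
    · rcases q2 with q2 | q2 | q2 | q2
      · exact absurd q2 n2
      · exact absurd q2 s1
      · left; rw [q1, q2]
      · right; rw [q1, q2]
    · rcases q2 with q2 | q2 | q2 | q2
      · exact absurd q2 n2
      · exact absurd q2 s1
      · right; rw [q1, q2, ← mul_assoc, ff, one_mul]
      · left; rw [q1, q2]
  rcases hcase with h1 | h1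
  · left
    have h2 : s⁻¹ * y = 1 := by
      refine key _ ((cs.inv_left.mul_left ca).eq) ?_ ?_
      · rw [(sc.inv_left).mul_pow, inv_pow, s3, y3, inv_one, one_mul]
      · rw [MulAut.mul_apply, ← h1, MulAut.inv_apply_self]
    rw [inv_mul_eq_one] at h2
    exact h2
  · right
    have h2 : s⁻¹ * (y * y) = 1 := by
      refine key _ ((cs.inv_left.mul_left (ca.mul_left ca)).eq) ?_ ?_
      · rw [((sc.mul_right sc).inv_left).mul_pow, inv_pow, s3, (Commute.refl y).mul_pow, y3, inv_one, one_mul,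
          one_mul]
      · rw [MulAut.mul_apply, MulAut.mul_apply, ← h1, MulAut.inv_apply_self]
    rw [inv_mul_eq_one] at h2
    exact h2

/-- **two of them**: `|G| = 36` -/
theorem GHyp.card36 (h : GHyp a b e G) (ho : OddC G a) (ho' : OddC G b) : Nat.card G = 36 := by
  classical
  have hr := h.reg
  have := hr.finite
  obtain ⟨O, hOG, hodd, hnor, -, hmem, hcard⟩ := h.compl fun g hg hn => h.norm ho hg hn
  obtain ⟨i1, hcomm⟩ := inv_of_not hOG hodd hr.abab (fun x hx => hnor _ (G.mul_mem h.ha h.hb) x hx)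
    fun h3 => h.three ho ho' h3
  obtain ⟨y, hyG, hy⟩ := h.ys' ho
  obtain ⟨z, hzG, hz⟩ := h.swap.ys' ho'
  have hyO : y ∈ O := hmem y hyG ⟨3, by decide, hy.pow3⟩
  have hzO : z ∈ O := hmem z hzG ⟨3, by decide, hz.pow3⟩
  have y3 := hy.pow3
  have z3 := hz.pow3
  have aO : ∀ x ∈ O, a * x * a ∈ O := by
    intro x hx
    have h1 := hnor a h.ha x hx
    have : a⁻¹ = a := by rw [inv_eq_iff_mul_eq_one]; exact hr.aa
    rwa [this] at h1
  have powO : ∀ x ∈ O, x ^ Nat.card O = 1 := by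
    intro x hx
    have : ((⟨x, hx⟩ ^ Nat.card O : O) : MulAut V) = 1 := by rw [pow_card_eq_one', Subgroup.coe_one]
    rwa [Subgroup.coe_pow] at this
  -- elements of `C_O(a)` and of `C_O(b)`
  have hOa : ∀ s ∈ O, s * a = a * s → s = 1 ∨ s = y ∨ s = y * y := by
    intro s hs hsa
    by_cases h1 : s = 1
    · exact Or.inl h1
    · right
      exact hr.eq_or hy (h.ys (hOG hs) hsa hodd (powO s hs) h1) (hcomm s hs y hyO)
  have hOb : ∀ s ∈ O, s * b = b * s → s = 1 ∨ s = z ∨ s = z * z := by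
    intro s hs hsb
    by_cases h1 : s = 1
    · exact Or.inl h1
    · right
      exact hr.swap.eq_or hz (h.swap.ys (hOG hs) hsb hodd (powO s hs) h1) (hcomm s hs z hzO)
  -- every element is a product
  have hprod : ∀ x ∈ O, ∃ i j : Fin 3, x = y ^ (i : ℕ) * z ^ (j : ℕ) := by
    intro x hx
    obtain ⟨m, hm⟩ := hodd
    obtain ⟨r, hr'⟩ : ∃ r, r = x ^ (m + 1) := ⟨_, rfl⟩
    have hrO : r ∈ O := by rw [hr']; exact O.pow_mem hx _
    have hrr : r * r = x := by
      rw [hr', ← pow_add, show m + 1 + (m + 1) = (2 * m + 1) + 1 by ring, ← hm, pow_succ, powO x hx, one_mul]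
    have haO := aO r hrO
    have c1 := hcomm r hrO _ haO
    have i2 : b * r * b = (a * r * a)⁻¹ := by
      have e1 := i1 _ haO
      rw [← e1]
      calc b * r * b = b * (a * a) * r * (a * a) * b := by rw [hr.aa, mul_one, mul_one]
        _ = (b * a) * (a * r * a) * (a * b) := by group
        _ = a * b * (a * r * a) * (a * b) := by rw [hr.ba]
    have s1 : (r * (a * r * a)) * a = a * (r * (a * r * a)) := by
      calc (r * (a * r * a)) * a = r * a * r * (a * a) := by group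
        _ = r * a * r := by rw [hr.aa, mul_one]
        _ = (a * a) * r * a * r := by rw [hr.aa, one_mul]
        _ = a * ((a * r * a) * r) := by group
        _ = a * (r * (a * r * a)) := by rw [← c1]
    have t1 : (r * (a * r * a)⁻¹) * b = b * (r * (a * r * a)⁻¹) := by
      rw [← i2]
      calc r * (b * r * b) * b = r * b * r * (b * b) := by group
        _ = r * b * r := by rw [hr.bb, mul_one]
        _ = (b * b) * r * b * r := by rw [hr.bb, one_mul]
        _ = b * ((b * r * b) * r) := by group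
        _ = b * (r * (b * r * b)) := by
          rw [i2, hcomm _ (O.inv_mem haO) r hrO]
    have hst : x = (r * (a * r * a)) * (r * (a * r * a)⁻¹) := by
      rw [c1, mul_assoc, ← mul_assoc r r, hrr, ← mul_assoc, hcomm _ haO x hx, mul_assoc, mul_inv_cancel, mul_one]
    have q1 := hOa _ (O.mul_mem hrO haO) s1
    have q2 := hOb _ (O.mul_mem hrO (O.inv_mem haO)) t1
    have q1' : ∃ i : Fin 3, r * (a * r * a) = y ^ (i : ℕ) := by
      rcases q1 with q | q | q
      · exact ⟨0, by rw [q]; rfl⟩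
      · exact ⟨1, by rw [q]; simp⟩
      · exact ⟨2, by rw [q]; simp [pow_two]⟩
    have q2' : ∃ i : Fin 3, r * (a * r * a)⁻¹ = z ^ (i : ℕ) := by
      rcases q2 with q | q | q
      · exact ⟨0, by rw [q]; rfl⟩
      · exact ⟨1, by rw [q]; simp⟩
      · exact ⟨2, by rw [q]; simp [pow_two]⟩
    obtain ⟨i, hi⟩ := q1'
    obtain ⟨j, hj⟩ := q2'
    exact ⟨i, j, by rw [hst, hi, hj]⟩
  -- at most 9
  have hle : Nat.card O ≤ 9 := by
    let φ : Fin 3 × Fin 3 → O := fun ij => ⟨y ^ (ij.1 : ℕ) * z ^ (ij.2 : ℕ),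
      O.mul_mem (O.pow_mem hyO _) (O.pow_mem hzO _)⟩
    have hs : Function.Surjective φ := by
      rintro ⟨x, hx⟩
      obtain ⟨i, j, hij⟩ := hprod x hx
      exact ⟨(i, j), Subtype.ext hij.symm⟩
    have h9 : Nat.card (Fin 3 × Fin 3) = 9 := by simp
    rw [← h9]
    exact Nat.card_le_card_of_surjective φ hs
  -- divisible by 3
  have hoy : orderOf y = 3 := orderOf_eq_prime y3 hy.ne
  have h3 : 3 ∣ Nat.card O := by
    have h1 := Subgroup.card_dvd_of_le (show Subgroup.zpowers y ≤ O by rw [Subgroup.zpowers_le]; exact hyO)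
    rwa [Nat.card_zpowers, hoy] at h1
  -- not 3
  have hne : Nat.card O ≠ 3 := by
    intro h33
    have h1 : Subgroup.zpowers y = O := by
      apply Subgroup.eq_of_le_of_card_ge (by rw [Subgroup.zpowers_le]; exact hyO)
      rw [Nat.card_zpowers, hoy, h33]
    rw [← h1] at hzO
    obtain ⟨k, hk⟩ := Subgroup.mem_zpowers_iff.1 hzO
    have c : Commute y a := hy.comm
    have h2 : z * a = a * z := by rw [← hk]; exact (c.zpow_left k).eq
    have h4 : a * z * a = z⁻¹ := hz.inv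
    rw [← h2, mul_assoc, hr.aa, mul_one] at h4
    have h5 : z * z = 1 := by
      nth_rw 2 [h4]
      exact mul_inv_cancel z
    exact hz.ne (eq_one_of_odd (n := 3) (by decide) z3 h5)
  have h9 : Nat.card O = 9 := by
    obtain ⟨k, hk⟩ := h3
    rw [hk] at hodd hle hne ⊢
    have hk3 : k ≤ 3 := by omega
    interval_cases k
    · exact absurd hodd (by decide)
    · exact absurd rfl hne
    · exact absurd hodd (by decide)
    · rfl
  rw [hcard, h9, card_UU]

end Cfsg.Agent.H834.P4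
end

private theorem dce_8ef13891764d : _root_.True := by
  try have : _root_.True := by simp only [_root_.Cfsg.Agent.H834.P4.wc.eq_1]
  try have : _root_.True := by simp only [_root_.Cfsg.Agent.H834.P4.pw.eq_1]
  try have : _root_.True := by simp only [_root_.Cfsg.Agent.H834.P4.u2.eq_1]
  try have : _root_.True := by simp only [_root_.Cfsg.Agent.H834.P4.UU.congr_simp]
  try have : _root_.True := by simp only [_root_.Cfsg.Agent.H834.P4.cod.eq_1]
  try have : _root_.True := by simp only [_root_.Cfsg.Agent.H834.P4.u3.eq_1]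
  try have : _root_.True := by simp only [_root_.Cfsg.Agent.H834.P4.u0.eq_1]
  try have : _root_.True := by simp only [_root_.Cfsg.Agent.H834.P4.tAB.eq_1]
  try have : _root_.True := by simp only [_root_.Cfsg.Agent.H834.P4.u1.eq_1]
  try have : _root_.True := by simp only [_root_.Cfsg.Agent.H834.P4.tABC.eq_1]
  try have : _root_.True := by simp only [_root_.Cfsg.Agent.H834.P4.f1.eq_1]
  exact _root_.True.intro
end

-- part: H55/P4/StepOne_mg
section
prune_inst 0x342041000100000000000596310000244000019200600000a8010d060000c3624d00210104803411580a220000000000000000e00040000000200400000000000088100421400000020086000084000000000000000000000000000000000004000000000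
set_option linter.all false
open scoped Cfsg.Agent.FastGrp

-- part: H55/P4/Gen
section
/-!
# Generic lemmas on `hull`, `Inv` and the field (copied from `H839/PU/StepOne` of helper839)
-/

set_option autoImplicit false
set_option linter.unusedVariables false

namespace Cfsg.Agent.H55.P4.Gen

open Cfsg Cfsg.FusionSystem Cfsg.Agent.H756.PU

universe u

section gen

variable {Ω : Type*} [Group Ω] {E : Subgroup Ω} {Γ : Subgroup (MulAut E)}

/-- `hull` as a subgroup of `E` -/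
def hullIn (Γ : Subgroup (MulAut E)) (X : Subgroup Ω) : Subgroup E :=
  Subgroup.closure {y : E | ∃ γ ∈ Γ, ∃ e : E, (e : Ω) ∈ X ∧ y = γ e}

theorem hull_eq_map (Γ : Subgroup (MulAut E)) (X : Subgroup Ω) :
    hull Γ X = (hullIn Γ X).map E.subtype := by
  rw [hullIn, MonoidHom.map_closure, hull]
  congr 1
  ext y
  constructor
  · rintro ⟨γ, hγ, e, he, rfl⟩
    exact ⟨γ e, ⟨γ, hγ, e, he, rfl⟩, rfl⟩
  · rintro ⟨_, ⟨γ, hγ, e, he, rfl⟩, rfl⟩
    exact ⟨γ, hγ, e, he, rfl⟩

/-- the hull is invariant -/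
theorem inv_hull (Γ : Subgroup (MulAut E)) (X : Subgroup Ω) : _root_.Cfsg.Agent.H756.PU.Inv Γ (hull Γ X) := by
  rw [hull_eq_map]
  refine ⟨by rintro _ ⟨x, -, rfl⟩; exact x.2, fun γ hγ e he => ?_⟩
  obtain ⟨x, hx, hxe⟩ := he
  have hxe' : x = e := Subtype.ext hxe
  subst hxe'
  refine ⟨γ x, ?_, rfl⟩
  have h : (hullIn Γ X).map γ.toMonoidHom ≤ hullIn Γ X := by
    rw [hullIn, MonoidHom.map_closure, Subgroup.closure_le]
    rintro _ ⟨_, ⟨δ, hδ, e, he, rfl⟩, rfl⟩
    exact Subgroup.subset_closure ⟨γ * δ, Γ.mul_mem hγ hδ, e, he, rfl⟩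
  exact h ⟨x, hx, rfl⟩

theorem le_hull {X : Subgroup Ω} (hX : X ≤ E) : X ≤ hull Γ X := fun x hx =>
  Subgroup.subset_closure ⟨1, Γ.one_mem, ⟨x, hX hx⟩, hx, rfl⟩

/-- the hull of a central subgroup of exponent `p` is central of exponent `p` -/
theorem hull_central {X : Subgroup Ω} (hX : ∀ x ∈ X, ∀ e ∈ E, x * e = e * x) {p : ℕ}
    (hp : ∀ x ∈ X, x ^ p = 1) :
    ∀ m ∈ hull Γ X, m ∈ E ∧ (∀ e ∈ E, m * e = e * m) ∧ m ^ p = 1 := by
  intro m hm
  induction hm using Subgroup.closure_induction with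
  | mem y hy =>
    obtain ⟨γ, hγ, e, he, rfl⟩ := hy
    refine ⟨(γ e).2, fun f hf => ?_, ?_⟩
    · have h1 : (⟨f, hf⟩ : E) = γ (γ⁻¹ ⟨f, hf⟩) := by rw [MulAut.apply_inv_self]
      have h2 : e * γ⁻¹ ⟨f, hf⟩ = γ⁻¹ ⟨f, hf⟩ * e := Subtype.ext (hX e he _ (γ⁻¹ ⟨f, hf⟩).2)
      have h3 : γ e * (⟨f, hf⟩ : E) = ⟨f, hf⟩ * γ e := by
        rw [h1, ← map_mul, h2, map_mul]
      exact congrArg Subtype.val h3
    · have h1 : e ^ p = 1 := Subtype.ext (hp e he)
      have h2 : (γ e) ^ p = 1 := by rw [← map_pow, h1, map_one]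
      exact congrArg Subtype.val h2
  | one => exact ⟨E.one_mem, fun e _ => by rw [one_mul, mul_one], one_pow p⟩
  | mul x y _ _ hx hy =>
    refine ⟨E.mul_mem hx.1 hy.1, fun e he => ?_, ?_⟩
    · rw [mul_assoc, hy.2.1 e he, ← mul_assoc, hx.2.1 e he, mul_assoc]
    · have hc : Commute x y := hx.2.1 y hy.1
      rw [hc.mul_pow, hx.2.2, hy.2.2, one_mul]
  | inv x _ hx =>
    refine ⟨E.inv_mem hx.1, fun e he => ?_, ?_⟩
    · have hc : Commute x e := hx.2.1 e he
      exact hc.inv_left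
    · rw [inv_pow, hx.2.2, inv_one]

/-- the commutator subgroup is invariant -/
theorem inv_commutator (Γ : Subgroup (MulAut E)) : _root_.Cfsg.Agent.H756.PU.Inv Γ ⁅E, E⁆ := by
  rw [← Subgroup.map_subtype_commutator]
  refine ⟨by rintro _ ⟨x, -, rfl⟩; exact x.2, fun γ hγ e he => ?_⟩
  obtain ⟨x, hx, hxe⟩ := he
  have hxe' : x = e := Subtype.ext hxe
  subst hxe'
  refine ⟨γ x, ?_, rfl⟩
  have h : (commutator E).map γ.toMonoidHom ≤ commutator E := by
    rw [commutator_def, Subgroup.map_commutator]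
    exact Subgroup.commutator_mono le_top le_top
  exact h ⟨x, hx, rfl⟩

theorem inv_bot' (Γ : Subgroup (MulAut E)) : _root_.Cfsg.Agent.H756.PU.Inv Γ (⊥ : Subgroup Ω) :=
  ⟨bot_le, fun γ _ e he => by
    have h1 : e = 1 := Subtype.ext (Subgroup.mem_bot.1 he)
    rw [h1, map_one]
    exact (⊥ : Subgroup Ω).one_mem⟩

theorem inv_inf {M N : Subgroup Ω} (hM : _root_.Cfsg.Agent.H756.PU.Inv Γ M) (hN : _root_.Cfsg.Agent.H756.PU.Inv Γ N) : _root_.Cfsg.Agent.H756.PU.Inv Γ (M ⊓ N) :=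
  ⟨inf_le_left.trans hM.1, fun γ hγ e he => ⟨hM.2 γ hγ e he.1, hN.2 γ hγ e he.2⟩⟩

end gen

/-! ### The field -/

section field

variable {K : Type u} [Field K] [StarRing K] {p n : ℕ}

theorem two_le_q (h : HypK K p n) : 2 ≤ p ^ n :=
  h.pp.two_le.trans (Nat.le_self_pow (by have := h.hn; omega) p)

omit [StarRing K] in
theorem card_roots_le {P : Polynomial K} (hP : P ≠ 0) {m : ℕ} (hd : P.natDegree ≤ m) (s : Set K)
    (hs : ∀ x ∈ s, P.eval x = 0) : Nat.card s ≤ m := by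
  classical
  have h1 : s ⊆ (P.roots.toFinset : Set K) := fun x hx => by
    rw [Finset.mem_coe, Multiset.mem_toFinset, Polynomial.mem_roots hP]
    exact hs x hx
  have h2 : Nat.card s ≤ P.roots.toFinset.card := by
    rw [Nat.card_coe_set_eq, ← Set.ncard_coe_finset]
    exact Set.ncard_le_ncard h1 (Finset.finite_toSet _)
  exact h2.trans ((Multiset.toFinset_card_le _).trans ((Polynomial.card_roots' P).trans hd))

/-- the fixed field has at most `q` elements -/
theorem card_fix_le (h : HypK K p n) : Nat.card {x : K | star x = x} ≤ p ^ n := by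
  have hq := two_le_q h
  refine card_roots_le (P := Polynomial.X ^ (p ^ n) - Polynomial.X) ?_ ?_ _ ?_
  · exact FiniteField.X_pow_card_sub_X_ne_zero K (by omega)
  · rw [FiniteField.X_pow_card_sub_X_natDegree_eq K (by omega)]
  · intro x hx
    have hx' : star x = x := hx
    rw [h.star_eq] at hx'
    simp [hx']

/-- the skew elements -/
theorem card_skew_le (h : HypK K p n) : Nat.card {x : K | x + star x = 0} ≤ p ^ n := by
  have := h.fin
  by_cases hε : ∃ ε : K, ε ≠ 0 ∧ ε + star ε = 0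
  · obtain ⟨ε, hε0, hε⟩ := hε
    refine le_trans ?_ (card_fix_le h)
    have hs : star ε = -ε := by linear_combination hε
    refine Nat.card_le_card_of_injective
      (fun x : {x : K | x + star x = 0} => (⟨x.1 * ε⁻¹, ?_⟩ : {x : K | star x = x})) ?_
    · have hx : (x : K) + star (x : K) = 0 := x.2
      have hx' : star (x : K) = -x := by linear_combination hx
      show star ((x : K) * ε⁻¹) = (x : K) * ε⁻¹
      rw [star_mul', star_inv₀, hs, hx']
      field_simp
    · intro x y hxy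
      have h1 : (x : K) * ε⁻¹ = y * ε⁻¹ := congrArg Subtype.val hxy
      exact Subtype.ext (mul_right_cancel₀ (inv_ne_zero hε0) h1)
  · push Not at hε
    have h1 : Nat.card {x : K | x + star x = 0} ≤ 1 := by
      have : Subsingleton {x : K | x + star x = 0} := ⟨fun x y => by
        have hx : (x : K) = 0 := by
          by_contra h0
          exact hε x h0 x.2
        have hy : (y : K) = 0 := by
          by_contra h0
          exact hε y h0 y.2
        exact Subtype.ext (hx.trans hy.symm)⟩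
      exact Finite.card_le_one_iff_subsingleton.2 this
    exact h1.trans (by have := two_le_q h; omega)

/-- the line `F_q r` -/
theorem card_line_le (h : HypK K p n) {r : K} (hr : r ≠ 0) :
    Nat.card {x : K | star x * r = x * star r} ≤ p ^ n := by
  have := h.fin
  refine le_trans ?_ (card_fix_le h)
  have hsr : star r ≠ 0 := star_ne_zero.2 hr
  refine Nat.card_le_card_of_injective
    (fun x : {x : K | star x * r = x * star r} => (⟨x.1 * r⁻¹, ?_⟩ : {x : K | star x = x})) ?_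
  · have hx : star (x : K) * r = x * star r := x.2
    show star ((x : K) * r⁻¹) = (x : K) * r⁻¹
    rw [star_mul', star_inv₀]
    field_simp
    linear_combination hx
  · intro x y hxy
    have h1 : (x : K) * r⁻¹ = y * r⁻¹ := congrArg Subtype.val hxy
    exact Subtype.ext (mul_right_cancel₀ (inv_ne_zero hr) h1)

theorem exists_star_ne (h : HypK K p n) : ∃ θ : K, star θ ≠ θ := by
  have := h.fin
  by_contra hcon
  push Not at hcon
  have h1 := card_fix_le h
  have h2 : {x : K | star x = x} = Set.univ := Set.eq_univ_of_forall hcon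
  rw [h2, Nat.card_congr (Equiv.Set.univ K), h.card] at h1
  have h3 := two_le_q h
  nlinarith

end field

end Cfsg.Agent.H55.P4.Gen
end

-- part: H55/P4/StepOne
section
/-!
# S5210, (E1): an essential subgroup of `PG K` contains `Y` (helper55)

Plan: `outputs/live/tools/plans/S5210.md`, 1, E1; model: `H839/PU/StepOne`.
-/

set_option autoImplicit false
set_option linter.unusedVariables false

namespace Cfsg.Agent.H55.P4

open Cfsg Cfsg.FusionSystem
open Cfsg.Agent.H756.PU (HypK Ess Inv Com NormAut TIAut AF hull cmod comG StChain StFF)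
open Cfsg.Agent.H776.P4
open Cfsg.Agent.H55.P4.Gen

universe u

section coord

variable {K : Type u} [Field K] [StarRing K]

theorem PZ_le_PY : PZ K ≤ PY K := fun g hg => ⟨hg.1, hg.2.2⟩

theorem PZ_central {z : PG K} (hz : z ∈ PZ K) (g : PG K) : z * g = g * z := by
  obtain ⟨h1, h2, h3⟩ := hz
  ext <;> simp only [PG.mul_a, PG.mul_b, h1, h2, h3, add_comm, _root_.Cfsg.Agent.H776.P4.PG.mul_r, _root_.add_zero, _root_.MulZeroClass.zero_mul, _root_.star_zero, _root_.MulZeroClass.mul_zero, _root_.Cfsg.Agent.H776.P4.PG.mul_c]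

/-- commutators in `S/Z` -/
theorem com_b (e y : PG K) : (e * y * e⁻¹ * y⁻¹) ∈ PY K ∧ (e * y * e⁻¹ * y⁻¹).b = e.r * y.c - y.r * e.c := by
  refine ⟨⟨?_, ?_⟩, ?_⟩
  · simp only [_root_.Cfsg.Agent.H776.P4.PG.mul_r, _root_.Cfsg.Agent.H776.P4.PG.inv_r, _root_.add_neg_cancel_comm, _root_.add_neg_cancel]
  · simp only [_root_.Cfsg.Agent.H776.P4.PG.mul_c, _root_.Cfsg.Agent.H776.P4.PG.inv_c, _root_.add_neg_cancel_comm, _root_.add_neg_cancel]
  · simp only [PG.mul_b, PG.inv_b, PG.mul_r, PG.inv_r, PG.inv_c]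
    ring

/-- `[Y, S] ≤ Z` -/
theorem com_PY {y : PG K} (hy : y ∈ PY K) (g : PG K) : y * g * y⁻¹ * g⁻¹ ∈ PZ K := by
  obtain ⟨h1, h2⟩ := com_b y g
  refine ⟨h1.1, ?_, h1.2⟩
  rw [h2, hy.1, hy.2]
  ring

theorem comm_PY_iff {y : PG K} (hy : y ∈ PY K) (g : PG K) :
    y * g = g * y ↔ g.r * star y.b + star g.r * y.b = 0 := by
  obtain ⟨h1, h2⟩ := hy
  constructor
  · intro h
    have h6 := congrArg PG.a h
    simp only [PG.mul_a, h1, h2, star_zero] at h6
    linear_combination -h6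
  · intro h
    ext
    · simp [h1, add_comm]
    · simp only [PG.mul_a, h1, h2, star_zero]
      linear_combination -h
    · simp only [PG.mul_b, h1, h2]
      ring
    · simp [h2]

/-- the coordinate `r` as a homomorphism -/
def rh : PG K →* Multiplicative K where
  toFun g := Multiplicative.ofAdd g.r
  map_one' := rfl
  map_mul' _ _ := rfl

/-- the coordinate `b` on `Y` as a homomorphism -/
def bh : PY K →* Multiplicative K where
  toFun g := Multiplicative.ofAdd (g : PG K).b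
  map_one' := rfl
  map_mul' x y := by
    have h1 : ((x * y : PY K) : PG K).b = (x : PG K).b + (y : PG K).b := by
      show ((x : PG K) * (y : PG K)).b = _
      rw [PG.mul_b, x.2.1, zero_mul, add_zero]
    show Multiplicative.ofAdd _ = _
    rw [h1, ofAdd_add]

theorem bh_surjective : Function.Surjective (bh (K := K)) := by
  intro b
  refine ⟨⟨{ r := 0, a := 0, b := b.toAdd, c := 0, ha := by simp, hc := by simp }, ?_⟩, rfl⟩
  exact ⟨rfl, rfl⟩

/-- the orthogonal of `r`, as a subgroup -/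
def perp (r : K) : Subgroup (Multiplicative K) where
  carrier := {x | r * star (x.toAdd) + star r * x.toAdd = 0}
  one_mem' := by simp only [_root_.Set.mem_ofPred_eq, _root_.toAdd_one, _root_.star_zero, _root_.MulZeroClass.mul_zero, _root_.add_zero]
  mul_mem' := by
    intro x y hx hy
    have hx' : r * star (x.toAdd) + star r * x.toAdd = 0 := hx
    have hy' : r * star (y.toAdd) + star r * y.toAdd = 0 := hy
    show r * star ((x * y).toAdd) + star r * (x * y).toAdd = 0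
    rw [toAdd_mul, star_add]
    linear_combination hx' + hy'
  inv_mem' := by
    intro x hx
    have hx' : r * star (x.toAdd) + star r * x.toAdd = 0 := hx
    show r * star ((x⁻¹).toAdd) + star r * (x⁻¹).toAdd = 0
    rw [toAdd_inv, star_neg]
    linear_combination -hx'

/-- the line `F_q r`, as a subgroup -/
def line (r : K) : Subgroup (Multiplicative K) where
  carrier := {x | star (x.toAdd) * r = x.toAdd * star r}
  one_mem' := by simp only [_root_.Set.mem_ofPred_eq, _root_.toAdd_one, _root_.star_zero, _root_.MulZeroClass.zero_mul]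
  mul_mem' := by
    intro x y hx hy
    have hx' : star (x.toAdd) * r = x.toAdd * star r := hx
    have hy' : star (y.toAdd) * r = y.toAdd * star r := hy
    show star ((x * y).toAdd) * r = (x * y).toAdd * star r
    rw [toAdd_mul, star_add]
    linear_combination hx' + hy'
  inv_mem' := by
    intro x hx
    have hx' : star (x.toAdd) * r = x.toAdd * star r := hx
    show star ((x⁻¹).toAdd) * r = (x⁻¹).toAdd * star r
    rw [toAdd_inv, star_neg]
    linear_combination -hx'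

instance PY_normal : (PY K).Normal := ⟨fun y hy g => by
  have h1 := com_PY hy g
  have h2 : g * y * g⁻¹ = (y * g * y⁻¹ * g⁻¹)⁻¹ * y := by group
  rw [h2]
  exact (PY K).mul_mem ((PY K).inv_mem (PZ_le_PY h1)) hy⟩

end coord

section main

variable {K : Type u} [Field K] [StarRing K] {p n : ℕ}

theorem finite_PG (h : HypK K p n) : Finite (PG K) := by
  have := h.fin
  refine Finite.of_injective (fun g : PG K => (g.r, g.a, g.b, g.c)) ?_
  intro x y hxy
  simp only [Prod.mk.injEq] at hxy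
  obtain ⟨h1, h2, h3, h4⟩ := hxy
  exact PG.ext h1 h2 h3 h4

theorem card_perp_le (h : HypK K p n) {r : K} (hr : r ≠ 0) : Nat.card (perp r) ≤ p ^ n := by
  have := h.fin
  refine le_trans ?_ (card_skew_le h)
  have hsr : star r ≠ 0 := star_ne_zero.2 hr
  refine Nat.card_le_card_of_injective
    (fun x : perp r => (⟨x.1.toAdd * star r, ?_⟩ : {x : K | x + star x = 0})) ?_
  · have hx : r * star (x.1.toAdd) + star r * x.1.toAdd = 0 := x.2
    show x.1.toAdd * star r + star (x.1.toAdd * star r) = 0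
    rw [star_mul', star_star]
    linear_combination hx
  · intro x y hxy
    have h1 : x.1.toAdd * star r = y.1.toAdd * star r := congrArg Subtype.val hxy
    exact Subtype.ext (Multiplicative.toAdd.injective (mul_right_cancel₀ hsr h1))

theorem card_PZ_le (h : HypK K p n) : Nat.card (PZ K) ≤ p ^ n := by
  have := h.fin
  refine le_trans ?_ (card_fix_le h)
  refine Nat.card_le_card_of_injective
    (fun g : PZ K => (⟨(g : PG K).a, (g : PG K).ha⟩ : {x : K | star x = x})) ?_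
  intro x y hxy
  have h1 : (x : PG K).a = (y : PG K).a := congrArg Subtype.val hxy
  refine Subtype.ext (PG.ext ?_ h1 ?_ ?_)
  · rw [x.2.1, y.2.1]
  · rw [x.2.2.1, y.2.2.1]
  · rw [x.2.2.2, y.2.2.2]

theorem pow_PZ (h : HypK K p n) {z : PG K} (hz : z ∈ PZ K) : z ^ p = 1 := by
  have := h.char
  have key : ∀ m : ℕ, z ^ m ∈ PZ K ∧ (z ^ m).a = (m : K) * z.a := by
    intro m
    refine ⟨(PZ K).pow_mem hz m, ?_⟩
    induction m with
    | zero => simp
    | succ m ih =>
      have h1 := (PZ K).pow_mem hz m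
      rw [pow_succ, PG.mul_a, ih, h1.1]
      push_cast
      simp only [_root_.MulZeroClass.zero_mul, _root_.add_zero, _root_.star_zero, _root_.MulZeroClass.mul_zero]
      ring
  obtain ⟨h1, h2⟩ := key p
  rw [CharP.cast_eq_zero, zero_mul] at h2
  exact PG.ext h1.1 h2 h1.2.1 h1.2.2

/-- a nonzero skew element -/
theorem exists_skew (h : HypK K p n) : ∃ κ : K, κ ≠ 0 ∧ star κ = -κ := by
  obtain ⟨θ, hθ⟩ := exists_star_ne h
  refine ⟨θ - star θ, sub_ne_zero.2 (Ne.symm hθ), ?_⟩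
  rw [star_sub, star_star, neg_sub]

/-- **(E1)** -/
theorem stE1 (hCh : StChain.{u}) (hFF : StFF.{u}) : StE1.{u} := by
  intro K _ _ p n h E Γ hE
  by_contra hZ2
  have hfin := finite_PG h
  have hKfin := h.fin
  have hq := two_le_q h
  have hqpos : 0 < p ^ n := by omega
  -- the centre
  have hZE : PZ K ≤ E := fun z hz => hE.cent z (Subgroup.mem_top z) fun e _ => PZ_central hz e
  set M := hull Γ (PZ K) with hM
  have hMc : ∀ m ∈ M, m ∈ E ∧ (∀ e ∈ E, m * e = e * m) ∧ m ^ p = 1 :=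
    hull_central (fun x hx e _ => PZ_central hx e) (fun x hx => pow_PZ h hx)
  have hMinv : _root_.Cfsg.Agent.H756.PU.Inv Γ M := inv_hull Γ (PZ K)
  have hZM : PZ K ≤ M := le_hull hZE
  have hcomE : ∀ X : Subgroup (PG K), X ≤ PY K → Com X E M := fun X hX a ha m _ => hZM (com_PY (hX ha) m)
  -- `C_Y(M) ≤ E`
  let X : Subgroup (PG K) := PY K ⊓ Subgroup.centralizer (M : Set (PG K))
  have hXM : ∀ x ∈ X, ∀ m ∈ M, x * m = m * x := fun x hx m hm =>
    ((Subgroup.mem_centralizer_iff.1 hx.2) m hm).symm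
  have hXcom : Com X M M := fun x hx m hm => by
    rw [hXM x hx m hm, mul_assoc, mul_assoc, mul_inv_cancel_left, mul_inv_cancel]
    exact M.one_mem
  have hXE : X ≤ E := hCh hE M M M hMinv hMinv hMinv le_rfl le_rfl X le_top (hcomE X inf_le_left) hXcom hXcom hXM
  -- an element of `M` outside `V`
  obtain ⟨z, hzM, hzr⟩ : ∃ z ∈ M, z.r ≠ 0 := by
    by_contra hcon
    push Not at hcon
    apply hZ2
    have h1 : PY K ≤ X := fun y hy => ⟨hy, Subgroup.mem_centralizer_iff.2 fun m hm => by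
      rw [(comm_PY_iff hy m).2 (by rw [hcon m hm, star_zero, zero_mul, zero_mul, add_zero])]⟩
    exact h1.trans hXE
  have hszr : star z.r ≠ 0 := star_ne_zero.2 hzr
  have hz := hMc z hzM
  -- `FF`
  have hA : PY K ≤ normalizerIn (⊤ : Subgroup (PG K)) E := by
    intro y hy
    refine ⟨Subgroup.mem_top y, ?_⟩
    refine Subgroup.mem_normalizer_fintype (fun e he => ?_)
    have h1 : y * e * y⁻¹ = (y * e * y⁻¹ * e⁻¹) * e := by group
    rw [h1]
    exact E.mul_mem (hZE (com_PY hy e)) he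
  have hYp : ∀ x ∈ PY K, ∀ y ∈ PY K, x * y * x⁻¹ * y⁻¹ ∈ E := fun x hx y hy => hZE (com_PY hx y)
  have hFF' := fun hle => hFF hE ⊥ M (PZ K) (PY K) (inv_bot' Γ) hMinv bot_le hZM
    (fun e he m hm => by
      rw [← (hMc m hm).2.1 e he, mul_assoc, mul_assoc, mul_inv_cancel_left, mul_inv_cancel]
      exact (⊥ : Subgroup (PG K)).one_mem)
    (fun m hm => Subgroup.mem_bot.2 (hMc m hm).2.2) (by rw [sup_bot_eq])
    (fun g _ m hm => by
      rw [← PZ_central hm g, mul_assoc, mul_assoc, mul_inv_cancel_left, mul_inv_cancel]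
      exact (⊥ : Subgroup (PG K)).one_mem)
    hA hZ2 (fun x hx y hy => hYp x hx y hy) (fun x hx => by
      -- `Y` has exponent `p`
      have hch := h.char
      have key : ∀ m : ℕ, x ^ m ∈ PY K ∧ (x ^ m).a = (m : K) * x.a ∧ (x ^ m).b = (m : K) * x.b := by
        intro m
        refine ⟨(PY K).pow_mem hx m, ?_⟩
        induction m with
        | zero => simp
        | succ m ih =>
          have h1 := (PY K).pow_mem hx m
          rw [pow_succ, PG.mul_a, PG.mul_b, ih.1, ih.2, h1.1]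
          push_cast
          simp only [_root_.MulZeroClass.zero_mul, _root_.add_zero, _root_.star_zero, _root_.MulZeroClass.mul_zero]
          constructor <;> ring
      obtain ⟨h1, h2, h3⟩ := key p
      rw [CharP.cast_eq_zero, zero_mul] at h2 h3
      have h4 : x ^ p = 1 := PG.ext h1.1 h2 h3 h1.2
      rw [h4]
      exact E.one_mem) (hcomE _ le_rfl) (fun x _ m hm => by
      rw [Subgroup.mem_bot.1 hm, mul_one, one_mul]) hle
  -- `|R| ≤ |Y : Y ∩ E|`
  have hR : (cmod (PY K) M ⊥).relIndex M ≤ Nat.card ((rh (K := K)).comp M.subtype).range := by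
    have h1 : M ⊓ PV K ≤ cmod (PY K) M ⊥ := fun m hm => Subgroup.subset_closure ⟨hm.1, fun a ha => by
      have h2 : m.r = 0 := hm.2
      rw [(comm_PY_iff ha m).2 (by rw [h2, star_zero, zero_mul, zero_mul, add_zero]), mul_assoc, mul_assoc,
        mul_inv_cancel_left, mul_inv_cancel]
      exact (⊥ : Subgroup (PG K)).one_mem⟩
    have h2 : ((rh (K := K)).comp M.subtype).ker = (M ⊓ PV K).subgroupOf M := by
      ext m
      rw [MonoidHom.mem_ker, Subgroup.mem_subgroupOf]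
      constructor
      · intro h3
        exact ⟨m.2, Multiplicative.ofAdd.injective h3⟩
      · intro h3
        exact congrArg Multiplicative.ofAdd h3.2
    rw [← Subgroup.index_ker, h2]
    exact Nat.le_of_dvd (Nat.pos_of_ne_zero Subgroup.index_ne_zero_of_finite)
      (Subgroup.relIndex_dvd_of_le_left M h1)
  have hB : ∀ B : Subgroup (Multiplicative K), (∀ y ∈ PY K, y ∈ E → Multiplicative.ofAdd y.b ∈ B) →
      B.index ≤ E.relIndex (PY K) := by
    intro B hB
    rw [← Subgroup.index_comap_of_surjective B (bh_surjective (K := K))]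
    refine Nat.le_of_dvd (Nat.pos_of_ne_zero Subgroup.index_ne_zero_of_finite)
      (Subgroup.index_dvd_of_le fun y hy => ?_)
    exact hB y y.2 (Subgroup.mem_subgroupOf.1 hy)
  have hCZ : comG (PY K) M ⊔ ⊥ ≤ PZ K := by
    rw [sup_bot_eq]
    refine (Subgroup.closure_le _).2 ?_
    rintro _ ⟨a, ha, m, hm, rfl⟩
    exact com_PY ha m
  have hCcard : Nat.card (comG (PY K) M ⊔ ⊥ : Subgroup (PG K)) ≤ Nat.card (PZ K) :=
    Subgroup.card_le_of_le hCZ
  have hindex : ∀ B : Subgroup (Multiplicative K), B.index * Nat.card B = (p ^ n) ^ 2 := by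
    intro B
    rw [mul_comm, B.card_mul_index, ← h.card]
    rfl
  -- case distinction
  by_cases hcase : ∀ m ∈ M, star m.r * z.r = m.r * star z.r
  swap
  · push Not at hcase
    obtain ⟨m, hmM, hm⟩ := hcase
    exfalso
    have h1 : (⊥ : Subgroup (Multiplicative K)).index ≤ E.relIndex (PY K) := by
      refine hB ⊥ fun y hy hyE => ?_
      have k1 := (comm_PY_iff hy z).1 (hz.2.1 y hyE).symm
      have k2 := (comm_PY_iff hy m).1 ((hMc m hmM).2.1 y hyE).symm
      rw [Subgroup.mem_bot]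
      have hb : y.b = 0 := by
        by_contra hb0
        apply hm
        apply mul_right_cancel₀ hb0
        linear_combination z.r * k2 - m.r * k1
      rw [hb]
      rfl
    have h2 := hindex ⊥
    rw [Subgroup.card_bot, mul_one] at h2
    rw [h2] at h1
    have h3 : Nat.card ((rh (K := K)).comp M.subtype).range ≤ (p ^ n) ^ 2 := by
      rw [← h.card]
      exact Nat.card_le_card_of_injective (fun x => Multiplicative.toAdd x.1)
        fun x y hxy => Subtype.ext (Multiplicative.toAdd.injective hxy)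
    obtain ⟨-, -, h4⟩ := hFF' (hR.trans (h3.trans h1))
    have h5 := h4 ⊥ (inv_bot' Γ) le_rfl bot_le (fun a _ m hm => by
      rw [Subgroup.mem_bot.1 hm, mul_one, mul_inv_cancel, one_mul, inv_one]
      exact (⊥ : Subgroup (PG K)).one_mem)
    rw [Subgroup.relIndex_bot_left] at h5
    have h6 := (h1.trans h5).trans (hCcard.trans (card_PZ_le h))
    nlinarith only [hq, h6]
  -- `M` maps into a line
  have hline : ∀ y ∈ PY K, z.r * star y.b + star z.r * y.b = 0 → y ∈ E := by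
    intro y hy hb
    refine hXE ⟨hy, Subgroup.mem_centralizer_iff.2 fun m hm => ?_⟩
    rw [(comm_PY_iff hy m).2]
    have h1 := hcase m hm
    apply mul_right_cancel₀ hzr
    linear_combination y.b * h1 + m.r * hb
  have hcardperp : Nat.card (perp z.r) ≤ p ^ n := card_perp_le h hzr
  have hcardline : Nat.card (line z.r) ≤ p ^ n := card_line_le h hzr
  have h1 : (perp z.r).index ≤ E.relIndex (PY K) := by
    refine hB _ fun y hy hyE => ?_
    exact (comm_PY_iff hy z).1 (hz.2.1 y hyE).symm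
  have h2 := hindex (perp z.r)
  have h3 : p ^ n ≤ (perp z.r).index := by
    by_contra hlt
    push Not at hlt
    have : (perp z.r).index * Nat.card (perp z.r) < (p ^ n) ^ 2 := by
      calc (perp z.r).index * Nat.card (perp z.r) ≤ (perp z.r).index * p ^ n :=
            Nat.mul_le_mul_left _ hcardperp
        _ < p ^ n * p ^ n := Nat.mul_lt_mul_of_pos_right hlt hqpos
        _ = (p ^ n) ^ 2 := by ring
    omega
  have h4 : Nat.card ((rh (K := K)).comp M.subtype).range ≤ p ^ n := by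
    refine le_trans (Subgroup.card_le_of_le ?_) hcardline
    rintro _ ⟨m, rfl⟩
    exact hcase m m.2
  obtain ⟨hN, -, h5⟩ := hFF' (hR.trans (h4.trans (h3.trans h1)))
  -- commutators in the centre are trivial
  let D : Subgroup (PG K) := M ⊓ ⁅E, E⁆
  have hDr : ∀ x ∈ ⁅E, E⁆, x.r = 0 := by
    have h6 : ⁅E, E⁆ ≤ PV K := by
      rw [Subgroup.commutator_le]
      intro x _ y _
      show (x * y * x⁻¹ * y⁻¹).r = 0
      simp only [_root_.Cfsg.Agent.H776.P4.PG.mul_r, _root_.Cfsg.Agent.H776.P4.PG.inv_r, _root_.add_neg_cancel_comm, _root_.add_neg_cancel]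
    exact fun x hx => h6 hx
  have h6 := h5 D (_root_.Cfsg.Agent.H55.P4.Gen.inv_inf hMinv (inv_commutator Γ)) bot_le inf_le_left (fun a ha m hm => by
    rw [(comm_PY_iff ha m).2 (by rw [hDr m hm.2, star_zero, zero_mul, zero_mul, add_zero]), mul_assoc, mul_assoc,
      mul_inv_cancel_left, mul_inv_cancel]
    exact (⊥ : Subgroup (PG K)).one_mem)
  have h7 : Nat.card (D ⊓ (comG (PY K) M ⊔ ⊥) : Subgroup (PG K)) * D.relIndex (comG (PY K) M ⊔ ⊥) =
      Nat.card (comG (PY K) M ⊔ ⊥ : Subgroup (PG K)) := by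
    rw [← Subgroup.inf_relIndex_right D (comG (PY K) M ⊔ ⊥), ← Subgroup.relIndex_bot_left,
      ← Subgroup.relIndex_bot_left, Subgroup.relIndex_mul_relIndex _ _ _ bot_le inf_le_right]
  have h8 := card_PZ_le h
  have h9 : Nat.card (comG (PY K) M ⊔ ⊥ : Subgroup (PG K)) = p ^ n :=
    le_antisymm (hCcard.trans h8) (by
      rw [← h7]
      calc p ^ n ≤ D.relIndex (comG (PY K) M ⊔ ⊥) := h3.trans (h1.trans h6)
        _ ≤ _ := Nat.le_mul_of_pos_left _ Nat.card_pos)
  have h10 : (comG (PY K) M ⊔ ⊥ : Subgroup (PG K)) = PZ K :=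
    Subgroup.eq_of_le_of_card_ge hCZ (by rw [h9]; exact h8)
  have h11 : D ⊓ PZ K = ⊥ := by
    rw [← h10]
    apply Subgroup.eq_bot_of_card_le
    rw [h9] at h7
    have h12 : p ^ n ≤ D.relIndex (comG (PY K) M ⊔ ⊥) := h3.trans (h1.trans h6)
    by_contra hlt
    push Not at hlt
    have h13 : 2 * p ^ n ≤ Nat.card (D ⊓ (comG (PY K) M ⊔ ⊥) : Subgroup (PG K)) *
        D.relIndex (comG (PY K) M ⊔ ⊥) := Nat.mul_le_mul hlt h12
    omega
  have key : ∀ e ∈ E, ∀ f ∈ E, e * f * e⁻¹ * f⁻¹ ∈ PZ K → e * f = f * e := by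
    intro e he f hf hef
    have h12 : e * f * e⁻¹ * f⁻¹ ∈ D ⊓ PZ K :=
      ⟨⟨hZM hef, Subgroup.commutator_mem_commutator he hf⟩, hef⟩
    rw [h11, Subgroup.mem_bot] at h12
    have h13 := mul_inv_eq_one.1 h12
    rw [mul_inv_eq_iff_eq_mul] at h13
    exact h13
  -- the coordinates of the elements of `E`
  obtain ⟨κ, hκ0, hκ⟩ := exists_skew h
  have hEr : ∀ e ∈ E, star e.r * z.r = e.r * star z.r := by
    intro e he
    let y : PG K := { r := 0, a := 0, b := z.r * κ, c := 0, ha := by simp, hc := by simp }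
    have hy : y ∈ PY K := ⟨rfl, rfl⟩
    have hyE : y ∈ E := hline y hy (by
      show z.r * star (z.r * κ) + star z.r * (z.r * κ) = 0
      rw [star_mul', hκ]
      ring)
    have k1 := (comm_PY_iff hy e).1 (key y hyE e he (com_PY hy e))
    have k2 : e.r * star (z.r * κ) + star e.r * (z.r * κ) = 0 := k1
    rw [star_mul', hκ] at k2
    apply mul_right_cancel₀ hκ0
    linear_combination k2
  have hEc : ∀ e ∈ E, z.r * e.c = e.r * z.c := by
    intro e he
    have h12 := congrArg PG.b (hz.2.1 e he)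
    simp only [PG.mul_b] at h12
    linear_combination h12
  -- elements of `Q` normalizing `E`
  have hnorm : ∀ y : PG K, y.c = 0 → (∀ e ∈ E, z.r * star (y.r * e.c) + star z.r * (y.r * e.c) = 0) →
      ∃ e ∈ E, e.r = y.r ∧ e.c = 0 := by
    intro y hy hyc
    have h12 : y ∈ normalizerIn (⊤ : Subgroup (PG K)) E := by
      refine ⟨Subgroup.mem_top y, ?_⟩
      refine Subgroup.mem_normalizer_fintype (fun e he => ?_)
      obtain ⟨k1, k2⟩ := com_b e y
      have k3 : y * e * y⁻¹ = (e * y * e⁻¹ * y⁻¹)⁻¹ * e := by group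
      rw [k3]
      refine E.mul_mem (E.inv_mem (hline _ k1 ?_)) he
      rw [k2, hy]
      have k4 := hyc e he
      rw [mul_zero, zero_sub, star_neg]
      linear_combination -k4
    rw [hN, Subgroup.mem_sup_of_normal_right] at h12
    obtain ⟨e, he, w, hw, rfl⟩ := h12
    obtain ⟨w1, w2⟩ := hw
    have e1 : e.r = (e * w).r := by rw [PG.mul_r, w1, add_zero]
    have e2 : e.c = 0 := by
      have : e.c + w.c = 0 := hy
      rwa [w2, add_zero] at this
    exact ⟨e, he, e1, e2⟩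
  have hzc : z.c = 0 := by
    let y : PG K := { r := z.r * κ, a := 0, b := 0, c := 0, ha := by simp, hc := by simp }
    obtain ⟨e, he, e1, e2⟩ := hnorm y rfl (fun e he => by
      show z.r * star (z.r * κ * e.c) + star z.r * (z.r * κ * e.c) = 0
      rw [star_mul', star_mul', hκ, e.hc]
      ring)
    have k1 := hEc e he
    rw [e2, mul_zero] at k1
    have e3 : e.r = z.r * κ := e1
    rw [e3] at k1
    exact (mul_eq_zero.1 k1.symm).resolve_left (mul_ne_zero hzr hκ0)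
  have hEc0 : ∀ e ∈ E, e.c = 0 := by
    intro e he
    have k1 := hEc e he
    rw [hzc, mul_zero] at k1
    exact (mul_eq_zero.1 k1).resolve_left hzr
  obtain ⟨θ, hθ⟩ := exists_star_ne h
  let y : PG K := { r := z.r * θ, a := 0, b := 0, c := 0, ha := by simp, hc := by simp }
  obtain ⟨e, he, e1, e2⟩ := hnorm y rfl (fun e he => by
    rw [hEc0 e he, mul_zero, star_zero, mul_zero, mul_zero, add_zero])
  have k1 := hEr e he
  have e3 : e.r = z.r * θ := e1
  rw [e3, star_mul'] at k1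
  apply hθ
  apply mul_left_cancel₀ (mul_ne_zero hzr hszr)
  linear_combination k1

end main

end Cfsg.Agent.H55.P4
end

-- part: H834/P4/TwoK
section
/-!
# S5210, q = 2: the group `PG K`, `|K| = 4` (helper834)
-/

set_option autoImplicit false

namespace Cfsg.Agent.H834.P4

open Cfsg Cfsg.FusionSystem Cfsg.Agent.H776.P4
open Cfsg.Agent.H756.PU (HypK Ess Inv Com NormAut TIAut AF IsC)

universe u

variable {K : Type u} [Field K] [StarRing K]

/-- the field with four elements -/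
structure K4 (K : Type u) [Field K] [StarRing K] : Prop where
  two : ∀ x : K, x + x = 0
  st : ∀ x : K, star x = x * x
  cube : ∀ x : K, x ≠ 0 → x * x * x = 1
  basis : ∀ α : K, α ≠ 0 → ∃ β : K, β ≠ 0 ∧ β ≠ α ∧ ∀ x : K, x = 0 ∨ x = α ∨ x = β ∨ x = α + β

theorem k4_of {p n : ℕ} (h : HypK K p n) (hq : p ^ n = 2) : p = 2 ∧ K4 K := by
  classical
  have hp2 : p = 2 := by
    have h1 : p ∣ 2 := by
      rw [← hq]
      exact dvd_pow_self p (by have := h.hn; omega)
    exact (Nat.prime_dvd_prime_iff_eq h.pp Nat.prime_two).1 h1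
  have hfin := h.fin
  have := Fintype.ofFinite K
  have hcard : Fintype.card K = 4 := by rw [← Nat.card_eq_fintype_card, h.card, hq]; norm_num
  have hch := h.char
  rw [hp2] at hch
  have h2 : ∀ x : K, x + x = 0 := fun x => CharTwo.add_self_eq_zero x
  refine ⟨hp2, h2, fun x => ?_, fun x hx => ?_, fun α hα => ?_⟩
  · rw [h.star_eq, hq, pow_two]
  · have h3 := FiniteField.pow_card_sub_one_eq_one x hx
    rw [hcard] at h3
    rw [← h3]
    ring
  · obtain ⟨β, hβ⟩ : ∃ β : K, β ∉ ({0, α} : Finset K) := by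
      by_contra hcon
      push Not at hcon
      have h3 : Fintype.card K ≤ ({0, α} : Finset K).card := by
        rw [← Finset.card_univ]
        exact Finset.card_le_card fun x _ => hcon x
      have h4 := Finset.card_le_two (a := (0 : K)) (b := α)
      omega
    simp only [Finset.mem_insert, Finset.mem_singleton, not_or] at hβ
    refine ⟨β, hβ.1, hβ.2, ?_⟩
    have hne1 : α + β ≠ 0 := fun h3 => hβ.2 (by
      have h4 : α + β = α + α := by rw [h3, h2]
      exact add_left_cancel h4)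
    have hne2 : α + β ≠ α := fun h3 => hβ.1 (by
      have h4 : α + β = α + 0 := by rw [h3, add_zero]
      exact add_left_cancel h4)
    have hne3 : α + β ≠ β := fun h3 => hα (by
      have h4 : α + β = 0 + β := by rw [h3, zero_add]
      exact add_right_cancel h4)
    have h5 : ({0, α, β, α + β} : Finset K) = Finset.univ := by
      apply Finset.eq_univ_of_card
      rw [hcard, Finset.card_insert_of_notMem, Finset.card_insert_of_notMem, Finset.card_insert_of_notMem,
        Finset.card_singleton]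
      · simp only [Finset.mem_singleton]
        exact fun h7 => hne3 h7.symm
      · simp only [Finset.mem_insert, Finset.mem_singleton, not_or]
        exact ⟨fun h7 => hβ.2 h7.symm, fun h7 => hne2 h7.symm⟩
      · simp only [Finset.mem_insert, Finset.mem_singleton, not_or]
        exact ⟨fun h7 => hα h7.symm, fun h7 => hβ.1 h7.symm, fun h7 => hne1 h7.symm⟩
    intro x
    have h6 : x ∈ ({0, α, β, α + β} : Finset K) := by rw [h5]; exact Finset.mem_univ _
    simpa only [_root_.Finset.mem_insert, _root_.Finset.mem_singleton] using h6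

theorem K4.fix (h : K4 K) {c : K} (hc : star c = c) : c = 0 ∨ c = 1 := by
  rw [h.st] at hc
  rcases eq_or_ne c 0 with h1 | h1
  · exact Or.inl h1
  · right
    have : c * c = c * 1 := by rw [hc, mul_one]
    exact mul_left_cancel₀ h1 this

theorem K4.nrm (h : K4 K) {x : K} (hx : x ≠ 0) : x * star x = 1 := by
  rw [h.st, ← mul_assoc, h.cube x hx]

theorem K4.tr (h : K4 K) {x y : K} (hx : x ≠ 0) (hy : y ≠ 0) (hxy : y ≠ x) : x * star y + star x * y = 1 := by
  have hne : x + y ≠ 0 := fun h3 => hxy (by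
    have h4 : x + y = x + x := by rw [h3, h.two]
    exact add_left_cancel h4)
  have h1 := h.cube (x + y) hne
  have h2 := h.cube x hx
  have h3 := h.cube y hy
  have t := h.two
  rw [h.st, h.st]
  have h4 : (x + y) * (x + y) * (x + y) = x * x * x + y * y * y + (x * (y * y) + x * x * y) +
      ((x * (y * y) + x * x * y) + (x * (y * y) + x * x * y)) := by ring
  rw [h4, h2, h3, t, zero_add, t, add_zero] at h1
  exact h1

theorem K4.tr0 (h : K4 K) (x : K) : x * star x + star x * x = 0 := by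
  rw [mul_comm (star x)]; exact h.two _

/-- `u_r` -/
def ur (r : K) : PG K := ⟨r, 0, 0, 0, by simp, by simp⟩

theorem conj_comp (g v : PG K) (hv : v.r = 0) : (g * v * g⁻¹).r = 0 ∧
    (g * v * g⁻¹).a = v.a + g.r * star v.b + star g.r * v.b + g.r * star g.r * v.c ∧
    (g * v * g⁻¹).b = v.b + g.r * v.c ∧ (g * v * g⁻¹).c = v.c := by
  refine ⟨?_, ?_, ?_, ?_⟩
  · simp [hv]
  · simp only [PG.mul_a, PG.mul_r, PG.mul_b, PG.mul_c, PG.inv_a, PG.inv_b, PG.inv_r, PG.inv_c, hv, star_add, star_mul',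
      star_neg, g.hc, v.hc, star_star, star_zero]
    ring
  · simp only [PG.mul_r, PG.mul_b, PG.mul_c, PG.inv_b, PG.inv_r, PG.inv_c, hv]
    ring
  · simp only [PG.mul_c, PG.inv_c]
    ring

theorem normal_PV : (⊤ : Subgroup (PG K)) ≤ Subgroup.normalizer ((PV K : Subgroup (PG K)) : Set (PG K)) := by
  intro g _
  rw [Subgroup.mem_normalizer_iff]
  intro x
  constructor
  · intro hx
    exact (conj_comp g x hx).1
  · intro hx
    have h1 := (conj_comp g⁻¹ (g * x * g⁻¹) hx).1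
    have h2 : g⁻¹ * (g * x * g⁻¹) * g⁻¹⁻¹ = x := by group
    rw [h2] at h1
    exact h1

/-- `V` is abelian of exponent 2 -/
theorem PV_comm (x y : PV K) : x * y = y * x := by
  have hx : (x : PG K).r = 0 := x.2
  have hy : (y : PG K).r = 0 := y.2
  apply Subtype.ext
  show (x : PG K) * y = y * x
  ext
  · simp [hx, hy]
  · simp only [PG.mul_a, hx, hy, star_zero]; ring
  · simp only [PG.mul_b, hx, hy]; ring
  · simp only [PG.mul_c]; ring

theorem PV_sq (h : K4 K) (x : PV K) : x * x = 1 := by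
  have hx : (x : PG K).r = 0 := x.2
  have t := h.two
  apply Subtype.ext
  show (x : PG K) * x = 1
  ext
  · simp [hx]
  · simp only [PG.mul_a, hx, star_zero, PG.one_a]
    rw [zero_mul, zero_mul, zero_mul, zero_mul, t]; simp
  · simp only [PG.mul_b, hx, PG.one_b]
    rw [zero_mul, t, add_zero]
  · simp only [PG.mul_c, PG.one_c]
    exact t _

/-- the generator of `V` -/
def ev : PV K := ⟨⟨0, 0, 0, 1, by simp, by simp⟩, rfl⟩

/-- elements of `V` -/
theorem PV_ext {x y : PV K} (ha : (x : PG K).a = (y : PG K).a) (hb : (x : PG K).b = (y : PG K).b)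
    (hc : (x : PG K).c = (y : PG K).c) : x = y := by
  have hx : (x : PG K).r = 0 := x.2
  have hy : (y : PG K).r = 0 := y.2
  apply Subtype.ext
  ext
  · rw [hx, hy]
  · exact ha
  · exact hb
  · exact hc

theorem PV_mul_a (x y : PV K) : ((x * y : PV K) : PG K).a = (x : PG K).a + (y : PG K).a := by
  have hx : (x : PG K).r = 0 := x.2
  show ((x : PG K) * y).a = _
  simp only [PG.mul_a, hx, star_zero]
  ring

theorem PV_mul_b (x y : PV K) : ((x * y : PV K) : PG K).b = (x : PG K).b + (y : PG K).b := by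
  have hx : (x : PG K).r = 0 := x.2
  show ((x : PG K) * y).b = _
  simp only [PG.mul_b, hx]
  ring

theorem PV_mul_c (x y : PV K) : ((x * y : PV K) : PG K).c = (x : PG K).c + (y : PG K).c := rfl

/-- bits -/
def kap (K : Type u) [Field K] (t : Bool) : K := if t then 1 else 0

theorem kap_xor (h : K4 K) (s t : Bool) : kap K (xor s t) = kap K s + kap K t := by
  cases s <;> cases t <;> simp [kap, h.two]

theorem kap_inj {s t : Bool} (h : kap K s = kap K t) : s = t := by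
  cases s <;> cases t <;> simp_all [kap]

theorem exists_kap (h : K4 K) {c : K} (hc : star c = c) : ∃ t, c = kap K t := by
  rcases h.fix hc with h1 | h1
  · exact ⟨false, by rw [h1]; rfl⟩
  · exact ⟨true, by rw [h1]; rfl⟩

section

variable {α β : K} {a b : MulAut (PV K)}

theorem pw_a (v : PV K) (t : Bool) : ((pw v t : PV K) : PG K).a = kap K t * (v : PG K).a := by
  cases t
  · simp [pw, kap]
  · simp [pw, kap]

theorem pw_b (v : PV K) (t : Bool) : ((pw v t : PV K) : PG K).b = kap K t * (v : PG K).b := by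
  cases t
  · simp [pw, kap]
  · simp [pw, kap]

theorem pw_c (v : PV K) (t : Bool) : ((pw v t : PV K) : PG K).c = kap K t * (v : PG K).c := by
  cases t
  · simp [pw, kap]
  · simp [pw, kap]

theorem bit_inj : ∀ x0 x1 x2 x3 y0 y1 y2 y3 : Bool, xor (xor x1 x2) x3 = xor (xor y1 y2) y3 →
    xor x1 x3 = xor y1 y3 → xor x2 x3 = xor y2 y3 →
    xor (xor x0 x1) (xor x2 x3) = xor (xor y0 y1) (xor y2 y3) → (x0, x1, x2, x3) = (y0, y1, y2, y3) := by
  decide +kernel

/-- **`V` is the regular module** -/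
theorem reg_of (h : K4 K) (hα : α ≠ 0) (hβ : β ≠ 0) (hne : β ≠ α)
    (hall : ∀ x : K, x = 0 ∨ x = α ∨ x = β ∨ x = α + β) (ha : IsC (ur α) a) (hb : IsC (ur β) b) :
    Reg a b (ev : PV K) := by
  have t := h.two
  have fa : ∀ v : PV K, ((a v : PV K) : PG K).a = (v : PG K).a + α * star (v : PG K).b + star α * (v : PG K).b +
      (v : PG K).c ∧ ((a v : PV K) : PG K).b = (v : PG K).b + α * (v : PG K).c ∧
      ((a v : PV K) : PG K).c = (v : PG K).c := by
    intro v
    rw [ha v]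
    obtain ⟨-, h1, h2, h3⟩ := conj_comp (ur α) (v : PG K) v.2
    refine ⟨?_, h2, h3⟩
    rw [h1]
    show _ + α * _ + star α * _ + α * star α * _ = _
    rw [h.nrm hα, one_mul]
  have fb : ∀ v : PV K, ((b v : PV K) : PG K).a = (v : PG K).a + β * star (v : PG K).b + star β * (v : PG K).b +
      (v : PG K).c ∧ ((b v : PV K) : PG K).b = (v : PG K).b + β * (v : PG K).c ∧
      ((b v : PV K) : PG K).c = (v : PG K).c := by
    intro v
    rw [hb v]
    obtain ⟨-, h1, h2, h3⟩ := conj_comp (ur β) (v : PG K) v.2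
    refine ⟨?_, h2, h3⟩
    rw [h1]
    show _ + β * _ + star β * _ + β * star β * _ = _
    rw [h.nrm hβ, one_mul]
  have tr := h.tr hα hβ hne
  have e_a : ((ev : PV K) : PG K).a = 0 := rfl
  have e_b : ((ev : PV K) : PG K).b = 0 := rfl
  have e_c : ((ev : PV K) : PG K).c = 1 := rfl
  -- the four basis vectors
  have ae_a : ((a ev : PV K) : PG K).a = 1 := by rw [(fa ev).1, e_a, e_b, e_c, star_zero]; ring
  have ae_b : ((a ev : PV K) : PG K).b = α := by rw [(fa ev).2.1, e_b, e_c]; ring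
  have ae_c : ((a ev : PV K) : PG K).c = 1 := by rw [(fa ev).2.2, e_c]
  have be_a : ((b ev : PV K) : PG K).a = 1 := by rw [(fb ev).1, e_a, e_b, e_c, star_zero]; ring
  have be_b : ((b ev : PV K) : PG K).b = β := by rw [(fb ev).2.1, e_b, e_c]; ring
  have be_c : ((b ev : PV K) : PG K).c = 1 := by rw [(fb ev).2.2, e_c]
  have abe_a : ((a (b ev) : PV K) : PG K).a = 1 := by
    rw [(fa _).1, be_a, be_b, be_c, add_assoc 1, tr]
    rw [t, zero_add]
  have abe_b : ((a (b ev) : PV K) : PG K).b = α + β := by rw [(fa _).2.1, be_b, be_c]; ring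
  have abe_c : ((a (b ev) : PV K) : PG K).c = 1 := by rw [(fa _).2.2, be_c]
  have ca : ∀ x : W, ((cod a b ev x : PV K) : PG K).a = kap K (xor (xor x.2.1 x.2.2.1) x.2.2.2) := by
    intro x
    rw [cod, PV_mul_a, PV_mul_a, PV_mul_a, pw_a, pw_a, pw_a, pw_a, e_a, ae_a, be_a, abe_a, kap_xor h, kap_xor h]
    ring
  have cb : ∀ x : W, ((cod a b ev x : PV K) : PG K).b = kap K (xor x.2.1 x.2.2.2) * α + kap K (xor x.2.2.1 x.2.2.2) * β := by
    intro x
    rw [cod, PV_mul_b, PV_mul_b, PV_mul_b, pw_b, pw_b, pw_b, pw_b, e_b, ae_b, be_b, abe_b, kap_xor h, kap_xor h]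
    ring
  have cc : ∀ x : W, ((cod a b ev x : PV K) : PG K).c = kap K (xor (xor x.1 x.2.1) (xor x.2.2.1 x.2.2.2)) := by
    intro x
    rw [cod, PV_mul_c, PV_mul_c, PV_mul_c, pw_c, pw_c, pw_c, pw_c, e_c, ae_c, be_c, abe_c, kap_xor h, kap_xor h,
      kap_xor h]
    ring
  -- independence
  have indep : ∀ s s' k k' : Bool, kap K s * α + kap K k * β = kap K s' * α + kap K k' * β → s = s' ∧ k = k' := by
    have h1 : α + β ≠ 0 := fun h3 => hne (by
      have h4 : α + β = α + α := by rw [h3, t]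
      exact add_left_cancel h4)
    have h2 : α + β ≠ α := fun h3 => hβ (by
      have h4 : α + β = α + 0 := by rw [h3, add_zero]
      exact add_left_cancel h4)
    have h3 : α + β ≠ β := fun h3 => hα (by
      have h4 : α + β = 0 + β := by rw [h3, zero_add]
      exact add_right_cancel h4)
    intro s s' k k' hh
    have h4 : kap K (xor s s') * α + kap K (xor k k') * β = 0 := by
      rw [kap_xor h, kap_xor h]
      have e1 : (kap K s + kap K s') * α + (kap K k + kap K k') * β =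
          (kap K s * α + kap K k * β) + (kap K s' * α + kap K k' * β) := by ring
      rw [e1, hh, t]
    have h5 : xor s s' = false ∧ xor k k' = false := by
      generalize xor s s' = m at h4 ⊢
      generalize xor k k' = n at h4 ⊢
      cases m <;> cases n
      · exact ⟨rfl, rfl⟩
      · exfalso
        apply hβ
        simpa [kap] using h4
      · exfalso
        apply hα
        simpa [kap] using h4
      · exfalso
        apply h1
        simpa only [kap, ↓ _root_.reduceIte, _root_.one_mul] using h4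
    refine ⟨?_, ?_⟩
    · revert h5; cases s <;> cases s' <;> simp
    · revert h5; cases k <;> cases k' <;> simp
  refine ⟨PV_comm, PV_sq h, ?_, ?_, ?_, ?_, ?_⟩
  · ext v : 1
    rw [MulAut.mul_apply, MulAut.one_apply]
    apply PV_ext
    · rw [(fa _).1, (fa _).1, (fa _).2.1, (fa _).2.2, star_add, star_mul', (v : PG K).hc]
      have h1 := h.two
      have e1 : α * star α = 1 := h.nrm hα
      have e2 : star α * α = 1 := by rw [mul_comm]; exact e1
      calc (v : PG K).a + α * star (v : PG K).b + star α * (v : PG K).b + (v : PG K).c +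
            α * (star (v : PG K).b + star α * (v : PG K).c) + star α * ((v : PG K).b + α * (v : PG K).c) +
            (v : PG K).c
          = (v : PG K).a + (α * star (v : PG K).b + α * star (v : PG K).b) +
            (star α * (v : PG K).b + star α * (v : PG K).b) + ((v : PG K).c + (v : PG K).c) +
            (α * star α * (v : PG K).c + star α * α * (v : PG K).c) := by ring
        _ = (v : PG K).a := by rw [e1, e2, h1, h1, h1, h1]; ring
    · rw [(fa _).2.1, (fa _).2.1, (fa _).2.2]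
      have h1 := h.two (α * (v : PG K).c)
      linear_combination h1
    · rw [(fa _).2.2, (fa _).2.2]
  · ext v : 1
    rw [MulAut.mul_apply, MulAut.one_apply]
    apply PV_ext
    · rw [(fb _).1, (fb _).1, (fb _).2.1, (fb _).2.2, star_add, star_mul', (v : PG K).hc]
      have h1 := h.two
      have e1 : β * star β = 1 := h.nrm hβ
      have e2 : star β * β = 1 := by rw [mul_comm]; exact e1
      calc (v : PG K).a + β * star (v : PG K).b + star β * (v : PG K).b + (v : PG K).c +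
            β * (star (v : PG K).b + star β * (v : PG K).c) + star β * ((v : PG K).b + β * (v : PG K).c) +
            (v : PG K).c
          = (v : PG K).a + (β * star (v : PG K).b + β * star (v : PG K).b) +
            (star β * (v : PG K).b + star β * (v : PG K).b) + ((v : PG K).c + (v : PG K).c) +
            (β * star β * (v : PG K).c + star β * β * (v : PG K).c) := by ring
        _ = (v : PG K).a := by rw [e1, e2, h1, h1, h1, h1]; ring
    · rw [(fb _).2.1, (fb _).2.1, (fb _).2.2]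
      have h1 := h.two (β * (v : PG K).c)
      linear_combination h1
    · rw [(fb _).2.2, (fb _).2.2]
  · ext v : 1
    rw [MulAut.mul_apply, MulAut.mul_apply]
    apply PV_ext
    · rw [(fa _).1, (fb _).1, (fb _).2.1, (fb _).2.2, (fb _).1, (fa _).1, (fa _).2.1, (fa _).2.2, star_add, star_add,
        star_mul', star_mul', (v : PG K).hc]
      ring
    · rw [(fa _).2.1, (fb _).2.1, (fb _).2.2, (fb _).2.1, (fa _).2.1, (fa _).2.2]
      ring
    · rw [(fa _).2.2, (fb _).2.2, (fb _).2.2, (fa _).2.2]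
  · intro v
    obtain ⟨p, hp⟩ := exists_kap h (v : PG K).ha
    obtain ⟨q, hq⟩ := exists_kap h (v : PG K).hc
    obtain ⟨s, k, hsk⟩ : ∃ s k : Bool, (v : PG K).b = kap K s * α + kap K k * β := by
      rcases hall (v : PG K).b with h1 | h1 | h1 | h1
      · exact ⟨false, false, by rw [h1]; simp [kap]⟩
      · exact ⟨true, false, by rw [h1]; simp [kap]⟩
      · exact ⟨false, true, by rw [h1]; simp [kap]⟩
      · exact ⟨true, true, by rw [h1]; simp [kap]⟩
    refine ⟨(xor q p, xor p k, xor p s, xor (xor p s) k), PV_ext ?_ ?_ ?_⟩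
    · rw [ca, hp]
      congr 1
      cases p <;> cases s <;> cases k <;> rfl
    · rw [cb, hsk]
      congr 3
      · cases p <;> cases s <;> cases k <;> rfl
      · cases p <;> cases s <;> cases k <;> rfl
    · rw [cc, hq]
      congr 1
      cases p <;> cases s <;> cases k <;> cases q <;> rfl
  · intro x y hxy
    have k1 := kap_inj ((ca x).symm.trans ((congrArg (fun v : PV K => (v : PG K).a) hxy).trans (ca y)))
    have k2 := indep _ _ _ _ ((cb x).symm.trans ((congrArg (fun v : PV K => (v : PG K).b) hxy).trans (cb y)))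
    have k3 := kap_inj ((cc x).symm.trans ((congrArg (fun v : PV K => (v : PG K).c) hxy).trans (cc y)))
    obtain ⟨x0, x1, x2, x3⟩ := x
    obtain ⟨y0, y1, y2, y3⟩ := y
    obtain ⟨k2, k4⟩ := k2
    exact bit_inj x0 x1 x2 x3 y0 y1 y2 y3 k1 k2 k4 k3

end

end Cfsg.Agent.H834.P4
end

-- part: H834/P4/TwoF
section
/-!
# S5210, q = 2: the fusion part (helper834)
-/

set_option autoImplicit false

namespace Cfsg.Agent.H834.P4

open Cfsg Cfsg.FusionSystem Cfsg.Agent.H776.P4 Cfsg.Agent.H802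
open Cfsg.Agent.H756.PU (HypK Ess Inv Com NormAut TIAut AF IsC)
open Cfsg.Agent.H546.PU (isFullyNormalized_of_le isCentric_of_le)

universe u

/-! ### Generalities -/

section general

variable {Ω : Type u} [Group Ω] {S : Subgroup Ω}

/-- the Sylow property of `Aut_S(Q)` for a fully normalized `Q` -/
theorem syl_of_fn [Finite S] {p : ℕ} [Fact p.Prime] {F : FusionSystem S} (hS : IsPGroup p S) (hF : F.IsSaturated p)
    {Q : Subgroup Ω} (hQ : F.IsFullyNormalized Q) :
    ∀ P : Subgroup (MulAut Q), P ≤ F.autGroup Q → IsPGroup p P →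
      ∃ g ∈ F.autGroup Q, ∀ x ∈ P, g * x * g⁻¹ ∈ autInducedBy S Q := by
  have hfinQ : Finite Q := finite_of_le hQ.1
  have hfA : Finite (MulAut Q) := inferInstance
  set A := F.autGroup Q with hA
  obtain ⟨R, hR⟩ : ∃ R : Sylow p A, (R : Subgroup A) = (autInducedBy S Q).subgroupOf A :=
    (isFullyAutomized_of_isFullyNormalized hS hF hQ).2
  intro P hP hPp
  have hP' : IsPGroup p (P.subgroupOf A) := hPp.comap_of_injective A.subtype A.subtype_injective
  obtain ⟨T, hT⟩ := hP'.exists_le_sylow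
  obtain ⟨g, hg⟩ := MulAction.exists_smul_eq A T R
  refine ⟨g, g.2, fun x hx => ?_⟩
  have h1 : g * (⟨x, hP hx⟩ : A) * g⁻¹ ∈ (R : Subgroup A) := by
    rw [← hg, Sylow.coe_subgroup_smul]
    exact ⟨⟨x, hP hx⟩, hT hx, rfl⟩
  rw [hR] at h1
  exact h1

/-- a normal centric subgroup makes the system realizable -/
theorem conNormal [Finite S] {p : ℕ} [Fact p.Prime] (F : FusionSystem S) (Q : Subgroup Ω) (hS : IsPGroup p S)
    (hF : F.IsSaturated p) (hQS : Q ≤ S) (hN : S ≤ Subgroup.normalizer (Q : Set Ω)) (hC : centralizerIn S Q ≤ Q)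
    (hess : ∀ E, F.IsEssential p E → _root_.Cfsg.Agent.H756.PU.Inv (F.autGroup E) Q) (hinv : _root_.Cfsg.Agent.H756.PU.Inv (F.autGroup S) Q) : F.IsRealizable p := by
  have hcen := _root_.Cfsg.Agent.H546.PU.isCentric_of_le hS hF hQS hN hC
  have hnor : F.IsNormal Q := by
    rw [Cfsg.Agent.H973.isNormal_iff_essential hS hF Q]
    have key : ∀ P : Subgroup Ω, P ≤ S → _root_.Cfsg.Agent.H756.PU.Inv (F.autGroup P) Q →
        (Q ≤ P ∧ ∀ α ∈ F.autGroup P, (Q.subgroupOf P).map α.toMonoidHom = Q.subgroupOf P) := by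
      intro P hPS hi
      refine ⟨hi.1, fun α hα => ?_⟩
      have hfin : Finite P := finite_of_le hPS
      refine Subgroup.eq_of_le_of_card_ge ?_ ?_
      · rintro _ ⟨x, hx, rfl⟩
        exact Subgroup.mem_subgroupOf.2 (hi.2 α hα x (Subgroup.mem_subgroupOf.1 hx))
      · exact (Subgroup.card_map_of_injective α.injective).ge
    rintro P (rfl | hP)
    · exact key _ le_rfl hinv
    · exact key P hP.1.1 (hess P hP)
  obtain ⟨L, hL, ι, ⟨hfin, hreal, hsyl, -⟩, -, -⟩ :=
    Cfsg.Agent.H771.exists_model hS hF hnor hcen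
  exact ⟨L, hL, hfin, ι, hreal, hsyl⟩

variable {E : Subgroup Ω} {p : ℕ} {Γ : Subgroup (MulAut E)}

theorem ess_inn (h : Ess S E p Γ) {x : MulAut E} (hx : x ∈ autInducedBy S E)
    (hc : ∀ g ∈ Γ, g * x * g⁻¹ ∈ autInducedBy S E) : x ∈ Inn E := by
  obtain ⟨H, hHG, hne, hAH, -, hsp⟩ := h.spe
  obtain ⟨g, hg, hgH⟩ : ∃ g ∈ Γ, g ∉ H := by
    by_contra hcon
    push Not at hcon
    exact hne (le_antisymm hHG hcon)
  refine hsp g hg hgH x (hAH hx) (hAH (hc g hg)) ?_
  obtain ⟨k, hk⟩ := isPGroup_autInducedBy h.pgr E ⟨x, hx⟩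
  exact ⟨k, congrArg Subtype.val hk⟩

theorem ess_not_norm (h : Ess S E p Γ) : ¬ ∀ γ ∈ Γ, NormAut S γ := by
  intro hn
  obtain ⟨H, hHG, hne, hAH, hAI, hsp⟩ := h.spe
  exact hAI fun x hx => ess_inn h hx fun g hg => hn g hg x hx

theorem ess_exists_odd (h : Ess S E 2 Γ) : ∃ δ ∈ Γ, δ ≠ 1 ∧ ∃ n : ℕ, Odd n ∧ δ ^ n = 1 := by
  have := h.fin
  have hfE : Finite E := finite_of_le h.E_le
  have hfM : Finite (MulAut E) := inferInstance
  by_contra hcon
  push Not at hcon
  have h2 : IsPGroup 2 Γ := by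
    rintro ⟨γ, hγ⟩
    obtain ⟨k, m, hm, hkm⟩ := Nat.exists_eq_two_pow_mul_odd (n := orderOf γ) (orderOf_pos γ).ne'
    refine ⟨k, Subtype.ext ?_⟩
    show γ ^ 2 ^ k = 1
    by_contra hne
    refine hcon (γ ^ 2 ^ k) (Γ.pow_mem hγ _) hne m hm ?_
    rw [← pow_mul, ← hkm, pow_orderOf_eq_one]
  obtain ⟨g, hg, hgP⟩ := h.syl Γ le_rfl h2
  obtain ⟨H, hHG, hne, hAH, -, -⟩ := h.spe
  refine hne (le_antisymm hHG fun x hx => hAH ?_)
  have h3 := hgP (g⁻¹ * x * g) (Γ.mul_mem (Γ.mul_mem (Γ.inv_mem hg) hx) hg)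
  rwa [show g * (g⁻¹ * x * g) * g⁻¹ = x by group] at h3

/-- restriction to an invariant subgroup -/
theorem exists_restrict {F : FusionSystem S} {P R : Subgroup Ω} (hP : P ≤ S) (hR : R ≤ P) [Finite R] {α : MulAut P}
    (hα : α ∈ F.autGroup P) (hinv : ∀ e : P, (e : Ω) ∈ R → ((α e : P) : Ω) ∈ R) :
    ∃ y ∈ F.autGroup R, ∀ v : R, ((y v : R) : Ω) = ((α ⟨v, hR v.2⟩ : P) : Ω) := by
  have h1 : P.subtype.comp (α.toMonoidHom.comp (Subgroup.inclusion hR)) ∈ F.Hom R :=
    aut_restrict_mem hP hα hR fun x hx => rfl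
  exact exists_aut h1 (range_eq_of_mapsTo h1 fun x => hinv _ x.2)

theorem restrict_pow {P R : Subgroup Ω} (hR : R ≤ P) {α : MulAut P} {y : MulAut R}
    (hy : ∀ v : R, ((y v : R) : Ω) = ((α ⟨v, hR v.2⟩ : P) : Ω)) (n : ℕ) :
    ∀ v : R, (((y ^ n) v : R) : Ω) = (((α ^ n) ⟨v, hR v.2⟩ : P) : Ω) := by
  induction n with
  | zero => intro v; rfl
  | succ n ih =>
    intro v
    rw [pow_succ, pow_succ, MulAut.mul_apply, MulAut.mul_apply, ih]
    have : (⟨(y v : R), hR (y v).2⟩ : P) = α ⟨v, hR v.2⟩ := Subtype.ext (hy v)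
    rw [this]

end general

/-! ### `V` and `E_r` -/

section

variable {K : Type u} [Field K] [StarRing K]

theorem K4.neg (h : K4 K) (x : K) : -x = x := neg_eq_of_add_eq_zero_left (h.two x)

theorem mem_EA (h : K4 K) {r : K} {g : PG K} : g ∈ EA r ↔ g.r = 0 ∨ g.r = r := by
  constructor
  · intro hg
    refine Subgroup.closure_induction (p := fun (g : PG K) _ => g.r = 0 ∨ g.r = r) (fun x hx => hx) (Or.inl rfl) ?_ ?_ hg
    · rintro x y _ _ (hx | hx) (hy | hy)
      · left; rw [PG.mul_r, hx, hy, add_zero]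
      · right; rw [PG.mul_r, hx, hy, zero_add]
      · right; rw [PG.mul_r, hx, hy, add_zero]
      · left; rw [PG.mul_r, hx, hy, h.two]
    · rintro x _ (hx | hx)
      · left; rw [PG.inv_r, hx, neg_zero]
      · right; rw [PG.inv_r, hx, h.neg]
  · intro hg
    exact Subgroup.subset_closure hg

theorem PV_le_EA (h : K4 K) (r : K) : PV K ≤ EA r := fun _ hg => (mem_EA h).2 (Or.inl hg)

theorem comm_V (h : K4 K) {x w : PG K} (hx : x.r ≠ 0) (hw : w.r = 0) (hc : x * w * x⁻¹ = w) :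
    w.c = 0 ∧ (w.b = 0 ∨ w.b = x.r) := by
  obtain ⟨-, h1, h2, -⟩ := conj_comp x w hw
  rw [hc] at h1 h2
  have hc0 : w.c = 0 := by
    have h3 : x.r * w.c = 0 := by
      have h4 : w.b + 0 = w.b + x.r * w.c := by rw [add_zero]; exact h2
      exact (add_left_cancel h4).symm
    exact (mul_eq_zero.1 h3).resolve_left hx
  refine ⟨hc0, ?_⟩
  by_contra hcon
  push Not at hcon
  have h5 := h.tr hx hcon.1 hcon.2
  rw [hc0, mul_zero, add_zero, add_assoc, h5] at h1
  have h6 : w.a + 0 = w.a + 1 := by rw [add_zero]; exact h1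
  exact zero_ne_one (add_left_cancel h6)

theorem isC_congr {x y : PG K} (hxy : x.r = y.r) {a : MulAut (PV K)} (ha : IsC x a) : IsC y a := by
  intro v
  rw [ha v]
  obtain ⟨h1, h2, h3, h4⟩ := conj_comp x (v : PG K) v.2
  obtain ⟨k1, k2, k3, k4⟩ := conj_comp y (v : PG K) v.2
  ext
  · rw [h1, k1]
  · rw [h2, k2, hxy]
  · rw [h3, k3, hxy]
  · rw [h4, k4]

theorem isC_unique {x : PG K} {a b : MulAut (PV K)} (ha : IsC x a) (hb : IsC x b) : a = b := by
  ext v : 1
  apply Subtype.ext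
  rw [ha v, hb v]

theorem isC_mul {x y : PG K} {a b : MulAut (PV K)} (ha : IsC x a) (hb : IsC y b) : IsC (x * y) (a * b) := by
  intro v
  rw [MulAut.mul_apply, ha, hb]
  group

/-- four-element bound -/
theorem exists_pair (h : K4 K) {α : K} (hα : α ≠ 0) : ∃ (β : K) (a b : MulAut (PV K)), β ≠ 0 ∧ β ≠ α ∧
    (∀ x : K, x = 0 ∨ x = α ∨ x = β ∨ x = α + β) ∧ IsC (ur α) a ∧ IsC (ur β) b := by
  obtain ⟨β, hβ, hne, hall⟩ := h.basis α hα
  obtain ⟨a, ha⟩ := exists_conjAut (normal_PV (Subgroup.mem_top (ur α)))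
  obtain ⟨b, hb⟩ := exists_conjAut (normal_PV (Subgroup.mem_top (ur β)))
  exact ⟨β, a, b, hβ, hne, hall, ha, hb⟩

/-- `V` is invariant under all the automorphisms of `E_r` -/
theorem EA_inv (h : K4 K) {r : K} (hr : r ≠ 0) (τ : MulAut (EA r)) {e : EA r} (he : (e : PG K) ∈ PV K) :
    ((τ e : EA r) : PG K) ∈ PV K := by
  have he : (e : PG K).r = 0 := he
  show ((τ e : EA r) : PG K).r = 0
  by_contra hne
  have hex : ((τ e : EA r) : PG K).r = r := ((mem_EA h).1 (τ e).2).resolve_left hne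
  have key0 : ∀ w : EA r, (w : PG K).r = 0 → ((τ w : EA r) : PG K).r = 0 →
      ((τ w : EA r) : PG K).c = 0 ∧ (((τ w : EA r) : PG K).b = 0 ∨ ((τ w : EA r) : PG K).b = r) := by
    intro w hw hτw
    have hcomm : e * w = w * e := by
      have h0 := PV_comm (⟨(e : PG K), he⟩ : PV K) (⟨(w : PG K), hw⟩ : PV K)
      have h00 : (e : PG K) * w = w * e := congrArg (fun v : PV K => (v : PG K)) h0
      exact Subtype.ext h00
    have h1 : τ e * τ w * (τ e)⁻¹ = τ w := by rw [← map_mul, hcomm, map_mul, mul_inv_cancel_right]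
    have h2 := comm_V h (x := ((τ e : EA r) : PG K)) (w := ((τ w : EA r) : PG K)) (by rw [hex]; exact hr) hτw
      (congrArg Subtype.val h1)
    rwa [hex] at h2
  -- the list of eight elements
  let f : Bool × Bool × Bool → PG K := fun t =>
    ⟨0, kap K t.2.1, if t.2.2 then r else 0, 0, by cases t.2.1 <;> simp [kap], by simp⟩ *
      (if t.1 then ((τ e : EA r) : PG K) else 1)
  have key1 : ∀ w : EA r, (w : PG K).r = 0 → ((τ w : EA r) : PG K).r = 0 →
      ∃ s t : Bool, ((τ w : EA r) : PG K) = f (false, s, t) ∧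
        ((τ w : EA r) : PG K) * ((τ e : EA r) : PG K) = f (true, s, t) := by
    intro w hw hτw
    obtain ⟨h1, h2⟩ := key0 w hw hτw
    obtain ⟨s, hs⟩ := exists_kap h ((τ w : EA r) : PG K).ha
    obtain ⟨t, ht⟩ : ∃ t : Bool, ((τ w : EA r) : PG K).b = if t then r else 0 := by
      rcases h2 with h2 | h2
      · exact ⟨false, by rw [h2]; rfl⟩
      · exact ⟨true, by rw [h2]; rfl⟩
    have h3 : ((τ w : EA r) : PG K) =
        ⟨0, kap K s, if t then r else 0, 0, by cases s <;> simp [kap], by simp⟩ := by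
      ext
      · exact hτw
      · exact hs
      · exact ht
      · exact h1
    refine ⟨s, t, ?_, ?_⟩
    · show _ = _ * 1
      rw [mul_one]
      exact h3
    · show _ = _ * _
      exact congrArg (fun z : PG K => z * ((τ e : EA r) : PG K)) h3
  have key2 : ∀ w : EA r, (w : PG K).r = 0 → ∃ t, ((τ w : EA r) : PG K) = f t := by
    intro w hw
    rcases (mem_EA h).1 (τ w).2 with h1 | h1
    · obtain ⟨s, t, h2, -⟩ := key1 w hw h1
      exact ⟨_, h2⟩
    · have h2 : ((w * e⁻¹ : EA r) : PG K).r = 0 := by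
        show (w : PG K).r + (- (e : PG K).r) = 0
        rw [hw, he, neg_zero, add_zero]
      have h3 : ((τ (w * e⁻¹) : EA r) : PG K).r = 0 := by
        rw [map_mul, map_inv]
        show ((τ w : EA r) : PG K).r + (- ((τ e : EA r) : PG K).r) = 0
        rw [h1, hex, add_neg_cancel]
      obtain ⟨s, t, -, h4⟩ := key1 _ h2 h3
      refine ⟨_, Eq.trans ?_ h4⟩
      rw [map_mul, map_inv]
      show _ = ((τ w : EA r) : PG K) * (((τ e : EA r) : PG K))⁻¹ * _
      rw [inv_mul_cancel_right]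
  obtain ⟨β, a, b, hβ, hne', hall, ha, hb⟩ := exists_pair h hr
  have hreg := reg_of h hr hβ hne' hall ha hb
  choose! g hg using fun x : W => key2 ⟨((cod a b (ev : PV K) x : PV K) : PG K), PV_le_EA h r (cod a b (ev : PV K) x).2⟩
    (cod a b (ev : PV K) x).2
  have hinj : Function.Injective g := by
    intro x y hxy
    apply hreg.inj
    have h1 : ((τ ⟨((cod a b (ev : PV K) x : PV K) : PG K), PV_le_EA h r (cod a b (ev : PV K) x).2⟩ : EA r) : PG K) =
        ((τ ⟨((cod a b (ev : PV K) y : PV K) : PG K), PV_le_EA h r (cod a b (ev : PV K) y).2⟩ : EA r) : PG K) := by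
      rw [hg x, hg y, hxy]
    have h2 := τ.injective (Subtype.ext h1)
    exact Subtype.ext (congrArg (fun v : EA r => (v : PG K)) h2)
  have h3 := Fintype.card_le_of_injective g hinj
  revert h3
  decide

/-- an automorphism trivial on `V` is an involution -/
theorem sq_of_triv (h : K4 K) (hC : centralizerIn ⊤ (PV K) ≤ PV K) {E : Subgroup (PG K)} (hVE : PV K ≤ E)
    (α : MulAut E) (hα : ∀ e : E, (e : PG K) ∈ PV K → α e = e) : α * α = 1 := by
  ext e : 1
  rw [MulAut.mul_apply, MulAut.one_apply]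
  have hz : ((e⁻¹ * α e : E) : PG K) ∈ PV K := by
    apply hC
    refine ⟨Subgroup.mem_top _, Subgroup.mem_centralizer_iff.2 fun v hv => ?_⟩
    let w : E := ⟨v, hVE hv⟩
    have h1 : ((e * w * e⁻¹ : E) : PG K) ∈ PV K :=
      (Subgroup.mem_normalizer_iff.1 (normal_PV (Subgroup.mem_top (e : PG K))) v).1 hv
    have h2 := hα _ h1
    rw [map_mul, map_mul, map_inv, hα w hv] at h2
    have h3 : w * (e⁻¹ * α e) = (e⁻¹ * α e) * w := by
      calc w * (e⁻¹ * α e) = e⁻¹ * (e * w * e⁻¹) * α e := by group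
        _ = e⁻¹ * (α e * w * (α e)⁻¹) * α e := by rw [h2]
        _ = _ := by group
    exact congrArg Subtype.val h3
  have h4 : e * (e⁻¹ * α e) = α e := by group
  have h5 : (e⁻¹ * α e) * (e⁻¹ * α e) = 1 := by
    have h6 : ((e⁻¹ * α e : E) : PG K) * ((e⁻¹ * α e : E) : PG K) = 1 :=
      congrArg (fun v : PV K => (v : PG K)) (PV_sq h (⟨_, hz⟩ : PV K))
    exact Subtype.ext h6
  calc α (α e) = α (e * (e⁻¹ * α e)) := by rw [h4]
    _ = α e * (e⁻¹ * α e) := by rw [map_mul, hα _ hz]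
    _ = e * (e⁻¹ * α e) * (e⁻¹ * α e) := by rw [h4]
    _ = e := by rw [mul_assoc, h5, mul_one]

theorem eq_one_of_sq {G : Type*} [Group G] {x : G} (h : x * x = 1) {n : ℕ} (hn : Odd n) (hx : x ^ n = 1) : x = 1 := by
  obtain ⟨m, rfl⟩ := hn
  rwa [pow_succ, pow_mul, pow_two, h, one_pow, one_mul] at hx

/-- an essential `E_r` gives an element of odd order in `C_G(u_r)` -/
theorem oddC_of_ess (h : K4 K) {r : K} (hr : r ≠ 0) {F : FusionSystem (⊤ : Subgroup (PG K))}
    (hC : centralizerIn ⊤ (PV K) ≤ PV K) (hE : Ess ⊤ (EA r) 2 (F.autGroup (EA r))) {a : MulAut (PV K)}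
    (ha : IsC (ur r) a) : OddC (F.autGroup (PV K)) a := by
  have := hE.fin
  have hfV : Finite (PV K) := finite_of_le (S := (⊤ : Subgroup (PG K))) le_top
  obtain ⟨δ, hδ, hδ1, n, hn, hδn⟩ := ess_exists_odd hE
  obtain ⟨y, hyG, hy⟩ := exists_restrict (S := (⊤ : Subgroup (PG K))) le_top (PV_le_EA h r) hδ
    fun e he => EA_inv h hr δ he
  refine ⟨y, hyG, ?_, ?_, n, hn, ?_⟩
  · have hur : ur r ∈ EA r := (mem_EA h).2 (Or.inr rfl)
    have hx : ((δ ⟨ur r, hur⟩ : EA r) : PG K).r = r := by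
      refine ((mem_EA h).1 (δ ⟨ur r, hur⟩).2).resolve_left fun h1 => hr ?_
      have h2 := EA_inv h hr δ⁻¹ (e := δ ⟨ur r, hur⟩) h1
      rw [MulAut.inv_apply_self] at h2
      exact h2
    have hax : IsC ((δ ⟨ur r, hur⟩ : EA r) : PG K) a := isC_congr hx.symm ha
    ext v : 1
    apply Subtype.ext
    rw [MulAut.mul_apply, MulAut.mul_apply, hax, hy, hy]
    have h3 : (⟨((a v : PV K) : PG K), PV_le_EA h r (a v).2⟩ : EA r) =
        ⟨ur r, hur⟩ * ⟨v, PV_le_EA h r v.2⟩ * ⟨ur r, hur⟩⁻¹ := Subtype.ext (ha v)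
    rw [h3, map_mul, map_mul, map_inv]
    rfl
  · intro hy1
    apply hδ1
    refine eq_one_of_sq (sq_of_triv h hC (PV_le_EA h r) δ fun e he => ?_) hn hδn
    have h1 := hy ⟨e, he⟩
    rw [hy1, MulAut.one_apply] at h1
    exact Subtype.ext h1.symm
  · ext v : 1
    apply Subtype.ext
    rw [restrict_pow (PV_le_EA h r) hy, hδn]
    rfl

end

end Cfsg.Agent.H834.P4
end

-- part: H834/P4/TwoB
section
/-!
# S5210, q = 2: `StTwoB` and `StTwoN` (helper834)

If some `E_α` is essential then `Aut_F(S) = Inn(S)`, and either `F` is constrained (`V` or `A_α = E_α ∩ C(A_α)` is normal)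
or `|Aut_F(V)| = 36` and `Q` is essential.
-/

set_option autoImplicit false

namespace Cfsg.Agent.H834.P4

open Cfsg Cfsg.FusionSystem Cfsg.Agent.H776.P4 Cfsg.Agent.H802
open Cfsg.Agent.H756.PU (HypK Ess Inv Com NormAut TIAut AF IsC)
open Cfsg.Agent.H546.PU (isFullyNormalized_of_le isCentric_of_le)

universe u

variable {K : Type u} [Field K] [StarRing K]

instance : Fact (Nat.Prime 2) := ⟨Nat.prime_two⟩

/-- the situation -/
structure Dat (F : FusionSystem (⊤ : Subgroup (PG K))) (α β : K) (a b : MulAut (PV K)) : Prop where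
  k4 : K4 K
  fin : Finite (⊤ : Subgroup (PG K))
  pg : IsPGroup 2 (⊤ : Subgroup (PG K))
  sat : F.IsSaturated 2
  cen : centralizerIn ⊤ (PV K) ≤ PV K
  char : ∀ τ : MulAut (PG K), (PV K).map τ.toMonoidHom = PV K
  hα : α ≠ 0
  hβ : β ≠ 0
  hne : β ≠ α
  hall : ∀ x : K, x = 0 ∨ x = α ∨ x = β ∨ x = α + β
  ha : IsC (ur α) a
  hb : IsC (ur β) b

section

variable {F : FusionSystem (⊤ : Subgroup (PG K))} {α β : K} {a b : MulAut (PV K)}

theorem Dat.reg (d : Dat F α β a b) : Reg a b (ev : PV K) := reg_of d.k4 d.hα d.hβ d.hne d.hall d.ha d.hb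

theorem Dat.hab (d : Dat F α β a b) : IsC (ur (α + β)) (a * b) :=
  isC_congr (show (ur α * ur β).r = (ur (α + β)).r from rfl) (isC_mul d.ha d.hb)

theorem isC_one : IsC (1 : PG K) (1 : MulAut (PV K)) := fun v => by
  rw [MulAut.one_apply, one_mul, inv_one, mul_one]

theorem Dat.mem (d : Dat F α β a b) {u : MulAut (PV K)} : u ∈ UU d.reg ↔ ∃ x : PG K, IsC x u := by
  rw [mem_UU]
  constructor
  · rintro (h1 | h1 | h1 | h1)
    · exact ⟨1, h1 ▸ isC_one⟩
    · exact ⟨_, h1 ▸ d.ha⟩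
    · exact ⟨_, h1 ▸ d.hb⟩
    · exact ⟨_, h1 ▸ d.hab⟩
  · rintro ⟨x, hx⟩
    rcases d.hall x.r with h1 | h1 | h1 | h1
    · exact Or.inl (isC_unique hx (isC_congr (x := 1) h1.symm isC_one))
    · exact Or.inr (Or.inl (isC_unique hx (isC_congr (x := ur α) h1.symm d.ha)))
    · exact Or.inr (Or.inr (Or.inl (isC_unique hx (isC_congr (x := ur β) h1.symm d.hb))))
    · exact Or.inr (Or.inr (Or.inr (isC_unique hx (isC_congr (x := ur (α + β)) h1.symm d.hab))))

theorem mem_aut {Ω : Type u} [Group Ω] {S : Subgroup Ω} (F : FusionSystem S) {Q : Subgroup Ω} (hQ : Q ≤ S) {x : Ω}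
    (hx : x ∈ S) {c : MulAut Q} (hc : IsC x c) : c ∈ F.autGroup Q :=
  autInducedBy_le_autGroup F hQ ((mem_autInducedBy_iff _ _ _).2 ⟨x, hx, hc⟩)

theorem Dat.ghyp (d : Dat F α β a b) : GHyp a b (ev : PV K) (F.autGroup (PV K)) := by
  have := d.fin
  refine ⟨d.reg, mem_aut F le_top (Subgroup.mem_top _) d.ha, mem_aut F le_top (Subgroup.mem_top _) d.hb,
    fun P hP h2 => ?_⟩
  obtain ⟨g, hg, hgP⟩ := syl_of_fn d.pg d.sat (isFullyNormalized_of_le F le_top normal_PV) P hP h2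
  refine ⟨g, hg, fun x hx => ?_⟩
  obtain ⟨z, -, hz⟩ := (mem_autInducedBy_iff _ _ _).1 (hgP x hx)
  exact (mem_UU d.reg).1 (d.mem.2 ⟨z, hz⟩)

theorem Dat.inv (d : Dat F α β a b) (δ : MulAut (⊤ : Subgroup (PG K))) (e : (⊤ : Subgroup (PG K)))
    (he : (e : PG K) ∈ PV K) : ((δ e : (⊤ : Subgroup (PG K))) : PG K) ∈ PV K := by
  have h1 := d.char (MulAut.congr Subgroup.topEquiv δ)
  have h2 : (MulAut.congr Subgroup.topEquiv δ) (e : PG K) ∈
      (PV K).map (MulAut.congr Subgroup.topEquiv δ).toMonoidHom := ⟨e, he, rfl⟩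
  rw [h1] at h2
  exact h2

/-- **`Aut_F(S) = Inn(S)`** -/
theorem Dat.inner (d : Dat F α β a b) (ho : OddC (F.autGroup (PV K)) a) {δ : MulAut (⊤ : Subgroup (PG K))}
    (hδ : δ ∈ F.autGroup ⊤) : ∃ g : PG K, IsC g δ := by
  have := d.fin
  have hfV : Finite (PV K) := finite_of_le (S := (⊤ : Subgroup (PG K))) le_top
  obtain ⟨y, hyG, hy⟩ := exists_restrict (S := (⊤ : Subgroup (PG K))) le_rfl (le_top : PV K ≤ ⊤) hδ (d.inv δ)
  have hyU : y ∈ UU d.reg := by
    refine d.ghyp.norm ho hyG fun u hu => ?_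
    obtain ⟨x, hx⟩ := d.mem.1 hu
    refine d.mem.2 ⟨((δ ⟨x, Subgroup.mem_top x⟩ : (⊤ : Subgroup (PG K))) : PG K), fun v => ?_⟩
    obtain ⟨w, rfl⟩ := y.surjective v
    rw [MulAut.mul_apply, MulAut.mul_apply, MulAut.inv_apply_self, hy, hy]
    have h3 : (⟨((u w : PV K) : PG K), Subgroup.mem_top _⟩ : (⊤ : Subgroup (PG K))) =
        ⟨x, Subgroup.mem_top x⟩ * ⟨w, Subgroup.mem_top _⟩ * ⟨x, Subgroup.mem_top x⟩⁻¹ := Subtype.ext (hx w)
    rw [h3, map_mul, map_mul, map_inv]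
    rfl
  obtain ⟨x, hx⟩ := d.mem.1 hyU
  obtain ⟨c, hc⟩ := exists_conjAut (P := (⊤ : Subgroup (PG K))) (g := x)
    (Subgroup.le_normalizer (Subgroup.mem_top x))
  have hcG : c ∈ F.autGroup ⊤ := mem_aut F le_rfl (Subgroup.mem_top _) hc
  have hηG : c⁻¹ * δ ∈ F.autGroup ⊤ := Subgroup.mul_mem _ (Subgroup.inv_mem _ hcG) hδ
  have hη : (c⁻¹ * δ) * (c⁻¹ * δ) = 1 := by
    refine sq_of_triv d.k4 d.cen le_top _ fun e he => ?_
    rw [MulAut.mul_apply]
    have h1 : δ e = c e := by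
      apply Subtype.ext
      rw [hc]
      have h2 := hy ⟨e, he⟩
      rw [hx] at h2
      exact h2.symm
    rw [h1, MulAut.inv_apply_self]
  have h2 : IsPGroup 2 (Subgroup.zpowers (c⁻¹ * δ)) := by
    rintro ⟨z, k, rfl⟩
    refine ⟨1, Subtype.ext ?_⟩
    show ((c⁻¹ * δ) ^ k) ^ 2 ^ 1 = 1
    rw [pow_one, ← zpow_natCast, ← zpow_mul, mul_comm, zpow_mul, zpow_natCast, pow_two, hη, one_zpow]
  obtain ⟨g, hg, hgP⟩ := syl_of_fn d.pg d.sat (isFullyNormalized_of_le F le_rfl Subgroup.le_normalizer)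
    (Subgroup.zpowers (c⁻¹ * δ)) (by rw [Subgroup.zpowers_le]; exact hηG) h2
  obtain ⟨z, -, hz⟩ := (mem_autInducedBy_iff _ _ _).1 (hgP _ (Subgroup.mem_zpowers _))
  set η := c⁻¹ * δ with hηd
  set z' : (⊤ : Subgroup (PG K)) := ⟨z, Subgroup.mem_top z⟩ with hz'
  have hz2 : ∀ w, (g * η * g⁻¹) w = z' * w * z'⁻¹ := fun w => Subtype.ext (hz w)
  have hη2 : ∀ v, η v = g⁻¹ z' * v * (g⁻¹ z')⁻¹ := by
    intro v
    have h3 : η v = g⁻¹ ((g * η * g⁻¹) (g v)) := by
      show η v = g⁻¹ (g (η (g⁻¹ (g v))))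
      rw [MulAut.inv_apply_self, MulAut.inv_apply_self]
    rw [h3, hz2, map_mul, map_mul, map_inv, MulAut.inv_apply_self]
  refine ⟨x * ((g⁻¹ z' : (⊤ : Subgroup (PG K))) : PG K), fun v => ?_⟩
  have h4 : δ v = c (η v) := by rw [hηd, MulAut.mul_apply, MulAut.apply_inv_self]
  rw [h4, hc, hη2]
  show x * (((g⁻¹ z' : (⊤ : Subgroup (PG K))) : PG K) * v * (((g⁻¹ z' : (⊤ : Subgroup (PG K))) : PG K))⁻¹) * x⁻¹ = _
  group

theorem Dat.af (d : Dat F α β a b) (ho : OddC (F.autGroup (PV K)) a) :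
    AF F = (MulAut.conj : PG K →* MulAut (PG K)).range := by
  apply le_antisymm
  · rintro _ ⟨δ, hδ, rfl⟩
    obtain ⟨g, hg⟩ := d.inner ho hδ
    refine ⟨g, MulEquiv.ext fun x => ?_⟩
    exact (hg ⟨x, Subgroup.mem_top x⟩).symm
  · rintro _ ⟨g, rfl⟩
    obtain ⟨c, hc⟩ := exists_conjAut (P := (⊤ : Subgroup (PG K))) (g := g)
      (Subgroup.le_normalizer (Subgroup.mem_top g))
    refine ⟨c, mem_aut F le_rfl (Subgroup.mem_top _) hc, MulEquiv.ext fun x => ?_⟩
    exact hc ⟨x, Subgroup.mem_top x⟩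

/-- `V` is normal -/
theorem Dat.realV (d : Dat F α β a b)
    (hess : ∀ E, F.IsEssential 2 E → E = PV K ∨ ∃ r : K, r ≠ 0 ∧ E = EA r) : F.IsRealizable 2 := by
  have := d.fin
  refine conNormal F (PV K) d.pg d.sat le_top normal_PV d.cen (fun E hE => ?_) ⟨le_top, fun δ _ e he => d.inv δ e he⟩
  rcases hess E hE with rfl | ⟨r, hr, rfl⟩
  · exact ⟨le_rfl, fun δ _ e _ => (δ e).2⟩
  · exact ⟨PV_le_EA d.k4 r, fun δ _ e he => EA_inv d.k4 hr δ he⟩

end

/-! ### `A_α` -/

theorem K4.in_add (h : K4 K) {α x y : K} (hx : x = 0 ∨ x = α) (hy : y = 0 ∨ y = α) : x + y = 0 ∨ x + y = α := by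
  rcases hx with rfl | rfl
  · rw [zero_add]; exact hy
  · rcases hy with rfl | rfl
    · right; rw [add_zero]
    · left; exact h.two _

/-- elementary abelian of order 8 -/
def AA (h : K4 K) (α : K) : Subgroup (PG K) where
  carrier := {g | (g.r = 0 ∨ g.r = α) ∧ (g.b = 0 ∨ g.b = α) ∧ g.c = 0}
  one_mem' := ⟨Or.inl rfl, Or.inl rfl, rfl⟩
  mul_mem' := by
    rintro x y ⟨h1, h2, h3⟩ ⟨k1, k2, k3⟩
    refine ⟨?_, ?_, ?_⟩
    · rw [PG.mul_r]; exact h.in_add h1 k1
    · rw [PG.mul_b, k3, mul_zero, add_zero]; exact h.in_add h2 k2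
    · rw [PG.mul_c, h3, k3, add_zero]
  inv_mem' := by
    rintro x ⟨h1, h2, h3⟩
    refine ⟨?_, ?_, ?_⟩
    · rw [PG.inv_r, h.neg]; exact h1
    · rw [PG.inv_b, h3, mul_zero, add_zero, h.neg]; exact h2
    · rw [PG.inv_c, h3, neg_zero]

theorem mem_AA (h : K4 K) {α : K} {g : PG K} :
    g ∈ AA h α ↔ (g.r = 0 ∨ g.r = α) ∧ (g.b = 0 ∨ g.b = α) ∧ g.c = 0 := Iff.rfl

theorem AA_conj (h : K4 K) {α : K} (g : PG K) {x : PG K} (hx : x ∈ AA h α) : g * x * g⁻¹ ∈ AA h α := by
  obtain ⟨h1, h2, h3⟩ := hx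
  have er : (g * x * g⁻¹).r = x.r := by
    simp only [PG.mul_r, PG.inv_r]; ring
  have ec : (g * x * g⁻¹).c = 0 := by
    simp only [PG.mul_c, PG.inv_c, h3]; ring
  have eb : (g * x * g⁻¹).b = x.b + x.r * g.c := by
    simp only [PG.mul_r, PG.mul_b, PG.inv_b, PG.inv_c, h3]
    have e1 := h.two (x.r * g.c)
    linear_combination (-1 : K) * e1
  refine ⟨by rw [er]; exact h1, ?_, ec⟩
  rw [eb]
  refine h.in_add h2 ?_
  rcases h.fix g.hc with h4 | h4
  · left; rw [h4, mul_zero]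
  · rw [h4, mul_one]; exact h1

theorem AA_normal (h : K4 K) (α : K) :
    (⊤ : Subgroup (PG K)) ≤ Subgroup.normalizer ((AA h α : Subgroup (PG K)) : Set (PG K)) := by
  intro g _
  rw [Subgroup.mem_normalizer_iff]
  intro x
  constructor
  · exact AA_conj h g
  · intro hx
    have h1 := AA_conj h g⁻¹ hx
    rwa [show g⁻¹ * (g * x * g⁻¹) * g⁻¹⁻¹ = x by group] at h1

theorem K4.tr_zero (h : K4 K) {x y : K} (hx : x ≠ 0) (hxy : x * star y + star x * y = 0) : y = 0 ∨ y = x := by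
  by_contra hcon
  push Not at hcon
  have h1 := h.tr hx hcon.1 hcon.2
  rw [hxy] at h1
  exact zero_ne_one h1

theorem ur_mem_AA (h : K4 K) (α : K) : ur α ∈ AA h α := ⟨Or.inr rfl, Or.inl rfl, rfl⟩

/-- `w_α` -/
def wr (α : K) : PG K := ⟨0, 0, α, 0, by simp, by simp⟩

theorem AA_cent (h : K4 K) {α : K} (hα : α ≠ 0) : centralizerIn ⊤ (AA h α) ≤ AA h α := by
  rintro x ⟨-, hx'⟩
  have hx := Subgroup.mem_centralizer_iff.1 hx'
  have h1 : ur α * x = x * ur α := hx _ (ur_mem_AA h α)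
  have h2 : wr α * x = x * wr α := hx _ ⟨Or.inl rfl, Or.inr rfl, rfl⟩
  have hc : x.c = 0 := by
    have e1 := congrArg (fun z : PG K => z.b) h1
    simp only [PG.mul_b] at e1
    have e2 : (0 : K) + x.b + α * x.c = x.b + 0 + x.r * 0 := e1
    have e3 : α * x.c = 0 := by linear_combination e2
    exact (mul_eq_zero.1 e3).resolve_left hα
  have hb : α * star x.b + star α * x.b = 0 := by
    have e1 := congrArg (fun z : PG K => z.a) h1
    simp only [PG.mul_a] at e1
    have e2 : (0 : K) + x.a + α * star x.b + star α * x.b + α * star α * x.c =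
      x.a + 0 + x.r * star (0 : K) + star x.r * 0 + x.r * star x.r * 0 := e1
    rw [star_zero, hc] at e2
    linear_combination e2
  have hr : α * star x.r + star α * x.r = 0 := by
    have e1 := congrArg (fun z : PG K => z.a) h2
    simp only [PG.mul_a] at e1
    have e2 : (0 : K) + x.a + 0 * star x.b + star (0 : K) * x.b + 0 * star (0 : K) * x.c =
      x.a + 0 + x.r * star α + star x.r * α + x.r * star x.r * 0 := e1
    rw [star_zero] at e2
    linear_combination (-1 : K) * e2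
  exact ⟨h.tr_zero hα hr, h.tr_zero hα hb, hc⟩

theorem AA_char (h : K4 K) (hC : centralizerIn ⊤ (PV K) ≤ PV K) {α : K} (hα : α ≠ 0) {e : PG K} (he : e ∈ EA α) :
    e ∈ AA h α ↔ (e.r ≠ 0 ∧ e * e = 1) ∨ ∀ x ∈ EA α, e * x = x * e := by
  constructor
  · rintro ⟨h1, h2, h3⟩
    have htr : α * star e.b + star α * e.b = 0 := by
      rcases h2 with h2 | h2
      · rw [h2, star_zero]; ring
      · rw [h2]; exact h.tr0 α
    rcases eq_or_ne e.r 0 with h4 | h4
    · right
      intro x hx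
      rcases (mem_EA h).1 hx with h5 | h5
      · exact congrArg (fun v : PV K => (v : PG K)) (PV_comm (⟨e, h4⟩ : PV K) (⟨x, h5⟩ : PV K))
      · obtain ⟨k1, k2, k3, k4⟩ := conj_comp x e h4
        have h6 : x * e * x⁻¹ = e := by
          ext
          · rw [k1, h4]
          · rw [k2, h3, h5, mul_zero, add_zero, add_assoc, htr, add_zero]
          · rw [k3, h3, mul_zero, add_zero]
          · exact k4
        rw [mul_inv_eq_iff_eq_mul] at h6
        exact h6.symm
    · left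
      refine ⟨h4, ?_⟩
      have h5 := h1.resolve_left h4
      ext
      · rw [PG.mul_r, h.two]; rfl
      · rw [PG.mul_a, h.two, h3, h5, mul_zero, add_zero, zero_add, htr]; rfl
      · rw [PG.mul_b, h.two, h3, mul_zero, add_zero]; rfl
      · rw [PG.mul_c, h.two]; rfl
  · rintro (⟨h1, h2⟩ | h1)
    · have h3 := ((mem_EA h).1 he).resolve_left h1
      have hc : e.c = 0 := by
        have e1 := congrArg (fun z : PG K => z.b) h2
        simp only [PG.mul_b, PG.one_b] at e1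
        rw [h.two, zero_add] at e1
        exact (mul_eq_zero.1 e1).resolve_left h1
      have hb : α * star e.b + star α * e.b = 0 := by
        have e1 := congrArg (fun z : PG K => z.a) h2
        simp only [PG.mul_a, PG.one_a] at e1
        rw [h.two, hc, h3, mul_zero, add_zero, zero_add] at e1
        exact e1
      exact ⟨Or.inr h3, h.tr_zero hα hb, hc⟩
    · have h2 : e ∈ PV K := hC ⟨Subgroup.mem_top _, Subgroup.mem_centralizer_iff.2 fun v hv =>
        (h1 v (PV_le_EA h α hv)).symm⟩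
      have h3 := h1 (ur α) ((mem_EA h).2 (Or.inr rfl))
      have h4 : ur α * e * (ur α)⁻¹ = e := by rw [← h3, mul_inv_cancel_right]
      obtain ⟨h5, h6⟩ := comm_V h (x := ur α) hα h2 h4
      exact ⟨Or.inl h2, h6, h5⟩

theorem AA_EA (h : K4 K) (α : K) : AA h α ≤ EA α := fun _ hg => (mem_EA h).2 hg.1

theorem AA_inv (h : K4 K) (hC : centralizerIn ⊤ (PV K) ≤ PV K) {α : K} (hα : α ≠ 0) (τ : MulAut (EA α)) {e : EA α}
    (he : (e : PG K) ∈ AA h α) : ((τ e : EA α) : PG K) ∈ AA h α := by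
  rw [AA_char h hC hα (τ e).2]
  rcases (AA_char h hC hα e.2).1 he with ⟨h1, h2⟩ | h1
  · left
    refine ⟨fun h3 => h1 ?_, ?_⟩
    · have h4 := EA_inv h hα τ⁻¹ (e := τ e) h3
      rw [MulAut.inv_apply_self] at h4
      exact h4
    · have h4 : e * e = 1 := Subtype.ext h2
      have h5 : τ e * τ e = 1 := by rw [← map_mul, h4, map_one]
      exact congrArg (fun v : EA α => (v : PG K)) h5
  · right
    intro x hx
    obtain ⟨y, hy⟩ := τ.surjective ⟨x, hx⟩
    have h4 : e * y = y * e := Subtype.ext (h1 y y.2)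
    have h5 : τ e * ⟨x, hx⟩ = ⟨x, hx⟩ * τ e := by rw [← hy, ← map_mul, h4, map_mul]
    exact congrArg (fun v : EA α => (v : PG K)) h5

/-- the stabilizer of `A_α` in `Aut(Q)` -/
def stabAA (h : K4 K) (α : K) : Subgroup (MulAut (PQ K)) where
  carrier := {γ | ∀ e : PQ K, ((γ e : PQ K) : PG K) ∈ AA h α ↔ (e : PG K) ∈ AA h α}
  one_mem' := fun _ => Iff.rfl
  mul_mem' := by
    intro x y hx hy e
    rw [MulAut.mul_apply]
    exact (hx (y e)).trans (hy e)
  inv_mem' := by
    intro x hx e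
    have h1 := hx (x⁻¹ e)
    rw [MulAut.apply_inv_self] at h1
    exact h1.symm

theorem lamQ_le (h : K4 K) (α : K) : LamQ K ≤ stabAA h α := by
  refine sup_le ?_ ?_
  · intro γ hγ
    obtain ⟨g, -, hg⟩ := (mem_autInducedBy_iff _ _ _).1 hγ
    intro e
    rw [hg]
    exact ((Subgroup.mem_normalizer_iff.1 (AA_normal h α (Subgroup.mem_top g))) e).symm
  · rw [Subgroup.closure_le]
    rintro γ hγ e
    have h1 : ((γ e : PQ K) : PG K).c = 0 := (γ e).2
    have h2 : (e : PG K).c = 0 := e.2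
    rw [mem_AA, mem_AA, hγ.r, hγ.b, h1, h2, h.neg]
    (clear * -; tauto)

/-! ### The theorems -/

theorem dat_of (hTI : StTI.{u}) (hGrp : StGrp.{u}) {n : ℕ} (h : HypK K 2 n) (hk : K4 K)
    {F : FusionSystem (⊤ : Subgroup (PG K))} (hF : F.IsSaturated 2) {α : K} (hα : α ≠ 0) :
    ∃ (β : K) (a b : MulAut (PV K)), Dat F α β a b := by
  obtain ⟨hcard, hpg, -⟩ := hGrp h
  have hfin : Finite (PG K) := Nat.finite_of_card_ne_zero (by rw [hcard]; positivity)
  obtain ⟨β, a, b, hβ, hne, hall, ha, hb⟩ := exists_pair hk hα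
  obtain ⟨hcen, -, hchar⟩ := (hTI h).2 (PV K) (Or.inl rfl)
  exact ⟨β, a, b, ⟨hk, inferInstance, hpg, hF, hcen, hchar, hα, hβ, hne, hall, ha, hb⟩⟩

/-- **(2B)** -/
theorem stTwoB (hE : StTwoE.{u}) (hTI : StTI.{u}) (hPar : StPar.{u}) (hQ2 : StQTwo.{u}) (hGrp : StGrp.{u}) :
    StTwoB.{u} := by
  intro K _ _ p n _ h hq F hF α hα hess
  obtain ⟨rfl, hk⟩ := k4_of h hq
  obtain ⟨β, a, b, d⟩ := dat_of hTI hGrp h hk hF hα
  have := d.fin
  have hEss : ∀ E, F.IsEssential 2 E → Ess ⊤ E 2 (F.autGroup E) := fun E hE =>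
    Cfsg.Agent.H245.PU.stEss F E d.pg hF hE
  have hodd : ∀ r : K, r ≠ 0 → ∀ u : MulAut (PV K), IsC (ur r) u → F.IsEssential 2 (EA r) →
      OddC (F.autGroup (PV K)) u := fun r hr u hu he => oddC_of_ess hk hr d.cen (hEss _ he) hu
  have ho := hodd α hα a d.ha hess
  have haf := d.af ho
  have hg := d.ghyp
  have hr := d.reg
  have hne : α + β ≠ 0 := fun h3 => d.hne (by
    have h4 : α + β = α + α := by rw [h3, hk.two]
    exact add_left_cancel h4)
  by_cases h1 : OddC (F.autGroup (PV K)) b ∨ OddC (F.autGroup (PV K)) (a * b)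
  · -- two classes
    have hcard : Nat.card (F.autGroup (PV K)) = 36 := by
      rcases h1 with h1 | h1
      · exact hg.card36 ho h1
      · exact hg.prod.card36 ho h1
    by_cases h2 : ∀ γ ∈ F.autGroup (PQ K), NormAut (⊤ : Subgroup (PG K)) γ
    · left
      refine d.realV fun E hE' => ?_
      rcases hE h hq F hF E hE' with h3 | h3 | ⟨r, hr0, h3⟩
      · exact Or.inl h3
      · subst h3
        exact absurd h2 (ess_not_norm (hEss _ hE'))
      · exact Or.inr ⟨r, hr0, h3⟩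
    · exact Or.inr ⟨hcard, haf, h2⟩
  · -- one class
    left
    push Not at h1
    have hcen := hg.central ho h1.1 h1.2
    refine conNormal F (AA hk α) d.pg hF le_top (AA_normal hk α) (AA_cent hk hα) (fun E hE' => ?_)
      ⟨le_top, fun δ hδ e he => ?_⟩
    · rcases hE h hq F hF E hE' with h3 | h3 | ⟨r, hr0, h3⟩
      · -- `V` is not essential
        exfalso
        subst h3
        have h4 : a ∈ autInducedBy ⊤ (PV K) :=
          (mem_autInducedBy_iff _ _ _).2 ⟨ur α, Subgroup.mem_top _, d.ha⟩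
        have h5 := ess_inn (hEss _ hE') h4 fun g hg' => by
          rw [hcen g hg', mul_inv_cancel_right]; exact h4
        obtain ⟨v, hv⟩ := h5
        apply hr.a_ne
        rw [← hv]
        ext w : 1
        rw [MulAut.conj_apply, PV_comm v w, mul_inv_cancel_right, MulAut.one_apply]
      · -- `Q`
        subst h3
        have hQE := hEss _ hE'
        have hti := (hTI h).1 (F.autGroup (PQ K)) hQE.indu hQE.syl
        have hpar := hPar h F ⊥ (PQ K) hF (Or.inr rfl) bot_le (by rw [Subgroup.card_bot]; exact Nat.coprime_one_left 2)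
          (by rw [haf, sup_bot_eq]) hti (ess_not_norm hQE)
        have hld := hQ2 h hq _ _ hpar
        refine ⟨fun x hx => hx.2.2, fun γ hγ e he => ?_⟩
        obtain ⟨l, hl, d', hd', δ, hδ, rfl⟩ := (hld γ).1 hγ
        rw [Subgroup.mem_bot] at hd'
        have hδ1 : δ = 1 := by
          ext e : 1
          apply Subtype.ext
          rw [hδ e, hd']
          rfl
        rw [hδ1, mul_one]
        exact (lamQ_le hk α hl e).2 he
      · -- `E_r`
        subst h3
        have h4 := hodd r hr0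
        rcases d.hall r with h5 | h5 | h5 | h5
        · exact absurd h5 hr0
        · subst h5
          exact ⟨AA_EA hk r, fun δ _ e he => AA_inv hk d.cen hr0 δ he⟩
        · subst h5
          exact absurd (h4 b d.hb hE') h1.1
        · subst h5
          exact absurd (h4 (a * b) d.hab hE') h1.2
    · obtain ⟨g, hg'⟩ := d.inner ho hδ
      rw [hg' e]
      exact AA_conj hk g he

end Cfsg.Agent.H834.P4
end

private theorem dce_d189539840a0 : _root_.True := by
  try have : _root_.True := by simp only [_root_.Cfsg.Agent.H756.PU.hull.eq_1]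
  try have : _root_.True := by simp only [_root_.Cfsg.Agent.H834.P4.kap.eq_1]
  try have : _root_.True := by simp only [_root_.Cfsg.Agent.H55.P4.Gen.hullIn.eq_1]
  exact _root_.True.intro
end

-- part: H1/P4/TI
section
prune_inst 0xf4300700252202000018059671001c26f200059200680000e8010f060ec1cf626d052121b6b03511580abad460380060031000e0424000000a200c00011d008000891204a148a100200086000084000000000000000000000000000000000004000000000
set_option linter.all false
open scoped Cfsg.Agent.FastGrp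

/-!
# S5210 [P4-TI] (helper1)

`Aut_S(Q)` is TI modulo `Inn(Q)` for `Q = PQ K`; `PV K` and `PQ K` are centric, proper and characteristic in `PG K`.
-/

set_option autoImplicit false

namespace Cfsg.Agent.H1.P4

open Cfsg Cfsg.FusionSystem Cfsg.Agent.H776.P4
open Cfsg.Agent.H756.PU (HypK Ess Inv Com NormAut TIAut AF)
open Cfsg.Agent.H294.PU (exists_star_ne exists_tr_ne ti_core)

universe u

/-! ### generic facts -/

section gen

variable {G : Type u} [Group G]

/-- a subset of `Q` characterized by commutation with an invariant set is invariant -/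
theorem inv_of_comm {Q A B : Subgroup G} (hB : B ≤ Q)
    (h : ∀ x ∈ Q, x ∈ A ↔ ∀ y ∈ B, x * y = y * x) (γ : MulAut Q)
    (hγ : ∀ x : Q, (x : G) ∈ B ↔ ((γ x : Q) : G) ∈ B) :
    ∀ x : Q, (x : G) ∈ A ↔ ((γ x : Q) : G) ∈ A := by
  intro x
  rw [h x x.2, h _ (γ x).2]
  constructor
  · intro hx y hy
    set y' : Q := γ⁻¹ ⟨y, hB hy⟩ with hy'
    have h1 : γ y' = ⟨y, hB hy⟩ := MulAut.apply_inv_self _ γ _
    have h2 : (y' : G) ∈ B := by rw [hγ, h1]; exact hy
    have h3 : x * y' = y' * x := by ext1; exact hx _ h2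
    have h4 := congrArg γ h3
    rw [map_mul, map_mul, h1] at h4
    exact congrArg Subtype.val h4
  · intro hx y hy
    have h2 := hx _ ((hγ ⟨y, hB hy⟩).1 hy)
    have h4 : γ (x * ⟨y, hB hy⟩) = γ (⟨y, hB hy⟩ * x) := by
      rw [map_mul, map_mul]; ext1; exact h2
    exact congrArg Subtype.val (γ.injective h4)

/-- transport of the condition `[g, e] ∈ N` -/
theorem transport {Q N : Subgroup G} {γ t : MulAut Q} {g h : G}
    (hg : ∀ x : Q, ((t x : Q) : G) = g * (x : G) * g⁻¹)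
    (hh : ∀ x : Q, (((γ * t * γ⁻¹) x : Q) : G) = h * (x : G) * h⁻¹)
    (hN : ∀ x : Q, (x : G) ∈ N ↔ ((γ x : Q) : G) ∈ N) (e : Q) :
    g * (e : G) * g⁻¹ * (e : G)⁻¹ ∈ N ↔
      h * ((γ e : Q) : G) * h⁻¹ * ((γ e : Q) : G)⁻¹ ∈ N := by
  rw [← hg, ← hh]
  have h1 : (γ * t * γ⁻¹) (γ e) = γ (t e) := by
    rw [MulAut.mul_apply, MulAut.mul_apply, MulAut.inv_apply_self]
  rw [h1]
  have h2 := hN (t e * e⁻¹)
  rw [map_mul, map_inv] at h2
  exact h2

/-- an induced automorphism which is not inner is induced by elements outside `Q` -/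
theorem not_mem_of_not_inn {Q : Subgroup G} {t : MulAut Q} {g : G}
    (hg : ∀ x : Q, ((t x : Q) : G) = g * (x : G) * g⁻¹) (ht : t ∉ Inn Q) : g ∉ Q := by
  intro hgQ
  apply ht
  refine ⟨⟨g, hgQ⟩, ?_⟩
  ext1 x
  apply Subtype.ext
  rw [hg]; rfl

/-- an automorphism trivial modulo the centre fixes commutators -/
theorem fix_comm {Q : Type u} [Group Q] (β : MulAut Q)
    (h : ∀ x, ∀ y, (x⁻¹ * β x) * y = y * (x⁻¹ * β x)) (x y : Q) :
    β (x * y * x⁻¹ * y⁻¹) = x * y * x⁻¹ * y⁻¹ := by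
  have hx : β x = x * (x⁻¹ * β x) := by group
  have hy : β y = y * (y⁻¹ * β y) := by group
  set v := x⁻¹ * β x
  set w := y⁻¹ * β y
  have hv : ∀ z, v * z = z * v := h x
  have hw : ∀ z, w * z = z * w := h y
  rw [map_mul, map_mul, map_mul, map_inv, map_inv, hx, hy]
  calc x * v * (y * w) * (x * v)⁻¹ * (y * w)⁻¹ = x * (v * (y * w)) * v⁻¹ * x⁻¹ * (w⁻¹ * y⁻¹) := by group
    _ = x * (y * w) * x⁻¹ * (w⁻¹ * y⁻¹) := by rw [hv]; group
    _ = x * y * (w * x⁻¹) * (w⁻¹ * y⁻¹) := by group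
    _ = x * y * x⁻¹ * y⁻¹ := by rw [hw]; group

theorem char_of_iff {Q : Subgroup G} (h : ∀ α : MulAut G, ∀ x, x ∈ Q → α x ∈ Q) (α : MulAut G) :
    Q.map α.toMonoidHom = Q := by
  apply le_antisymm
  · rintro _ ⟨x, hx, rfl⟩
    exact h α x hx
  · intro x hx
    exact ⟨α⁻¹ x, h α⁻¹ x hx, MulAut.apply_inv_self _ α x⟩

end gen

section

variable {K : Type u} [Field K] [StarRing K] {p n : ℕ}

/-! ### membership and commutators -/

theorem mem_PZ {x : PG K} : x ∈ PZ K ↔ x.r = 0 ∧ x.b = 0 ∧ x.c = 0 := Iff.rfl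
theorem PZ_le_PY : PZ K ≤ PY K := fun _ h => ⟨h.1, h.2.2⟩
theorem PY_le_PQ : PY K ≤ PQ K := fun _ h => h.2
theorem PY_le_PV : PY K ≤ PV K := fun _ h => h.1

/-- `[g, e] ∈ Y` always -/
theorem comm_PY (g e : PG K) : g * e * g⁻¹ * e⁻¹ ∈ PY K := by
  refine ⟨?_, ?_⟩
  · simp only [PG.mul_r, PG.inv_r]; ring
  · simp only [PG.mul_c, PG.inv_c]; ring

/-- `[g, e] ∈ Z` -/
theorem comm_PZ {g e : PG K} : g * e * g⁻¹ * e⁻¹ ∈ PZ K ↔ g.r * e.c = e.r * g.c := by
  rw [mem_PZ]
  have h1 := (comm_PY g e).1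
  have h2 := (comm_PY g e).2
  have h3 : (g * e * g⁻¹ * e⁻¹).b = g.r * e.c - e.r * g.c := by
    simp only [PG.mul_b, PG.mul_r, PG.inv_r, PG.inv_c, PG.inv_b]; ring
  rw [h3]
  constructor
  · rintro ⟨-, h, -⟩; exact sub_eq_zero.1 h
  · intro h; exact ⟨h1, sub_eq_zero.2 h, h2⟩

/-- `Z` is central -/
theorem PZ_comm {x : PG K} (hx : x ∈ PZ K) (y : PG K) : x * y = y * x := by
  obtain ⟨h1, h2, h3⟩ := hx
  ext
  · simp [h1]
  · simp only [PG.mul_a, h1, h2, h3, add_comm, _root_.MulZeroClass.zero_mul, _root_.add_zero, _root_.star_zero, _root_.MulZeroClass.mul_zero]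
  · simp [PG.mul_b, h1, h2, h3]
  · simp [h3]

/-- the general commuting criterion -/
theorem commute_iff {x y : PG K} : x * y = y * x ↔ x.r * y.c = y.r * x.c ∧
    x.r * star y.b + star x.r * y.b + x.r * star x.r * y.c =
      y.r * star x.b + star y.r * x.b + y.r * star y.r * x.c := by
  constructor
  · intro h
    have ha := congrArg PG.a h
    have hb := congrArg PG.b h
    rw [PG.mul_a, PG.mul_a] at ha
    rw [PG.mul_b, PG.mul_b] at hb
    exact ⟨by linear_combination hb, by linear_combination ha⟩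
  · rintro ⟨h1, h2⟩
    ext
    · simp [add_comm]
    · rw [PG.mul_a, PG.mul_a]; linear_combination h2
    · rw [PG.mul_b, PG.mul_b]; linear_combination h1
    · simp [add_comm]

/-! ### test elements -/

/-- `u_r` -/
def er (r : K) : PG K := ⟨r, 0, 0, 0, by simp, by simp⟩
/-- the elements of `Y` with given `b` -/
def eb (b : K) : PG K := ⟨0, 0, b, 0, by simp, by simp⟩
/-- the elements of `V` with given `c` -/
def ec (c : K) (hc : star c = c) : PG K := ⟨0, 0, 0, c, by simp, hc⟩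

theorem er_PQ (r : K) : er r ∈ PQ K := rfl
theorem eb_PY (b : K) : eb b ∈ PY K := ⟨rfl, rfl⟩

/-- trace orthogonal to everything is zero -/
theorem eq_zero_of_tr (h : HypK K p n) {w : K} (hw : ∀ b : K, w * star b + star w * b = 0) : w = 0 := by
  obtain ⟨b, hb⟩ := exists_star_ne h
  have e1 := hw 1
  have e2 := hw b
  rw [star_one, mul_one, mul_one] at e1
  have e3 : w * (star b - b) = 0 := by linear_combination e2 - b * e1
  rcases mul_eq_zero.1 e3 with e4 | e4
  · exact e4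
  · exact absurd (sub_eq_zero.1 e4) hb

/-- elements commuting with `Y` are in `V` -/
theorem mem_PV_iff (h : HypK K p n) {x : PG K} : x ∈ PV K ↔ ∀ y ∈ PY K, x * y = y * x := by
  constructor
  · intro hx y hy
    have hx' : x.r = 0 := hx
    rw [commute_iff, hx', hy.1, hy.2, star_zero]
    exact ⟨by ring, by ring⟩
  · intro hc
    refine eq_zero_of_tr h (w := x.r) fun b => ?_
    have := (commute_iff.1 (hc (eb b) (eb_PY b))).2
    simp only [eb, star_zero] at this
    linear_combination this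

/-- elements commuting with `Q` are in `Z` -/
theorem mem_PZ_of_comm (h : HypK K p n) {x : PG K} (hc : ∀ y ∈ PQ K, x * y = y * x) : x ∈ PZ K := by
  have hr : x.r = 0 := (mem_PV_iff h).2 fun y hy => hc y (PY_le_PQ hy)
  have hcc : x.c = 0 := by
    have := (commute_iff.1 (hc (er 1) (er_PQ 1))).1
    simp only [er] at this
    linear_combination -this
  refine ⟨hr, eq_zero_of_tr h (w := x.b) fun b => ?_, hcc⟩
  have := (commute_iff.1 (hc (er b) (er_PQ b))).2
  simp only [er, star_zero, hr, hcc] at this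
  linear_combination -this

theorem mem_PZ_iff (h : HypK K p n) {x : PG K} : x ∈ PZ K ↔ ∀ y, x * y = y * x :=
  ⟨fun hx y => PZ_comm hx y, fun hc => mem_PZ_of_comm h (fun y _ => hc y)⟩

theorem mem_PY_iff {x : PG K} : x ∈ PY K ↔ ∀ g : PG K, g * x * g⁻¹ * x⁻¹ ∈ PZ K := by
  constructor
  · intro hx g
    rw [comm_PZ, hx.1, hx.2]; ring
  · intro hx
    have h1 := comm_PZ.1 (hx (er 1))
    have h2 := comm_PZ.1 (hx (ec 1 (star_one K)))
    simp only [er, ec] at h1 h2
    exact ⟨by linear_combination -h2, by linear_combination h1⟩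

/-- `Z` consists of commutators of elements of `Q` -/
theorem Z_comm_form (h : HypK K p n) {v : PG K} (hv : v ∈ PZ K) :
    ∃ x ∈ PQ K, ∃ y ∈ PQ K, v = x * y * x⁻¹ * y⁻¹ := by
  obtain ⟨h1, h2, h3⟩ := hv
  obtain ⟨θ, hθ⟩ := exists_tr_ne h
  have hs : star (θ + star θ) = θ + star θ := by rw [star_add, star_star, add_comm]
  set b : K := v.a * θ / (θ + star θ) with hb
  have hb' : star b = v.a * star θ / (θ + star θ) := by
    rw [hb, star_div₀, hs, star_mul', v.ha]
  have hbb : star b + b = v.a := by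
    rw [hb', hb, ← add_div, div_eq_iff hθ]; ring
  refine ⟨er 1, rfl, eb b, rfl, ?_⟩
  rw [eq_mul_inv_iff_mul_eq, eq_mul_inv_iff_mul_eq]
  ext
  · simp [er, eb, h1]
  · simp only [PG.mul_a, PG.mul_r, er, eb, star_zero, star_one, h1]
    linear_combination -hbb
  · simp [PG.mul_b, er, eb, h1, h2]
  · simp [er, eb, h3]

/-! ### exponent and finiteness -/

theorem finite_PG (h : HypK K p n) : Finite (PG K) := by
  have := h.fin
  refine Finite.of_injective (β := K × K × K × K) (fun x => (x.r, x.a, x.b, x.c)) ?_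
  intro x y hxy
  simp only [Prod.mk.injEq] at hxy
  obtain ⟨h1, h2, h3, h4⟩ := hxy
  exact PG.ext h1 h2 h3 h4

theorem pow_r (x : PG K) (j : ℕ) : (x ^ j).r = j * x.r := by
  induction j with
  | zero => simp
  | succ j ih => rw [pow_succ, PG.mul_r, ih]; push_cast; ring

theorem pow_c (x : PG K) (j : ℕ) : (x ^ j).c = j * x.c := by
  induction j with
  | zero => simp
  | succ j ih => rw [pow_succ, PG.mul_c, ih]; push_cast; ring

theorem pow_PY (x : PG K) (hx : x ∈ PY K) (j : ℕ) : (x ^ j).a = j * x.a ∧ (x ^ j).b = j * x.b := by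
  obtain ⟨h1, h2⟩ := hx
  induction j with
  | zero => simp
  | succ j ih =>
    obtain ⟨i1, i2⟩ := ih
    have k1 : (x ^ j).r = 0 := by rw [pow_r, h1, mul_zero]
    refine ⟨?_, ?_⟩
    · rw [pow_succ, PG.mul_a, k1, i1, star_zero]; push_cast; ring
    · rw [pow_succ, PG.mul_b, k1, i2]; push_cast; ring

theorem exp_PG (h : HypK K p n) (x : PG K) : x ^ p ^ 2 = 1 := by
  have := h.char
  have hp : (p : K) = 0 := CharP.cast_eq_zero K p
  have e1 : x ^ p ∈ PY K := ⟨by rw [pow_r, hp, zero_mul], by rw [pow_c, hp, zero_mul]⟩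
  have e2 : (x ^ p) ^ p = 1 := by
    obtain ⟨i1, i2⟩ := pow_PY _ e1 p
    ext
    · rw [pow_r, hp, zero_mul, PG.one_r]
    · rw [i1, hp, zero_mul, PG.one_a]
    · rw [i2, hp, zero_mul, PG.one_b]
    · rw [pow_c, hp, zero_mul, PG.one_c]
  rw [← e2, ← pow_mul]
  congr 1
  ring

/-! ### the TI statement -/

theorem inv_mul_mem {N : Subgroup (PG K)} (hn : ∀ g : PG K, ∀ x ∈ N, g * x * g⁻¹ ∈ N) {g x : PG K}
    (h : g * x * g⁻¹ * x⁻¹ ∈ N) : x⁻¹ * (g * x * g⁻¹) ∈ N := by
  have := hn x⁻¹ _ h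
  simpa only [mul_assoc, _root_.inv_inv, _root_.inv_mul_cancel, _root_.mul_one] using this

theorem n_PY (g x : PG K) (hx : x ∈ PY K) : g * x * g⁻¹ ∈ PY K := by
  have := (PY K).mul_mem (comm_PY g x) hx
  simpa only [mul_assoc, _root_.inv_mul_cancel, _root_.mul_one] using this

theorem n_PZ (g x : PG K) (hx : x ∈ PZ K) : g * x * g⁻¹ ∈ PZ K := by
  rw [← PZ_comm hx g]
  simpa [mul_assoc] using hx

theorem ti (hK : HypK K p n) {Γ : Subgroup (MulAut (PQ K))} (hΓ : autInducedBy ⊤ (PQ K) ≤ Γ)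
    (hsyl : ∀ P : Subgroup (MulAut (PQ K)), P ≤ Γ → IsPGroup p P →
      ∃ g ∈ Γ, ∀ x ∈ P, g * x * g⁻¹ ∈ autInducedBy ⊤ (PQ K)) : TIAut (⊤ : Subgroup (PG K)) Γ := by
  intro γ hγ t ht hti hti'
  have := finite_PG hK
  obtain ⟨g, -, hg⟩ := (Cfsg.Agent.H802.mem_autInducedBy_iff _ _ _).1 ht
  obtain ⟨h, -, hh⟩ := (Cfsg.Agent.H802.mem_autInducedBy_iff _ _ _).1 hti'
  have hgr : g.c ≠ 0 := not_mem_of_not_inn hg hti
  have hni : γ * t * γ⁻¹ ∉ Inn (PQ K) := fun hc => by
    apply hti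
    obtain ⟨y, hy⟩ := hc
    refine ⟨γ⁻¹ y, ?_⟩
    have h1 : t = γ⁻¹ * (γ * t * γ⁻¹) * γ := by group
    rw [h1, ← hy]
    ext1 z
    rw [MulAut.mul_apply, MulAut.mul_apply, MulAut.conj_apply, MulAut.conj_apply, map_mul, map_mul,
      map_inv, MulAut.inv_apply_self]
  have hhr : h.c ≠ 0 := not_mem_of_not_inn hh hni
  have gV : ∀ x : PQ K, (x : PG K) ∈ PZ K ↔ ((γ x : PQ K) : PG K) ∈ PZ K :=
    inv_of_comm le_rfl (fun x _ => ⟨fun hv y _ => PZ_comm hv y, fun hc => mem_PZ_of_comm hK hc⟩) γ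
      (fun x => ⟨fun _ => (γ x).2, fun _ => x.2⟩)
  have char : ∀ g : PG K, g.c ≠ 0 → ∀ e : PQ K, (e : PG K) ∈ PY K ↔
      g * (e : PG K) * g⁻¹ * (e : PG K)⁻¹ ∈ PZ K := fun g hg e => by
    have hec : (e : PG K).c = 0 := e.2
    rw [comm_PZ, hec, mul_zero]
    constructor
    · intro he; rw [he.1, zero_mul]
    · intro he; exact ⟨(mul_eq_zero.1 he.symm).resolve_right hg, hec⟩
  have g2 : ∀ x : PQ K, (x : PG K) ∈ PY K ↔ ((γ x : PQ K) : PG K) ∈ PY K := fun e => by
    rw [char g hgr e, char h hhr (γ e)]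
    exact transport hg hh gV e
  refine ti_core (exp_PG hK) (V := PZ K) (M1 := PZ K) (M2 := PY K) le_rfl PZ_le_PY PY_le_PQ
    (fun v hv x _ => PZ_comm hv x) ?_ (fun g x _ => inv_mul_mem n_PY (comm_PY g x))
    (fun g x hx => inv_mul_mem n_PZ (mem_PY_iff.1 hx g))
    (fun g x hx => inv_mul_mem n_PZ (mem_PY_iff.1 (PZ_le_PY hx) g)) hΓ hsyl hγ gV gV g2
  intro β hβ v hv
  obtain ⟨x1, hx1, y1, hy1, he⟩ := Z_comm_form hK hv
  have hc : ∀ x y : PQ K, (x⁻¹ * β x) * y = y * (x⁻¹ * β x) := fun x y => by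
    ext1; exact PZ_comm (hβ x) y
  have he' : v = ⟨x1, hx1⟩ * ⟨y1, hy1⟩ * ⟨x1, hx1⟩⁻¹ * ⟨y1, hy1⟩⁻¹ := by
    ext1; exact he
  rw [he', fix_comm β hc]

/-! ### characteristic subgroups -/

theorem char_PZ (hK : HypK K p n) (α : MulAut (PG K)) {x : PG K} (hx : x ∈ PZ K) : α x ∈ PZ K := by
  rw [mem_PZ_iff hK] at hx ⊢
  intro y
  have h1 : α (α⁻¹ y) = y := MulAut.apply_inv_self _ α y
  rw [← h1, ← map_mul, hx, map_mul]

theorem char_PY (hK : HypK K p n) (α : MulAut (PG K)) {x : PG K} (hx : x ∈ PY K) : α x ∈ PY K := by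
  rw [mem_PY_iff] at hx ⊢
  intro y
  have h1 : α (α⁻¹ y) = y := MulAut.apply_inv_self _ α y
  have := char_PZ hK α (hx (α⁻¹ y))
  rwa [map_mul, map_mul, map_mul, map_inv, map_inv, h1] at this

theorem char_PV (hK : HypK K p n) (α : MulAut (PG K)) {x : PG K} (hx : x ∈ PV K) : α x ∈ PV K := by
  rw [mem_PV_iff hK] at hx ⊢
  intro y hy
  have h1 : α (α⁻¹ y) = y := MulAut.apply_inv_self _ α y
  rw [← h1, ← map_mul, hx _ (char_PY hK α⁻¹ hy), map_mul]

theorem char_PQ (hK : HypK K p n) (α : MulAut (PG K)) {x : PG K} (hx : x ∈ PQ K) : α x ∈ PQ K := by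
  -- the image of `Q` covers `S/V`
  have cov : ∀ ρ : K, ∃ w ∈ PQ K, (α w).r = ρ := fun ρ => by
    set s : PG K := α⁻¹ (er ρ) with hs
    have h1 : α s = er ρ := MulAut.apply_inv_self _ α _
    refine ⟨er s.r, rfl, ?_⟩
    have h2 : s * (er s.r)⁻¹ ∈ PV K := by
      change (s * (er s.r)⁻¹).r = 0
      rw [PG.mul_r, PG.inv_r]; simp [er]
    have h3 : (α (s * (er s.r)⁻¹)).r = 0 := char_PV hK α h2
    rw [map_mul, map_inv, h1, PG.mul_r, PG.inv_r] at h3
    have : (er ρ : PG K).r = ρ := rfl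
    rw [this] at h3
    linear_combination -h3
  have comm : ∀ v ∈ PQ K, ∀ w ∈ PQ K, (α v).r * (α w).c = (α w).r * (α v).c := fun v hv w hw => by
    have hv' : v.c = 0 := hv
    have hw' : w.c = 0 := hw
    have : v * w * v⁻¹ * w⁻¹ ∈ PZ K := by
      rw [comm_PZ, hv', hw', mul_zero, mul_zero]
    have := char_PZ hK α this
    rw [map_mul, map_mul, map_mul, map_inv, map_inv] at this
    exact comm_PZ.1 this
  obtain ⟨b, hb⟩ := exists_star_ne hK
  obtain ⟨w1, hw1, r1⟩ := cov 1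
  obtain ⟨wb, hwb, rb⟩ := cov b
  have k1 : ∀ v ∈ PQ K, (α v).c = (α v).r * (α w1).c := fun v hv => by
    have := comm v hv w1 hw1
    rw [r1, one_mul] at this
    exact this.symm
  have hc0 : (α w1).c = 0 := by
    have h1 := (α wb).hc
    rw [k1 wb hwb, rb, star_mul', (α w1).hc] at h1
    have h2 : (star b - b) * (α w1).c = 0 := by linear_combination h1
    exact (mul_eq_zero.1 h2).resolve_left (sub_ne_zero.2 hb)
  change (α x).c = 0
  rw [k1 x hx, hc0, mul_zero]

/-! ### the statement -/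

/-- (TI), `Cfsg.Agent.H776.P4.StTI` -/
theorem stTI : StTI.{u} := by
  intro K _ _ p n hK
  refine ⟨fun Γ hΓ hsyl => ti hK hΓ hsyl, fun Q hQ => ?_⟩
  rcases hQ with rfl | rfl
  · refine ⟨?_, ?_, char_of_iff (fun α x hx => char_PV hK α hx)⟩
    · rintro x ⟨-, hx'⟩
      have hx : ∀ y ∈ _, y * x = x * y := Subgroup.mem_centralizer_iff.1 hx'
      rw [mem_PV_iff hK]
      exact fun y hy => (hx y (PY_le_PV hy)).symm
    · intro htop
      have : er (1 : K) ∈ PV K := by rw [htop]; trivial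
      exact one_ne_zero (α := K) this
  · refine ⟨?_, ?_, char_of_iff (fun α x hx => char_PQ hK α hx)⟩
    · rintro x ⟨-, hx'⟩
      have hx : ∀ y ∈ _, y * x = x * y := Subgroup.mem_centralizer_iff.1 hx'
      exact PY_le_PQ (PZ_le_PY (mem_PZ_of_comm hK (fun y hy => (hx y hy).symm)))
    · intro htop
      have : ec (1 : K) (star_one K) ∈ PQ K := by rw [htop]; trivial
      exact one_ne_zero (α := K) this

end

end Cfsg.Agent.H1.P4

private theorem dce_1517548d3e2f : _root_.True := by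
  try have : _root_.True := by simp only [_root_.Cfsg.Agent.H1.P4.ec.eq_1]
  try have : _root_.True := by simp only [_root_.Cfsg.Agent.H1.P4.er.eq_1]
  try have : _root_.True := by simp only [_root_.Cfsg.Agent.H1.P4.eb.eq_1]
  try have : _root_.True := by simp only [_root_.Cfsg.Agent.H776.P4.PG.mk.congr_simp]
  exact _root_.True.intro
end

-- part: H64/P4/LamN_mg
section
prune_inst 0xe4300600012200000018059271001c06d20005920068000008010f060680cf6268052121b4b0151150122a4420300040031000200000000000200c00011c008000881004a1480000220086000084000000000000000000000000000000000000000000000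
set_option linter.all false
open scoped Cfsg.Agent.FastGrp

-- part: H64/P4/LamN
section
/-!
# S5210 [P4-LN] (helper64)

The diagonal elements of `SL₂(K)` on `V` and of `SL₂(k)` on `Q` lie in `LamV K` and `LamQ K`; the torus `TP K` normalizes
`LamV K` and `LamQ K`.

* `IsDV t δ` : `δ` is `(a, b, c) ↦ (N(t) a, t (star t)⁻¹ b, N(t)⁻¹ c)` on `V`; `dV_mem : δ ∈ LamV K`;
* `IsDQ t δ` : `δ` is `(r, a, b) ↦ (t r, a, t⁻¹ b)` on `Q`, `star t = t`; `dQ_mem : δ ∈ LamQ K`;
* `torV_mem`, `torQ_mem` : the restrictions of `tor(t², N(t)⁻¹)` to `V`, of `tor(t, t⁻²)` to `Q`;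
* `stLamN (hG : StGrp) : StLamN`.
-/

set_option autoImplicit false
set_option linter.unusedSimpArgs false

namespace Cfsg.Agent.H64.P4

open Cfsg Cfsg.FusionSystem Cfsg.Agent.H776.P4
open Cfsg.Agent.H756.PU (HypK NormAut)
open Cfsg.Agent.H1.P4 (er ec eb)

universe u

section

variable {K : Type u} [Field K] [StarRing K]

instance normal_PV : (PV K).Normal := by
  constructor
  intro g h1 y
  have h1' : g.r = 0 := h1
  show (y * g * y⁻¹).r = 0
  simp [h1']

instance normal_PQ : (PQ K).Normal := by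
  constructor
  intro g h1 y
  have h1' : g.c = 0 := h1
  show (y * g * y⁻¹).c = 0
  simp [h1']

theorem conj_ind (Q : Subgroup (PG K)) [Q.Normal] (x : PG K) : MulAut.conjNormal x ∈ autInducedBy ⊤ Q :=
  (Cfsg.Agent.H802.mem_autInducedBy_iff _ _ _).2 ⟨x, trivial, fun _ => rfl⟩

theorem extV {α β : MulAut (PV K)} (ha : ∀ e : PV K, ((α e : PV K) : PG K).a = ((β e : PV K) : PG K).a)
    (hb : ∀ e : PV K, ((α e : PV K) : PG K).b = ((β e : PV K) : PG K).b)
    (hc : ∀ e : PV K, ((α e : PV K) : PG K).c = ((β e : PV K) : PG K).c) : α = β :=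
  MulEquiv.ext fun e => Subtype.ext (PG.ext ((α e).2.trans (β e).2.symm) (ha e) (hb e) (hc e))

theorem extQ {α β : MulAut (PQ K)} (hr : ∀ e : PQ K, ((α e : PQ K) : PG K).r = ((β e : PQ K) : PG K).r)
    (ha : ∀ e : PQ K, ((α e : PQ K) : PG K).a = ((β e : PQ K) : PG K).a)
    (hb : ∀ e : PQ K, ((α e : PQ K) : PG K).b = ((β e : PQ K) : PG K).b) : α = β :=
  MulEquiv.ext fun e => Subtype.ext (PG.ext (hr e) (ha e) (hb e) ((α e).2.trans (β e).2.symm))

/-! ### `V` -/

theorem cV_a (x : K) (e : PV K) : ((MulAut.conjNormal (er x) e : PV K) : PG K).a =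
    (e : PG K).a + x * star (e : PG K).b + star x * (e : PG K).b + x * star x * (e : PG K).c := by
  have h : (e : PG K).r = 0 := e.2
  show (er x * (e : PG K) * (er x)⁻¹).a = _
  simp only [PG.mul_a, PG.mul_b, PG.mul_r, PG.mul_c, PG.inv_a, PG.inv_b, PG.inv_c, PG.inv_r, er, h, star_zero, neg_zero,
    mul_zero, add_zero, zero_add, zero_mul]
  ring

theorem cV_b (x : K) (e : PV K) : ((MulAut.conjNormal (er x) e : PV K) : PG K).b =
    (e : PG K).b + x * (e : PG K).c := by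
  have h : (e : PG K).r = 0 := e.2
  show (er x * (e : PG K) * (er x)⁻¹).b = _
  simp only [PG.mul_b, PG.mul_r, PG.mul_c, PG.inv_b, PG.inv_c, er, h]
  ring

theorem cV_c (x : K) (e : PV K) : ((MulAut.conjNormal (er x) e : PV K) : PG K).c = (e : PG K).c := by
  show (er x * (e : PG K) * (er x)⁻¹).c = _
  simp [er]

/-- the diagonal element `diag(t, t⁻¹)` of `SL₂(K)` on `V` -/
structure IsDV (t : K) (δ : MulAut (PV K)) : Prop where
  a : ∀ e : PV K, ((δ e : PV K) : PG K).a = t * star t * (e : PG K).a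
  b : ∀ e : PV K, ((δ e : PV K) : PG K).b = t * (star t)⁻¹ * (e : PG K).b
  c : ∀ e : PV K, ((δ e : PV K) : PG K).c = (t * star t)⁻¹ * (e : PG K).c

/-- `diag(t, t⁻¹)` as a word in `SL₂(K)` -/
theorem dV_word {t : K} (ht : t ≠ 0) {γ : MulAut (PV K)} (hγ : IsWV γ) :
    IsDV t (MulAut.conjNormal (er t) * γ * MulAut.conjNormal (er t⁻¹) * γ * MulAut.conjNormal (er t) * γ) := by
  have hs : star t ≠ 0 := fun h => ht ((star_eq_zero).1 h)
  refine ⟨fun e => ?_, fun e => ?_, fun e => ?_⟩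
  · simp only [MulAut.mul_apply, cV_a, cV_b, cV_c, hγ.a, hγ.b, hγ.c, star_neg, star_add, star_mul', star_star, star_inv₀,
      (e : PG K).ha, (e : PG K).hc]
    field_simp
    ring
  · simp only [MulAut.mul_apply, cV_a, cV_b, cV_c, hγ.a, hγ.b, hγ.c, star_neg, star_add, star_mul', star_star, star_inv₀,
      (e : PG K).ha, (e : PG K).hc]
    field_simp
    ring
  · simp only [MulAut.mul_apply, cV_a, cV_b, cV_c, hγ.a, hγ.b, hγ.c, star_neg, star_add, star_mul', star_star, star_inv₀,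
      (e : PG K).ha, (e : PG K).hc]
    field_simp
    ring

theorem conj_mem_LamV (x : PG K) : MulAut.conjNormal x ∈ LamV K := Subgroup.mem_sup_left (conj_ind _ x)

theorem W_mem_LamV {γ : MulAut (PV K)} (hγ : IsWV γ) : γ ∈ LamV K :=
  Subgroup.mem_sup_right (Subgroup.subset_closure hγ)

/-- the diagonal elements lie in `LamV K` -/
theorem dV_mem {γ : MulAut (PV K)} (hγ : IsWV γ) {t : K} (ht : t ≠ 0) {δ : MulAut (PV K)} (hδ : IsDV t δ) :
    δ ∈ LamV K := by
  have h := dV_word ht hγ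
  have h1 : δ = MulAut.conjNormal (er t) * γ * MulAut.conjNormal (er t⁻¹) * γ * MulAut.conjNormal (er t) * γ :=
    extV (fun e => by rw [hδ.a, h.a]) (fun e => by rw [hδ.b, h.b]) (fun e => by rw [hδ.c, h.c])
  rw [h1]
  have hW := W_mem_LamV hγ
  exact mul_mem (mul_mem (mul_mem (mul_mem (mul_mem (conj_mem_LamV _) hW) (conj_mem_LamV _)) hW) (conj_mem_LamV _)) hW

/-- conjugation of the Weyl element by the torus -/
theorem conjWV {d : MulAut (PG K)} {s l : K} {τ : K ≃+* K} (hd : IsTorP d s l τ) {δ : MulAut (PV K)} (hδ : IsRP d δ)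
    {γ : MulAut (PV K)} (hγ : IsWV γ) : IsDV s (δ * γ * δ⁻¹ * γ⁻¹) := by
  have hs := hd.ns
  have hl := hd.nl
  have hs' : star s ≠ 0 := fun h => hs ((star_eq_zero).1 h)
  -- every element has the form `γ (δ e)`
  have key : ∀ e : PV K, (δ * γ * δ⁻¹ * γ⁻¹) (γ (δ e)) = δ (γ e) := by
    intro e
    simp only [MulAut.mul_apply, MulAut.inv_apply_self]
  have surj : ∀ x : PV K, ∃ e : PV K, x = γ (δ e) := fun x =>
    ⟨δ⁻¹ (γ⁻¹ x), by rw [MulAut.apply_inv_self, MulAut.apply_inv_self]⟩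
  have da : ∀ e : PV K, ((δ e : PV K) : PG K).a = s * star s * l * τ (e : PG K).a := fun e => by rw [hδ, hd.a]
  have db : ∀ e : PV K, ((δ e : PV K) : PG K).b = s * l * τ (e : PG K).b := fun e => by rw [hδ, hd.b]
  have dc : ∀ e : PV K, ((δ e : PV K) : PG K).c = l * τ (e : PG K).c := fun e => by rw [hδ, hd.c]
  refine ⟨fun x => ?_, fun x => ?_, fun x => ?_⟩
  · obtain ⟨e, rfl⟩ := surj x
    rw [key]
    simp only [da, db, dc, hγ.a, hγ.b, hγ.c]
    ring
  · obtain ⟨e, rfl⟩ := surj x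
    rw [key]
    simp only [da, db, dc, hγ.a, hγ.b, hγ.c, star_mul', hd.sl, map_neg, hd.tst]
    field_simp
  · obtain ⟨e, rfl⟩ := surj x
    rw [key]
    simp only [da, db, dc, hγ.a, hγ.b, hγ.c]
    field_simp

/-! ### `Q` -/

theorem cQ_r (x : K) (hx : star x = x) (e : PQ K) : ((MulAut.conjNormal (ec x hx) e : PQ K) : PG K).r =
    (e : PG K).r := by
  show (ec x hx * (e : PG K) * (ec x hx)⁻¹).r = _
  simp [ec]

theorem cQ_a (x : K) (hx : star x = x) (e : PQ K) : ((MulAut.conjNormal (ec x hx) e : PQ K) : PG K).a =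
    (e : PG K).a - (e : PG K).r * star (e : PG K).r * x := by
  have h : (e : PG K).c = 0 := e.2
  show (ec x hx * (e : PG K) * (ec x hx)⁻¹).a = _
  simp only [PG.mul_a, PG.mul_b, PG.mul_r, PG.mul_c, PG.inv_a, PG.inv_b, PG.inv_c, PG.inv_r, ec, h, star_zero, neg_zero, zero_mul,
    mul_zero, add_zero, zero_add, star_neg]
  ring

theorem cQ_b (x : K) (hx : star x = x) (e : PQ K) : ((MulAut.conjNormal (ec x hx) e : PQ K) : PG K).b =
    (e : PG K).b - (e : PG K).r * x := by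
  have h : (e : PG K).c = 0 := e.2
  show (ec x hx * (e : PG K) * (ec x hx)⁻¹).b = _
  simp only [PG.mul_b, PG.mul_r, PG.mul_c, PG.inv_b, PG.inv_c, ec, h]
  ring

theorem WQ_inv_r {γ : MulAut (PQ K)} (hγ : IsWQ γ) (e : PQ K) : ((γ⁻¹ e : PQ K) : PG K).r = - (e : PG K).b := by
  have h := hγ.b (γ⁻¹ e)
  rw [MulAut.apply_inv_self] at h
  linear_combination h

theorem WQ_inv_b {γ : MulAut (PQ K)} (hγ : IsWQ γ) (e : PQ K) : ((γ⁻¹ e : PQ K) : PG K).b = (e : PG K).r := by
  have h := hγ.r (γ⁻¹ e)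
  rw [MulAut.apply_inv_self] at h
  exact h.symm

theorem WQ_inv_a {γ : MulAut (PQ K)} (hγ : IsWQ γ) (e : PQ K) : ((γ⁻¹ e : PQ K) : PG K).a =
    (e : PG K).a - ((e : PG K).r * star (e : PG K).b + star (e : PG K).r * (e : PG K).b) := by
  have h := hγ.a (γ⁻¹ e)
  rw [MulAut.apply_inv_self, WQ_inv_r hγ, WQ_inv_b hγ, star_neg] at h
  linear_combination -h

/-- the diagonal element `diag(t, t⁻¹)` of `SL₂(k)` on `Q` -/
structure IsDQ (t : K) (δ : MulAut (PQ K)) : Prop where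
  r : ∀ e : PQ K, ((δ e : PQ K) : PG K).r = t * (e : PG K).r
  a : ∀ e : PQ K, ((δ e : PQ K) : PG K).a = (e : PG K).a
  b : ∀ e : PQ K, ((δ e : PQ K) : PG K).b = t⁻¹ * (e : PG K).b

theorem star_inv_of {t : K} (h : star t = t) : star t⁻¹ = t⁻¹ := by rw [star_inv₀, h]

/-- `diag(t, t⁻¹)` as a word in `SL₂(k)` -/
theorem dQ_word {t : K} (ht : t ≠ 0) (hst : star t = t) {γ : MulAut (PQ K)} (hγ : IsWQ γ) :
    IsDQ t (MulAut.conjNormal (ec t⁻¹ (star_inv_of hst)) * γ⁻¹ * MulAut.conjNormal (ec t hst) * γ *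
      MulAut.conjNormal (ec t⁻¹ (star_inv_of hst)) * γ⁻¹) := by
  have hsi := star_inv_of hst
  refine ⟨fun e => ?_, fun e => ?_, fun e => ?_⟩
  · simp only [MulAut.mul_apply, cQ_r, cQ_a, cQ_b, hγ.r, hγ.a, hγ.b, WQ_inv_r hγ, WQ_inv_a hγ, WQ_inv_b hγ, star_neg,
      star_add, star_sub, star_mul', star_star, hsi, hst]
    field_simp
    ring
  · simp only [MulAut.mul_apply, cQ_r, cQ_a, cQ_b, hγ.r, hγ.a, hγ.b, WQ_inv_r hγ, WQ_inv_a hγ, WQ_inv_b hγ, star_neg,
      star_add, star_sub, star_mul', star_star, hsi, hst]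
    field_simp
    ring
  · simp only [MulAut.mul_apply, cQ_r, cQ_a, cQ_b, hγ.r, hγ.a, hγ.b, WQ_inv_r hγ, WQ_inv_a hγ, WQ_inv_b hγ, star_neg,
      star_add, star_sub, star_mul', star_star, hsi, hst]
    field_simp
    ring

theorem conj_mem_LamQ (x : PG K) : MulAut.conjNormal x ∈ LamQ K := Subgroup.mem_sup_left (conj_ind _ x)

theorem W_mem_LamQ {γ : MulAut (PQ K)} (hγ : IsWQ γ) : γ ∈ LamQ K :=
  Subgroup.mem_sup_right (Subgroup.subset_closure hγ)

/-- the diagonal elements lie in `LamQ K` -/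
theorem dQ_mem {γ : MulAut (PQ K)} (hγ : IsWQ γ) {t : K} (ht : t ≠ 0) (hst : star t = t) {δ : MulAut (PQ K)}
    (hδ : IsDQ t δ) : δ ∈ LamQ K := by
  have h := dQ_word ht hst hγ
  have h1 : δ = MulAut.conjNormal (ec t⁻¹ (star_inv_of hst)) * γ⁻¹ * MulAut.conjNormal (ec t hst) * γ *
      MulAut.conjNormal (ec t⁻¹ (star_inv_of hst)) * γ⁻¹ :=
    extQ (fun e => by rw [hδ.r, h.r]) (fun e => by rw [hδ.a, h.a]) (fun e => by rw [hδ.b, h.b])
  rw [h1]
  have hW := W_mem_LamQ hγ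
  exact mul_mem (mul_mem (mul_mem (mul_mem (mul_mem (conj_mem_LamQ _) (_root_.InvMemClass.inv_mem hW)) (conj_mem_LamQ _)) hW)
    (conj_mem_LamQ _)) (_root_.InvMemClass.inv_mem hW)

/-- conjugation of the Weyl element by the torus -/
theorem conjWQ {d : MulAut (PG K)} {s l : K} {τ : K ≃+* K} (hd : IsTorP d s l τ) {δ : MulAut (PQ K)} (hδ : IsRP d δ)
    {γ : MulAut (PQ K)} (hγ : IsWQ γ) : IsDQ l⁻¹ (δ * γ * δ⁻¹ * γ⁻¹) := by
  have hs := hd.ns
  have hl := hd.nl
  have hs' : star s ≠ 0 := fun h => hs ((star_eq_zero).1 h)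
  have key : ∀ e : PQ K, (δ * γ * δ⁻¹ * γ⁻¹) (γ (δ e)) = δ (γ e) := by
    intro e
    simp only [MulAut.mul_apply, MulAut.inv_apply_self]
  have surj : ∀ x : PQ K, ∃ e : PQ K, x = γ (δ e) := fun x =>
    ⟨δ⁻¹ (γ⁻¹ x), by rw [MulAut.apply_inv_self, MulAut.apply_inv_self]⟩
  have dr : ∀ e : PQ K, ((δ e : PQ K) : PG K).r = s * τ (e : PG K).r := fun e => by rw [hδ, hd.r]
  have da : ∀ e : PQ K, ((δ e : PQ K) : PG K).a = s * star s * l * τ (e : PG K).a := fun e => by rw [hδ, hd.a]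
  have db : ∀ e : PQ K, ((δ e : PQ K) : PG K).b = s * l * τ (e : PG K).b := fun e => by rw [hδ, hd.b]
  refine ⟨fun x => ?_, fun x => ?_, fun x => ?_⟩
  · obtain ⟨e, rfl⟩ := surj x
    rw [key]
    simp only [dr, da, db, hγ.a, hγ.b, hγ.r]
    field_simp
  · obtain ⟨e, rfl⟩ := surj x
    rw [key]
    simp only [dr, da, db, hγ.a, hγ.b, hγ.r, map_sub, map_add, map_mul, hd.tst, star_mul', hd.sl]
    ring
  · obtain ⟨e, rfl⟩ := surj x
    rw [key]
    simp only [dr, da, db, hγ.a, hγ.b, hγ.r, map_neg, inv_inv]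
    ring

/-! ### the torus normalizes `LamV` and `LamQ` -/

theorem conj_ind_mem {Q : Subgroup (PG K)} [Q.Normal] {d : MulAut (PG K)} {δ : MulAut Q} (hδ : IsRP d δ)
    {γ : MulAut Q} (hγ : γ ∈ autInducedBy ⊤ Q) : δ * γ * δ⁻¹ ∈ autInducedBy ⊤ Q := by
  obtain ⟨x, -, hx⟩ := (Cfsg.Agent.H802.mem_autInducedBy_iff _ _ _).1 hγ
  refine (Cfsg.Agent.H802.mem_autInducedBy_iff _ _ _).2 ⟨d x, trivial, fun e => ?_⟩
  have h1 : ((δ (δ⁻¹ e) : Q) : PG K) = e := congrArg Subtype.val (MulAut.apply_inv_self _ δ e)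
  rw [hδ] at h1
  rw [MulAut.mul_apply, MulAut.mul_apply, hδ, hx, map_mul, map_mul, map_inv, h1]

theorem conjV_le {d : MulAut (PG K)} {s l : K} {τ : K ≃+* K} (hd : IsTorP d s l τ) {δ : MulAut (PV K)}
    (hδ : IsRP d δ) : (LamV K).map (MulAut.conj δ).toMonoidHom ≤ LamV K := by
  rw [Subgroup.map_le_iff_le_comap]
  refine sup_le ?_ ?_
  · intro γ hγ
    exact Subgroup.mem_sup_left (conj_ind_mem hδ hγ)
  · rw [Subgroup.closure_le]
    intro γ hγ
    have hγ' : IsWV γ := hγ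
    have h1 := dV_mem hγ' hd.ns (conjWV hd hδ hγ')
    have h2 := mul_mem h1 (W_mem_LamV hγ')
    rw [inv_mul_cancel_right] at h2
    exact h2

theorem conjQ_le {d : MulAut (PG K)} {s l : K} {τ : K ≃+* K} (hd : IsTorP d s l τ) {δ : MulAut (PQ K)}
    (hδ : IsRP d δ) : (LamQ K).map (MulAut.conj δ).toMonoidHom ≤ LamQ K := by
  rw [Subgroup.map_le_iff_le_comap]
  refine sup_le ?_ ?_
  · intro γ hγ
    exact Subgroup.mem_sup_left (conj_ind_mem hδ hγ)
  · rw [Subgroup.closure_le]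
    intro γ hγ
    have hγ' : IsWQ γ := hγ
    have h1 := dQ_mem hγ' (inv_ne_zero hd.nl) (star_inv_of hd.sl) (conjWQ hd hδ hγ')
    have h2 := mul_mem h1 (W_mem_LamQ hγ')
    rw [inv_mul_cancel_right] at h2
    exact h2

theorem isRP_inv {d : MulAut (PG K)} {Q : Subgroup (PG K)} {δ : MulAut Q} (h : IsRP d δ) : IsRP d⁻¹ δ⁻¹ := by
  intro e
  apply d.injective
  rw [MulAut.apply_inv_self, ← h, MulAut.apply_inv_self]

theorem map_conj_eq {G : Type*} [Group G] {L : Subgroup G} {g : G} (h1 : L.map (MulAut.conj g).toMonoidHom ≤ L)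
    (h2 : L.map (MulAut.conj g⁻¹).toMonoidHom ≤ L) : L.map (MulAut.conj g).toMonoidHom = L := by
  refine le_antisymm h1 fun x hx => ?_
  refine ⟨g⁻¹ * x * g, ?_, ?_⟩
  · have := h2 ⟨x, hx, rfl⟩
    simpa only [_root_.SetLike.mem_coe, _root_.map_inv, _root_.MulEquiv.toMonoidHom_eq_coe, _root_.MonoidHom.coe_coe, _root_.MulAut.inv_apply, _root_.MulAut.conj_symm_apply] using this
  · simp only [MulAut.conj_apply, mul_assoc, _root_.MulEquiv.toMonoidHom_eq_coe, _root_.MonoidHom.coe_coe, _root_.mul_inv_cancel_left, _root_.mul_inv_cancel, _root_.mul_one]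

/-- **(LN)** -/
theorem stLamN (hG : StGrp.{u}) : StLamN.{u} := by
  intro K _ _ p n hK d hd
  obtain ⟨-, -, -, hT, -⟩ := hG hK
  obtain ⟨s, l, τ, h⟩ := hT d hd
  obtain ⟨s', l', τ', h'⟩ := hT d⁻¹ (_root_.InvMemClass.inv_mem hd)
  exact ⟨fun δ hδ => map_conj_eq (conjV_le h hδ) (conjV_le h' (isRP_inv hδ)),
    fun δ hδ => map_conj_eq (conjQ_le h hδ) (conjQ_le h' (isRP_inv hδ))⟩

end

end Cfsg.Agent.H64.P4
end

-- part: H64/P4/RealDef
section
/-!
# S5210, task P4-REALb: the interface to the concrete group `SU₄(K)` (helper64; to be proved in P4-REALa)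
-/

set_option autoImplicit false

namespace Cfsg.Agent.H64.P4

open Cfsg Cfsg.FusionSystem Cfsg.Agent.H776.P4
open Cfsg.Agent.H756.PU (HypK)

universe u

/-- The element `α β` of the torus of `SU₄`: `α = tor(s², N(s)⁻¹)`, `β = tor(t, t⁻²)`, `t ∈ k` -/
def TorEl {K : Type u} [Field K] [StarRing K] (τ : MulAut (PG K)) : Prop :=
  ∃ (s t : K) (α β : MulAut (PG K)), s ≠ 0 ∧ t ≠ 0 ∧ star t = t ∧
    IsTorP α (s ^ 2) ((s * star s)⁻¹) (RingEquiv.refl K) ∧ IsTorP β t (t⁻¹ * t⁻¹) (RingEquiv.refl K) ∧ τ = α * β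

/-- The data to be supplied by the concrete group: `G0 = SU₄(K)` (matrices `g ∈ SL₄(K)` with `g J g* = J`), `T` the group
of triples `(s, l, τ)`; for instance `T` = the subgroup of `MulAut (PG K) × MulAut G0` of the pairs `(a, b)` with
`IsTorP a s l τ`, `b` = conjugation by `diag(s, 1, ..)` (a similitude of multiplier `l`) after `τ`. -/
structure RData (K : Type u) [Field K] [StarRing K] (p : ℕ) where
  G0 : Type u
  T : Type u
  [grpG : Group G0]
  [finG : Finite G0]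
  [grpT : Group T]
  /-- the embedding -/
  ι : PG K →* G0
  ρ : T →* MulAut (PG K)
  A : T →* MulAut G0
  inj : Function.Injective ι
  syl : ¬ p ∣ ι.range.index
  injT : Function.Injective ρ
  tor : ∀ (α : MulAut (PG K)) (s l : K) (τ : K ≃+* K), IsTorP α s l τ → α ∈ ρ.range
  act : ∀ (t : T) (x : PG K), A t (ι x) = ι (ρ t x)
  /-- the normalizer of the Sylow subgroup -/
  nrm : ∀ g : G0, (∀ x : PG K, g * ι x * g⁻¹ ∈ ι.range) →
    ∃ (u : PG K) (τ : MulAut (PG K)), TorEl τ ∧ ∀ x : PG K, g * ι x * g⁻¹ = ι (u * τ x * u⁻¹)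
  /-- the normalizer of `Q` (stabiliser of an isotropic point) -/
  nrmQ : ∀ g : G0, (∀ x ∈ PQ K, ∃ y ∈ PQ K, g * ι x * g⁻¹ = ι y) →
    ∃ l ∈ LamQ K, ∃ (τ : MulAut (PG K)) (δ : MulAut (PQ K)), TorEl τ ∧ IsRP τ δ ∧
      ∀ e : PQ K, g * ι (e : PG K) * g⁻¹ = ι (((l * δ) e : PQ K) : PG K)
  /-- the normalizer of `V` preserves the hermitian determinant up to a scalar (`v ↦ A v A*`) -/
  nrmV : ∀ g : G0, (∀ x ∈ PV K, ∃ y ∈ PV K, g * ι x * g⁻¹ = ι y) →
    ∃ c : K, c ≠ 0 ∧ ∀ x ∈ PV K, ∀ y ∈ PV K, g * ι x * g⁻¹ = ι y →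
      y.a * y.c - y.b * star y.b = c * (x.a * x.c - x.b * star x.b)
  wV : ∃ (g : G0) (γ : MulAut (PV K)), IsWV γ ∧ ∀ e : PV K, g * ι (e : PG K) * g⁻¹ = ι ((γ e : PV K) : PG K)
  wQ : ∃ (g : G0) (γ : MulAut (PQ K)), IsWQ γ ∧ ∀ e : PQ K, g * ι (e : PG K) * g⁻¹ = ι ((γ e : PQ K) : PG K)

attribute [instance] RData.grpG RData.finG RData.grpT

/-- (REAL-a) -/
def StRealA : Prop :=
  ∀ {K : Type u} [Field K] [StarRing K] {p n : ℕ} [Fact p.Prime], HypK K p n → Nonempty (RData.{u} K p)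

end Cfsg.Agent.H64.P4
end

-- part: H994/P4/PiQ
section
/-!
# S5210: the action of `Aut(Q)` on `Q / Z = K × K` (helper994)

`uu e = (b, r)`; `pi h : MulAut (PQ K) →* A2 K`; conjugation by `x` acts as `tau (- x.c) : (b, r) ↦ (b - x.c * r, r)`.
-/

set_option autoImplicit false
set_option linter.unusedSectionVars false

namespace Cfsg.Agent.H994.P4

open Cfsg Cfsg.FusionSystem Cfsg.Agent.H776.P4
open Cfsg.Agent.H756.PU (HypK Ess Inv Com NormAut TIAut AF)
open Cfsg.Agent.H802 (exists_conjAut mem_autInducedBy_iff)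

universe u

variable {K : Type u} [Field K] [StarRing K] {p n : ℕ}

/-- additive automorphisms of `K × K` -/
abbrev A2 (K : Type u) [Field K] := (K × K) ≃ₗ[ℤ] (K × K)

/-- coordinates -/
def uu (x : PG K) : K × K := (x.b, x.r)

theorem c_Q (e : PQ K) : (e : PG K).c = 0 := e.2

theorem uu_mul (e e' : PQ K) : uu ((e * e' : PQ K) : PG K) = uu (e : PG K) + uu (e' : PG K) := by
  have h1 : ((e * e' : PQ K) : PG K) = (e : PG K) * (e' : PG K) := rfl
  apply Prod.ext
  · show ((e * e' : PQ K) : PG K).b = (e : PG K).b + (e' : PG K).b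
    rw [h1, PG.mul_b, c_Q, mul_zero, add_zero]
  · show ((e * e' : PQ K) : PG K).r = (e : PG K).r + (e' : PG K).r
    rw [h1, PG.mul_r]

theorem uu_inv (e : PQ K) : uu ((e⁻¹ : PQ K) : PG K) = - uu (e : PG K) := by
  have h1 := uu_mul e⁻¹ e
  rw [inv_mul_cancel] at h1
  exact eq_neg_of_add_eq_zero_left h1.symm

/-- the element of `Q` with coordinates `(b, r)` and `a = 0` -/
def eQ (u : K × K) : PQ K :=
  ⟨{ r := u.2, a := 0, b := u.1, c := 0, ha := star_zero K, hc := star_zero K }, rfl⟩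

theorem uu_eQ (u : K × K) : uu (eQ u : PG K) = u := rfl

section field

theorem exists_tr (h : HypK K p n) {c : K} (hc : star c = c) : ∃ x : K, x + star x = c := by
  have := h.fin
  have := Fintype.ofFinite K
  have hF : Fintype.card K = (p ^ n) ^ 2 := by rw [← Nat.card_eq_fintype_card, h.card]
  rw [h.star_eq] at hc
  obtain ⟨x, hx⟩ := Cfsg.Agent.LieClassical.HermBasic.exists_trace_eq hF hc
  exact ⟨x, by rw [h.star_eq]; exact hx⟩

/-- nondegeneracy of the trace form -/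
theorem tr_nondeg (h : HypK K p n) {x : K} (hx : ∀ b : K, x * star b + star x * b = 0) : x = 0 := by
  by_contra h0
  obtain ⟨y, hy⟩ := exists_tr h (c := (1 : K)) (star_one K)
  have h1 := hx (star (x⁻¹ * y))
  rw [star_star, ← mul_assoc, mul_inv_cancel₀ h0, one_mul, star_mul', ← mul_assoc] at h1
  have h2 : star x * star x⁻¹ = 1 := by rw [← star_mul', mul_inv_cancel₀ h0, star_one]
  rw [h2, one_mul, hy] at h1
  exact one_ne_zero h1

end field

theorem mul_a' (e e' : PQ K) : ((e * e' : PQ K) : PG K).a = (e : PG K).a + (e' : PG K).a +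
    (e : PG K).r * star (e' : PG K).b + star (e : PG K).r * (e' : PG K).b := by
  have h1 : ((e * e' : PQ K) : PG K) = (e : PG K) * (e' : PG K) := rfl
  rw [h1, PG.mul_a, c_Q, mul_zero, add_zero]

theorem mul_b' (e e' : PQ K) : ((e * e' : PQ K) : PG K).b = (e : PG K).b + (e' : PG K).b :=
  congrArg Prod.fst (uu_mul e e')

theorem ext_Q {e e' : PQ K} (hu : uu (e : PG K) = uu (e' : PG K)) (ha : (e : PG K).a = (e' : PG K).a) : e = e' := by
  apply Subtype.ext
  apply PG.ext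
  · exact congrArg Prod.snd hu
  · exact ha
  · exact congrArg Prod.fst hu
  · rw [c_Q, c_Q]

/-- the commutator -/
theorem comm_eq (e f : PQ K) : uu ((e * f * e⁻¹ * f⁻¹ : PQ K) : PG K) = 0 ∧
    ((e * f * e⁻¹ * f⁻¹ : PQ K) : PG K).a = (e : PG K).r * star (f : PG K).b + star (e : PG K).r * (f : PG K).b -
      ((f : PG K).r * star (e : PG K).b + star (f : PG K).r * (e : PG K).b) := by
  obtain ⟨z, hz⟩ : ∃ z, z = e * f * e⁻¹ * f⁻¹ := ⟨_, rfl⟩
  have hz0 : uu (z : PG K) = 0 := by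
    rw [hz, uu_mul, uu_mul, uu_mul, uu_inv, uu_inv]
    abel
  have hz1 : (z : PG K).b = 0 := congrArg Prod.fst hz0
  have hz2 : (z : PG K).r = 0 := congrArg Prod.snd hz0
  have hxy : e * f = z * (f * e) := by rw [hz]; group
  have ea := congrArg (fun w : PQ K => (w : PG K).a) hxy
  simp only [mul_a', mul_b', hz2, zero_mul, star_zero] at ea
  rw [← hz]
  exact ⟨hz0, by linear_combination -ea⟩

/-- `Z` is the centre of `Q` -/
theorem central_iff (h : HypK K p n) (e : PQ K) : (∀ y : PQ K, e * y = y * e) ↔ uu (e : PG K) = 0 := by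
  constructor
  · intro hc
    have h1 : ∀ u : K × K, (e : PG K).r * star u.1 + star (e : PG K).r * u.1 -
        (u.2 * star (e : PG K).b + star u.2 * (e : PG K).b) = 0 := by
      intro u
      have h2 := (comm_eq e (eQ u)).2
      rw [hc (eQ u), mul_inv_cancel_right, mul_inv_cancel] at h2
      exact h2.symm
    have h2 : (e : PG K).r = 0 := tr_nondeg h fun b => by
      have := h1 (b, 0)
      simpa only [_root_.MulZeroClass.zero_mul, _root_.star_zero, _root_.add_zero, _root_.sub_zero] using this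
    have h3 : (e : PG K).b = 0 := tr_nondeg h fun b => by
      have h4 := h1 (0, b)
      rw [h2] at h4
      simp only [star_zero, mul_zero, add_zero, zero_sub, neg_eq_zero] at h4
      rw [mul_comm, mul_comm (star _), add_comm]
      linear_combination h4
    exact Prod.ext h3 h2
  · intro h0 y
    have h1 : (e : PG K).b = 0 := congrArg Prod.fst h0
    have h2 : (e : PG K).r = 0 := congrArg Prod.snd h0
    apply ext_Q
    · rw [uu_mul, uu_mul, add_comm]
    · rw [mul_a', mul_a', h1, h2, star_zero]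
      ring

section Pi

variable (h : HypK K p n)
include h

/-- the induced map -/
def fn (_ : HypK K p n) (γ : MulAut (PQ K)) (u : K × K) : K × K := uu ((γ (eQ u) : PQ K) : PG K)

theorem fn_uu (γ : MulAut (PQ K)) (e : PQ K) : fn h γ (uu (e : PG K)) = uu ((γ e : PQ K) : PG K) := by
  have h1 : uu (((eQ (uu (e : PG K)))⁻¹ * e : PQ K) : PG K) = 0 := by
    rw [uu_mul, uu_inv, uu_eQ, neg_add_cancel]
  rw [← central_iff h] at h1
  have h2 : uu ((γ ((eQ (uu (e : PG K)))⁻¹ * e) : PQ K) : PG K) = 0 := by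
    rw [← central_iff h]
    intro y
    obtain ⟨z, rfl⟩ := γ.surjective y
    rw [← map_mul, h1, map_mul]
  rw [map_mul, map_inv, uu_mul, uu_inv, neg_add_eq_zero] at h2
  exact h2

theorem fn_mul (γ γ' : MulAut (PQ K)) (u : K × K) : fn h (γ * γ') u = fn h γ (fn h γ' u) := by
  show _ = fn h γ (uu ((γ' (eQ u) : PQ K) : PG K))
  rw [fn_uu]
  rfl

theorem fn_one (u : K × K) : fn h 1 u = u := rfl

theorem fn_add (γ : MulAut (PQ K)) (u v : K × K) : fn h γ (u + v) = fn h γ u + fn h γ v := by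
  have h1 : u + v = uu ((eQ u * eQ v : PQ K) : PG K) := by rw [uu_mul, uu_eQ, uu_eQ]
  rw [h1, fn_uu, map_mul, uu_mul]
  rfl

/-- **The action on `Q / Z`.** -/
def pi : MulAut (PQ K) →* A2 K where
  toFun γ := AddEquiv.toIntLinearEquiv
    { toFun := fn h γ
      invFun := fn h γ⁻¹
      left_inv := fun u => by rw [← fn_mul, inv_mul_cancel, fn_one]
      right_inv := fun u => by rw [← fn_mul, mul_inv_cancel, fn_one]
      map_add' := fn_add h γ }
  map_one' := LinearEquiv.ext fun u => fn_one h u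
  map_mul' γ γ' := LinearEquiv.ext fun u => fn_mul h γ γ' u

theorem pi_uu (γ : MulAut (PQ K)) (e : PQ K) : pi h γ (uu (e : PG K)) = uu ((γ e : PQ K) : PG K) := fn_uu h γ e

theorem pi_ext {γ : MulAut (PQ K)} {g : A2 K} (hg : ∀ e : PQ K, g (uu (e : PG K)) = uu ((γ e : PQ K) : PG K)) :
    pi h γ = g := by
  apply LinearEquiv.ext
  intro u
  have := hg (eQ u)
  rw [uu_eQ] at this
  rw [this]
  rfl

omit h in
/-- the transvections -/
def tau (c : K) : A2 K := AddEquiv.toIntLinearEquiv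
  { toFun := fun u => (u.1 + c * u.2, u.2)
    invFun := fun u => (u.1 - c * u.2, u.2)
    left_inv := fun u => by simp
    right_inv := fun u => by simp
    map_add' := fun u v => by
      apply Prod.ext
      · show u.1 + v.1 + c * (u.2 + v.2) = u.1 + c * u.2 + (v.1 + c * v.2)
        ring
      · rfl }

omit h in
theorem tau_apply (c : K) (u : K × K) : tau c u = (u.1 + c * u.2, u.2) := rfl

omit h in
theorem tau_add (c d : K) : tau (c + d) = tau c * tau d := by
  apply LinearEquiv.ext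
  intro u
  show tau (c + d) u = tau c (tau d u)
  simp only [tau_apply]
  apply Prod.ext
  · show u.1 + (c + d) * u.2 = u.1 + d * u.2 + c * u.2
    ring
  · rfl

omit h in
theorem tau_zero : tau (0 : K) = 1 := by
  apply LinearEquiv.ext
  intro u
  rw [tau_apply, zero_mul, add_zero]
  rfl

omit h in
theorem tau_injective : Function.Injective (tau : K → A2 K) := by
  intro c d hcd
  have h1 := congrArg (fun g : A2 K => (g (0, 1)).1) hcd
  simp only [tau_apply, zero_add, mul_one] at h1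
  exact h1

theorem pi_conj {γ : MulAut (PQ K)} {x : PG K} (hx : ∀ e : PQ K, ((γ e : PQ K) : PG K) = x * e * x⁻¹) :
    pi h γ = tau (- x.c) := by
  apply pi_ext
  intro e
  rw [hx, tau_apply]
  apply Prod.ext
  · show (uu (e : PG K)).1 + - x.c * (uu (e : PG K)).2 = (x * e * x⁻¹).b
    simp only [uu, PG.mul_b, PG.inv_b, PG.mul_r, PG.inv_c, c_Q, mul_zero, add_zero]
    ring
  · show (uu (e : PG K)).2 = (x * e * x⁻¹).r
    simp only [uu, PG.mul_r, PG.inv_r]
    ring

theorem pi_tor {δ : MulAut (PQ K)} {d : MulAut (PG K)} {s l : K} {τ : K ≃+* K} (hd : IsTorP d s l τ) (hδ : IsRP d δ)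
    (u : K × K) : pi h δ u = (s * l * τ u.1, s * τ u.2) := by
  have h1 := pi_uu h δ (eQ u)
  rw [uu_eQ] at h1
  rw [h1, hδ]
  exact Prod.ext (hd.b _) (hd.r _)

omit h in
/-- conjugation on `Q` -/
theorem exists_conj (x : PG K) : ∃ γ : MulAut (PQ K), ∀ e : PQ K, ((γ e : PQ K) : PG K) = x * e * x⁻¹ := by
  apply exists_conjAut
  rw [Subgroup.mem_normalizer_iff]
  intro g
  show g.c = 0 ↔ (x * g * x⁻¹).c = 0
  rw [PG.mul_c, PG.mul_c, PG.inv_c]
  constructor
  · intro h1; rw [h1]; ring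
  · intro h1; linear_combination h1

omit h in
theorem exists_conj_aut (x : PG K) : ∃ γ ∈ autInducedBy ⊤ (PQ K), ∀ e : PQ K, ((γ e : PQ K) : PG K) = x * e * x⁻¹ := by
  obtain ⟨γ, hγ⟩ := exists_conj x
  exact ⟨γ, (mem_autInducedBy_iff _ _ _).2 ⟨x, Subgroup.mem_top x, hγ⟩, hγ⟩

omit h in
/-- an element with given `c` -/
theorem exists_c {c : K} (hc : star c = c) : ∃ x : PG K, x.c = c :=
  ⟨{ r := 0, a := 0, b := 0, c := c, ha := star_zero K, hc := hc }, rfl⟩

omit h in
/-- the group of the transvections `tau c`, `c` in the fixed field -/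
def TG (K : Type u) [Field K] [StarRing K] : Subgroup (A2 K) where
  carrier := {g | ∃ c : K, star c = c ∧ g = tau c}
  one_mem' := ⟨0, star_zero K, tau_zero.symm⟩
  mul_mem' := by
    rintro _ _ ⟨c, hc, rfl⟩ ⟨d, hd, rfl⟩
    exact ⟨c + d, by rw [star_add, hc, hd], (tau_add c d).symm⟩
  inv_mem' := by
    rintro _ ⟨c, hc, rfl⟩
    refine ⟨-c, by rw [star_neg, hc], ?_⟩
    rw [inv_eq_iff_mul_eq_one, ← tau_add, add_neg_cancel, tau_zero]

theorem pi_mem_TG {γ : MulAut (PQ K)} (hγ : γ ∈ autInducedBy ⊤ (PQ K)) : pi h γ ∈ TG K := by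
  obtain ⟨x, -, hx⟩ := (mem_autInducedBy_iff _ _ _).1 hγ
  exact ⟨- x.c, by rw [star_neg, x.hc], pi_conj h hx⟩

theorem exists_of_mem_TG {g : A2 K} (hg : g ∈ TG K) : ∃ γ ∈ autInducedBy ⊤ (PQ K), pi h γ = g := by
  obtain ⟨c, hc, rfl⟩ := hg
  obtain ⟨x, hx⟩ := exists_c (c := - c) (by rw [star_neg, hc])
  obtain ⟨γ, hγ, hxγ⟩ := exists_conj_aut x
  refine ⟨γ, hγ, ?_⟩
  rw [pi_conj h hxγ, hx, neg_neg]

/-- elements of `Aut_S(Q)` acting trivially on `Q/Z` are inner -/
theorem mem_inn {γ : MulAut (PQ K)} (hγ : γ ∈ autInducedBy ⊤ (PQ K)) (h1 : pi h γ = 1) : γ ∈ Inn (PQ K) := by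
  obtain ⟨x, -, hx⟩ := (mem_autInducedBy_iff _ _ _).1 hγ
  rw [pi_conj h hx, ← tau_zero] at h1
  have h2 := tau_injective h1
  refine ⟨⟨x, neg_eq_zero.1 h2⟩, ?_⟩
  ext1 e
  exact Subtype.ext (hx e).symm

theorem pi_inn {γ : MulAut (PQ K)} (hγ : γ ∈ Inn (PQ K)) : pi h γ = 1 := by
  obtain ⟨x, rfl⟩ := hγ
  rw [pi_conj h (x := (x : PG K)) (fun e => rfl), c_Q, neg_zero, tau_zero]

/-- elements of the kernel fix `Z` -/
theorem ker_fix {γ : MulAut (PQ K)} (hγ : ∀ e : PQ K, uu ((γ e : PQ K) : PG K) = uu (e : PG K)) {z : PQ K}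
    (hz : uu (z : PG K) = 0) : γ z = z := by
  obtain ⟨x, hx⟩ := exists_tr h (c := (z : PG K).a) (z : PG K).ha
  -- `z = [(0, 1), (star x, 0)]`
  have h1 : z = eQ (0, 1) * eQ (star x, 0) * (eQ (0, 1))⁻¹ * (eQ (star x, 0))⁻¹ := by
    obtain ⟨k0, ka⟩ := comm_eq (eQ ((0 : K), (1 : K))) (eQ (star x, (0 : K)))
    refine ext_Q (by rw [hz, k0]) ?_
    rw [ka]
    show (z : PG K).a = 1 * star (star x) + star 1 * star x - (0 * star 0 + star 0 * 0)
    rw [star_star, star_one, ← hx]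
    ring
  have h2 : γ z = γ (eQ (0, 1)) * γ (eQ (star x, 0)) * (γ (eQ (0, 1)))⁻¹ * (γ (eQ (star x, 0)))⁻¹ := by
    rw [h1, map_mul, map_mul, map_mul, map_inv, map_inv]
  obtain ⟨k0, ka⟩ := comm_eq (eQ ((0 : K), (1 : K))) (eQ (star x, (0 : K)))
  obtain ⟨l0, la⟩ := comm_eq (γ (eQ ((0 : K), (1 : K)))) (γ (eQ (star x, (0 : K))))
  rw [h2, h1]
  refine ext_Q (by rw [k0, l0]) ?_
  have g1 : ∀ e : PQ K, ((γ e : PQ K) : PG K).b = (e : PG K).b := fun e => congrArg Prod.fst (hγ e)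
  have g2 : ∀ e : PQ K, ((γ e : PQ K) : PG K).r = (e : PG K).r := fun e => congrArg Prod.snd (hγ e)
  rw [ka, la, g1, g1, g2, g2]

theorem exp_Z {z : PQ K} (hz : uu (z : PG K) = 0) : z ^ p = 1 := by
  have := h.char
  have hz1 : (z : PG K).b = 0 := congrArg Prod.fst hz
  have hz2 : (z : PG K).r = 0 := congrArg Prod.snd hz
  have key : ∀ k : ℕ, uu ((z ^ k : PQ K) : PG K) = 0 ∧ ((z ^ k : PQ K) : PG K).a = k * (z : PG K).a := by
    intro k
    induction k with
    | zero => exact ⟨by rw [pow_zero]; rfl, by rw [pow_zero, Nat.cast_zero, zero_mul]; rfl⟩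
    | succ k ih =>
      obtain ⟨i0, ia⟩ := ih
      refine ⟨by rw [pow_succ, uu_mul, i0, hz, add_zero], ?_⟩
      rw [pow_succ, mul_a', ia, hz1, star_zero, Nat.cast_succ]
      ring
  obtain ⟨i0, ia⟩ := key p
  rw [CharP.cast_eq_zero, zero_mul] at ia
  exact ext_Q i0 ia

/-- elements of the kernel have order dividing `p` -/
theorem ker_pow {γ : MulAut (PQ K)} (hγ : pi h γ = 1) : γ ^ p = 1 := by
  have huu : ∀ e : PQ K, uu ((γ e : PQ K) : PG K) = uu (e : PG K) := by
    intro e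
    rw [← pi_uu h, hγ]
    rfl
  ext1 e
  obtain ⟨d, hd⟩ : ∃ d, d = e⁻¹ * γ e := ⟨_, rfl⟩
  have hd0 : uu (d : PG K) = 0 := by rw [hd, uu_mul, uu_inv, huu, neg_add_cancel]
  have key : ∀ k : ℕ, (γ ^ k) e = e * d ^ k := by
    intro k
    induction k with
    | zero => rw [pow_zero, pow_zero, mul_one]; rfl
    | succ k ih =>
      rw [pow_succ', MulAut.mul_apply, ih, map_mul, map_pow, ker_fix h huu hd0, pow_succ', ← mul_assoc]
      congr 1
      rw [hd]
      group
  rw [key, exp_Z h hd0, mul_one]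
  rfl

end Pi

section Gamma

variable (h : HypK K p n) {Γ : Subgroup (MulAut (PQ K))} {D : Subgroup (MulAut (PG K))} (hp : ParP p (PQ K) Γ D)
include h

theorem finite_PG : Finite (PG K) := by
  have := h.fin
  refine Finite.of_injective (fun x : PG K => (x.r, x.a, x.b, x.c)) ?_
  intro x y hxy
  simp only [Prod.mk.injEq] at hxy
  obtain ⟨h1, h4, h5, h6⟩ := hxy
  exact PG.ext h1 h4 h5 h6

theorem finite_aut : Finite (MulAut (PQ K)) := by
  have := finite_PG h
  exact Finite.of_injective (fun e : MulAut (PQ K) => (e : PQ K → PQ K)) DFunLike.coe_injective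

include hp

/-- the kernel lies in `Aut_S(Q)` -/
theorem ker_le {γ : MulAut (PQ K)} (hγ : γ ∈ Γ) (h1 : pi h γ = 1) : γ ∈ autInducedBy ⊤ (PQ K) := by
  have hP : IsPGroup p ↥(Γ ⊓ (pi h).ker) := by
    rintro ⟨x, hx, hx1⟩
    exact ⟨1, Subtype.ext (by rw [pow_one]; exact ker_pow h hx1)⟩
  obtain ⟨g, hg, hs⟩ := hp.syl _ inf_le_left hP
  have h2 : g⁻¹ * γ * g ∈ Γ ⊓ (pi h).ker := by
    refine Subgroup.mem_inf.2 ⟨mul_mem (mul_mem (_root_.InvMemClass.inv_mem hg) hγ) hg, ?_⟩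
    show pi h (g⁻¹ * γ * g) = 1
    rw [map_mul, map_mul, map_inv, h1, mul_one, inv_mul_cancel]
  have h3 := hs _ h2
  have h4 : g * (g⁻¹ * γ * g) * g⁻¹ = γ := by group
  rwa [h4] at h3

theorem mem_aut_iff {γ : MulAut (PQ K)} (hγ : γ ∈ Γ) : pi h γ ∈ TG K ↔ γ ∈ autInducedBy ⊤ (PQ K) := by
  constructor
  · intro h1
    obtain ⟨x, hx, hxγ⟩ := exists_of_mem_TG h h1
    have h2 : x⁻¹ * γ ∈ autInducedBy ⊤ (PQ K) := by
      apply ker_le h hp (mul_mem (_root_.InvMemClass.inv_mem (hp.indu hx)) hγ)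
      rw [map_mul, map_inv, hxγ, inv_mul_cancel]
    have h3 := mul_mem hx h2
    rwa [mul_inv_cancel_left] at h3
  · intro h1
    exact pi_mem_TG h h1

theorem TG_le : TG K ≤ Γ.map (pi h) := by
  intro g hg
  obtain ⟨x, hx, rfl⟩ := exists_of_mem_TG h hg
  exact ⟨x, hp.indu hx, rfl⟩

theorem TG_max : ∀ P : Subgroup (A2 K), P ≤ Γ.map (pi h) → IsPGroup p P → TG K ≤ P → P ≤ TG K := by
  have := finite_aut h
  intro P hPG hP hTP
  have hP' : IsPGroup p ↥(Γ ⊓ P.comap (pi h)) := by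
    rintro ⟨x, hx, hx1⟩
    obtain ⟨k, hk⟩ := hP ⟨pi h x, hx1⟩
    have hk' : pi h x ^ p ^ k = 1 := congrArg Subtype.val hk
    refine ⟨k + 1, Subtype.ext ?_⟩
    show x ^ p ^ (k + 1) = 1
    rw [pow_succ, pow_mul]
    apply ker_pow h
    rw [map_pow, hk']
  obtain ⟨g, hg, hs⟩ := hp.syl _ inf_le_left hP'
  have hA : autInducedBy ⊤ (PQ K) ≤ Γ ⊓ P.comap (pi h) := fun x hx =>
    ⟨hp.indu hx, hTP (pi_mem_TG h hx)⟩
  have hcard : Nat.card ↥(Γ ⊓ P.comap (pi h)) ≤ Nat.card ↥(autInducedBy ⊤ (PQ K)) := by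
    refine Nat.card_le_card_of_injective (fun x => ⟨g * x.1 * g⁻¹, hs x.1 x.2⟩) ?_
    intro x y hxy
    have h1 : g * x.1 * g⁻¹ = g * y.1 * g⁻¹ := congrArg Subtype.val hxy
    exact Subtype.ext (mul_left_cancel (mul_right_cancel h1))
  have heq := Subgroup.eq_of_le_of_card_ge hA hcard
  intro y hy
  obtain ⟨x, hx, rfl⟩ := hPG hy
  have h2 : x ∈ Γ ⊓ P.comap (pi h) := ⟨hx, hy⟩
  rw [← heq] at h2
  exact pi_mem_TG h h2

theorem TG_nn : ∃ g ∈ Γ.map (pi h), ∃ t ∈ TG K, g * t * g⁻¹ ∉ TG K := by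
  by_contra hno
  push Not at hno
  apply hp.nn
  intro γ hγ x hx
  have h1 := hno (pi h γ) ⟨γ, hγ, rfl⟩ (pi h x) (pi_mem_TG h hx)
  rw [← map_inv, ← map_mul, ← map_mul] at h1
  exact (mem_aut_iff h hp (mul_mem (mul_mem hγ (hp.indu hx)) (_root_.InvMemClass.inv_mem hγ))).1 h1

theorem TG_ti : ∀ g ∈ Γ.map (pi h), ∀ x ∈ TG K, x ≠ 1 → g * x * g⁻¹ ∈ TG K → ∀ y ∈ TG K, g * y * g⁻¹ ∈ TG K := by
  rintro _ ⟨γ, hγ, rfl⟩ x hx hx1 hgx y hy
  obtain ⟨x', hx', rfl⟩ := exists_of_mem_TG h hx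
  obtain ⟨y', hy', rfl⟩ := exists_of_mem_TG h hy
  rw [← map_inv, ← map_mul, ← map_mul] at hgx ⊢
  have h1 := (mem_aut_iff h hp (mul_mem (mul_mem hγ (hp.indu hx')) (_root_.InvMemClass.inv_mem hγ))).1 hgx
  have h2 := hp.ti γ hγ x' hx' (fun h3 => hx1 (pi_inn h h3)) h1 y' hy'
  exact pi_mem_TG h h2

end Gamma

end Cfsg.Agent.H994.P4
end

private theorem dce_2ab97d8eac19 : _root_.True := by
  try have : _root_.True := by simp only [_root_.Cfsg.Agent.H994.P4.pi.congr_simp]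
  try have : _root_.True := by simp only [_root_.Cfsg.Agent.H994.P4.uu.eq_1]
  try have : _root_.True := by simp only [_root_.Cfsg.Agent.H1.P4.ec.congr_simp]
  exact _root_.True.intro
end

-- part: H64/P4/Kill_mg
section
prune_inst 0xd4200300050002000000050240001c06e20005000048000008000e0606804e6208000020b480111000022004003000200010002000000000000000000118008000001004a0480000020008000004000000000000000000000000000000000000000000000
set_option linter.all false
open scoped Cfsg.Agent.FastGrp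

-- part: H64/P4/Real
section
/-!
# S5210 [P4-REALb] (helper64): the fusion systems of the groups `SU₄(K) ⋊ D`
-/

set_option autoImplicit false

namespace Cfsg.Agent.H64.P4

open Cfsg Cfsg.FusionSystem Cfsg.Agent.H776.P4 Cfsg.Agent.H781
open Cfsg.Agent.H756.PU (HypK Ess Inv Com NormAut TIAut AF syl_of_normal top_le_normalizer_of_char)
open Cfsg.Agent.H1.P4 (er ec eb commute_iff mem_PV_iff eq_zero_of_tr finite_PG stTI)
open Cfsg.Agent.H732.PU (Triv Fx fx_step)

universe u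

section

variable {K : Type u} [Field K] [StarRing K]

/-! ### the Weyl elements do not normalize `Aut_S(Q)` -/

theorem nn_WV {γ : MulAut (PV K)} (h : IsWV γ) : ¬ NormAut (⊤ : Subgroup (PG K)) γ := by
  intro hn
  let e1 : PV K := ⟨ec 1 (star_one K), rfl⟩
  have h1 := hn (MulAut.conjNormal (er 1)) (conj_ind _ _)
  obtain ⟨y, -, hy⟩ := (H802.mem_autInducedBy_iff _ _ _).1 h1
  have h2 := congrArg PG.c (hy (γ e1))
  rw [MulAut.mul_apply, MulAut.mul_apply, MulAut.inv_apply_self, h.c, cV_a] at h2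
  have h4 : (y * ((γ e1 : PV K) : PG K) * y⁻¹).c = 0 := by
    rw [PG.mul_c, PG.mul_c, PG.inv_c, h.c]
    show y.c + (e1 : PG K).a + -y.c = 0
    have : (e1 : PG K).a = 0 := rfl
    rw [this]
    ring
  rw [h4] at h2
  have e2 : (e1 : PG K).a = 0 := rfl
  have e3 : (e1 : PG K).b = 0 := rfl
  have e4 : (e1 : PG K).c = 1 := rfl
  rw [e2, e3, e4, star_zero, star_one] at h2
  apply one_ne_zero (α := K)
  linear_combination h2

theorem nn_WQ {γ : MulAut (PQ K)} (h : IsWQ γ) : ¬ NormAut (⊤ : Subgroup (PG K)) γ := by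
  intro hn
  let e1 : PQ K := ⟨er 1, rfl⟩
  have h1 := hn (MulAut.conjNormal (ec 1 (star_one K))) (conj_ind _ _)
  obtain ⟨y, -, hy⟩ := (H802.mem_autInducedBy_iff _ _ _).1 h1
  have h2 := congrArg PG.r (hy (γ e1))
  rw [MulAut.mul_apply, MulAut.mul_apply, MulAut.inv_apply_self, h.r, cQ_b] at h2
  have h4 : (y * ((γ e1 : PQ K) : PG K) * y⁻¹).r = 0 := by
    rw [PG.mul_r, PG.mul_r, PG.inv_r, h.r]
    show y.r + (e1 : PG K).b + -y.r = 0
    have : (e1 : PG K).b = 0 := rfl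
    rw [this]
    ring
  rw [h4] at h2
  have e3 : (e1 : PG K).b = 0 := rfl
  have e4 : (e1 : PG K).r = 1 := rfl
  rw [e3, e4] at h2
  apply one_ne_zero (α := K)
  linear_combination -h2

/-! ### restrictions -/

theorem exists_res {G : Type*} [Group G] {Q : Subgroup G} (d : MulAut G) (h : Q.map d.toMonoidHom = Q) :
    ∃ δ : MulAut Q, ∀ e : Q, ((δ e : Q) : G) = d e :=
  ⟨(d.subgroupMap Q).trans (MulEquiv.subgroupCongr h), fun _ => rfl⟩

theorem torEl_mem {D : Subgroup (MulAut (PG K))} (hT1 : HasTorP D (fun t => t ^ 2) (fun t => (t * star t)⁻¹))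
    (hT2 : HasTorK D) {τ : MulAut (PG K)} (h : TorEl τ) : τ ∈ D := by
  obtain ⟨s, t, α, β, hs, ht, hst, hα, hβ, rfl⟩ := h
  exact D.mul_mem (hT1 s hs α hα) (hT2 t ht hst β hβ)

theorem card_comap_of_inj {A B : Type*} [Group A] [Group B] (f : A →* B) (hf : Function.Injective f) {D : Subgroup B}
    (hD : D ≤ f.range) : Nat.card (D.comap f) = Nat.card D := by
  have h1 : (D.comap f).map f = D := by
    rw [Subgroup.map_comap_eq, inf_eq_right.2 hD]
  calc Nat.card (D.comap f) = Nat.card ((D.comap f).map f) :=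
        Nat.card_congr ((D.comap f).equivMapOfInjective f hf).toEquiv
    _ = Nat.card D := by rw [h1]

/-! ### the fusion system -/

/-- the fusion system of `G0 ⋊ D` -/
theorem exists_sys {p n : ℕ} [Fact p.Prime] (hK : HypK K p n) (hpg : IsPGroup p (⊤ : Subgroup (PG K)))
    (R : RData.{u} K p) (D : Subgroup (MulAut (PG K))) (hDT : D ≤ TP K) (hDc : (Nat.card D).Coprime p) :
    ∃ F : FusionSystem (⊤ : Subgroup (PG K)), F.IsSaturated p ∧ F.IsRealizable p ∧
      (∀ (Q : Subgroup (PG K)) (γ : MulAut Q), γ ∈ F.autGroup Q ↔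
        ∃ g : R.G0, ∃ d ∈ D, ∀ e : Q, R.ι ((γ e : Q) : PG K) = g * R.ι (d (e : PG K)) * g⁻¹) ∧
      (∀ α : MulAut (PG K), α ∈ AF F ↔ ∃ g : R.G0, ∃ d ∈ D, ∀ x : PG K, R.ι (α x) = g * R.ι (d x) * g⁻¹) := by
  have hp : p.Prime := hK.pp
  have hfinK : Finite K := hK.fin
  have hfinU : Finite (PG K) := finite_PG hK
  have hfinM : Finite (MulAut (PG K)) := Finite.of_injective (fun e : MulAut (PG K) => (e : PG K → PG K))
    (fun a b h => MulEquiv.ext (fun x => congrFun h x))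
  have hfinT : Finite R.T := Finite.of_injective R.ρ R.injT
  -- the range of `ρ`
  have hTTρ : TP K ≤ R.ρ.range := by
    rw [TP, Subgroup.closure_le]
    rintro α ⟨s, l, τ, h⟩
    exact R.tor α s l τ h
  let TD : Subgroup R.T := D.comap R.ρ
  have hTDc : (Nat.card TD).Coprime p := by
    rw [card_comap_of_inj R.ρ R.injT (hDT.trans hTTρ)]
    exact hDc
  let φ : TD →* MulAut R.G0 := R.A.comp TD.subtype
  have hφ : ∀ (t : TD) (x : PG K), φ t (R.ι x) = R.ι (R.ρ t x) := fun t x => R.act t x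
  have hfinG : Finite (R.G0 ⋊[φ] TD) := Finite.of_equiv _ SemidirectProduct.equivProd.symm
  let ι : (⊤ : Subgroup (PG K)) →* R.G0 ⋊[φ] TD :=
    (SemidirectProduct.inl.comp R.ι).comp (Subgroup.topEquiv (G := PG K)).toMonoidHom
  have hι : ∀ x : (⊤ : Subgroup (PG K)), ι x = SemidirectProduct.inl (R.ι (x : PG K)) := fun x => rfl
  have hinj : Function.Injective ι := by
    intro a b hab
    rw [hι, hι] at hab
    exact Subtype.ext (R.inj (SemidirectProduct.inl_injective hab))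
  -- conjugation in the semidirect product
  have hconj : ∀ (g : R.G0 ⋊[φ] TD) (x : PG K), g * SemidirectProduct.inl (R.ι x) * g⁻¹ =
      SemidirectProduct.inl (g.left * R.ι (R.ρ g.right x) * g.left⁻¹) := by
    intro g x
    have h1 := SemidirectProduct.inl_aut (φ := φ) g.right (R.ι x)
    have h2 := (SemidirectProduct.inl_left_mul_inr_right g).symm
    rw [map_mul, map_mul, ← hφ, h1, map_inv]
    conv_lhs => rw [h2]
    rw [mul_inv_rev, map_inv]
    simp only [mul_assoc]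
  -- the Sylow subgroup
  have hrangep : IsPGroup p ι.range := hpg.of_surjective ι.rangeRestrict ι.rangeRestrict_surjective
  have hidx : ¬ p ∣ ι.range.index := by
    have h1 : Nat.card ι.range = Nat.card (PG K) := by
      rw [← Nat.card_congr (MonoidHom.ofInjective hinj).toEquiv]
      exact Nat.card_congr Subgroup.topEquiv.toEquiv
    have h2 : Nat.card R.ι.range = Nat.card (PG K) :=
      (Nat.card_congr (MonoidHom.ofInjective R.inj).toEquiv).symm
    have h3 : Nat.card (R.G0 ⋊[φ] TD) = Nat.card R.G0 * Nat.card TD := by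
      rw [Nat.card_congr SemidirectProduct.equivProd, Nat.card_prod]
    have h4 := ι.range.card_mul_index
    rw [h3, ← R.ι.range.card_mul_index, h1, h2, mul_assoc] at h4
    have h5 := Nat.eq_of_mul_eq_mul_left Nat.card_pos h4
    rw [h5]
    apply hp.not_dvd_mul R.syl
    rw [← Nat.Prime.coprime_iff_not_dvd hp]
    exact hTDc.symm
  let T : Sylow p (R.G0 ⋊[φ] TD) := hrangep.toSylow hidx
  have hT : (T : Subgroup (R.G0 ⋊[φ] TD)) = ι.range := rfl
  have hreal := pullback_isRealizedBy ι hinj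
  -- membership in automizers
  have haut0 : ∀ (Q : Subgroup (PG K)) (γ : MulAut Q), γ ∈ (pullback ι hinj).autGroup Q ↔
      ∃ g : R.G0 ⋊[φ] TD, ∀ e : Q, R.ι ((γ e : Q) : PG K) = g.left * R.ι (R.ρ g.right (e : PG K)) * g.left⁻¹ := by
    intro Q γ
    rw [H802.mem_autGroup_iff _ le_top]
    constructor
    · rintro ⟨h1, h2, g, hg⟩
      refine ⟨g, fun e => ?_⟩
      have h3 := hg e
      rw [hι, hι, hconj] at h3
      exact SemidirectProduct.inl_injective h3
    · rintro ⟨g, hg⟩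
      refine ⟨le_top, fun _ => trivial, g, fun e => ?_⟩
      rw [hι, hι, hconj]
      exact congrArg _ (hg e)
  have haut : ∀ (Q : Subgroup (PG K)) (γ : MulAut Q), γ ∈ (pullback ι hinj).autGroup Q ↔
        ∃ g : R.G0, ∃ d ∈ D, ∀ e : Q, R.ι ((γ e : Q) : PG K) = g * R.ι (d (e : PG K)) * g⁻¹ := by
    intro Q γ
    rw [haut0]
    constructor
    · rintro ⟨g, hg⟩
      exact ⟨g.left, R.ρ g.right, g.right.2, hg⟩
    · rintro ⟨g, d, hd, hg⟩
      obtain ⟨t, rfl⟩ := hTTρ (hDT hd)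
      refine ⟨⟨g, ⟨t, hd⟩⟩, hg⟩
  refine ⟨pullback ι hinj, isSaturated_of_isRealizedBy hreal T hT, ⟨_, inferInstance, hfinG, ι, hreal, T, hT⟩, haut, ?_⟩
  -- the automizer of the whole group
  intro α
  have h1 : α ∈ AF (pullback ι hinj) ↔
      (MulAut.congr (Subgroup.topEquiv (G := PG K))).symm α ∈ (pullback ι hinj).autGroup ⊤ := by
    constructor
    · rintro ⟨β, hβ, rfl⟩
      rw [MulEquiv.coe_toMonoidHom, MulEquiv.symm_apply_apply]
      exact hβ
    · intro h
      exact ⟨_, h, MulEquiv.apply_symm_apply _ _⟩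
  rw [h1, haut]
  constructor
  · rintro ⟨g, d, hd, hg⟩
    exact ⟨g, d, hd, fun x => hg ⟨x, trivial⟩⟩
  · rintro ⟨g, d, hd, hg⟩
    exact ⟨g, d, hd, fun x => hg x⟩

end

/-! ### an essential group is not a `p`-group -/

theorem not_pGroup_of_ess {Ω : Type*} [Group Ω] {S E : Subgroup Ω} {p : ℕ} {Γ : Subgroup (MulAut E)} (h : Ess S E p Γ) :
    ¬ IsPGroup p Γ := by
  intro hp
  obtain ⟨g, hg, hs⟩ := h.syl Γ le_rfl hp
  obtain ⟨H, hH, hne, hSH, -, -⟩ := h.spe
  apply hne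
  refine le_antisymm hH fun γ hγ => hSH ?_
  have h1 := hs (g⁻¹ * γ * g) (Γ.mul_mem (Γ.mul_mem (Γ.inv_mem hg) hγ) hg)
  have h2 : g * (g⁻¹ * γ * g) * g⁻¹ = γ := by group
  rwa [h2] at h1

theorem pGroup_of_chain {Ω : Type*} [Group Ω] {S E : Subgroup Ω} {p : ℕ} [Fact p.Prime] {Γ : Subgroup (MulAut E)}
    [Finite S] (hS : IsPGroup p S) (hES : E ≤ S)
    (M1 M2 M3 M4 : Subgroup Ω) (l1 : M1 ≤ E) (l2 : M2 ≤ E) (l3 : M3 ≤ E) (l4 : M4 ≤ E)
    (t5 : ∀ γ ∈ Γ, Triv E M4 γ) (t4 : ∀ γ ∈ Γ, Triv M4 M3 γ) (t3 : ∀ γ ∈ Γ, Triv M3 M2 γ)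
    (t2 : ∀ γ ∈ Γ, Triv M2 M1 γ) (t1 : ∀ γ ∈ Γ, Fx M1 γ) : IsPGroup p Γ := by
  have hpow : ∀ {M : Subgroup Ω}, M ≤ E → ∃ k, Nat.card M = p ^ k := by
    intro M hM
    have hMS : M ≤ S := hM.trans hES
    have hfin : Finite M := Finite.of_injective _ (Subgroup.inclusion_injective hMS)
    exact (hS.of_injective _ (Subgroup.inclusion_injective hMS)).exists_card_eq
  rintro ⟨γ, hγ⟩
  obtain ⟨k1, hk1⟩ := hpow l1
  obtain ⟨k2, hk2⟩ := hpow l2
  obtain ⟨k3, hk3⟩ := hpow l3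
  obtain ⟨k4, hk4⟩ := hpow l4
  have f1 : Fx M1 γ := t1 γ hγ
  have f2 : Fx M2 (γ ^ Nat.card M1) := fx_step f1 (t2 γ hγ)
  have g2 : γ ^ Nat.card M1 ∈ Γ := Γ.pow_mem hγ _
  have f3 : Fx M3 ((γ ^ Nat.card M1) ^ Nat.card M2) := fx_step f2 (t3 _ g2)
  have g3 : (γ ^ Nat.card M1) ^ Nat.card M2 ∈ Γ := Γ.pow_mem g2 _
  have f4 : Fx M4 (((γ ^ Nat.card M1) ^ Nat.card M2) ^ Nat.card M3) := fx_step f3 (t4 _ g3)
  have g4 := Γ.pow_mem g3 (Nat.card M3)
  have f5 : Fx E ((((γ ^ Nat.card M1) ^ Nat.card M2) ^ Nat.card M3) ^ Nat.card M4) := fx_step f4 (t5 _ g4)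
  refine ⟨k1 + k2 + k3 + k4, Subtype.ext ?_⟩
  have h1 : γ ^ p ^ (k1 + k2 + k3 + k4) = (((γ ^ Nat.card M1) ^ Nat.card M2) ^ Nat.card M3) ^ Nat.card M4 := by
    rw [← pow_mul, ← pow_mul, ← pow_mul, hk1, hk2, hk3, hk4, pow_add, pow_add, pow_add]
    simp only [mul_assoc]
  change γ ^ p ^ (k1 + k2 + k3 + k4) = 1
  rw [h1]
  exact MulEquiv.ext fun e => f5 e e.2

theorem triv_of_two {Ω : Type*} [Group Ω] {E : Subgroup Ω} {Γ : Subgroup (MulAut E)} {A B : Subgroup Ω} (hB : _root_.Cfsg.Agent.H756.PU.Inv Γ B)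
    (hA : _root_.Cfsg.Agent.H756.PU.Inv Γ A) (h : ∀ x ∈ A, ∀ y ∈ A, x ∉ B → y ∉ B → x * y⁻¹ ∈ B) : ∀ γ ∈ Γ, Triv A B γ := by
  intro γ hγ e he
  by_cases heB : (e : Ω) ∈ B
  · exact B.mul_mem (hB.2 γ hγ e heB) (B.inv_mem heB)
  · refine h _ (hA.2 γ hγ e he) _ he (fun h1 => heB ?_) heB
    have h2 := hB.2 _ (Γ.inv_mem hγ) _ h1
    rwa [MulAut.inv_apply_self] at h2

end Cfsg.Agent.H64.P4
end

-- part: H64/P4/Kill
section
/-!
# S5210 [P4-REALb] (helper64): `q = 2`, the subgroups `E_α` are not essential; the statement (REAL)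
-/

set_option autoImplicit false

namespace Cfsg.Agent.H64.P4

open Cfsg Cfsg.FusionSystem Cfsg.Agent.H776.P4 Cfsg.Agent.H781
open Cfsg.Agent.H756.PU (HypK Ess Inv Com NormAut TIAut AF syl_of_normal top_le_normalizer_of_char)
open Cfsg.Agent.H1.P4 (er ec eb commute_iff mem_PV_iff eq_zero_of_tr finite_PG stTI char_PV)
open Cfsg.Agent.H732.PU (Triv Fx fx_step)

universe u

section

variable {K : Type u} [Field K] [StarRing K] {p n : ℕ}

theorem two_facts (hK : HypK K p n) (h2 : p ^ n = 2) :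
    (∀ x : K, star x = x → x = 0 ∨ x = 1) ∧ (∀ x : K, x + x = 0) := by
  constructor
  · intro x hx
    have h := hK.star_eq x
    rw [h2, hx] at h
    have h3 : x * (x - 1) = 0 := by linear_combination -h
    rcases mul_eq_zero.1 h3 with h4 | h4
    · exact Or.inl h4
    · exact Or.inr (sub_eq_zero.1 h4)
  · have hp : p = 2 := by
      have h3 : p ∣ 2 := by
        rw [← h2]
        exact dvd_pow_self p (by have := hK.hn; omega)
      exact (Nat.prime_dvd_prime_iff_eq hK.pp Nat.prime_two).1 h3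
    have := hK.char
    rw [hp] at this
    exact fun x => CharTwo.add_self_eq_zero x

theorem mem_EA (hc2 : ∀ x : K, x + x = 0) {α : K} {g : PG K} : g ∈ EA α ↔ g.r = 0 ∨ g.r = α := by
  constructor
  · intro h
    let H : Subgroup (PG K) :=
      { carrier := {g | g.r = 0 ∨ g.r = α}
        one_mem' := Or.inl rfl
        mul_mem' := by
          rintro x y (hx | hx) (hy | hy)
          · left; rw [PG.mul_r, hx, hy, add_zero]
          · right; rw [PG.mul_r, hx, hy, zero_add]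
          · right; rw [PG.mul_r, hx, hy, add_zero]
          · left; rw [PG.mul_r, hx, hy, hc2]
        inv_mem' := by
          rintro x (hx | hx)
          · left; rw [PG.inv_r, hx, neg_zero]
          · right; rw [PG.inv_r, hx]; exact neg_eq_of_add_eq_zero_left (hc2 α) }
    have hle : EA α ≤ H := by
      rw [EA, Subgroup.closure_le]
      exact fun x hx => hx
    exact hle h
  · intro h
    exact Subgroup.subset_closure h

/-- the centre of `E_α` -/
def WW (α : K) : Subgroup (PG K) where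
  carrier := {g | g.r = 0 ∧ g.c = 0 ∧ α * star g.b + star α * g.b = 0}
  one_mem' := by simp only [_root_.Set.mem_ofPred_eq, _root_.Cfsg.Agent.H776.P4.PG.one_r, _root_.Cfsg.Agent.H776.P4.PG.one_c, _root_.Cfsg.Agent.H776.P4.PG.one_b, _root_.star_zero, _root_.MulZeroClass.mul_zero, _root_.add_zero, _root_.and_self]
  mul_mem' := by
    rintro x y ⟨h1, h2, h3⟩ ⟨k1, k2, k3⟩
    refine ⟨by simp [h1, k1], by simp [h2, k2], ?_⟩
    rw [PG.mul_b, h1, zero_mul, add_zero, star_add]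
    linear_combination h3 + k3
  inv_mem' := by
    rintro x ⟨h1, h2, h3⟩
    refine ⟨by simp [h1], by simp [h2], ?_⟩
    rw [PG.inv_b, h1, zero_mul, add_zero, star_neg]
    linear_combination -h3

theorem mem_WW_of_comm {α : K} (hα : α ≠ 0) {x y : PG K} (hx : x.r = 0) (hy : y.r = α) (h : x * y = y * x) :
    x ∈ WW α := by
  obtain ⟨h1, h2⟩ := commute_iff.1 h
  rw [hx, hy, zero_mul] at h1
  have hc : x.c = 0 := (mul_eq_zero.1 h1.symm).resolve_left hα
  rw [hx, hy, hc, star_zero] at h2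
  exact ⟨hx, hc, by linear_combination -h2⟩

theorem center_EA (hK : HypK K p n) (hc2 : ∀ x : K, x + x = 0) {α : K} (hα : α ≠ 0) :
    ∀ x ∈ EA α, x ∈ WW α ↔ ∀ y ∈ EA α, x * y = y * x := by
  intro x hx
  constructor
  · rintro ⟨h1, h2, h3⟩ y hy
    rw [commute_iff, h1, h2, star_zero]
    refine ⟨by ring, ?_⟩
    rcases (mem_EA hc2).1 hy with h | h
    · rw [h, star_zero]; ring
    · rw [h]; linear_combination -h3
  · intro h
    have hr : x.r = 0 := by
      rcases (mem_EA hc2).1 hx with h1 | h1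
      · exact h1
      · exfalso
        apply hα
        refine eq_zero_of_tr hK fun b => ?_
        have h2 := (commute_iff.1 (h (eb b) ((mem_EA hc2).2 (Or.inl rfl)))).2
        have e1 : (eb b : PG K).r = 0 := rfl
        have e2 : (eb b : PG K).b = b := rfl
        have e3 : (eb b : PG K).c = 0 := rfl
        rw [e1, e2, e3, h1, star_zero] at h2
        linear_combination h2
    exact mem_WW_of_comm hα hr rfl (h (er α) ((mem_EA hc2).2 (Or.inr rfl)))

theorem WW_iff (hK : HypK K p n) (hc2 : ∀ x : K, x + x = 0) {α : K} (hα : α ≠ 0) (γ : MulAut (EA α)) :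
    ∀ x : EA α, (x : PG K) ∈ WW α ↔ ((γ x : EA α) : PG K) ∈ WW α :=
  H1.P4.inv_of_comm le_rfl (center_EA hK hc2 hα) γ fun x => ⟨fun _ => (γ x).2, fun _ => x.2⟩

/-- every automorphism of `E_α` preserves `V` -/
theorem PV_EA (hK : HypK K p n) (hc2 : ∀ x : K, x + x = 0) {α : K} (hα : α ≠ 0) (γ : MulAut (EA α)) (v : EA α)
    (hv : (v : PG K) ∈ PV K) : ((γ v : EA α) : PG K) ∈ PV K := by
  by_contra hnv
  have hrv : ((γ v : EA α) : PG K).r = α := ((mem_EA hc2).1 (γ v).2).resolve_left hnv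
  have hVab : ∀ x ∈ PV K, ∀ y ∈ PV K, x * y = y * x := by
    intro x hx y hy
    have hx' : x.r = 0 := hx
    have hy' : y.r = 0 := hy
    rw [commute_iff, hx', hy', star_zero]
    exact ⟨by ring, by ring⟩
  have key : ∀ w : EA α, (w : PG K) ∈ PV K → ((γ w : EA α) : PG K).r = 0 → (w : PG K) ∈ WW α := by
    intro w hw hr
    rw [WW_iff hK hc2 hα γ w]
    refine mem_WW_of_comm hα hr hrv ?_
    have h1 : w * v = v * w := Subtype.ext (hVab _ hw _ hv)
    have h2 := congrArg γ h1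
    rw [map_mul, map_mul] at h2
    exact congrArg Subtype.val h2
  have key2 : ∀ w : EA α, (w : PG K) ∈ PV K → (w : PG K) ∉ WW α → (w : PG K) * (v : PG K)⁻¹ ∈ WW α := by
    intro w hw hnw
    have hrw : ((γ w : EA α) : PG K).r = α :=
      ((mem_EA hc2).1 (γ w).2).resolve_left fun h => hnw (key w hw h)
    have h1 := key (w * v⁻¹) ((PV K).mul_mem hw ((PV K).inv_mem hv)) (by
      rw [map_mul, map_inv]
      show (((γ w : EA α) : PG K) * ((γ v : EA α) : PG K)⁻¹).r = 0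
      rw [PG.mul_r, PG.inv_r, hrw, hrv]
      ring)
    exact h1
  obtain ⟨b1, hb1⟩ : ∃ b : K, α * star b + star α * b ≠ 0 := by
    by_contra hcon
    push Not at hcon
    exact hα (eq_zero_of_tr hK hcon)
  have h1 := key2 ⟨eb b1, (mem_EA hc2).2 (Or.inl rfl)⟩ rfl fun h => hb1 h.2.2
  have h2 := key2 ⟨ec 1 (star_one K), (mem_EA hc2).2 (Or.inl rfl)⟩ rfl fun h => one_ne_zero h.2.1
  have h3 : (0 : K) + - (v : PG K).c = 0 := h1.2.1
  have h4 : (1 : K) + - (v : PG K).c = 0 := h2.2.1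
  apply one_ne_zero (α := K)
  linear_combination h4 - h3

/-- the hermitian determinant -/
def dt (x : PG K) : K := x.a * x.c - x.b * star x.b

theorem star_dt (x : PG K) : star (dt x) = dt x := by
  rw [dt, star_sub, star_mul', star_mul', star_star, x.ha, x.hc]
  ring

theorem dt_tor {d : MulAut (PG K)} {s l : K} {τ : K ≃+* K} (hd : IsTorP d s l τ) (x : PG K) :
    dt (d x) = s * star s * (l * l) * τ (dt x) := by
  rw [dt, dt, hd.a, hd.b, hd.c, star_mul', star_mul', hd.sl, ← hd.tst, map_sub, map_mul, map_mul]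
  ring

theorem kill_EA [Fact p.Prime] (hK : HypK K p n) (h2 : p ^ n = 2) (hpg : IsPGroup p (⊤ : Subgroup (PG K)))
    (hTP : ∀ α ∈ TP K, ∃ s l τ, IsTorP α s l τ) (R : RData.{u} K p) {D : Subgroup (MulAut (PG K))} (hDT : D ≤ TP K)
    {α : K} (hα : α ≠ 0) {Γ : Subgroup (MulAut (EA α))}
    (hΓ : ∀ γ ∈ Γ, ∃ g : R.G0, ∃ d ∈ D, ∀ e : EA α, R.ι ((γ e : EA α) : PG K) = g * R.ι (d (e : PG K)) * g⁻¹) :
    IsPGroup p Γ := by
  have := finite_PG hK
  obtain ⟨hk, hc2⟩ := two_facts hK h2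
  have hVE : PV K ≤ EA α := fun x hx => (mem_EA hc2).2 (Or.inl hx)
  have iE : _root_.Cfsg.Agent.H756.PU.Inv Γ (EA α) := ⟨le_rfl, fun γ _ e _ => (γ e).2⟩
  have iV : _root_.Cfsg.Agent.H756.PU.Inv Γ (PV K) := ⟨hVE, fun γ _ e he => PV_EA hK hc2 hα γ e he⟩
  have hWV : WW α ≤ PV K := fun x hx => hx.1
  have iW : _root_.Cfsg.Agent.H756.PU.Inv Γ (WW α) := ⟨hWV.trans hVE, fun γ _ e he => (WW_iff hK hc2 hα γ e).1 he⟩
  -- the determinant
  have hdet : ∀ γ ∈ Γ, ∀ e : EA α, (e : PG K) ∈ PV K → (dt ((γ e : EA α) : PG K) = 0 ↔ dt (e : PG K) = 0) := by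
    intro γ hγ e he
    obtain ⟨g, d, hd, hg⟩ := hΓ γ hγ
    obtain ⟨s, l, τ, ht⟩ := hTP d (hDT hd)
    obtain ⟨c0, hc0, hc⟩ := R.nrmV g (fun x hx => by
      have h1 : d⁻¹ x ∈ PV K := char_PV hK d⁻¹ hx
      refine ⟨_, iV.2 γ hγ ⟨d⁻¹ x, hVE h1⟩ h1, ?_⟩
      rw [hg]
      show _ = g * R.ι (d (d⁻¹ x)) * g⁻¹
      rw [MulAut.apply_inv_self])
    have h1 : dt ((γ e : EA α) : PG K) = c0 * dt (d (e : PG K)) :=
      hc _ (char_PV hK d he) _ (iV.2 γ hγ e he) (hg e).symm
    rw [h1, dt_tor ht]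
    have hs' : star s ≠ 0 := fun h => ht.ns ((star_eq_zero).1 h)
    constructor
    · intro h
      have h3 : c0 * (s * star s * (l * l)) * τ (dt (e : PG K)) = 0 := by linear_combination h
      have h4 : c0 * (s * star s * (l * l)) ≠ 0 :=
        mul_ne_zero hc0 (mul_ne_zero (mul_ne_zero ht.ns hs') (mul_ne_zero ht.nl ht.nl))
      have h5 := (mul_eq_zero.1 h3).resolve_left h4
      exact (map_eq_zero_iff τ τ.injective).1 h5
    · intro h
      rw [h, map_zero, mul_zero, mul_zero]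
  have hZW : PZ K ≤ WW α := by
    rintro x ⟨h1, h3, h4⟩
    exact ⟨h1, h4, by rw [h3, star_zero]; ring⟩
  have iZ : _root_.Cfsg.Agent.H756.PU.Inv Γ (PZ K) := by
    refine ⟨hZW.trans (hWV.trans hVE), fun γ hγ e he => ?_⟩
    obtain ⟨k1, k2, -⟩ := iW.2 γ hγ e (hZW he)
    have h1 : dt (e : PG K) = 0 := by
      rw [dt, he.2.1, he.2.2, star_zero]
      ring
    have h3 := (hdet γ hγ e he.1).2 h1
    rw [dt, k2] at h3
    refine ⟨k1, ?_, k2⟩
    have h4 : ((γ e : EA α) : PG K).b * star ((γ e : EA α) : PG K).b = 0 := by linear_combination -h3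
    rcases mul_eq_zero.1 h4 with h5 | h5
    · exact h5
    · exact star_eq_zero.1 h5
  have fZ : ∀ γ ∈ Γ, Fx (PZ K) γ := by
    intro γ hγ e he
    have h1 := iZ.2 γ hγ e he
    have hone : ∀ x : PG K, x ∈ PZ K → x.a = 0 → x = 1 := fun x hx h => PG.ext hx.1 h hx.2.1 hx.2.2
    apply Subtype.ext
    rcases hk _ (e : PG K).ha with h3 | h3
    · have h4 : e = 1 := Subtype.ext (hone _ he h3)
      rw [h4, map_one]
    · rcases hk _ ((γ e : EA α) : PG K).ha with h4 | h4
      · exfalso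
        have h5 : γ e = 1 := Subtype.ext (hone _ h1 h4)
        have h6 : e = 1 := by
          apply γ.injective
          rw [h5, map_one]
        rw [h6] at h3
        exact zero_ne_one h3
      · refine PG.ext ?_ (h4.trans h3.symm) ?_ ?_
        · rw [h1.1, he.1]
        · rw [h1.2.1, he.2.1]
        · rw [h1.2.2, he.2.2]
  -- `Y`
  have hYV : PY K ≤ PV K := fun x hx => hx.1
  let z : PG K := ⟨0, 1, 0, 0, by simp, by simp⟩
  have hz : z ∈ PZ K := ⟨rfl, rfl, rfl⟩
  have hzE : z ∈ EA α := hVE hz.1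
  have hdz : ∀ v : PG K, v ∈ PV K → dt (v * z) = dt v + v.c := by
    intro v hv
    have hv' : v.r = 0 := hv
    rw [dt, dt, PG.mul_a, PG.mul_b, PG.mul_c, hv']
    show (v.a + 1 + 0 * star (0 : K) + star (0 : K) * 0 + 0 * star (0 : K) * 0) * (v.c + 0) -
      (v.b + 0 + 0 * 0) * star (v.b + 0 + 0 * 0) = _
    rw [star_zero]
    simp only [mul_zero, add_zero]
    ring
  have hYiff : ∀ v ∈ PV K, v.c = 0 ↔ (dt v = 0 ↔ dt (v * z) = 0) := by
    intro v hv
    rw [hdz v hv]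
    constructor
    · intro h
      rw [h, add_zero]
    · intro h
      rcases hk _ v.hc with h3 | h3
      · exact h3
      · exfalso
        rw [h3] at h
        rcases hk _ (star_dt v) with h4 | h4
        · rw [h4, zero_add] at h
          exact one_ne_zero (h.1 rfl)
        · rw [h4, hc2] at h
          exact one_ne_zero (h.2 rfl)
  have iY : _root_.Cfsg.Agent.H756.PU.Inv Γ (PY K) := by
    refine ⟨hYV.trans hVE, fun γ hγ e he => ?_⟩
    have heV : (e : PG K) ∈ PV K := he.1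
    have h1 := (hYiff _ heV).1 he.2
    have h3 := iV.2 γ hγ e heV
    refine ⟨h3, (hYiff _ h3).2 ?_⟩
    have h4 := hdet γ hγ e heV
    have hzV : z ∈ PV K := hz.1
    have hezV : ((e * ⟨z, hzE⟩ : EA α) : PG K) ∈ PV K := (PV K).mul_mem heV hzV
    have h5 := hdet γ hγ (e * ⟨z, hzE⟩) hezV
    rw [map_mul, fZ γ hγ ⟨z, hzE⟩ hz] at h5
    have h6 : (((γ e * ⟨z, hzE⟩ : EA α)) : PG K) = ((γ e : EA α) : PG K) * z := rfl
    have h7 : (((e * ⟨z, hzE⟩ : EA α)) : PG K) = (e : PG K) * z := rfl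
    rw [h6, h7] at h5
    rw [h4, h5]
    exact h1
  refine pGroup_of_chain hpg le_top (PZ K) (WW α) (PY K) (PV K) iZ.1 iW.1 iY.1 iV.1
    (triv_of_two iV iE ?_) (triv_of_two iY iV ?_) (triv_of_two iW iY ?_) (triv_of_two iZ iW ?_) fZ
  · intro x hx y hy hx' hy'
    have h1 : x.r = α := ((mem_EA hc2).1 hx).resolve_left hx'
    have h3 : y.r = α := ((mem_EA hc2).1 hy).resolve_left hy'
    show (x * y⁻¹).r = 0
    rw [PG.mul_r, PG.inv_r, h1, h3]
    ring
  · intro x hx y hy hx' hy'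
    have h1 : x.c = 1 := (hk _ x.hc).resolve_left fun h => hx' ⟨hx, h⟩
    have h3 : y.c = 1 := (hk _ y.hc).resolve_left fun h => hy' ⟨hy, h⟩
    refine ⟨(PV K).mul_mem hx ((PV K).inv_mem hy), ?_⟩
    rw [PG.mul_c, PG.inv_c, h1, h3]
    ring
  · intro x hx y hy hx' hy'
    have hst : ∀ b : K, star (α * star b + star α * b) = α * star b + star α * b := by
      intro b
      rw [star_add, star_mul', star_mul', star_star, star_star]
      ring
    have h1 : α * star x.b + star α * x.b = 1 := (hk _ (hst _)).resolve_left fun h => hx' ⟨hx.1, hx.2, h⟩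
    have h3 : α * star y.b + star α * y.b = 1 := (hk _ (hst _)).resolve_left fun h => hy' ⟨hy.1, hy.2, h⟩
    have h4 := (PY K).mul_mem hx ((PY K).inv_mem hy)
    refine ⟨h4.1, h4.2, ?_⟩
    have hxr : x.r = 0 := hx.1
    have hyr : y.r = 0 := hy.1
    rw [PG.mul_b, PG.inv_b, hxr, hyr, zero_mul, zero_mul, add_zero, add_zero, star_add, star_neg]
    linear_combination h1 - h3
  · intro x hx y hy hx' hy'
    have hb : ∀ w : PG K, w ∈ WW α → w ∉ PZ K → star α * w.b = 1 := by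
      intro w hw hw'
      have h5 : star (star α * w.b) = star α * w.b := by
        rw [star_mul', star_star]
        have h6 := hc2 (star α * w.b)
        have h7 := hw.2.2
        linear_combination h7 - h6
      refine (hk _ h5).resolve_left fun h => hw' ⟨hw.1, ?_, hw.2.1⟩
      have hs' : star α ≠ 0 := fun h => hα ((star_eq_zero).1 h)
      exact (mul_eq_zero.1 h).resolve_left hs'
    have h1 := hb x hx hx'
    have h3 := hb y hy hy'
    have h4 := (WW α).mul_mem hx ((WW α).inv_mem hy)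
    refine ⟨h4.1, ?_, h4.2.1⟩
    have hxr : x.r = 0 := hx.1
    have hyr : y.r = 0 := hy.1
    have hs' : star α ≠ 0 := fun h => hα ((star_eq_zero).1 h)
    have h5 : star α * (x.b - y.b) = 0 := by linear_combination h1 - h3
    have h6 := (mul_eq_zero.1 h5).resolve_left hs'
    rw [PG.mul_b, PG.inv_b, hxr, hyr, zero_mul, zero_mul, add_zero, add_zero]
    linear_combination h6

end

/-! ### the statement -/

/-- **(REAL)** from the concrete group, (GRP), (E1)-(E4) and (2E) -/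
theorem stReal (hA : StRealA.{u}) (hG : StGrp.{u}) (hE1 : StE1.{u}) (hE2 : StE2.{u}) (hE3 : StE3.{u})
    (hE4 : StE4.{u}) (hTE : StTwoE.{u}) : StReal.{u} := by
  intro K _ _ p n _ hK D hDT hDc hT1 hT2
  obtain ⟨R⟩ := hA hK
  obtain ⟨hcard, hpg, -, hTP, -⟩ := hG hK
  have hfinU : Finite (PG K) := finite_PG hK
  obtain ⟨F, hF, hreal, haut, hAF⟩ := exists_sys hK hpg R D hDT hDc
  obtain ⟨hTI1, hTI2⟩ := stTI hK
  obtain ⟨hQc, hQne, hQchar⟩ := hTI2 (PQ K) (Or.inr rfl)
  have hQn := top_le_normalizer_of_char hQchar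
  refine ⟨F, hF, hreal, ?_, ?_, ?_, ?_, ?_⟩
  · apply le_antisymm
    · intro α hα
      obtain ⟨g, d, hd, hg⟩ := (hAF α).1 hα
      obtain ⟨u, τ, hτ, h⟩ := R.nrm g (fun x => by
        refine ⟨α (d⁻¹ x), ?_⟩
        rw [hg, MulAut.apply_inv_self])
      have h1 : α = MulAut.conj u * (τ * d) := by
        ext1 x
        apply R.inj
        rw [hg, h]
        rfl
      rw [h1]
      exact Subgroup.mul_mem_sup ⟨u, rfl⟩ (D.mul_mem (torEl_mem hT1 hT2 hτ) hd)
    · apply sup_le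
      · rintro _ ⟨u, rfl⟩
        rw [hAF]
        refine ⟨R.ι u, 1, D.one_mem, fun x => ?_⟩
        rw [MulAut.one_apply, ← map_mul, ← map_inv, ← map_mul]
        rfl
      · intro d hd
        rw [hAF]
        exact ⟨1, d, hd, fun x => by rw [one_mul, inv_one, mul_one]⟩
  · obtain ⟨g, γ, hγ, hg⟩ := R.wV
    intro hn
    apply nn_WV hγ
    apply hn
    rw [haut]
    exact ⟨g, 1, D.one_mem, fun e => by rw [MulAut.one_apply, hg]⟩
  · obtain ⟨g, γ, hγ, hg⟩ := R.wQ
    intro hn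
    apply nn_WQ hγ
    apply hn
    rw [haut]
    exact ⟨g, 1, D.one_mem, fun e => by rw [MulAut.one_apply, hg]⟩
  · intro γ hγ
    obtain ⟨g, d, hd, hg⟩ := (haut _ γ).1 hγ
    obtain ⟨δd, hδd⟩ := exists_res d (hQchar d)
    obtain ⟨l, hl, τ, δ0, hτ, hδ0, h⟩ := R.nrmQ g (fun x hx => by
      obtain ⟨δi, hδi⟩ := exists_res d⁻¹ (hQchar d⁻¹)
      refine ⟨_, (γ (δi ⟨x, hx⟩)).2, ?_⟩
      rw [hg, hδi]
      show _ = g * R.ι (d (d⁻¹ x)) * g⁻¹
      rw [MulAut.apply_inv_self])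
    refine ⟨l, hl, τ * d, D.mul_mem (torEl_mem hT1 hT2 hτ) hd, δ0 * δd, fun e => ?_, ?_⟩
    · rw [MulAut.mul_apply, hδ0, hδd, MulAut.mul_apply]
    · ext1 e
      apply Subtype.ext
      apply R.inj
      rw [hg, ← hδd, h]
      rfl
  · intro E hE
    have hEss := H245.PU.stEss F E hpg hF hE
    by_cases hq : 2 < p ^ n
    · have hY := hE1 hK hEss
      by_cases hV : PV K ≤ E
      · exact Or.inl (hE4 hK hq hEss hV)
      · obtain ⟨hQE, hQi⟩ := hE3 hK hEss hY (hE2 hK hEss hY hV)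
        right
        exact H659.PU.stOver F (PQ K) E hpg hF hE hQE hQn hQc
          (hTI1 _ (H802.autInducedBy_le_autGroup F le_top) (syl_of_normal hpg hF hQn)) hQi
    · have hq2 : p ^ n = 2 := by
        have h1 : p ≤ p ^ n := Nat.le_self_pow (by have := hK.hn; omega) p
        have h3 := hK.pp.two_le
        omega
      rcases hTE hK hq2 F hF E hE with h | h | ⟨α, hα, rfl⟩
      · exact Or.inl h
      · exact Or.inr h
      · exfalso
        exact not_pGroup_of_ess hEss (kill_EA hK hq2 hpg hTP R hDT hα fun γ hγ => (haut _ γ).1 hγ)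

end Cfsg.Agent.H64.P4
end

-- part: H994/P4/Opp
section
/-!
# S5210: the opposite Sylow subgroup invariant under a `p'`-group (helper994)

* `exists_opp` : `P` a TI, non-normal, elementary abelian Sylow `p`-subgroup of `G ≤ A`, `H ≤ G` a `p'`-group which normalizes `P`:
  there is another Sylow subgroup `P'` of `G`, normalized by `H`, with the swaps of `StRk`.
-/

set_option autoImplicit false

namespace Cfsg.Agent.H994.P4

open Cfsg Cfsg.Agent.H776.P4
open scoped Pointwise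

universe u

/-- Schur-Zassenhaus inside a subgroup -/
theorem sz_in {G : Type u} [Group G] [Finite G] (R D T : Subgroup G) [R.Normal] (hs : Group.IsSolvable R)
    (hcop : (Nat.card D).Coprime (Nat.card R)) (hRT : R ⊓ T = ⊥)
    (hall : ∀ x : G, ∃ t ∈ T, x * t⁻¹ ∈ R) : ∃ g : G, ∀ d ∈ D, g * d * g⁻¹ ∈ T := by
  let L : Subgroup G := D ⊔ R
  have hDL : D ≤ L := le_sup_left
  have hRL : R ≤ L := le_sup_right
  let N : Subgroup L := R.subgroupOf L
  have hN : N.Normal := inferInstance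
  let H : Subgroup L := D.subgroupOf L
  let T' : Subgroup L := T.subgroupOf L
  have cN : Nat.card N = Nat.card R := Nat.card_congr (Subgroup.subgroupOfEquivOfLe hRL).toEquiv
  have cH : Nat.card H = Nat.card D := Nat.card_congr (Subgroup.subgroupOfEquivOfLe hDL).toEquiv
  have hDR : D ⊓ R = ⊥ := (Subgroup.disjoint_of_coprime_natCard hcop).eq_bot
  have hNH : N.IsComplement' H := by
    refine Subgroup.isComplement'_of_disjoint_and_mul_eq_univ ?_ ?_
    · rw [disjoint_iff, eq_bot_iff]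
      rintro ⟨x, hx⟩ ⟨h1, h2⟩
      have h3 : x ∈ D ⊓ R := ⟨h2, h1⟩
      rw [hDR] at h3
      exact Subgroup.mem_bot.2 (Subtype.ext h3)
    · rw [Set.eq_univ_iff_forall]
      rintro ⟨x, hx⟩
      have hx' : x ∈ ((R ⊔ D : Subgroup G) : Set G) := by
        rw [sup_comm]
        exact hx
      rw [Subgroup.normal_mul] at hx'
      obtain ⟨r, hr, d, hd, rfl⟩ := Set.mem_mul.1 hx'
      exact Set.mem_mul.2 ⟨⟨r, hRL hr⟩, hr, ⟨d, hDL hd⟩, hd, rfl⟩
  have hNT : N.IsComplement' T' := by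
    refine Subgroup.isComplement'_of_disjoint_and_mul_eq_univ ?_ ?_
    · rw [disjoint_iff, eq_bot_iff]
      rintro ⟨x, hx⟩ ⟨h1, h2⟩
      have h3 : x ∈ R ⊓ T := ⟨h1, h2⟩
      rw [hRT] at h3
      exact Subgroup.mem_bot.2 (Subtype.ext h3)
    · rw [Set.eq_univ_iff_forall]
      rintro ⟨x, hx⟩
      obtain ⟨t, ht, hxt⟩ := hall x
      have htL : t ∈ L := by
        have : (x * t⁻¹)⁻¹ * x ∈ L := L.mul_mem (L.inv_mem (hRL hxt)) hx
        simpa using this
      refine Set.mem_mul.2 ⟨⟨x * t⁻¹, hRL hxt⟩, hxt, ⟨t, htL⟩, ht, ?_⟩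
      exact Subtype.ext (inv_mul_cancel_right x t)
  have iH : Nat.card H = N.index := hNH.symm.index_eq_card.symm
  have iT : Nat.card T' = N.index := hNT.symm.index_eq_card.symm
  have hcop' : (Nat.card N).Coprime N.index := by
    rw [cN, ← iH, cH]
    exact hcop.symm
  have hsN : Group.IsSolvable N :=
    Group.isSolvable_of_isSolvable_injective (f := (Subgroup.subgroupOfEquivOfLe hRL).toMonoidHom)
      (Subgroup.subgroupOfEquivOfLe hRL).injective
  obtain ⟨g, hg⟩ := Cfsg.Agent.Solvable.SZ.main (Nat.card L) L rfl N hcop' H T' (Or.inl hsN) iH iT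
  refine ⟨g, fun d hd => ?_⟩
  have h1 : MulAut.conj g • (⟨d, hDL hd⟩ : L) ∈ MulAut.conj g • H :=
    Subgroup.smul_mem_pointwise_smul _ _ _ hd
  rw [hg] at h1
  exact h1

/-- in a finite group `g P g⁻¹ ≤ P` gives `g ∈ N(P)` -/
theorem mem_norm {G : Type u} [Group G] [Finite G] {P : Subgroup G} {g : G} (h : ∀ x ∈ P, g * x * g⁻¹ ∈ P) :
    g ∈ Subgroup.normalizer (P : Set G) :=
  Subgroup.mem_normalizer_fintype (S := (P : Set G)) h

/-- the conjugate as an image -/
theorem mem_map_conj {G : Type u} [Group G] {P : Subgroup G} {g x : G} :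
    x ∈ P.map (MulAut.conj g).toMonoidHom ↔ g⁻¹ * x * g ∈ P := by
  rw [Subgroup.mem_map]
  constructor
  · rintro ⟨y, hy, rfl⟩
    show g⁻¹ * (g * y * g⁻¹) * g ∈ P
    have : g⁻¹ * (g * y * g⁻¹) * g = y := by group
    rwa [this]
  · intro h
    refine ⟨_, h, ?_⟩
    show g * (g⁻¹ * x * g) * g⁻¹ = x
    group

theorem mem_smul {G : Type u} [Group G] {p : ℕ} {P : Sylow p G} {g x : G} :
    x ∈ ((g • P : Sylow p G) : Subgroup G) ↔ g⁻¹ * x * g ∈ (P : Subgroup G) := by
  rw [Sylow.coe_subgroup_smul, Subgroup.mem_pointwise_smul_iff_inv_smul_mem]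
  have : ((MulAut.conj g)⁻¹ • x : G) = g⁻¹ * x * g := by
    show (MulAut.conj g)⁻¹ x = _
    rw [← map_inv, MulAut.conj_apply, inv_inv]
  rw [this]

/-- **The opposite Sylow subgroup, invariant under a `p'`-group.** -/
theorem exists_opp (hRk : StRk.{u}) {A : Type u} [Group A] [Finite A] {p m : ℕ} [hp : Fact p.Prime] {G P H : Subgroup A}
    (hPG : P ≤ G) (hP : IsPGroup p P) (hmax : ∀ Q : Subgroup A, Q ≤ G → IsPGroup p Q → P ≤ Q → Q ≤ P)
    (hti : ∀ g ∈ G, ∀ x ∈ P, x ≠ 1 → g * x * g⁻¹ ∈ P → ∀ y ∈ P, g * y * g⁻¹ ∈ P)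
    (hnn : ∃ g ∈ G, ∃ x ∈ P, g * x * g⁻¹ ∉ P) (hm : 2 ≤ m) (hcard : Nat.card P = p ^ m)
    (hab : ∀ x ∈ P, ∀ y ∈ P, x * y = y * x) (hexp : ∀ x ∈ P, x ^ p = 1)
    (hb : p ≠ 2 → Nat.card G ∣ Nat.card (GL (Fin (2 * m)) (ZMod p)))
    (hHG : H ≤ G) (hHn : ∀ h ∈ H, ∀ x ∈ P, h * x * h⁻¹ ∈ P) (hHc : (Nat.card H).Coprime p) :
    ∃ P' : Subgroup A, P' ≤ G ∧ IsPGroup p P' ∧ ¬ P' ≤ P ∧ (∀ h ∈ H, ∀ y ∈ P', h * y * h⁻¹ ∈ P') ∧
      (∀ x ∈ P, x ≠ 1 → ∃ y ∈ P', (∀ z, z ∈ P' ↔ (x * y * x) * z * (x * y * x)⁻¹ ∈ P) ∧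
        (∀ z, z ∈ P ↔ (x * y * x) * z * (x * y * x)⁻¹ ∈ P')) ∧
      (∀ g ∈ G, ∃ w ∈ P ⊔ P', ∀ x ∈ P, (w⁻¹ * g) * x * (w⁻¹ * g)⁻¹ ∈ P) ∧
      (∃ h ∈ G, (∀ x ∈ P, h * x * h⁻¹ ∈ P) ∧ (∀ x ∈ P', h * x * h⁻¹ ∈ P') ∧
        ∀ j : ℕ, 0 < j → j * (if p = 2 then 1 else 2) < p ^ m - 1 → ∀ x ∈ P, h ^ j * x = x * h ^ j → x = 1) := by
  classical
  have hPs : IsPGroup p ↥(P.subgroupOf G) := by
    rintro ⟨⟨x, hx⟩, hx'⟩
    obtain ⟨k, hk⟩ := hP ⟨x, hx'⟩
    have h1 : x ^ p ^ k = 1 := congrArg Subtype.val hk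
    refine ⟨k, Subtype.ext (Subtype.ext ?_)⟩
    exact h1
  let S : Sylow p ↥G :=
    { toSubgroup := P.subgroupOf G
      isPGroup' := hPs
      is_maximal' := by
        intro Q hQ hle
        refine le_antisymm ?_ hle
        have h1 : IsPGroup p ↥(Q.map G.subtype) := hQ.map _
        have h2 : Q.map G.subtype ≤ G := by
          rintro _ ⟨x, -, rfl⟩
          exact x.2
        have h3 : P ≤ Q.map G.subtype := fun x hx => ⟨⟨x, hPG hx⟩, hle hx, rfl⟩
        intro x hx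
        exact hmax _ h2 h1 h3 ⟨x, hx, rfl⟩ }
  have hS : ∀ x : ↥G, x ∈ (S : Subgroup ↥G) ↔ (x : A) ∈ P := fun x => Iff.rfl
  -- TI
  have hTI : ∀ g : ↥G, g ∉ Subgroup.normalizer ((S : Subgroup ↥G) : Set ↥G) → ∀ x ∈ (S : Subgroup ↥G),
      g * x * g⁻¹ ∈ (S : Subgroup ↥G) → x = 1 := by
    intro g hg x hx hgx
    by_contra h1
    apply hg
    refine mem_norm fun y hy => ?_
    rw [hS] at hy hgx hx ⊢
    exact hti g g.2 x hx (fun h => h1 (Subtype.ext h)) hgx y hy
  obtain ⟨g0, hg0, x0, hx0, hgx0⟩ := hnn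
  have hnor : ¬ (S : Subgroup ↥G).Normal := by
    intro hN
    exact hgx0 (hN.conj_mem ⟨x0, hPG hx0⟩ hx0 ⟨g0, hg0⟩)
  have hcS : Nat.card S = p ^ m := by
    rw [← hcard]
    exact Nat.card_congr (Subgroup.subgroupOfEquivOfLe hPG).toEquiv
  obtain ⟨k1, k2, k3⟩ := hRk S hm hTI hnor hcS
    (fun x hx y hy => Subtype.ext (hab x hx y hy)) (fun x hx => Subtype.ext (hexp x hx)) hb
  -- another Sylow subgroup
  have hne0 : ((⟨g0, hg0⟩ : ↥G)⁻¹ • S : Sylow p ↥G) ≠ S := by
    intro h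
    apply hgx0
    have h1 : (⟨x0, hPG hx0⟩ : ↥G) ∈ (((⟨g0, hg0⟩ : ↥G)⁻¹ • S : Sylow p ↥G) : Subgroup ↥G) := by
      rw [h]; exact hx0
    rw [mem_smul, inv_inv] at h1
    exact h1
  obtain ⟨P1, hP1⟩ : ∃ P1 : Sylow p ↥G, P1 ≠ S := ⟨_, hne0⟩
  -- distinct Sylow subgroups intersect trivially
  have htriv : ∀ P2 : Sylow p ↥G, P2 ≠ S → ∀ x ∈ (S : Subgroup ↥G), x ∈ (P2 : Subgroup ↥G) → x = 1 := by
    intro P2 hP2 x hxS hx2
    obtain ⟨g, rfl⟩ := MulAction.exists_smul_eq ↥G S P2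
    rw [mem_smul] at hx2
    have h1 : g ∉ Subgroup.normalizer ((S : Subgroup ↥G) : Set ↥G) := by
      intro h
      exact hP2 (Sylow.smul_eq_iff_mem_normalizer.2 h)
    have h2 := hTI g h1 _ hx2 (by
      have : g * (g⁻¹ * x * g) * g⁻¹ = x := by group
      rwa [this])
    have h3 : x = g * (g⁻¹ * x * g) * g⁻¹ := by group
    rw [h3, h2]; group
  -- Schur-Zassenhaus
  let N : Subgroup ↥G := Subgroup.normalizer ((S : Subgroup ↥G) : Set ↥G)
  have hSN : (S : Subgroup ↥G) ≤ N := Subgroup.le_normalizer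
  let R : Subgroup ↥N := (S : Subgroup ↥G).subgroupOf N
  have hRn : R.Normal := Subgroup.normal_in_normalizer
  let T : Subgroup ↥N := (Subgroup.normalizer ((P1 : Subgroup ↥G) : Set ↥G)).subgroupOf N
  let D : Subgroup ↥N := (H.subgroupOf G).subgroupOf N
  have hRab : ∀ x ∈ R, ∀ y ∈ R, x * y = y * x := by
    intro x hx y hy
    exact Subtype.ext (Subtype.ext (hab _ hx _ hy))
  have hRc : IsMulCommutative ↥R := ⟨⟨fun a b => Subtype.ext (hRab a a.2 b b.2)⟩⟩
  have hRs : Group.IsSolvable ↥R := by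
    let _ : CommGroup ↥R := { (inferInstance : Group ↥R) with mul_comm := fun a b => Subtype.ext (hRab a a.2 b b.2) }
    infer_instance
  have hRcard : Nat.card R = p ^ m := by
    rw [← hcS]
    exact Nat.card_congr (Subgroup.subgroupOfEquivOfLe hSN).toEquiv
  have hDcard : (Nat.card D).Coprime p := by
    have h1 : Nat.card D ∣ Nat.card H := by
      let f : ↥D →* ↥H := { toFun := fun d => ⟨((d : ↥N) : ↥G), d.2⟩, map_one' := rfl, map_mul' := fun _ _ => rfl }
      have hf : Function.Injective f := by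
        intro a b hab
        have h := congrArg Subtype.val hab
        exact Subtype.ext (Subtype.ext (Subtype.ext h))
      exact Subgroup.card_dvd_of_injective f hf
    exact Nat.Coprime.coprime_dvd_left h1 hHc
  obtain ⟨g, hg⟩ := sz_in R D T hRs (by rw [hRcard]; exact Nat.Coprime.pow_right _ hDcard) (by
    rw [eq_bot_iff]
    rintro ⟨x, hx⟩ ⟨hxR, hxT⟩
    have hxS : x ∈ (S : Subgroup ↥G) := hxR
    have hxT' : x ∈ Subgroup.normalizer ((P1 : Subgroup ↥G) : Set ↥G) := hxT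
    have h1 : x ∈ (P1 : Subgroup ↥G) := by
      have h2 : (S : Subgroup ↥G) ⊓ Subgroup.normalizer ((P1 : Subgroup ↥G) : Set ↥G) = (S : Subgroup ↥G) ⊓ (P1 : Subgroup ↥G) :=
        S.2.inf_normalizer_sylow P1
      have h3 : x ∈ (S : Subgroup ↥G) ⊓ Subgroup.normalizer ((P1 : Subgroup ↥G) : Set ↥G) := ⟨hxS, hxT'⟩
      rw [h2] at h3
      exact h3.2
    exact Subgroup.mem_bot.2 (Subtype.ext (htriv P1 hP1 x hxS h1))) (by
    rintro ⟨x, hx⟩
    have hne : (x • P1 : Sylow p ↥G) ≠ S := by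
      intro h
      apply hP1
      have h1 : x • S = S := Sylow.smul_eq_iff_mem_normalizer.2 hx
      have h2 : x • P1 = x • S := by rw [h, h1]
      exact smul_left_cancel x h2
    obtain ⟨y, hy, hyP⟩ := k1 P1 (x • P1) hP1 hne
    have h1 : y⁻¹ * x ∈ Subgroup.normalizer ((P1 : Subgroup ↥G) : Set ↥G) := by
      refine mem_norm fun z hz => ?_
      have h2 : x * z * x⁻¹ ∈ ((x • P1 : Sylow p ↥G) : Subgroup ↥G) := by
        rw [mem_smul]
        have : x⁻¹ * (x * z * x⁻¹) * x = z := by group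
        rwa [this]
      rw [← hyP, mem_map_conj] at h2
      have : y⁻¹ * x * z * (y⁻¹ * x)⁻¹ = y⁻¹ * (x * z * x⁻¹) * y := by group
      rwa [this]
    refine ⟨⟨y⁻¹ * x, mul_mem (inv_mem (hSN hy)) hx⟩, h1, ?_⟩
    show x * (y⁻¹ * x)⁻¹ ∈ (S : Subgroup ↥G)
    have : x * (y⁻¹ * x)⁻¹ = y := by group
    rwa [this])
  -- the invariant Sylow subgroup
  obtain ⟨P2, hP2def⟩ : ∃ P2 : Sylow p ↥G, P2 = ((g : ↥G)⁻¹ • P1) := ⟨_, rfl⟩
  have hP2 : P2 ≠ S := by
    intro h
    apply hP1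
    rw [hP2def] at h
    have h1 : (g : ↥G) • S = S := Sylow.smul_eq_iff_mem_normalizer.2 g.2
    rw [← h1, ← h, smul_inv_smul]
  have hinv : ∀ h : ↥G, (h : A) ∈ H → ∀ y ∈ (P2 : Subgroup ↥G), h * y * h⁻¹ ∈ (P2 : Subgroup ↥G) := by
    intro h hh y hy
    have hhN : h ∈ N := mem_norm fun x hx => by
      rw [hS] at hx ⊢
      exact hHn _ hh _ hx
    have h1 := hg ⟨h, hhN⟩ hh
    have h2 : (g : ↥G) * h * (g : ↥G)⁻¹ ∈ Subgroup.normalizer ((P1 : Subgroup ↥G) : Set ↥G) := h1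
    rw [hP2def, mem_smul, inv_inv] at hy ⊢
    have h3 := (Subgroup.mem_normalizer_iff.1 h2 _).1 hy
    have h4 : (g : ↥G) * h * (g : ↥G)⁻¹ * ((g : ↥G) * y * (g : ↥G)⁻¹) * ((g : ↥G) * h * (g : ↥G)⁻¹)⁻¹ =
        (g : ↥G) * (h * y * h⁻¹) * (g : ↥G)⁻¹ := by group
    rwa [h4] at h3
  -- the answer
  have hmem : ∀ z : A, z ∈ (P2 : Subgroup ↥G).map G.subtype ↔ ∃ hz : z ∈ G, (⟨z, hz⟩ : ↥G) ∈ (P2 : Subgroup ↥G) := by
    intro z
    constructor
    · rintro ⟨y, hy, rfl⟩
      exact ⟨y.2, hy⟩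
    · rintro ⟨hz, h⟩
      exact ⟨⟨z, hz⟩, h, rfl⟩
  -- the swap
  have swap : ∀ s : ↥G, (S : Subgroup ↥G).map (MulAut.conj s).toMonoidHom = P2 →
      (P2 : Subgroup ↥G).map (MulAut.conj s).toMonoidHom = S →
      (∀ z, z ∈ (P2 : Subgroup ↥G).map G.subtype ↔ (s : A) * z * (s : A)⁻¹ ∈ P) ∧
        (∀ z, z ∈ P ↔ (s : A) * z * (s : A)⁻¹ ∈ (P2 : Subgroup ↥G).map G.subtype) := by
    intro s e1 e2
    constructor
    · intro z
      rw [hmem]
      constructor
      · rintro ⟨hz, h⟩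
        have h1 : s * ⟨z, hz⟩ * s⁻¹ ∈ (S : Subgroup ↥G) := by
          rw [← e2, mem_map_conj]
          have : s⁻¹ * (s * ⟨z, hz⟩ * s⁻¹) * s = ⟨z, hz⟩ := by group
          rwa [this]
        exact h1
      · intro h
        have hz : z ∈ G := by
          have h1 := mul_mem (mul_mem (inv_mem s.2) (hPG h)) s.2
          have : (s : A)⁻¹ * ((s : A) * z * (s : A)⁻¹) * (s : A) = z := by group
          rwa [this] at h1
        refine ⟨hz, ?_⟩
        have h1 : s * ⟨z, hz⟩ * s⁻¹ ∈ (S : Subgroup ↥G) := h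
        rw [← e2, mem_map_conj] at h1
        have : s⁻¹ * (s * ⟨z, hz⟩ * s⁻¹) * s = ⟨z, hz⟩ := by group
        rwa [this] at h1
    · intro z
      rw [hmem]
      constructor
      · intro h
        have hz : z ∈ G := hPG h
        refine ⟨mul_mem (mul_mem s.2 hz) (inv_mem s.2), ?_⟩
        have h1 : s * ⟨z, hz⟩ * s⁻¹ ∈ (P2 : Subgroup ↥G) := by
          rw [← e1, mem_map_conj]
          have : s⁻¹ * (s * ⟨z, hz⟩ * s⁻¹) * s = ⟨z, hz⟩ := by group
          rw [this]
          exact h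
        exact h1
      · rintro ⟨hz, h⟩
        have hz' : z ∈ G := by
          have h1 := mul_mem (mul_mem (inv_mem s.2) hz) s.2
          have : (s : A)⁻¹ * ((s : A) * z * (s : A)⁻¹) * (s : A) = z := by group
          rwa [this] at h1
        have h1 : s * ⟨z, hz'⟩ * s⁻¹ ∈ (P2 : Subgroup ↥G) := h
        rw [← e1, mem_map_conj] at h1
        have : s⁻¹ * (s * ⟨z, hz'⟩ * s⁻¹) * s = ⟨z, hz'⟩ := by group
        rw [this] at h1
        exact h1
  refine ⟨(P2 : Subgroup ↥G).map G.subtype, ?_, P2.2.map _, ?_, ?_, ?_, ?_, ?_⟩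
  · rintro _ ⟨x, -, rfl⟩
    exact x.2
  · intro hle
    apply hP2
    have h1 : (P2 : Subgroup ↥G) ≤ (S : Subgroup ↥G) := fun x hx => hle ⟨x, hx, rfl⟩
    exact Sylow.ext (P2.is_maximal' S.2 h1).symm
  · intro h hh y hy
    rw [hmem] at hy ⊢
    obtain ⟨hyG, hy⟩ := hy
    exact ⟨mul_mem (mul_mem (hHG hh) hyG) (inv_mem (hHG hh)), hinv ⟨h, hHG hh⟩ hh ⟨y, hyG⟩ hy⟩
  · intro x hx hx1
    obtain ⟨y, hy, e1, e2⟩ := k2 P2 hP2 ⟨x, hPG hx⟩ hx (fun h => hx1 (congrArg Subtype.val h))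
    exact ⟨y, ⟨y, hy, rfl⟩, swap _ e1 e2⟩
  · intro g hgG
    by_cases hgS : (⟨g, hgG⟩ : ↥G) • S = S
    · refine ⟨1, one_mem _, fun x hx => ?_⟩
      rw [inv_one, one_mul]
      have h1 := Sylow.smul_eq_iff_mem_normalizer.1 hgS
      exact (Subgroup.mem_normalizer_iff.1 h1 ⟨x, hPG hx⟩).1 hx
    · obtain ⟨y, hy, hyP⟩ := k1 P2 _ hP2 hgS
      have hnt : ∃ x ∈ P, x ≠ 1 := by
        by_contra hno
        push Not at hno
        have h1 : P = ⊥ := (Subgroup.eq_bot_iff_forall _).2 hno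
        rw [h1, Subgroup.card_bot] at hcard
        exact absurd hcard (Nat.one_lt_pow (by omega) hp.out.one_lt).ne
      obtain ⟨x1, hx1, hx1'⟩ := hnt
      obtain ⟨y1, hy1, e1, e2⟩ := k2 P2 hP2 ⟨x1, hPG hx1⟩ hx1 (fun h => hx1' (congrArg Subtype.val h))
      refine ⟨(y : A) * (x1 * y1 * x1), ?_, ?_⟩
      · refine mul_mem ((le_sup_left : P ≤ _) hy) (mul_mem (mul_mem ((le_sup_left : P ≤ _) hx1)
          ((le_sup_right : (P2 : Subgroup ↥G).map G.subtype ≤ _) ⟨y1, hy1, rfl⟩)) ((le_sup_left : P ≤ _) hx1))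
      · intro x hx
        have h1 : (⟨g, hgG⟩ : ↥G) * ⟨x, hPG hx⟩ * (⟨g, hgG⟩ : ↥G)⁻¹ ∈ (((⟨g, hgG⟩ : ↥G) • S : Sylow p ↥G) : Subgroup ↥G) := by
          rw [mem_smul]
          have : (⟨g, hgG⟩ : ↥G)⁻¹ * ((⟨g, hgG⟩ : ↥G) * ⟨x, hPG hx⟩ * (⟨g, hgG⟩ : ↥G)⁻¹) * ⟨g, hgG⟩ = ⟨x, hPG hx⟩ := by group
          rw [this]
          exact hx
        rw [← hyP, mem_map_conj, ← e1, mem_map_conj] at h1
        have h2 : ((y : A) * (x1 * y1 * x1))⁻¹ * g * x * (((y : A) * (x1 * y1 * x1))⁻¹ * g)⁻¹ =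
            (x1 * y1 * x1)⁻¹ * ((y : A)⁻¹ * (g * x * g⁻¹) * (y : A)) * (x1 * y1 * x1) := by group
        rw [h2]
        exact h1
  · obtain ⟨h, hh, hh', hj⟩ := k3 P2 hP2
    refine ⟨h, h.2, ?_, ?_, ?_⟩
    · intro x hx
      exact (Subgroup.mem_normalizer_iff.1 hh ⟨x, hPG hx⟩).1 hx
    · intro x hx
      rw [hmem] at hx ⊢
      obtain ⟨hxG, hx⟩ := hx
      exact ⟨mul_mem (mul_mem h.2 hxG) (inv_mem h.2), (Subgroup.mem_normalizer_iff.1 hh' ⟨x, hxG⟩).1 hx⟩
    · intro j hj0 hjm x hx hxj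
      have h1 := hj j hj0 hjm ⟨x, hPG hx⟩ hx (Subtype.ext (by
        show ((h ^ j : ↥G) : A) * x = x * ((h ^ j : ↥G) : A)
        rw [Subgroup.coe_pow]
        exact hxj))
      exact congrArg Subtype.val h1

end Cfsg.Agent.H994.P4
end

-- part: H994/P4/QOneTwo
section
/-!
# S5210: the statement `StQ1` for `p = 2` (helper994)

* `eq_top_of_norm` : an additive subgroup `≠ 0` of `K` invariant under the elements of norm 1 is `K`;
* `stQ1_two` : `StQ1` for `p = 2`.
-/

set_option autoImplicit false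
set_option linter.unusedSectionVars false

namespace Cfsg.Agent.H994.P4

open Cfsg Cfsg.FusionSystem Cfsg.Agent.H776.P4
open Cfsg.Agent.H756.PU (HypK Ess Inv Com NormAut TIAut AF)
open Cfsg.Agent.H802 (exists_conjAut mem_autInducedBy_iff)

universe u

variable {K : Type u} [Field K] [StarRing K] {p n : ℕ}

theorem two_le_q (h : HypK K p n) : 2 ≤ p ^ n := by
  have h1 : p ^ 1 ≤ p ^ n := Nat.pow_le_pow_right h.pp.pos h.hn
  have := h.pp.two_le
  rw [pow_one] at h1
  omega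

/-- a generator of the group of the elements of norm 1 -/
theorem exists_norm_gen (h : HypK K p n) : ∃ ω : K, ω * star ω = 1 ∧ ω ^ (p ^ n + 1) = 1 ∧
    ∀ m, 0 < m → m < p ^ n + 1 → ω ^ m ≠ 1 := by
  have := h.fin
  have hq := two_le_q h
  obtain ⟨g, hg⟩ := IsCyclic.exists_ofOrder_eq_natCard (α := Kˣ)
  have ho : orderOf g = (p ^ n) ^ 2 - 1 := by rw [hg, Nat.card_units, h.card]
  have hfac : (p ^ n) ^ 2 - 1 = (p ^ n - 1) * (p ^ n + 1) := by
    obtain ⟨q, hqq⟩ : ∃ q, p ^ n = q + 1 := ⟨p ^ n - 1, by omega⟩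
    rw [hqq, Nat.add_sub_cancel]
    have : (q + 1) ^ 2 = q * (q + 1 + 1) + 1 := by ring
    rw [this, Nat.add_sub_cancel]
  have h1 : ((g : K) ^ (p ^ n - 1)) ^ (p ^ n + 1) = 1 := by
    rw [← pow_mul, ← hfac, ← ho, ← Units.val_pow_eq_pow_val, pow_orderOf_eq_one, Units.val_one]
  refine ⟨(g : K) ^ (p ^ n - 1), ?_, h1, ?_⟩
  · rw [h.star_eq, ← pow_succ']
    exact h1
  · intro m hm0 hm hm1
    rw [← pow_mul, ← Units.val_pow_eq_pow_val] at hm1
    have h2 := orderOf_dvd_of_pow_eq_one (Units.ext hm1)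
    rw [ho, hfac] at h2
    have h3 := Nat.le_of_dvd hm0 (Nat.dvd_of_mul_dvd_mul_left (by omega) h2)
    omega

theorem eq_top_of_norm (h : HypK K p n) (B : AddSubgroup K) {b0 : K} (hb0 : b0 ∈ B) (hb : b0 ≠ 0) {ω : K}
    (hω0 : ω ≠ 0) (hω : ∀ m, 0 < m → m < p ^ n + 1 → ω ^ m ≠ 1) (hB : ∀ b ∈ B, ω * b ∈ B) : ∀ x : K, x ∈ B := by
  classical
  have := h.fin
  have := Fintype.ofFinite K
  have hq := two_le_q h
  let M0 : Subring K :=
    { carrier := {x | ∀ b ∈ B, x * b ∈ B}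
      mul_mem' := by
        intro x y hx hy b hb
        rw [mul_assoc]
        exact hx _ (hy _ hb)
      one_mem' := by
        intro b hb
        rwa [one_mul]
      add_mem' := by
        intro x y hx hy b hb
        rw [add_mul]
        exact add_mem (hx b hb) (hy b hb)
      zero_mem' := by
        intro b hb
        rw [zero_mul]
        exact zero_mem B
      neg_mem' := by
        intro x hx b hb
        rw [neg_mul]
        exact neg_mem (hx b hb) }
  let M : Subfield K :=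
    { M0 with
      inv_mem' := by
        intro x hx
        by_cases hx0 : x = 0
        · rw [hx0, inv_zero]
          exact M0.zero_mem
        · have h1 : x⁻¹ = x ^ (Fintype.card K - 2) := by
            have h2 := FiniteField.pow_card_sub_one_eq_one x hx0
            have h3 : 1 < Fintype.card K := Fintype.one_lt_card
            have h4 : Fintype.card K - 1 = Fintype.card K - 2 + 1 := by omega
            rw [h4, pow_succ] at h2
            exact (eq_inv_of_mul_eq_one_left h2).symm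
          rw [h1]
          exact M0.pow_mem hx _ }
  have hMmem : ∀ x, x ∈ M ↔ ∀ b ∈ B, x * b ∈ B := fun x => Iff.rfl
  have hωM : ω ∈ M := hB
  -- cardinalities
  have h1 : p ^ n + 1 ≤ Nat.card M := by
    have h2 : Nat.card (Fin (p ^ n + 1)) ≤ Nat.card M := by
      refine Nat.card_le_card_of_injective (fun i : Fin (p ^ n + 1) => (⟨ω ^ (i : ℕ), M.pow_mem hωM _⟩ : M)) ?_
      intro i j hij
      have h3 : ω ^ (i : ℕ) = ω ^ (j : ℕ) := congrArg Subtype.val hij
      by_contra hne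
      rcases lt_or_gt_of_ne (fun hh => hne (Fin.ext hh)) with hlt | hlt
      · have h4 : ω ^ (i : ℕ) * 1 = ω ^ (i : ℕ) * ω ^ ((j : ℕ) - i) := by
          rw [mul_one, ← pow_add, Nat.add_sub_cancel' hlt.le]
          exact h3
        exact hω _ (by omega) (by omega) (mul_left_cancel₀ (pow_ne_zero _ hω0) h4).symm
      · have h4 : ω ^ (j : ℕ) * 1 = ω ^ (j : ℕ) * ω ^ ((i : ℕ) - j) := by
          rw [mul_one, ← pow_add, Nat.add_sub_cancel' hlt.le]
          exact h3.symm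
        exact hω _ (by omega) (by omega) (mul_left_cancel₀ (pow_ne_zero _ hω0) h4).symm
    rwa [Nat.card_fin] at h2
  have h2 : Nat.card K = Nat.card M ^ Module.finrank M K := Module.natCard_eq_pow_finrank
  have h3 : 0 < Module.finrank M K := Module.finrank_pos
  have h4 : Module.finrank M K = 1 := by
    by_contra hne
    have h5 : (p ^ n + 1) ^ 2 ≤ Nat.card M ^ Module.finrank M K :=
      (Nat.pow_le_pow_left h1 2).trans (Nat.pow_le_pow_right (by omega) (by omega))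
    rw [← h2, h.card] at h5
    have h6 := (Nat.pow_le_pow_iff_left (by norm_num : (2 : ℕ) ≠ 0)).1 h5
    omega
  rw [h4, pow_one] at h2
  intro x
  have hx : ∀ y : K, y ∈ M := by
    intro y
    have h5 : (M : Set K) = Set.univ := by
      apply Set.eq_of_subset_of_ncard_le (Set.subset_univ _)
      rw [Set.ncard_univ, h2]
      exact le_of_eq rfl
    have : y ∈ (M : Set K) := by rw [h5]; exact Set.mem_univ y
    exact this
  have h5 := (hMmem _).1 (hx (x * b0⁻¹)) b0 hb0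
  rwa [mul_assoc, inv_mul_cancel₀ hb, mul_one] at h5

/-! ### the restriction of `D` -/

section res

/-- the restriction to an invariant subgroup -/
def res (D : Subgroup (MulAut (PG K))) (Q : Subgroup (PG K)) (hD : ∀ d ∈ D, ∀ x : PG K, x ∈ Q → d x ∈ Q) :
    ↥D →* MulAut Q where
  toFun d :=
    { toFun := fun e => ⟨d.1 e, hD _ d.2 _ e.2⟩
      invFun := fun e => ⟨(d⁻¹).1 e, hD _ (d⁻¹).2 _ e.2⟩
      left_inv := fun e => Subtype.ext (by
        show (d.1)⁻¹ (d.1 e) = e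
        exact MulEquiv.symm_apply_apply _ _)
      right_inv := fun e => Subtype.ext (by
        show d.1 ((d.1)⁻¹ e) = e
        exact MulEquiv.apply_symm_apply _ _)
      map_mul' := fun x y => Subtype.ext (map_mul d.1 _ _) }
  map_one' := by
    ext1 e
    rfl
  map_mul' d d' := by
    ext1 e
    rfl

theorem isRP_res {D : Subgroup (MulAut (PG K))} {Q : Subgroup (PG K)} (hD : ∀ d ∈ D, ∀ x : PG K, x ∈ Q → d x ∈ Q) (d : ↥D) :
    IsRP d.1 (res D Q hD d) := fun _ => rfl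

theorem isRP_unique {α : MulAut (PG K)} {Q : Subgroup (PG K)} {γ δ : MulAut Q} (h1 : IsRP α γ) (h2 : IsRP α δ) : γ = δ := by
  ext1 e
  exact Subtype.ext ((h1 e).trans (h2 e).symm)

end res

theorem card_TG (h : HypK K p n) : Nat.card (TG K) = p ^ n := by
  have := h.fin
  have := Fintype.ofFinite K
  have hF : Fintype.card K = (p ^ n) ^ 2 := by rw [← Nat.card_eq_fintype_card, h.card]
  rw [← Cfsg.Agent.LieClassical.HermBasic.card_fixed hF]
  refine (Nat.card_congr (Equiv.ofBijective (fun x : {x : K // x ^ (p ^ n) = x} =>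
    (⟨tau x.1, x.1, by rw [h.star_eq]; exact x.2, rfl⟩ : ↥(TG K))) ⟨?_, ?_⟩)).symm
  · intro x y hxy
    exact Subtype.ext (tau_injective (congrArg Subtype.val hxy))
  · rintro ⟨_, c, hc, rfl⟩
    exact ⟨⟨c, by rw [← h.star_eq]; exact hc⟩, rfl⟩

theorem exp_TG (h : HypK K p n) : ∀ x ∈ TG K, x ^ p = 1 := by
  have := h.char
  rintro _ ⟨c, -, rfl⟩
  have key : ∀ k : ℕ, tau c ^ k = tau ((k : K) * c) := by
    intro k
    induction k with
    | zero => rw [pow_zero, Nat.cast_zero, zero_mul, tau_zero]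
    | succ k ih => rw [pow_succ, ih, ← tau_add, Nat.cast_succ, add_mul, one_mul]
  rw [key, CharP.cast_eq_zero, zero_mul, tau_zero]

theorem comm_TG : ∀ x ∈ TG K, ∀ y ∈ TG K, x * y = y * x := by
  rintro _ ⟨c, -, rfl⟩ _ ⟨d, -, rfl⟩
  rw [← tau_add, ← tau_add, add_comm]

/-- the automorphisms of `Q` preserve the centre -/
theorem aut_Z (h : HypK K p n) (γ : MulAut (PQ K)) {z : PQ K} (hz : uu (z : PG K) = 0) : uu ((γ z : PQ K) : PG K) = 0 := by
  rw [← central_iff h] at hz ⊢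
  intro y
  obtain ⟨w, rfl⟩ := γ.surjective y
  rw [← map_mul, hz, map_mul]

/-- **`StQ1` for `p = 2`.** -/
theorem stQ1_two (hRk : StRk.{u}) (hG : StGrp.{u}) {K : Type u} [Field K] [StarRing K] {p n : ℕ} (h : HypK K p n)
    (hp2 : p = 2) (hq : 3 < p ^ n) (Γ : Subgroup (MulAut (PQ K))) (D : Subgroup (MulAut (PG K))) (hp : ParP p (PQ K) Γ D)
    (hT : HasTorP D (fun t => t ^ 2) (fun t => (t * star t)⁻¹)) :
    ∃ Rm : Subgroup (MulAut (PQ K)), Rm ≤ Γ ∧ Inn (PQ K) ≤ Rm ∧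
      (∀ d ∈ D, ∀ δ : MulAut (PQ K), IsRP d δ → ∀ y ∈ Rm, δ * y * δ⁻¹ ∈ Rm) ∧
      (∀ x ∈ autInducedBy ⊤ (PQ K), x ∉ Inn (PQ K) → ∃ y ∈ Rm,
        (∀ z, z ∈ Rm ↔ (x * y * x) * z * (x * y * x)⁻¹ ∈ autInducedBy ⊤ (PQ K)) ∧
        (∀ z, z ∈ autInducedBy ⊤ (PQ K) ↔ (x * y * x) * z * (x * y * x)⁻¹ ∈ Rm)) ∧
      (∀ γ ∈ Γ, ∃ g ∈ autInducedBy ⊤ (PQ K) ⊔ Rm, NormAut (⊤ : Subgroup (PG K)) (g⁻¹ * γ)) ∧
      (∀ v : PQ K, (v : PG K) ∈ PY K → (∀ y ∈ Rm, ((y v : PQ K) : PG K) * (v : PG K)⁻¹ ∈ PZ K) → (v : PG K) ∈ PZ K) := by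
  classical
  have hpf : Fact p.Prime := ⟨h.pp⟩
  have hfinA : Finite (A2 K) := by
    have := h.fin
    exact Finite.of_injective (fun g : A2 K => (g : K × K → K × K)) DFunLike.coe_injective
  have hchar := h.char
  have hn2 : 2 ≤ n := by
    by_contra hno
    have : n = 1 := by have := h.hn; omega
    rw [this, hp2] at hq
    norm_num at hq
  -- the restriction of `D`
  have hDQ : ∀ d ∈ D, ∀ x : PG K, x ∈ PQ K → d x ∈ PQ K := by
    intro d hd x hx
    obtain ⟨s, l, τ, hd'⟩ := (hG h).2.2.2.1 d (hp.D_le hd)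
    show (d x).c = 0
    have hx' : x.c = 0 := hx
    rw [hd'.c, hx', map_zero, mul_zero]
  obtain ⟨ρ, hρ⟩ : ∃ ρ, ρ = res D (PQ K) hDQ := ⟨_, rfl⟩
  have hρR : ∀ d : ↥D, IsRP d.1 (ρ d) := fun d => by rw [hρ]; exact isRP_res hDQ d
  have hρΓ : ∀ d : ↥D, ρ d ∈ Γ := fun d => hp.D_res d.1 d.2 _ (hρR d)
  let H : Subgroup (A2 K) := ((pi h).comp ρ).range
  have hHG : H ≤ Γ.map (pi h) := by
    rintro _ ⟨d, rfl⟩
    exact ⟨ρ d, hρΓ d, rfl⟩
  have hHn : ∀ g ∈ H, ∀ x ∈ TG K, g * x * g⁻¹ ∈ TG K := by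
    rintro _ ⟨d, rfl⟩ x hx
    obtain ⟨x', hx', rfl⟩ := exists_of_mem_TG h hx
    show pi h (ρ d) * pi h x' * (pi h (ρ d))⁻¹ ∈ TG K
    rw [← map_inv, ← map_mul, ← map_mul]
    apply pi_mem_TG h
    obtain ⟨y, -, hy⟩ := (mem_autInducedBy_iff _ _ _).1 hx'
    refine (mem_autInducedBy_iff _ _ _).2 ⟨d.1 y, Subgroup.mem_top _, fun e => ?_⟩
    have h1 : (ρ d * x' * (ρ d)⁻¹) e = ρ d (x' ((ρ d)⁻¹ e)) := rfl
    rw [h1, hρR, hy, map_mul, map_mul, map_inv]
    have h2 : d.1 (((ρ d)⁻¹ e : PQ K) : PG K) = (e : PG K) := by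
      rw [← hρR]
      exact congrArg Subtype.val (MulEquiv.apply_symm_apply (ρ d) e)
    rw [h2]
  have hHc : (Nat.card H).Coprime p := Nat.Coprime.coprime_dvd_left (Subgroup.card_range_dvd _) hp.D_cop
  have hTGp : IsPGroup p (TG K) := IsPGroup.of_card (card_TG h)
  obtain ⟨Pm, hPmG, hPmp, hPmP, hPmH, hswap, hcos, -⟩ := exists_opp hRk (m := n) (TG_le h hp) hTGp (TG_max h hp) (TG_ti h hp)
    (TG_nn h hp) hn2 (card_TG h) comm_TG (exp_TG h) (fun h2 => absurd hp2 h2) hHG hHn hHc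
  obtain ⟨Rm, hRm⟩ : ∃ Rm, Rm = Γ ⊓ Pm.comap (pi h) := ⟨_, rfl⟩
  have hRmem : ∀ z, z ∈ Rm ↔ z ∈ Γ ∧ pi h z ∈ Pm := fun z => by rw [hRm]; exact Iff.rfl
  have hRlift : ∀ y ∈ Pm, ∃ z ∈ Rm, pi h z = y := by
    intro y hy
    obtain ⟨z, hz, rfl⟩ := hPmG hy
    exact ⟨z, (hRmem z).2 ⟨hz, hy⟩, rfl⟩
  have hAΓ : ∀ {z : MulAut (PQ K)}, z ∈ autInducedBy ⊤ (PQ K) → z ∈ Γ := fun hz => hp.indu hz
  -- the swaps
  have hsw : ∀ x ∈ autInducedBy ⊤ (PQ K), x ∉ Inn (PQ K) → ∃ y ∈ Rm,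
        (∀ z, z ∈ Rm ↔ (x * y * x) * z * (x * y * x)⁻¹ ∈ autInducedBy ⊤ (PQ K)) ∧
        (∀ z, z ∈ autInducedBy ⊤ (PQ K) ↔ (x * y * x) * z * (x * y * x)⁻¹ ∈ Rm) := by
    intro x hx hxI
    obtain ⟨y', hy', e1, e2⟩ := hswap (pi h x) (pi_mem_TG h hx) (fun h1 => hxI (mem_inn h hx h1))
    obtain ⟨y, hy, rfl⟩ := hRlift y' hy'
    have hyΓ := ((hRmem y).1 hy).1
    have hs : x * y * x ∈ Γ := mul_mem (mul_mem (hAΓ hx) hyΓ) (hAΓ hx)
    have hπ : ∀ z, pi h ((x * y * x) * z * (x * y * x)⁻¹) =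
        (pi h x * pi h y * pi h x) * pi h z * (pi h x * pi h y * pi h x)⁻¹ := by
      intro z
      rw [map_mul, map_mul, map_inv, map_mul, map_mul]
    have hΓc : ∀ z, (x * y * x) * z * (x * y * x)⁻¹ ∈ Γ → z ∈ Γ := by
      intro z hz
      have h1 := mul_mem (mul_mem (_root_.InvMemClass.inv_mem hs) hz) hs
      have h2 : (x * y * x)⁻¹ * ((x * y * x) * z * (x * y * x)⁻¹) * (x * y * x) = z := by group
      rwa [h2] at h1
    refine ⟨y, hy, fun z => ⟨fun hz => ?_, fun hz => ?_⟩, fun z => ⟨fun hz => ?_, fun hz => ?_⟩⟩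
    · obtain ⟨h1, h2⟩ := (hRmem z).1 hz
      rw [← mem_aut_iff h hp (mul_mem (mul_mem hs h1) (_root_.InvMemClass.inv_mem hs)), hπ]
      exact (e1 _).1 h2
    · have h1 := pi_mem_TG h hz
      rw [hπ] at h1
      exact (hRmem z).2 ⟨hΓc z (hAΓ hz), (e1 _).2 h1⟩
    · refine (hRmem _).2 ⟨mul_mem (mul_mem hs (hAΓ hz)) (_root_.InvMemClass.inv_mem hs), ?_⟩
      rw [hπ]
      exact (e2 _).1 (pi_mem_TG h hz)
    · obtain ⟨h1, h2⟩ := (hRmem _).1 hz
      rw [hπ] at h2
      rw [← mem_aut_iff h hp (hΓc z h1)]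
      exact (e2 _).2 h2
  refine ⟨Rm, fun z hz => ((hRmem z).1 hz).1, ?_, ?_, hsw, ?_, ?_⟩
  · -- inner automorphisms
    intro z hz
    refine (hRmem z).2 ⟨?_, ?_⟩
    · obtain ⟨x, rfl⟩ := hz
      exact hAΓ ((mem_autInducedBy_iff _ _ _).2 ⟨(x : PG K), Subgroup.mem_top _, fun e => rfl⟩)
    · rw [pi_inn h hz]
      exact one_mem _
  · -- `D`-invariance
    intro d hd δ hδ y hy
    obtain ⟨h1, h2⟩ := (hRmem y).1 hy
    have hδ' : δ = ρ ⟨d, hd⟩ := isRP_unique hδ (hρR ⟨d, hd⟩)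
    have h3 : δ ∈ Γ := hp.D_res d hd δ hδ
    refine (hRmem _).2 ⟨mul_mem (mul_mem h3 h1) (_root_.InvMemClass.inv_mem h3), ?_⟩
    rw [map_mul, map_mul, map_inv]
    exact hPmH _ ⟨⟨d, hd⟩, by rw [hδ']; rfl⟩ _ h2
  · -- cosets
    intro γ hγ
    obtain ⟨w, hw, hwn⟩ := hcos (pi h γ) ⟨γ, hγ, rfl⟩
    have hmap : TG K ⊔ Pm ≤ (autInducedBy ⊤ (PQ K) ⊔ Rm).map (pi h) := by
      rw [Subgroup.map_sup]
      refine sup_le_sup ?_ ?_
      · intro x hx
        obtain ⟨x', hx', rfl⟩ := exists_of_mem_TG h hx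
        exact ⟨x', hx', rfl⟩
      · intro y hy
        obtain ⟨z, hz, rfl⟩ := hRlift y hy
        exact ⟨z, hz, rfl⟩
    obtain ⟨g, hg, rfl⟩ := hmap hw
    have hgΓ : g ∈ Γ := (sup_le (fun x hx => hAΓ hx) (fun z hz => ((hRmem z).1 hz).1) :
      autInducedBy ⊤ (PQ K) ⊔ Rm ≤ Γ) hg
    refine ⟨g, hg, fun x hx => ?_⟩
    have h1 := hwn _ (pi_mem_TG h hx)
    rw [← map_inv, ← map_mul, ← map_inv, ← map_mul, ← map_mul] at h1
    have h2 : g⁻¹ * γ ∈ Γ := mul_mem (_root_.InvMemClass.inv_mem hgΓ) hγ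
    exact (mem_aut_iff h hp (mul_mem (mul_mem h2 (hAΓ hx)) (_root_.InvMemClass.inv_mem h2))).1 h1
  · -- no fixed points
    intro v hvY hv
    have hvr : (v : PG K).r = 0 := hvY.1
    have hvc : (v : PG K).c = 0 := hvY.2
    refine ⟨hvr, ?_, hvc⟩
    by_contra hb
    -- the additive group of the fixed points
    let B : AddSubgroup K :=
      { carrier := {b | ∀ y ∈ Pm, y (b, 0) = (b, 0)}
        zero_mem' := fun y _ => map_zero y
        add_mem' := by
          intro a b ha hb y hy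
          have h1 : ((a + b, 0) : K × K) = (a, 0) + (b, 0) := by rw [Prod.mk_add_mk, add_zero]
          rw [h1, map_add, ha y hy, hb y hy]
        neg_mem' := by
          intro a ha y hy
          have h1 : ((-a, 0) : K × K) = -(a, 0) := by rw [Prod.neg_mk, neg_zero]
          rw [h1, map_neg, ha y hy] }
    have hBmem : ∀ b, b ∈ B ↔ ∀ y ∈ Pm, y (b, 0) = (b, 0) := fun b => Iff.rfl
    have hvB : (v : PG K).b ∈ B := by
      rw [hBmem]
      intro y hy
      obtain ⟨z, hz, rfl⟩ := hRlift y hy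
      have h1 := hv z hz
      have h2 : uu (v : PG K) = ((v : PG K).b, 0) := by rw [← hvr]; rfl
      rw [← h2, pi_uu]
      have h3 : ((z v : PQ K) : PG K) * (v : PG K)⁻¹ = ((z v * v⁻¹ : PQ K) : PG K) := rfl
      rw [h3] at h1
      have h4 : uu ((z v * v⁻¹ : PQ K) : PG K) = 0 := Prod.ext h1.2.1 h1.1
      rw [uu_mul, uu_inv, add_neg_eq_zero] at h4
      exact h4
    obtain ⟨ω, hωn, hωp, hω⟩ := exists_norm_gen h
    have hω0 : ω ≠ 0 := by
      rintro rfl
      rw [zero_mul] at hωn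
      exact zero_ne_one hωn
    -- squares of `ω`
    have hsq : ∀ b ∈ B, ω ^ 2 * b ∈ B := by
      intro b hb
      obtain ⟨α, hα⟩ := (hG h).2.2.1 (ω ^ 2) 1 (RingEquiv.refl K) (pow_ne_zero _ hω0) one_ne_zero (star_one K)
      have hαD : α ∈ D := hT ω hω0 α (by
        show IsTorP α (ω ^ 2) (ω * star ω)⁻¹ (RingEquiv.refl K)
        rw [hωn, inv_one]
        exact hα)
      rw [hBmem] at hb ⊢
      intro y hy
      have h1 : pi h (ρ ⟨α, hαD⟩) (b, 0) = (ω ^ 2 * b, 0) := by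
        rw [pi_tor h hα (hρR ⟨α, hαD⟩)]
        show (ω ^ 2 * 1 * b, ω ^ 2 * 0) = (ω ^ 2 * b, 0)
        rw [mul_one, mul_zero]
      have hg : pi h (ρ ⟨α, hαD⟩) ∈ H := ⟨⟨α, hαD⟩, rfl⟩
      have h2 := hPmH _ (_root_.InvMemClass.inv_mem hg) y hy
      rw [inv_inv] at h2
      have h3 := hb _ h2
      have h4 : (pi h (ρ ⟨α, hαD⟩)) (((pi h (ρ ⟨α, hαD⟩))⁻¹ * y * pi h (ρ ⟨α, hαD⟩)) (b, 0)) =
          y (pi h (ρ ⟨α, hαD⟩) (b, 0)) := by
        show (pi h (ρ ⟨α, hαD⟩)) ((pi h (ρ ⟨α, hαD⟩))⁻¹ (y (pi h (ρ ⟨α, hαD⟩) (b, 0)))) = _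
        exact LinearEquiv.apply_symm_apply _ _
      rw [← h1, ← h4, h3]
    have hmul : ∀ b ∈ B, ω * b ∈ B := by
      have hpow : ∀ k : ℕ, ∀ b ∈ B, (ω ^ 2) ^ k * b ∈ B := by
        intro k
        induction k with
        | zero => intro b hb; rw [pow_zero, one_mul]; exact hb
        | succ k ih => intro b hb; rw [pow_succ, mul_assoc]; exact ih _ (hsq b hb)
      intro b hb
      obtain ⟨j, hj⟩ : 2 ∣ p ^ n := by rw [hp2]; exact dvd_pow_self 2 (by omega)
      have h1 : (ω ^ 2) ^ (j + 1) = ω := by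
        rw [← pow_mul]
        have h2 : 2 * (j + 1) = (p ^ n + 1) + 1 := by omega
        rw [h2, pow_succ, hωp, one_mul]
      have h2 := hpow (j + 1) b hb
      rwa [h1] at h2
    have hall := eq_top_of_norm h B hvB hb hω0 hω hmul
    -- all elements of `Rm` act trivially on `Z`
    obtain ⟨x0, hx0A, hx0I⟩ : ∃ x ∈ autInducedBy ⊤ (PQ K), x ∉ Inn (PQ K) := by
      by_contra hno
      push Not at hno
      obtain ⟨g, hg, t, ht, hgt⟩ := TG_nn h hp
      obtain ⟨t', ht', rfl⟩ := exists_of_mem_TG h ht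
      apply hgt
      rw [pi_inn h (hno t' ht'), mul_one, mul_inv_cancel]
      exact one_mem _
    obtain ⟨y0, hy0, e1, e2⟩ := hsw x0 hx0A hx0I
    have hZ : ∀ γ ∈ Rm, ∀ z : PQ K, uu (z : PG K) = 0 → γ z = z := by
      intro γ hγ z hz
      have h1 := (e1 γ).1 hγ
      obtain ⟨s, hs⟩ : ∃ s, s = x0 * y0 * x0 := ⟨_, rfl⟩
      rw [← hs] at h1
      obtain ⟨x, -, hx⟩ := (mem_autInducedBy_iff _ _ _).1 h1
      have h2 : (s * γ * s⁻¹) (s z) = s z := by
        apply Subtype.ext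
        rw [hx]
        have h3 := aut_Z h s hz
        have h4 : ((s z : PQ K) : PG K).b = 0 := congrArg Prod.fst h3
        have h5 : ((s z : PQ K) : PG K).r = 0 := congrArg Prod.snd h3
        have h6 := c_Q (s z)
        rw [mul_inv_eq_iff_eq_mul]
        apply PG.ext
        · rw [PG.mul_r, PG.mul_r, h5]; ring
        · rw [PG.mul_a, PG.mul_a, h4, h5, h6, star_zero]; ring
        · rw [PG.mul_b, PG.mul_b, h4, h5, h6]; ring
        · rw [PG.mul_c, PG.mul_c, h6]; ring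
      have h3 : (s * γ * s⁻¹) (s z) = s (γ z) := by
        show s (γ (s⁻¹ (s z))) = s (γ z)
        have : s⁻¹ (s z) = z := MulEquiv.symm_apply_apply s z
        rw [this]
      rw [h3] at h2
      exact s.injective h2
    -- and on `Q / Y`
    have hQY : ∀ y ∈ Pm, ∀ u : K × K, (y u).2 = u.2 := by
      intro y hy u
      obtain ⟨γ, hγ, rfl⟩ := hRlift y hy
      have h1 : ∀ b : K, uu ((γ (eQ (b, 0)) : PQ K) : PG K) = (b, 0) := by
        intro b
        rw [← pi_uu h]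
        exact (hBmem b).1 (hall b) _ hy
      have h2 : (pi h γ u) = uu ((γ (eQ u) : PQ K) : PG K) := rfl
      have h3 : (((γ (eQ u) : PQ K) : PG K).r - u.2) = 0 := by
        apply tr_nondeg h
        intro b
        obtain ⟨k0, ka⟩ := comm_eq (eQ u) (eQ (b, 0))
        obtain ⟨l0, la⟩ := comm_eq (γ (eQ u)) (γ (eQ (b, 0)))
        have h4 := hZ γ hγ _ k0
        rw [map_mul, map_mul, map_mul, map_inv, map_inv] at h4
        rw [h4, ka] at la
        have h5 : ((γ (eQ (b, 0)) : PQ K) : PG K).b = b := congrArg Prod.fst (h1 b)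
        have h6 : ((γ (eQ (b, 0)) : PQ K) : PG K).r = 0 := congrArg Prod.snd (h1 b)
        rw [h5, h6] at la
        have h7 : u.2 * star b + star u.2 * b =
            ((γ (eQ u) : PQ K) : PG K).r * star b + star ((γ (eQ u) : PQ K) : PG K).r * b := by
          have la' : u.2 * star b + star u.2 * b - (0 * star u.1 + star 0 * u.1) =
            ((γ (eQ u) : PQ K) : PG K).r * star b + star ((γ (eQ u) : PQ K) : PG K).r * b -
              (0 * star ((γ (eQ u) : PQ K) : PG K).b + star 0 * ((γ (eQ u) : PQ K) : PG K).b) := la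
          rw [star_zero] at la'
          linear_combination la'
        rw [star_sub]
        linear_combination -h7
      rw [h2]
      exact sub_eq_zero.1 h3
    -- so they generate a `p`-group with `TG K`
    obtain ⟨U1, hU⟩ : ∃ U1 : Subgroup (A2 K), ∀ g, g ∈ U1 ↔ g ∈ Γ.map (pi h) ∧ (∀ u : K × K, (g u).2 = u.2) ∧
        ∀ b : K, g (b, 0) = (b, 0) := by
      refine ⟨{ carrier := {g | g ∈ Γ.map (pi h) ∧ (∀ u : K × K, (g u).2 = u.2) ∧ ∀ b : K, g (b, 0) = (b, 0)},
                one_mem' := ⟨one_mem _, fun _ => rfl, fun _ => rfl⟩,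
                mul_mem' := ?_, inv_mem' := ?_ }, fun g => Iff.rfl⟩
      · rintro a b ⟨ha, ha2, ha0⟩ ⟨hb, hb2, hb0⟩
        refine ⟨mul_mem ha hb, fun u => ?_, fun x => ?_⟩
        · rw [LinearEquiv.mul_apply, ha2, hb2]
        · rw [LinearEquiv.mul_apply, hb0, ha0]
      · rintro a ⟨ha, ha2, ha0⟩
        have ai : ∀ u, a (a⁻¹ u) = u := fun u => LinearEquiv.apply_symm_apply a u
        refine ⟨_root_.InvMemClass.inv_mem ha, fun u => ?_, fun x => ?_⟩
        · have := ha2 (a⁻¹ u)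
          rw [ai] at this
          exact this.symm
        · apply a.injective
          rw [ai, ha0]
    have hUp : IsPGroup p U1 := by
      rintro ⟨g, hg⟩
      obtain ⟨-, h2, h0⟩ := (hU g).1 hg
      refine ⟨1, ?_⟩
      apply Subtype.ext
      show g ^ p ^ 1 = 1
      rw [pow_one]
      have key : ∀ (k : ℕ) (u : K × K), (g ^ k) u = u + k • (g u - u) := by
        intro k
        induction k with
        | zero => intro u; rw [pow_zero, zero_smul, add_zero]; rfl
        | succ k ih =>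
          intro u
          have h3 : (g u - u).2 = 0 := by rw [Prod.snd_sub, h2, sub_self]
          have h4 : g (k • (g u - u)) = k • (g u - u) := by
            have h5 : k • (g u - u) = ((k • (g u - u)).1, 0) := by
              ext
              · rfl
              · rw [Prod.smul_snd, h3, smul_zero]
            rw [h5, h0]
          rw [pow_succ', LinearEquiv.mul_apply, ih, map_add, h4, add_smul, one_smul]
          abel
      apply LinearEquiv.ext
      intro u
      rw [key]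
      have h6 : p • (g u - u) = 0 := by
        ext
        · rw [Prod.smul_fst, nsmul_eq_mul, CharP.cast_eq_zero, zero_mul]; rfl
        · rw [Prod.smul_snd, nsmul_eq_mul, CharP.cast_eq_zero, zero_mul]; rfl
      rw [h6, add_zero]
      rfl
    have hTU : TG K ≤ U1 := by
      intro g hg
      have hg' := hg
      obtain ⟨c, -, rfl⟩ := hg
      exact (hU _).2 ⟨TG_le h hp hg', fun u => rfl, fun b => by rw [tau_apply, mul_zero, add_zero]⟩
    have hmax := TG_max h hp U1 (fun g hg => ((hU g).1 hg).1) hUp hTU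
    exact hPmP fun y hy => hmax ((hU y).2 ⟨hPmG hy, hQY y hy, fun b => (hBmem b).1 (hall b) y hy⟩)


end Cfsg.Agent.H994.P4
end

private theorem dce_f587d5bf32e3 : _root_.True := by
  try have : _root_.True := by simp only [_root_.Cfsg.Agent.H776.P4.TP.eq_1]
  try have : _root_.True := by simp only [_root_.Cfsg.Agent.H776.P4.EA.eq_1]
  try have : _root_.True := by simp only [_root_.Cfsg.Agent.H64.P4.dt.eq_1]
  exact _root_.True.intro
end

-- part: H12/P4/NrmQ
section
prune_inst 0xe4100600312202000018059471001c22d20005920008000080010c0004810c4264000021b22035114808284420380060030000e0424000000a200400011d00a080800000a2480104260089800080000000000000000000000000000000000004000000000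
set_option linter.all false
open scoped Cfsg.Agent.FastGrp

-- part: H12/P4/Fld
section
/-!
# S5210 (U₆(2)): the field with four elements, monomial matrices
-/

set_option autoImplicit false

namespace Cfsg.Agent.H12.P4

/-- the field with four elements -/
inductive L : Type
  | z | o | w | v
  deriving DecidableEq

instance : Fintype L := ⟨{L.z, L.o, L.w, L.v}, by intro x; cases x <;> decide⟩

namespace L

def add : L → L → L
  | z, x => x
  | x, z => x
  | o, o => z
  | o, w => v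
  | o, v => w
  | w, o => v
  | w, w => z
  | w, v => o
  | v, o => w
  | v, w => o
  | v, v => z

def mul : L → L → L
  | z, _ => z
  | _, z => z
  | o, x => x
  | x, o => x
  | w, w => v
  | w, v => o
  | v, w => o
  | v, v => w

def inv : L → L
  | z => z
  | o => o
  | w => v
  | v => w

instance : Zero L := ⟨z⟩
instance : One L := ⟨o⟩
instance : Add L := ⟨add⟩
instance : Mul L := ⟨mul⟩
instance : Neg L := ⟨id⟩
instance : Inv L := ⟨inv⟩

instance : Field L where
  add_assoc := by decide +kernel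
  zero_add := by decide
  add_zero := by decide
  add_comm := by decide
  neg_add_cancel := by decide
  mul_assoc := by decide
  one_mul := by decide
  mul_one := by decide
  mul_comm := by decide
  left_distrib := by decide
  right_distrib := by decide +kernel
  zero_mul := by decide
  mul_zero := by decide
  exists_pair_ne := ⟨z, o, by decide⟩
  mul_inv_cancel := by decide
  inv_zero := rfl
  nsmul := nsmulRec
  zsmul := zsmulRec
  nnqsmul := _
  nnqsmul_def := fun _ _ => rfl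
  qsmul := _
  qsmul_def := fun _ _ => rfl

instance : StarRing L where
  star := inv
  star_involutive := by unfold Function.Involutive; decide
  star_mul := by decide
  star_add := by decide

end L

/-- the cube roots of unity -/
def wp (k : ZMod 3) : L := if k = 0 then 1 else if k = 1 then L.w else L.v

theorem wp_zero : wp 0 = 1 := rfl

theorem wp_add : ∀ a b : ZMod 3, wp (a + b) = wp a * wp b := by decide

theorem wp_ne : ∀ a : ZMod 3, wp a ≠ 0 := by decide

theorem star_wp : ∀ a : ZMod 3, star (wp a) = wp (-a) := by decide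

theorem exists_wp : ∀ x : L, x ≠ 0 → ∃ k, x = wp k := by decide

theorem wp_inj : ∀ a b : ZMod 3, wp a = wp b → a = b := by decide

theorem wp_sum {n : Type*} (s : Finset n) (e : n → ZMod 3) : wp (∑ i ∈ s, e i) = ∏ i ∈ s, wp (e i) := by
  classical
  induction s using Finset.induction_on with
  | empty => rfl
  | insert a s ha ih => rw [Finset.sum_insert ha, Finset.prod_insert ha, wp_add, ih]

theorem neg_eq : ∀ x : L, -x = x := by decide

section mm

variable {n : Type*} [Fintype n] [DecidableEq n]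

/-- the monomial matrix `e_k ↦ ω^(e k) e_(π k)` -/
def mm (π : Equiv.Perm n) (e : n → ZMod 3) : Matrix n n L := fun i k => if i = π k then wp (e k) else 0

omit [Fintype n] in
theorem mm_apply (π : Equiv.Perm n) (e : n → ZMod 3) (i k : n) : mm π e i k = if i = π k then wp (e k) else 0 := rfl

theorem mm_mul (π ρ : Equiv.Perm n) (e f : n → ZMod 3) :
    mm π e * mm ρ f = mm (π * ρ) (fun k => f k + e (ρ k)) := by
  ext i k
  rw [Matrix.mul_apply, Finset.sum_eq_single (ρ k)]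
  · rw [mm_apply, mm_apply, mm_apply, if_pos rfl, Equiv.Perm.mul_apply]
    by_cases h : i = π (ρ k)
    · rw [if_pos h, if_pos h, wp_add, mul_comm]
    · rw [if_neg h, if_neg h, zero_mul]
  · intro j _ hj
    rw [mm_apply ρ, if_neg hj, mul_zero]
  · intro h
    exact absurd (Finset.mem_univ _) h

omit [Fintype n] in
theorem mm_one : mm (1 : Equiv.Perm n) 0 = 1 := by
  ext i k
  rw [mm_apply, Matrix.one_apply]
  rfl

omit [Fintype n] in
theorem mm_star (π : Equiv.Perm n) (e : n → ZMod 3) :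
    (mm π e).conjTranspose = mm π⁻¹ (fun k => - e (π⁻¹ k)) := by
  ext i k
  rw [Matrix.conjTranspose_apply, mm_apply, mm_apply]
  by_cases h : k = π i
  · have h' : i = π⁻¹ k := by rw [h]; exact (π.symm_apply_apply i).symm
    rw [if_pos h, if_pos h', star_wp, h']
  · have h' : i ≠ π⁻¹ k := fun h2 => h (by rw [h2]; exact (π.apply_symm_apply k).symm)
    rw [if_neg h, if_neg h', star_zero]

theorem mm_unit (π : Equiv.Perm n) (e : n → ZMod 3) : mm π e * (mm π e).conjTranspose = 1 := by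
  rw [mm_star, mm_mul, mul_inv_cancel, ← mm_one]
  congr 1
  funext k
  exact neg_add_cancel _

theorem det_mm (π : Equiv.Perm n) (e : n → ZMod 3) : (mm π e).det = wp (∑ i, e i) := by
  have h1 : mm π e = mm π 0 * mm 1 e := by
    rw [mm_mul]
    congr 1
    funext k
    simp
  have h2 : mm (1 : Equiv.Perm n) e = Matrix.diagonal (fun i => wp (e i)) := by
    ext i k
    rw [mm_apply, Matrix.diagonal_apply]
    by_cases h : i = k
    · subst h; simp
    · rw [if_neg h, if_neg (by simpa using h)]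
  have h3 : mm π 0 = (1 : Matrix n n L).submatrix (π⁻¹ : Equiv.Perm n) id := by
    ext i k
    rw [mm_apply, Matrix.submatrix_apply, Matrix.one_apply]
    have : (i = π k) ↔ (π⁻¹ i = id k) := by
      constructor
      · intro h; rw [h]; exact π.symm_apply_apply k
      · intro h
        have := congrArg π h
        rw [show π (π⁻¹ i) = i from π.apply_symm_apply i] at this
        exact this
    by_cases h : i = π k
    · rw [if_pos h, if_pos (this.1 h)]; rfl
    · rw [if_neg h, if_neg (fun h' => h (this.2 h'))]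
  rw [h1, Matrix.det_mul, h2, Matrix.det_diagonal, ← wp_sum, h3, Matrix.det_permute, Matrix.det_one, mul_one]
  have h4 : ((Equiv.Perm.sign (π⁻¹ : Equiv.Perm n) : ℤ) : L) = 1 := by
    rcases Int.units_eq_one_or (Equiv.Perm.sign (π⁻¹ : Equiv.Perm n)) with h | h <;> rw [h]
    · simp
    · simp [neg_eq]
  rw [h4, one_mul]

omit [Fintype n] in
theorem mm_inj {π ρ : Equiv.Perm n} {e f : n → ZMod 3} (h : mm π e = mm ρ f) : π = ρ ∧ e = f := by
  have h1 : ∀ k, π k = ρ k ∧ e k = f k := by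
    intro k
    have h2 := congrFun (congrFun h (π k)) k
    rw [mm_apply, mm_apply, if_pos rfl] at h2
    by_cases h3 : π k = ρ k
    · rw [if_pos h3] at h2
      exact ⟨h3, wp_inj _ _ h2⟩
    · rw [if_neg h3] at h2
      exact absurd h2 (wp_ne _)
  exact ⟨Equiv.ext fun k => (h1 k).1, funext fun k => (h1 k).2⟩

/-- unitary matrices with at most one entry in each column are monomial -/
theorem mono_of_col {M : Matrix n n L} (hM : M * M.conjTranspose = 1)
    (hcol : ∀ k, ∃ i, ∀ j, M j k ≠ 0 → j = i) : ∃ π e, M = mm π e := by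
  choose f hf using hcol
  have hM' : M.conjTranspose * M = 1 := mul_eq_one_comm.1 hM
  have hin : ∀ k l, ∑ i, star (M i k) * M i l = if k = l then 1 else 0 := by
    intro k l
    have := congrFun (congrFun hM' k) l
    rw [Matrix.mul_apply, Matrix.one_apply] at this
    exact this
  have hsum : ∀ k l, ∑ i, star (M i k) * M i l = star (M (f k) k) * M (f k) l := by
    intro k l
    rw [Finset.sum_eq_single (f k)]
    · intro j _ hj
      have : M j k = 0 := by
        by_contra h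
        exact hj (hf k j h)
      rw [this, star_zero, zero_mul]
    · intro h; exact absurd (Finset.mem_univ _) h
  have hne : ∀ k, M (f k) k ≠ 0 := by
    intro k h0
    have h1 := hin k k
    rw [hsum, h0, mul_zero, if_pos rfl] at h1
    exact zero_ne_one h1
  have hinj : Function.Injective f := by
    intro k l hkl
    by_contra hne'
    have h1 := hin k l
    rw [hsum, if_neg hne'] at h1
    rcases mul_eq_zero.1 h1 with h2 | h2
    · exact hne k (star_eq_zero.1 h2)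
    · rw [hkl] at h2
      exact hne l h2
  choose e he using fun k => exists_wp _ (hne k)
  refine ⟨Equiv.ofBijective f (Finite.injective_iff_bijective.1 hinj), e, ?_⟩
  ext i k
  rw [mm_apply, Equiv.ofBijective_apply]
  by_cases h : i = f k
  · rw [if_pos h, h, he]
  · rw [if_neg h]
    by_contra h1
    exact h (hf k i h1)

end mm

end Cfsg.Agent.H12.P4
end

-- part: H12/P4/Coord
section
/-!
# S5210 (U₆(2)): coordinates of the field with nine elements
-/

set_option autoImplicit false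

namespace Cfsg.Agent.H12.P4

open Cfsg.Agent.H756.PU (HypK)

universe u

/-- coordinates with respect to `1, i` -/
structure Co (K : Type u) [Field K] [StarRing K] where
  re : K → ZMod 3
  im : K → ZMod 3
  re_add : ∀ x y, re (x + y) = re x + re y
  im_add : ∀ x y, im (x + y) = im x + im y
  re_mul : ∀ x y, re (x * y) = re x * re y - im x * im y
  im_mul : ∀ x y, im (x * y) = re x * im y + im x * re y
  re_star : ∀ x, re (star x) = re x
  im_star : ∀ x, im (star x) = - im x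
  ext : ∀ x y, re x = re y → im x = im y → x = y
  surj : ∀ a b, ∃ x, re x = a ∧ im x = b

namespace Co

variable {K : Type u} [Field K] [StarRing K] (C : Co K)

theorem re_zero : C.re 0 = 0 := by
  have := C.re_add 0 0
  rw [add_zero] at this
  exact left_eq_add.1 this

theorem im_zero : C.im 0 = 0 := by
  have := C.im_add 0 0
  rw [add_zero] at this
  exact left_eq_add.1 this

theorem im_fix {x : K} (h : star x = x) : C.im x = 0 := by
  have h1 := C.im_star x
  rw [h] at h1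
  revert h1
  generalize C.im x = t
  revert t
  decide

theorem fix_im {x : K} (h : C.im x = 0) : star x = x := C.ext _ _ (C.re_star x) (by rw [C.im_star, h, neg_zero])

end Co

theorem exists_co {K : Type u} [Field K] [StarRing K] {p n : ℕ} (hK : HypK K p n) (hq : p ^ n = 3) : Nonempty (Co K) := by
  have hfin := hK.fin
  have hcard : Nat.card K = 9 := by rw [hK.card, hq]; norm_num
  have hp3 : p = 3 := by
    have h1 : p ∣ 3 := by
      rw [← hq]
      exact dvd_pow_self p (by have := hK.hn; omega)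
    exact (Nat.prime_dvd_prime_iff_eq hK.pp Nat.prime_three).1 h1
  subst hp3
  have hchar : CharP K 3 := hK.char
  have h3 : (3 : K) = 0 := CharP.cast_eq_zero K 3
  have hstar : ∀ x : K, star x = x ^ 3 := fun x => by rw [hK.star_eq, hq]
  have hft : Fintype K := Fintype.ofFinite K
  obtain ⟨i, hi⟩ : ∃ i : K, i * i = -1 := by
    have h1 : IsSquare (-1 : K) := by
      rw [FiniteField.isSquare_neg_one_iff]
      rw [← Nat.card_eq_fintype_card, hcard]
      decide
    obtain ⟨i, hi⟩ := h1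
    exact ⟨i, hi.symm⟩
  let c : ZMod 3 →+* K := ZMod.castHom (dvd_refl 3) K
  have hc : Function.Injective c := c.injective
  let f : ZMod 3 × ZMod 3 → K := fun t => c t.1 + c t.2 * i
  have hf : ∀ t, f t = c t.1 + c t.2 * i := fun t => rfl
  have hci : ∀ a b : ZMod 3, c a + c b * i = 0 → a = 0 ∧ b = 0 := by
    intro a b hab
    have hb : b = 0 := by
      by_contra hb
      have hb' : c b ≠ 0 := fun h => hb (hc (h.trans (map_zero c).symm))
      have h1 : c (a * a) = c (-(b * b)) := by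
        rw [map_mul, map_neg, map_mul]
        have h2 : c a = -(c b * i) := by linear_combination hab
        rw [h2]
        linear_combination (c b * c b) * hi
      exact (by decide : ∀ a b : ZMod 3, a * a = -(b * b) → b = 0) a b (hc h1) |> hb
    rw [hb, map_zero, zero_mul, add_zero] at hab
    exact ⟨hc (hab.trans (map_zero c).symm), hb⟩
  have hinj : Function.Injective f := by
    intro s t hst
    have h1 : c (s.1 - t.1) + c (s.2 - t.2) * i = 0 := by
      rw [hf, hf] at hst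
      rw [map_sub, map_sub]
      linear_combination hst
    obtain ⟨h2, h3⟩ := hci _ _ h1
    exact Prod.ext (sub_eq_zero.1 h2) (sub_eq_zero.1 h3)
  have hbij : Function.Bijective f := by
    rw [Fintype.bijective_iff_injective_and_card]
    refine ⟨hinj, ?_⟩
    rw [← Nat.card_eq_fintype_card (α := K), hcard]
    simp [ZMod.card]
  let e := Equiv.ofBijective f hbij
  have he : ∀ x, c (e.symm x).1 + c (e.symm x).2 * i = x := fun x => e.apply_symm_apply x
  have huniq : ∀ (x : K) (a b : ZMod 3), x = c a + c b * i → (e.symm x).1 = a ∧ (e.symm x).2 = b := by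
    intro x a b h
    have h1 : e.symm x = (a, b) := by
      rw [Equiv.symm_apply_eq]
      exact h
    rw [h1]
    exact ⟨rfl, rfl⟩
  have hsi : star i = -i := by
    rw [hstar]
    linear_combination i * hi
  have hsc : ∀ a : ZMod 3, star (c a) = c a := by
    intro a
    rw [hstar, ← map_pow]
    congr 1
    revert a
    decide
  refine ⟨⟨fun x => (e.symm x).1, fun x => (e.symm x).2, ?_, ?_, ?_, ?_, ?_, ?_, ?_, ?_⟩⟩
  · intro x y
    refine (huniq (x + y) _ ((e.symm x).2 + (e.symm y).2) ?_).1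
    conv_lhs => rw [← he x, ← he y]
    rw [map_add, map_add]
    ring
  · intro x y
    refine (huniq (x + y) ((e.symm x).1 + (e.symm y).1) _ ?_).2
    conv_lhs => rw [← he x, ← he y]
    rw [map_add, map_add]
    ring
  · intro x y
    refine (huniq (x * y) _ ((e.symm x).1 * (e.symm y).2 + (e.symm x).2 * (e.symm y).1) ?_).1
    conv_lhs => rw [← he x, ← he y]
    rw [map_sub, map_mul, map_mul, map_add, map_mul, map_mul]
    linear_combination (c (e.symm x).2 * c (e.symm y).2) * hi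
  · intro x y
    refine (huniq (x * y) ((e.symm x).1 * (e.symm y).1 - (e.symm x).2 * (e.symm y).2) _ ?_).2
    conv_lhs => rw [← he x, ← he y]
    rw [map_sub, map_mul, map_mul, map_add, map_mul, map_mul]
    linear_combination (c (e.symm x).2 * c (e.symm y).2) * hi
  · intro x
    refine (huniq (star x) _ (-(e.symm x).2) ?_).1
    conv_lhs => rw [← he x]
    rw [star_add, star_mul', hsc, hsc, hsi, map_neg]
    ring
  · intro x
    refine (huniq (star x) (e.symm x).1 _ ?_).2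
    conv_lhs => rw [← he x]
    rw [star_add, star_mul', hsc, hsc, hsi, map_neg]
    ring
  · intro x y h1 h2
    rw [← he x, ← he y, h1, h2]
  · intro a b
    exact ⟨f (a, b), huniq _ a b rfl⟩

end Cfsg.Agent.H12.P4
end

-- part: H12/P4/Six
section
/-!
# S5210 (U₆(2)): the group `SU₆(2)`, the scalars, the embedding of `PG K`
-/

set_option autoImplicit false

namespace Cfsg.Agent.H12.P4

open Cfsg.Agent.H776.P4 (PG)

universe u

/-- the index set -/
abbrev N6 : Type := ZMod 3 ⊕ ZMod 3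

/-- `SU₆(2)` -/
def SUt : Type := {M : Matrix N6 N6 L // M * M.conjTranspose = 1 ∧ M.det = 1}

namespace SUt

theorem ext' {a b : SUt} (h : a.1 = b.1) : a = b := Subtype.ext h

instance : Mul SUt := ⟨fun a b => ⟨a.1 * b.1, by
  rw [Matrix.conjTranspose_mul, Matrix.mul_assoc, ← Matrix.mul_assoc b.1, b.2.1, Matrix.one_mul, a.2.1], by
  rw [Matrix.det_mul, a.2.2, b.2.2, one_mul]⟩⟩

instance : One SUt := ⟨⟨1, by rw [Matrix.conjTranspose_one, Matrix.one_mul], Matrix.det_one⟩⟩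

theorem star_mul_self (a : SUt) : a.1.conjTranspose * a.1 = 1 := mul_eq_one_comm.1 a.2.1

instance : Inv SUt := ⟨fun a => ⟨a.1.conjTranspose, by
  rw [Matrix.conjTranspose_conjTranspose]; exact a.star_mul_self, by
  rw [Matrix.det_conjTranspose, a.2.2, star_one]⟩⟩

theorem coe_mul (a b : SUt) : (a * b).1 = a.1 * b.1 := rfl

theorem coe_inv (a : SUt) : (a⁻¹).1 = a.1.conjTranspose := rfl

instance : Group SUt where
  mul_assoc a b c := ext' (Matrix.mul_assoc _ _ _)
  one_mul a := ext' (Matrix.one_mul _)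
  mul_one a := ext' (Matrix.mul_one _)
  inv_mul_cancel a := ext' a.star_mul_self

instance : Finite SUt := Subtype.finite

end SUt

/-- the scalars -/
def Zs : Subgroup SUt where
  carrier := {a | ∃ k : ZMod 3, a.1 = wp k • (1 : Matrix N6 N6 L)}
  one_mem' := ⟨0, by rw [wp_zero, one_smul]; rfl⟩
  mul_mem' := by
    rintro a b ⟨k, hk⟩ ⟨l, hl⟩
    refine ⟨k + l, ?_⟩
    rw [SUt.coe_mul, hk, hl, wp_add, Matrix.smul_mul, Matrix.one_mul, smul_smul]
  inv_mem' := by
    rintro a ⟨k, hk⟩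
    refine ⟨-k, ?_⟩
    rw [SUt.coe_inv, hk, Matrix.conjTranspose_smul, Matrix.conjTranspose_one, star_wp]

theorem Zs_comm {a : SUt} (ha : a ∈ Zs) (b : SUt) : a * b = b * a := by
  obtain ⟨k, hk⟩ := ha
  apply SUt.ext'
  rw [SUt.coe_mul, SUt.coe_mul, hk, Matrix.smul_mul, Matrix.one_mul, Matrix.mul_smul, Matrix.mul_one]

instance : Zs.Normal := ⟨fun a ha b => by rw [← Zs_comm ha b, mul_inv_cancel_right]; exact ha⟩

/-- `PSU₆(2)` -/
abbrev GG : Type := SUt ⧸ Zs

/-- the projection -/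
def mk : SUt →* GG := QuotientGroup.mk' Zs

theorem mk_surj : Function.Surjective mk := QuotientGroup.mk'_surjective Zs

theorem mk_eq_iff {a b : SUt} : mk a = mk b ↔ ∃ k : ZMod 3, b.1 = wp k • a.1 := by
  have h1 : mk a = mk b ↔ a⁻¹ * b ∈ Zs := QuotientGroup.eq
  rw [h1]
  constructor
  · rintro ⟨k, hk⟩
    refine ⟨k, ?_⟩
    have h2 : b = a * (a⁻¹ * b) := by group
    rw [h2, SUt.coe_mul a, hk, Matrix.mul_smul, Matrix.mul_one]
  · rintro ⟨k, hk⟩
    refine ⟨k, ?_⟩
    rw [SUt.coe_mul, hk, Matrix.mul_smul, SUt.coe_inv, SUt.star_mul_self]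

/-- the exponents -/
def E0 : AddSubgroup (N6 → ZMod 3) where
  carrier := {e | ∑ i, e i = 0}
  zero_mem' := by simp only [_root_.Fintype.sum_sum_type, _root_.Set.mem_ofPred_eq, _root_.Pi.zero_apply, _root_.Finset.sum_const_zero, _root_.add_zero]
  add_mem' := by
    intro a b ha hb
    show ∑ i, (a i + b i) = 0
    rw [Finset.sum_add_distrib]
    rw [show ∑ i, a i = 0 from ha, show ∑ i, b i = 0 from hb, add_zero]
  neg_mem' := by
    intro a ha
    show ∑ i, (-a i) = 0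
    rw [Finset.sum_neg_distrib, show ∑ i, a i = 0 from ha, neg_zero]

theorem mem_E0 {e : N6 → ZMod 3} : e ∈ E0 ↔ ∑ i, e i = 0 := Iff.rfl

/-- monomial elements -/
def mo (π : Equiv.Perm N6) (e : N6 → ZMod 3) (he : e ∈ E0) : SUt :=
  ⟨mm π e, mm_unit π e, by rw [det_mm, mem_E0.1 he]; rfl⟩

theorem coe_mo (π : Equiv.Perm N6) (e : N6 → ZMod 3) (he : e ∈ E0) : (mo π e he).1 = mm π e := rfl

theorem comp_mem (ρ : Equiv.Perm N6) {e : N6 → ZMod 3} (he : e ∈ E0) : (fun k => e (ρ k)) ∈ E0 := by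
  rw [mem_E0] at he ⊢
  rw [Equiv.sum_comp ρ e, he]

theorem mo_mul (π ρ : Equiv.Perm N6) {e f : N6 → ZMod 3} (he : e ∈ E0) (hf : f ∈ E0) :
    mo π e he * mo ρ f hf = mo (π * ρ) (fun k => f k + e (ρ k)) (E0.add_mem hf (comp_mem ρ he)) :=
  SUt.ext' (mm_mul π ρ e f)

theorem mo_inv (π : Equiv.Perm N6) {e : N6 → ZMod 3} (he : e ∈ E0) :
    (mo π e he)⁻¹ = mo π⁻¹ (fun k => - e (π⁻¹ k)) (E0.neg_mem (comp_mem π⁻¹ he)) :=
  SUt.ext' (mm_star π e)

theorem smul_mm (k : ZMod 3) (π : Equiv.Perm N6) (e : N6 → ZMod 3) : wp k • mm π e = mm π (fun j => e j + k) := by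
  ext i j
  rw [Matrix.smul_apply, mm_apply, mm_apply]
  by_cases h : i = π j
  · rw [if_pos h, if_pos h, add_comm, wp_add, smul_eq_mul]
  · rw [if_neg h, if_neg h, smul_zero]

theorem mk_mo_eq {π ρ : Equiv.Perm N6} {e f : N6 → ZMod 3} {he : e ∈ E0} {hf : f ∈ E0} :
    mk (mo π e he) = mk (mo ρ f hf) ↔ π = ρ ∧ ∃ k, ∀ j, f j = e j + k := by
  rw [mk_eq_iff]
  constructor
  · rintro ⟨k, hk⟩
    rw [coe_mo, coe_mo, smul_mm] at hk
    obtain ⟨h1, h2⟩ := mm_inj hk
    exact ⟨h1.symm, k, fun j => congrFun h2 j⟩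
  · rintro ⟨rfl, k, hk⟩
    refine ⟨k, ?_⟩
    rw [coe_mo, coe_mo, smul_mm]
    congr 1
    funext j
    exact hk j

/-! ### The embedding -/

/-- the exponent vector of the element `(a, b, c)` of `V` -/
def Ev (a b1 b2 c : ZMod 3) : N6 → ZMod 3 :=
  Sum.elim (fun j => - b1 - c + (c - b1) * j - c * j * j) (fun j => a + b2 + c + (b2 - c) * j + c * j * j)

/-- the permutations of the Sylow subgroup -/
def Pr (r1 r2 : ZMod 3) : Equiv.Perm N6 := Equiv.sumCongr (Equiv.addRight r1) (Equiv.addRight r2)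

theorem Pr_inl (r1 r2 j : ZMod 3) : Pr r1 r2 (.inl j) = .inl (j + r1) := rfl
theorem Pr_inr (r1 r2 j : ZMod 3) : Pr r1 r2 (.inr j) = .inr (j + r2) := rfl

theorem Pr_mul (r1 r2 s1 s2 : ZMod 3) : Pr r1 r2 * Pr s1 s2 = Pr (r1 + s1) (r2 + s2) := by
  ext j
  rcases j with j | j
  · rw [Equiv.Perm.mul_apply, Pr_inl, Pr_inl, Pr_inl]; congr 1; ring
  · rw [Equiv.Perm.mul_apply, Pr_inr, Pr_inr, Pr_inr]; congr 1; ring

theorem Pr_zero : Pr 0 0 = 1 := by
  ext j
  rcases j with j | j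
  · rw [Pr_inl, add_zero]; rfl
  · rw [Pr_inr, add_zero]; rfl

theorem Pr_inj {r1 r2 s1 s2 : ZMod 3} (h : Pr r1 r2 = Pr s1 s2) : r1 = s1 ∧ r2 = s2 := by
  have h1 := congrArg (fun π : Equiv.Perm N6 => π (.inl 0)) h
  have h2 := congrArg (fun π : Equiv.Perm N6 => π (.inr 0)) h
  simp only [Pr_inl, Pr_inr, zero_add] at h1 h2
  exact ⟨Sum.inl_injective h1, Sum.inr_injective h2⟩

theorem Ev_mem (a b1 b2 c : ZMod 3) : Ev a b1 b2 c ∈ E0 := by
  rw [mem_E0, Fintype.sum_sum_type]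
  show ∑ j : ZMod 3, (- b1 - c + (c - b1) * j - c * j * j) +
    ∑ j : ZMod 3, (a + b2 + c + (b2 - c) * j + c * j * j) = 0
  revert a b1 b2 c
  decide +kernel

theorem Ev_add (a b1 b2 c a' b1' b2' c' : ZMod 3) (j : N6) :
    Ev (a + a') (b1 + b1') (b2 + b2') (c + c') j = Ev a b1 b2 c j + Ev a' b1' b2' c' j := by
  rcases j with j | j
  · show - (b1 + b1') - (c + c') + ((c + c') - (b1 + b1')) * j - (c + c') * j * j = _ + _
    show _ = (- b1 - c + (c - b1) * j - c * j * j) + (- b1' - c' + (c' - b1') * j - c' * j * j)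
    ring
  · show (a + a') + (b2 + b2') + (c + c') + ((b2 + b2') - (c + c')) * j + (c + c') * j * j = _ + _
    show _ = (a + b2 + c + (b2 - c) * j + c * j * j) + (a' + b2' + c' + (b2' - c') * j + c' * j * j)
    ring

/-- the action of `u_r` -/
theorem Ev_act (a b1 b2 c r1 r2 : ZMod 3) (j : N6) :
    Ev (a - (r1 * b1 + r2 * b2) + (r1 * r1 + r2 * r2) * c) (b1 + r1 * c) (b2 + r2 * c) c (Pr r1 r2 j) =
      Ev a b1 b2 c j + (r1 * r1 * c - r1 * b1) := by
  rcases j with j | j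
  · rw [Pr_inl]
    show - (b1 + r1 * c) - c + (c - (b1 + r1 * c)) * (j + r1) - c * (j + r1) * (j + r1) =
      (- b1 - c + (c - b1) * j - c * j * j) + (r1 * r1 * c - r1 * b1)
    have h3 : (3 : ZMod 3) = 0 := rfl
    linear_combination (-(c * j * r1) - r1 * r1 * c) * h3
  · rw [Pr_inr]
    show (a - (r1 * b1 + r2 * b2) + (r1 * r1 + r2 * r2) * c) + (b2 + r2 * c) + c + ((b2 + r2 * c) - c) * (j + r2)
      + c * (j + r2) * (j + r2) = (a + b2 + c + (b2 - c) * j + c * j * j) + (r1 * r1 * c - r1 * b1)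
    have h3 : (3 : ZMod 3) = 0 := rfl
    linear_combination (c * j * r2 + r2 * r2 * c) * h3

theorem Ev_inj {a b1 b2 c a' b1' b2' c' k : ZMod 3} (h : ∀ j, Ev a b1 b2 c j = Ev a' b1' b2' c' j + k) :
    a = a' ∧ b1 = b1' ∧ b2 = b2' ∧ c = c' := by
  have e0 := h (.inl 0)
  have e1 := h (.inl 1)
  have e2 := h (.inl 2)
  have f0 := h (.inr 0)
  have f1 := h (.inr 1)
  have f2 := h (.inr 2)
  simp only [Ev, Sum.elim_inl, Sum.elim_inr] at e0 e1 e2 f0 f1 f2
  have h3 : (3 : ZMod 3) = 0 := rfl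
  have hk : k = 0 := by linear_combination -e2 - (b1 + c - b1' - c') * h3
  subst hk
  have h4 : c = c' := by linear_combination e0 + e1 + e2 + (2 * b1 + 2 * c - 2 * b1' - 2 * c') * h3
  subst h4
  have h5 : b1 = b1' := by linear_combination -e0
  subst h5
  have h6 : a = a' := by linear_combination f2 - (b2 + c - b2' - c) * h3
  subst h6
  have h7 : b2 = b2' := by linear_combination f0
  exact ⟨rfl, rfl, h7, rfl⟩

section emb

variable {K : Type u} [Field K] [StarRing K] (C : Co K)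

/-- exponents of an element -/
def ex (x : PG K) : N6 → ZMod 3 := fun j =>
  Ev (C.re x.a) (C.re x.b) (C.im x.b) (C.re x.c) (Pr (C.re x.r) (C.im x.r) j)

theorem ex_mem (x : PG K) : ex C x ∈ E0 := comp_mem _ (Ev_mem _ _ _ _)

/-- the lift of the embedding -/
def io (x : PG K) : SUt := mo (Pr (C.re x.r) (C.im x.r)) (ex C x) (ex_mem C x)

theorem io_mul (x y : PG K) : mk (io C (x * y)) = mk (io C x) * mk (io C y) := by
  rw [← map_mul, io, io, io, mo_mul, mk_mo_eq]
  have hr1 : C.re (x * y).r = C.re x.r + C.re y.r := by rw [PG.mul_r, C.re_add]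
  have hr2 : C.im (x * y).r = C.im x.r + C.im y.r := by rw [PG.mul_r, C.im_add]
  refine ⟨by rw [Pr_mul, hr1, hr2], ?_⟩
  have hc : C.re (x * y).c = C.re x.c + C.re y.c := by rw [PG.mul_c, C.re_add]
  have himc : C.im y.c = 0 := C.im_fix y.hc
  have hb1 : C.re (x * y).b = C.re x.b + (C.re y.b + C.re x.r * C.re y.c) := by
    rw [PG.mul_b, C.re_add, C.re_add, C.re_mul, himc]; ring
  have hb2 : C.im (x * y).b = C.im x.b + (C.im y.b + C.im x.r * C.re y.c) := by
    rw [PG.mul_b, C.im_add, C.im_add, C.im_mul, himc]; ring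
  have ha : C.re (x * y).a = C.re x.a + (C.re y.a - (C.re x.r * C.re y.b + C.im x.r * C.im y.b) +
      (C.re x.r * C.re x.r + C.im x.r * C.im x.r) * C.re y.c) := by
    rw [PG.mul_a]
    simp only [C.re_add, C.re_mul, C.im_mul, C.re_star, C.im_star, himc]
    have h3 : (3 : ZMod 3) = 0 := rfl
    linear_combination (C.re x.r * C.re y.b + C.im x.r * C.im y.b) * h3
  refine ⟨-(C.re x.r * C.re x.r * C.re y.c - C.re x.r * C.re y.b), fun j => ?_⟩
  show ex C y j + ex C x (Pr (C.re y.r) (C.im y.r) j) = ex C (x * y) j + _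
  have hj : Pr (C.re (x * y).r) (C.im (x * y).r) j =
      Pr (C.re x.r) (C.im x.r) (Pr (C.re y.r) (C.im y.r) j) := by
    rw [hr1, hr2, ← Pr_mul, Equiv.Perm.mul_apply]
  rw [ex, ex, ex, hj, ha, hb1, hb2, hc, Ev_add, Ev_act]
  ring

/-- **The embedding.** -/
def io6 : PG K →* GG where
  toFun x := mk (io C x)
  map_one' := by
    have h := io_mul C 1 1
    rw [mul_one] at h
    exact left_eq_mul.1 h
  map_mul' x y := io_mul C x y

theorem io6_apply (x : PG K) : io6 C x = mk (io C x) := rfl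

theorem io6_injective : Function.Injective (io6 C) := by
  intro x y h
  rw [io6_apply, io6_apply, io, io, mk_mo_eq] at h
  obtain ⟨h1, k, h2⟩ := h
  obtain ⟨h3, h4⟩ := Pr_inj h1
  have h5 : ∀ j, Ev (C.re y.a) (C.re y.b) (C.im y.b) (C.re y.c) j =
      Ev (C.re x.a) (C.re x.b) (C.im x.b) (C.re x.c) j + k := by
    intro j
    have h6 := h2 ((Pr (C.re x.r) (C.im x.r))⁻¹ j)
    rw [ex, ex, ← h1] at h6
    have h7 : Pr (C.re x.r) (C.im x.r) ((Pr (C.re x.r) (C.im x.r))⁻¹ j) = j :=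
      (Pr (C.re x.r) (C.im x.r)).apply_symm_apply j
    rw [h7] at h6
    exact h6
  obtain ⟨ha, hb1, hb2, hc⟩ := Ev_inj h5
  apply PG.ext
  · exact C.ext _ _ h3 h4
  · exact C.ext _ _ ha.symm (by rw [C.im_fix x.ha, C.im_fix y.ha])
  · exact C.ext _ _ hb1.symm hb2.symm
  · exact C.ext _ _ hc.symm (by rw [C.im_fix x.hc, C.im_fix y.hc])

end emb

end Cfsg.Agent.H12.P4
end

-- part: H12/P4/Mat
section
/-!
# S5210 (U₆(2)): matrices commuting with or normalizing diagonal matrices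
-/

set_option autoImplicit false

namespace Cfsg.Agent.H12.P4

/-- the inner products of the columns -/
theorem col_inner (a : SUt) (k l : N6) : ∑ i, star (a.1 i k) * a.1 i l = if k = l then 1 else 0 := by
  have := congrFun (congrFun a.star_mul_self k) l
  rw [Matrix.mul_apply, Matrix.one_apply] at this
  exact this

theorem row_inner (a : SUt) (k l : N6) : ∑ i, a.1 k i * star (a.1 l i) = if k = l then 1 else 0 := by
  have := congrFun (congrFun a.2.1 k) l
  rw [Matrix.mul_apply, Matrix.one_apply] at this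
  exact this

theorem exists_row (a : SUt) (i : N6) : ∃ j, a.1 i j ≠ 0 := by
  by_contra h
  push Not at h
  have h1 := row_inner a i i
  rw [if_pos rfl, Finset.sum_eq_zero fun j _ => by rw [h j, zero_mul]] at h1
  exact zero_ne_one h1

theorem exists_col (a : SUt) (j : N6) : ∃ i, a.1 i j ≠ 0 := by
  by_contra h
  push Not at h
  have h1 := col_inner a j j
  rw [if_pos rfl, Finset.sum_eq_zero fun i _ => by rw [h i, mul_zero]] at h1
  exact zero_ne_one h1

/-- two columns are not supported in the same row -/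
theorem col_single (a : SUt) {i0 j1 j2 : N6} (h1 : ∀ i, a.1 i j1 ≠ 0 → i = i0) (h2 : ∀ i, a.1 i j2 ≠ 0 → i = i0)
    (hne : j1 ≠ j2) : False := by
  have h3 := col_inner a j1 j2
  rw [if_neg hne, Finset.sum_eq_single i0] at h3
  · obtain ⟨i, hi⟩ := exists_col a j1
    obtain ⟨i', hi'⟩ := exists_col a j2
    have e1 := h1 i hi
    have e2 := h2 i' hi'
    subst e1
    subst e2
    rcases mul_eq_zero.1 h3 with h | h
    · exact hi (star_eq_zero.1 h)
    · exact hi' h
  · intro i _ hi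
    have : a.1 i j1 = 0 := by
      by_contra h
      exact hi (h1 i h)
    rw [this, star_zero, zero_mul]
  · intro h; exact absurd (Finset.mem_univ _) h

theorem mo_one_apply (e : N6 → ZMod 3) (he : e ∈ E0) (i k : N6) :
    (mo 1 e he).1 i k = if i = k then wp (e k) else 0 := rfl

/-- entries of a matrix intertwining two diagonal matrices -/
theorem entry_of_comm {a : SUt} {d d' : N6 → ZMod 3} {hd : d ∈ E0} {hd' : d' ∈ E0}
    (h : mk a * mk (mo 1 d hd) = mk (mo 1 d' hd') * mk a) :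
    ∃ k : ZMod 3, ∀ i j, a.1 i j ≠ 0 → d j = k + d' i := by
  rw [← map_mul, ← map_mul, mk_eq_iff] at h
  obtain ⟨k, hk⟩ := h
  refine ⟨-k, fun i j hij => ?_⟩
  have h1 := congrFun (congrFun hk i) j
  rw [SUt.coe_mul, SUt.coe_mul, Matrix.smul_apply, Matrix.mul_apply, Matrix.mul_apply,
    Finset.sum_eq_single i, Finset.sum_eq_single j] at h1
  · rw [mo_one_apply, mo_one_apply, if_pos rfl, if_pos rfl, smul_eq_mul, mul_comm (a.1 i j), ← mul_assoc,
      ← wp_add] at h1
    have h2 := wp_inj _ _ (mul_right_cancel₀ hij h1)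
    rw [h2]
    ring
  · intro l _ hl
    rw [mo_one_apply, if_neg hl, mul_zero]
  · intro h; exact absurd (Finset.mem_univ _) h
  · intro l _ hl
    rw [mo_one_apply, if_neg (Ne.symm hl), zero_mul]
  · intro h; exact absurd (Finset.mem_univ _) h

/-- **(m1)** elements commuting with `Y` are diagonal -/
theorem diag_of_comm {a : SUt} (h : ∀ (x y z : ZMod 3),
    mk a * mk (mo 1 (Ev x y z 0) (Ev_mem _ _ _ _)) = mk (mo 1 (Ev x y z 0) (Ev_mem _ _ _ _)) * mk a) :
    ∃ (e : N6 → ZMod 3) (he : e ∈ E0), a = mo 1 e he := by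
  obtain ⟨k1, hk1⟩ := entry_of_comm (h 0 1 0)
  obtain ⟨k2, hk2⟩ := entry_of_comm (h 0 0 1)
  obtain ⟨k3, hk3⟩ := entry_of_comm (h 1 0 0)
  have hk10 : k1 = 0 := by
    by_contra hne
    -- the row with `d_i = -k1`
    have hr : ∃ i0 : N6, ∀ i : N6, (0 : ZMod 3) = k1 + Ev 0 1 0 0 i → i = i0 := by
      revert hne
      generalize k1 = k
      revert k
      decide
    obtain ⟨i0, hi0⟩ := hr
    have hz0 : Ev 0 1 0 0 (.inr 0) = 0 := by decide
    have hz1 : Ev 0 1 0 0 (.inr 1) = 0 := by decide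
    refine col_single a (i0 := i0) (j1 := .inr 0) (j2 := .inr 1) (fun i hi => hi0 i ?_) (fun i hi => hi0 i ?_)
      (by decide)
    · rw [← hz0]; exact hk1 i _ hi
    · rw [← hz1]; exact hk1 i _ hi
  subst hk10
  -- the entry at `inl 0`
  obtain ⟨j, hj⟩ := exists_row a (.inl 0)
  have hj0 : j = .inl 0 := by
    have h1 := hk1 _ _ hj
    revert h1
    generalize j = j'
    revert j'
    decide
  subst hj0
  have hk20 : k2 = 0 := by
    have h1 := hk2 _ _ hj
    exact (add_eq_right.1 h1.symm)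
  have hk30 : k3 = 0 := by
    have h1 := hk3 _ _ hj
    exact (add_eq_right.1 h1.symm)
  subst hk20
  subst hk30
  have hdiag : ∀ i j, a.1 i j ≠ 0 → i = j := by
    intro i j hij
    have h1 := hk1 _ _ hij
    have h2 := hk2 _ _ hij
    have h3 := hk3 _ _ hij
    rw [zero_add] at h1 h2 h3
    revert h1 h2 h3
    clear hij
    revert i j
    decide
  obtain ⟨π, e, hM⟩ := mono_of_col a.2.1 (fun k => ⟨k, fun j hj => hdiag _ _ hj⟩)
  have hπ : π = 1 := by
    ext k
    by_contra hne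
    have h1 := hdiag (π k) k (by rw [hM, mm_apply, if_pos rfl]; exact wp_ne _)
    exact hne h1
  subst hπ
  have he : e ∈ E0 := by
    rw [mem_E0]
    have h1 := a.2.2
    rw [hM, det_mm] at h1
    exact wp_inj _ _ h1
  exact ⟨e, he, SUt.ext' hM⟩

/-- an element with a monomial matrix -/
theorem exists_mo {a : SUt} (h : ∀ k, ∃ i, ∀ j, a.1 j k ≠ 0 → j = i) :
    ∃ (π : Equiv.Perm N6) (e : N6 → ZMod 3) (he : e ∈ E0), a = mo π e he := by
  obtain ⟨π, e, hM⟩ := mono_of_col a.2.1 h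
  have he : e ∈ E0 := by
    rw [mem_E0]
    have h1 := a.2.2
    rw [hM, det_mm] at h1
    exact wp_inj _ _ h1
  exact ⟨π, e, he, SUt.ext' hM⟩

/-- separating two coordinates -/
theorem exists_sep (j k : N6) (h : j ≠ k) : ∃ d ∈ E0, d j ≠ d k := by
  have h1 : ∃ x y z c : ZMod 3, Ev x y z c j ≠ Ev x y z c k := by
    revert h
    revert j k
    decide +kernel
  obtain ⟨x, y, z, c, h2⟩ := h1
  exact ⟨_, Ev_mem _ _ _ _, h2⟩

/-- **(m2)** elements normalizing `V` are monomial -/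
theorem mono_of_norm {a : SUt} (h : ∀ d (hd : d ∈ E0), ∃ d', ∃ hd' : d' ∈ E0,
    mk a * mk (mo 1 d hd) = mk (mo 1 d' hd') * mk a) :
    ∃ (π : Equiv.Perm N6) (e : N6 → ZMod 3) (he : e ∈ E0), a = mo π e he := by
  have hrow : ∀ i j k, a.1 i j ≠ 0 → a.1 i k ≠ 0 → j = k := by
    intro i j k hj hk
    by_contra hne
    obtain ⟨d, hd, hdn⟩ := exists_sep j k hne
    obtain ⟨d', hd', h1⟩ := h d hd
    obtain ⟨t, ht⟩ := entry_of_comm h1
    exact hdn ((ht _ _ hj).trans (ht _ _ hk).symm)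
  obtain ⟨π, e, he, h2⟩ := exists_mo (a := a⁻¹) (fun k => by
    obtain ⟨j, hj⟩ := exists_row a k
    refine ⟨j, fun i hi => ?_⟩
    have h3 : (a⁻¹).1 i k = star (a.1 k i) := rfl
    rw [h3] at hi
    exact hrow k i j (fun h0 => hi (by rw [h0, star_zero])) hj)
  refine ⟨π⁻¹, fun k => - e (π⁻¹ k), E0.neg_mem (comp_mem π⁻¹ he), ?_⟩
  rw [← inv_inv a, h2, mo_inv]

/-- **(m5)** elements normalizing `Z` -/
theorem block_of_norm {a : SUt} {t : ZMod 3} (ht : t ≠ 0)
    (h : mk a * mk (mo 1 (Ev 1 0 0 0) (Ev_mem _ _ _ _)) = mk (mo 1 (Ev t 0 0 0) (Ev_mem _ _ _ _)) * mk a) :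
    (∀ i j, a.1 i j ≠ 0 → i.isLeft = j.isLeft) ∨ (∀ i j, a.1 i j ≠ 0 → i.isLeft = !j.isLeft) := by
  obtain ⟨k, hk⟩ := entry_of_comm h
  obtain ⟨j1, hj1⟩ := exists_row a (.inl 0)
  obtain ⟨j2, hj2⟩ := exists_row a (.inr 0)
  have h1 := hk _ _ hj1
  have h2 := hk _ _ hj2
  have key : ∀ (t k : ZMod 3), t ≠ 0 → (∃ j1 : N6, Ev 1 0 0 0 j1 = k + Ev t 0 0 0 (.inl 0)) →
      (∃ j2 : N6, Ev 1 0 0 0 j2 = k + Ev t 0 0 0 (.inr 0)) →
      (∀ i j : N6, Ev 1 0 0 0 j = k + Ev t 0 0 0 i → i.isLeft = j.isLeft) ∨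
      (∀ i j : N6, Ev 1 0 0 0 j = k + Ev t 0 0 0 i → i.isLeft = !j.isLeft) := by decide +kernel
  rcases key t k ht ⟨j1, h1⟩ ⟨j2, h2⟩ with h3 | h3
  · exact Or.inl fun i j hij => h3 i j (hk i j hij)
  · exact Or.inr fun i j hij => h3 i j (hk i j hij)

end Cfsg.Agent.H12.P4
end

-- part: H12/P4/Fou
section
/-!
# S5210 (U₆(2)): the group `GU₃(2)` and the four orthonormal frames
-/

set_option autoImplicit false

namespace Cfsg.Agent.H12.P4

open Matrix

/-- the coset representatives: `1` and the Fourier matrices -/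
def Rm : Option (ZMod 3) → Matrix (ZMod 3) (ZMod 3) L
  | none => fun i k => if i = k then 1 else 0
  | some t => fun i k => wp (i * k + t * i * i - t * k * k)

theorem Rm_none : Rm none = 1 := by
  ext i k
  rw [Matrix.one_apply]
  rfl

theorem Rm_unit (s : Option (ZMod 3)) : Rm s * (Rm s)ᴴ = 1 := by
  have h : ∀ (s : Option (ZMod 3)) (i j : ZMod 3), (∑ l, Rm s i l * star (Rm s j l)) = if i = j then 1 else 0 := by
    decide +kernel
  ext i j
  rw [Matrix.mul_apply, Matrix.one_apply]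
  exact h s i j

theorem Rm_det (s : Option (ZMod 3)) : (Rm s).det = 1 := by
  have h : ∀ s : Option (ZMod 3), Rm s 0 0 * Rm s 1 1 * Rm s 2 2 - Rm s 0 0 * Rm s 1 2 * Rm s 2 1 -
      Rm s 0 1 * Rm s 1 0 * Rm s 2 2 + Rm s 0 1 * Rm s 1 2 * Rm s 2 0 + Rm s 0 2 * Rm s 1 0 * Rm s 2 1 -
      Rm s 0 2 * Rm s 1 1 * Rm s 2 0 = 1 := by decide
  rw [← h s]
  exact Matrix.det_fin_three (Rm s)

/-- the function with the values `x, y, z` -/
def fn3 (x y z : L) : ZMod 3 → L := fun j => if j = 0 then x else if j = 1 then y else z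

theorem fn3_eta (c : ZMod 3 → L) : fn3 (c 0) (c 1) (c 2) = c := by
  funext j
  have h : j = 0 ∨ j = 1 ∨ j = 2 := by
    revert j
    decide
  rcases h with rfl | rfl | rfl <;> rfl

theorem fou1 : ∀ x y z : L, (∑ j, star (fn3 x y z j) * fn3 x y z j = 1) →
    ∃ (s : Option (ZMod 3)) (i : ZMod 3), ∀ j, (∑ l, star (Rm s l j) * fn3 x y z l) ≠ 0 → j = i := by decide +kernel

theorem fou2 : ∀ (x y z : L) (i0 : ZMod 3), (∑ j, star (fn3 x y z j) * fn3 x y z j = 1) → fn3 x y z i0 = 0 →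
    ∃ i : ZMod 3, ∀ j, fn3 x y z j ≠ 0 → j = i := by decide +kernel

theorem fou3 : ∀ u s : Option (ZMod 3), (∃ i : ZMod 3, ∀ j, ((Rm u)ᴴ * Rm s) j 0 ≠ 0 → j = i) → u = s := by decide +kernel

theorem inner_col {B : Matrix (ZMod 3) (ZMod 3) L} (hB : B * Bᴴ = 1) (k l : ZMod 3) :
    ∑ j, star (B j k) * B j l = if k = l then 1 else 0 := by
  have h1 : Bᴴ * B = 1 := mul_eq_one_comm.1 hB
  have h2 := congrFun (congrFun h1 k) l
  rw [Matrix.mul_apply, Matrix.one_apply] at h2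
  exact h2

theorem cols_of_col {B : Matrix (ZMod 3) (ZMod 3) L} (hB : B * Bᴴ = 1) {i0 : ZMod 3} (hs : ∀ j, B j 0 ≠ 0 → j = i0)
    (k : ZMod 3) : ∃ i, ∀ j, B j k ≠ 0 → j = i := by
  have hne : B i0 0 ≠ 0 := by
    intro h0
    have h1 := inner_col hB 0 0
    rw [if_pos rfl, Finset.sum_eq_zero] at h1
    · exact zero_ne_one h1
    · intro j _
      by_cases hj : B j 0 = 0
      · rw [hj, mul_zero]
      · rw [hs j hj] at hj
        exact absurd h0 hj
  by_cases hk : k = 0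
  · subst hk
    exact ⟨i0, hs⟩
  · have hk0 : B i0 k = 0 := by
      have h1 := inner_col hB 0 k
      rw [if_neg (Ne.symm hk), Finset.sum_eq_single i0] at h1
      · exact (mul_eq_zero.1 h1).resolve_left (fun h => hne (star_eq_zero.1 h))
      · intro j _ hj
        have : B j 0 = 0 := by
          by_contra h
          exact hj (hs j h)
        rw [this, star_zero, zero_mul]
      · intro h; exact absurd (Finset.mem_univ _) h
    have h2 := fou2 (B 0 k) (B 1 k) (B 2 k) i0 (by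
      rw [fn3_eta (fun j => B j k)]
      exact (inner_col hB k k).trans (if_pos rfl)) (by
      rw [fn3_eta (fun j => B j k)]
      exact hk0)
    rw [fn3_eta (fun j => B j k)] at h2
    exact h2

/-- **the four frames** -/
theorem exists_Rm {A : Matrix (ZMod 3) (ZMod 3) L} (hA : A * Aᴴ = 1) :
    ∃ s : Option (ZMod 3), ∀ k, ∃ i, ∀ j, ((Rm s)ᴴ * A) j k ≠ 0 → j = i := by
  obtain ⟨s, i0, hs⟩ := fou1 (A 0 0) (A 1 0) (A 2 0) (by
    rw [fn3_eta (fun j => A j 0)]
    exact (inner_col hA 0 0).trans (if_pos rfl))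
  rw [fn3_eta (fun j => A j 0)] at hs
  have hB : ((Rm s)ᴴ * A) * ((Rm s)ᴴ * A)ᴴ = 1 := by
    rw [conjTranspose_mul, conjTranspose_conjTranspose, Matrix.mul_assoc, ← Matrix.mul_assoc A, hA, Matrix.one_mul]
    exact mul_eq_one_comm.1 (Rm_unit s)
  exact ⟨s, cols_of_col hB (i0 := i0) fun j hj => hs j (by
    rw [Matrix.mul_apply] at hj
    exact hj)⟩

/-- conjugation of the extraspecial group by the Fourier matrices -/
theorem Rm_conj (t r α β : ZMod 3) :
    Rm (some t) * mm (Equiv.addRight r) (fun k => α + β * k) =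
      mm (Equiv.addRight (2 * t * r - β)) (fun k => (α - t * r * r + (r + 2 * t * (2 * t * r - β)) * (2 * t * r - β) -
        t * (2 * t * r - β) * (2 * t * r - β)) + (r + 2 * t * (2 * t * r - β)) * k) * Rm (some t) := by
  ext i k
  rw [Matrix.mul_apply, Matrix.mul_apply, Finset.sum_eq_single (k + r), Finset.sum_eq_single (i - (2 * t * r - β))]
  · rw [mm_apply, mm_apply, if_pos (by rfl), if_pos (by
      show i = i - (2 * t * r - β) + (2 * t * r - β)
      ring)]
    show wp _ * wp _ = wp _ * wp _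
    rw [← wp_add, ← wp_add]
    congr 1
    ring
  · intro l _ hl
    rw [mm_apply, if_neg (fun h => hl (by
      have h' : i = l + (2 * t * r - β) := h
      rw [h']; ring)), zero_mul]
  · intro h; exact absurd (Finset.mem_univ _) h
  · intro l _ hl
    show _ * (if l = k + r then wp (α + β * k) else 0) = 0
    rw [if_neg hl, mul_zero]
  · intro h; exact absurd (Finset.mem_univ _) h

/-- block diagonal elements -/
def RR (s s' : Option (ZMod 3)) : SUt :=
  ⟨Matrix.fromBlocks (Rm s) 0 0 (Rm s'), by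
    rw [fromBlocks_conjTranspose, fromBlocks_multiply]
    simp only [conjTranspose_zero, Matrix.mul_zero, Matrix.zero_mul, add_zero, zero_add, Rm_unit]
    exact fromBlocks_one, by
    rw [det_fromBlocks_zero₂₁, Rm_det, Rm_det, one_mul]⟩

theorem coe_RR (s s' : Option (ZMod 3)) : (RR s s').1 = Matrix.fromBlocks (Rm s) 0 0 (Rm s') := rfl

/-- **(m6)** -/
theorem exists_RR {a : SUt} (h : (∀ i j, a.1 i j ≠ 0 → i.isLeft = j.isLeft) ∨ (∀ i j, a.1 i j ≠ 0 → i.isLeft = !j.isLeft)) :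
    ∃ s s', ∀ k, ∃ i, ∀ j, ((RR s s')⁻¹ * a).1 j k ≠ 0 → j = i := by
  have ha : a.1 * a.1ᴴ = 1 := a.2.1
  have hRR : ∀ s s', (RR s s')⁻¹.1 = Matrix.fromBlocks (Rm s)ᴴ 0 0 (Rm s')ᴴ := by
    intro s s'
    show (RR s s').1ᴴ = _
    rw [coe_RR, fromBlocks_conjTranspose, conjTranspose_zero]
  rcases h with h | h
  · have h12 : ∀ i j : ZMod 3, a.1 (.inl i) (.inr j) = 0 := fun i j => by
      by_contra hne
      exact absurd (h _ _ hne) (by simp)
    have h21 : ∀ i j : ZMod 3, a.1 (.inr i) (.inl j) = 0 := fun i j => by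
      by_contra hne
      exact absurd (h _ _ hne) (by simp)
    have he : a.1 = fromBlocks (a.1.toBlocks₁₁) 0 0 (a.1.toBlocks₂₂) := by
      conv_lhs => rw [← fromBlocks_toBlocks a.1]
      congr 1
      · ext i j; exact h12 i j
      · ext i j; exact h21 i j
    generalize a.1.toBlocks₁₁ = A at he
    generalize a.1.toBlocks₂₂ = B at he
    rw [he, fromBlocks_conjTranspose, fromBlocks_multiply, ← fromBlocks_one, fromBlocks_inj] at ha
    simp only [conjTranspose_zero, Matrix.mul_zero, Matrix.zero_mul, add_zero, zero_add] at ha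
    obtain ⟨s, hs⟩ := exists_Rm ha.1
    obtain ⟨s', hs'⟩ := exists_Rm ha.2.2.2
    refine ⟨s, s', fun k => ?_⟩
    rw [SUt.coe_mul, hRR, he, fromBlocks_multiply]
    simp only [Matrix.mul_zero, Matrix.zero_mul, add_zero, zero_add]
    rcases k with k | k
    · obtain ⟨i, hi⟩ := hs k
      refine ⟨.inl i, fun j hj => ?_⟩
      rcases j with j | j
      · exact congrArg _ (hi j hj)
      · exact absurd rfl hj
    · obtain ⟨i, hi⟩ := hs' k
      refine ⟨.inr i, fun j hj => ?_⟩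
      rcases j with j | j
      · exact absurd rfl hj
      · exact congrArg _ (hi j hj)
  · have h11 : ∀ i j : ZMod 3, a.1 (.inl i) (.inl j) = 0 := fun i j => by
      by_contra hne
      exact absurd (h _ _ hne) (by simp)
    have h22 : ∀ i j : ZMod 3, a.1 (.inr i) (.inr j) = 0 := fun i j => by
      by_contra hne
      exact absurd (h _ _ hne) (by simp)
    have he : a.1 = fromBlocks 0 (a.1.toBlocks₁₂) (a.1.toBlocks₂₁) 0 := by
      conv_lhs => rw [← fromBlocks_toBlocks a.1]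
      congr 1
      · ext i j; exact h11 i j
      · ext i j; exact h22 i j
    generalize a.1.toBlocks₁₂ = A at he
    generalize a.1.toBlocks₂₁ = B at he
    rw [he, fromBlocks_conjTranspose, fromBlocks_multiply, ← fromBlocks_one, fromBlocks_inj] at ha
    simp only [conjTranspose_zero, Matrix.mul_zero, Matrix.zero_mul, add_zero, zero_add] at ha
    obtain ⟨s, hs⟩ := exists_Rm ha.1
    obtain ⟨s', hs'⟩ := exists_Rm ha.2.2.2
    refine ⟨s, s', fun k => ?_⟩
    rw [SUt.coe_mul, hRR, he, fromBlocks_multiply]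
    simp only [Matrix.mul_zero, Matrix.zero_mul, add_zero, zero_add]
    rcases k with k | k
    · obtain ⟨i, hi⟩ := hs' k
      refine ⟨.inr i, fun j hj => ?_⟩
      rcases j with j | j
      · exact absurd rfl hj
      · exact congrArg _ (hi j hj)
    · obtain ⟨i, hi⟩ := hs k
      refine ⟨.inl i, fun j hj => ?_⟩
      rcases j with j | j
      · exact congrArg _ (hi j hj)
      · exact absurd rfl hj

/-- monomial quotients -/
theorem RR_inj {s s' u u' : Option (ZMod 3)} {π : Equiv.Perm N6} {e : N6 → ZMod 3} {he : e ∈ E0}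
    (h : RR s s' = RR u u' * mo π e he) : s = u ∧ s' = u' := by
  have h1 : (RR u u')⁻¹ * RR s s' = mo π e he := by rw [h, inv_mul_cancel_left]
  have h2 : Matrix.fromBlocks ((Rm u)ᴴ * Rm s) 0 0 ((Rm u')ᴴ * Rm s') = mm π e := by
    rw [← coe_mo π e he, ← h1, SUt.coe_mul]
    have : (RR u u')⁻¹.1 = Matrix.fromBlocks (Rm u)ᴴ 0 0 (Rm u')ᴴ := by
      show (RR u u').1ᴴ = _
      rw [coe_RR, fromBlocks_conjTranspose, conjTranspose_zero]
    rw [this, coe_RR, fromBlocks_multiply]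
    simp only [Matrix.mul_zero, Matrix.zero_mul, add_zero, zero_add]
  constructor
  · symm
    apply fou3
    have h3 : ∀ j : ZMod 3, ((Rm u)ᴴ * Rm s) j 0 = mm π e (.inl j) (.inl 0) := fun j => by rw [← h2]; rfl
    rcases h4 : π (.inl 0) with i | i
    · refine ⟨i, fun j hj => ?_⟩
      rw [h3, mm_apply, h4] at hj
      by_contra hne
      exact hj (if_neg (fun h => hne (Sum.inl_injective h)))
    · refine ⟨0, fun j hj => ?_⟩
      rw [h3, mm_apply, h4] at hj
      exact absurd (if_neg (by simp)) hj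
  · symm
    apply fou3
    have h3 : ∀ j : ZMod 3, ((Rm u')ᴴ * Rm s') j 0 = mm π e (.inr j) (.inr 0) := fun j => by rw [← h2]; rfl
    rcases h4 : π (.inr 0) with i | i
    · refine ⟨0, fun j hj => ?_⟩
      rw [h3, mm_apply, h4] at hj
      exact absurd (if_neg (by simp)) hj
    · refine ⟨i, fun j hj => ?_⟩
      rw [h3, mm_apply, h4] at hj
      by_contra hne
      exact hj (if_neg (fun h => hne (Sum.inr_injective h)))

end Cfsg.Agent.H12.P4
end

-- part: H12/P4/Nrm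
section
/-!
# S5210 (U₆(2)): the normalizers of the Sylow subgroup and of `Q`
-/

set_option autoImplicit false

namespace Cfsg.Agent.H12.P4

open Cfsg.Agent.H776.P4 Cfsg.Agent.H756.PU
open Cfsg.Agent.H1.P4 (mem_PZ_of_comm char_PV char_PQ finite_PG)

universe u

/-- conjugations inducing automorphisms -/
theorem exists_aut {P A : Type*} [Group P] [Group A] [Finite P] (j : P →* A) (hj : Function.Injective j) (g : A)
    (h : ∀ x, ∃ y, g * j x * g⁻¹ = j y) : ∃ α : MulAut P, ∀ x, j (α x) = g * j x * g⁻¹ := by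
  choose f hf using h
  let F : P →* P :=
    { toFun := f
      map_one' := by
        apply hj
        rw [← hf, map_one, mul_one, mul_inv_cancel]
      map_mul' := fun x y => by
        apply hj
        rw [← hf, map_mul, map_mul, ← hf, ← hf]
        group }
  have hF : Function.Injective F := by
    intro x y hxy
    have h1 : g * j x * g⁻¹ = g * j y * g⁻¹ := by rw [hf, hf]; exact congrArg j hxy
    exact hj (mul_left_cancel (mul_right_cancel h1))
  exact ⟨MulEquiv.ofBijective F (Finite.injective_iff_bijective.1 hF), fun x => (hf x).symm⟩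

/-- the permutations preserving the two blocks -/
def blk : (Equiv.Perm (ZMod 3) × Equiv.Perm (ZMod 3)) × Bool → Equiv.Perm N6
  | ((p, q), false) => Equiv.sumCongr p q
  | ((p, q), true) => Equiv.sumCongr p q * Equiv.sumComm (ZMod 3) (ZMod 3)

theorem blk_injective : Function.Injective blk := by
  rintro ⟨⟨p, q⟩, b⟩ ⟨⟨p', q'⟩, b'⟩ h
  have hl : ∀ j, blk ((p, q), b) (.inl j) = blk ((p', q'), b') (.inl j) := fun j => by rw [h]
  have hr : ∀ j, blk ((p, q), b) (.inr j) = blk ((p', q'), b') (.inr j) := fun j => by rw [h]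
  cases b <;> cases b'
  · have h1 : p = p' := Equiv.ext fun j => Sum.inl_injective (hl j)
    have h2 : q = q' := Equiv.ext fun j => Sum.inr_injective (hr j)
    rw [h1, h2]
  · have := hl 0
    exact absurd this (by intro h; cases h)
  · have := hl 0
    exact absurd this (by intro h; cases h)
  · have h1 : p = p' := Equiv.ext fun j => Sum.inl_injective (hr j)
    have h2 : q = q' := Equiv.ext fun j => Sum.inr_injective (hl j)
    rw [h1, h2]

theorem exists_sumCongr {π : Equiv.Perm N6} (h : ∀ j, (π (.inl j)).isLeft = true) :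
    ∃ p q : Equiv.Perm (ZMod 3), π = Equiv.sumCongr p q := by
  have h1 : π ∈ (Equiv.Perm.sumCongrHom (ZMod 3) (ZMod 3)).range := by
    apply Equiv.Perm.mem_sumCongrHom_range_of_perm_mapsTo_inl
    rintro _ ⟨j, rfl⟩
    have h2 := h j
    rcases h3 : π (.inl j) with i | i
    · exact ⟨i, rfl⟩
    · rw [h3] at h2
      exact absurd h2 (by simp)
  obtain ⟨⟨p, q⟩, h2⟩ := h1
  exact ⟨p, q, h2.symm⟩

theorem exists_blk {π : Equiv.Perm N6} (h : (∀ j, (π (.inl j)).isLeft = true) ∨ (∀ j, (π (.inl j)).isLeft = false)) :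
    ∃ t, π = blk t := by
  rcases h with h | h
  · obtain ⟨p, q, rfl⟩ := exists_sumCongr h
    exact ⟨((p, q), false), rfl⟩
  · obtain ⟨p, q, h1⟩ := exists_sumCongr (π := Equiv.sumComm (ZMod 3) (ZMod 3) * π) (fun j => by
      have h2 := h j
      rw [Equiv.Perm.mul_apply]
      rcases h3 : π (.inl j) with i | i
      · rw [h3] at h2
        exact absurd h2 (by simp)
      · rfl)
    refine ⟨((q, p), true), ?_⟩
    have h2 : π = Equiv.sumComm (ZMod 3) (ZMod 3) * (Equiv.sumComm (ZMod 3) (ZMod 3) * π) := by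
      ext x
      rw [Equiv.Perm.mul_apply, Equiv.Perm.mul_apply]
      rcases π x with i | i <;> rfl
    rw [h2, h1]
    ext x
    rcases x with i | i <;> rfl

theorem perm_aff : ∀ (p : Equiv.Perm (ZMod 3)) (r : ZMod 3), ∃ s : ZMod 3, ∀ k, p (k + r) = p k + s := by decide +kernel

theorem blk_conj (t : (Equiv.Perm (ZMod 3) × Equiv.Perm (ZMod 3)) × Bool) (r1 r2 : ZMod 3) :
    ∃ s1 s2, blk t * Pr r1 r2 = Pr s1 s2 * blk t := by
  obtain ⟨⟨p, q⟩, b⟩ := t
  cases b
  · obtain ⟨s1, h1⟩ := perm_aff p r1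
    obtain ⟨s2, h2⟩ := perm_aff q r2
    refine ⟨s1, s2, Equiv.ext fun x => ?_⟩
    rcases x with k | k
    · show Sum.inl (p (k + r1)) = Sum.inl (p k + s1)
      rw [h1]
    · show Sum.inr (q (k + r2)) = Sum.inr (q k + s2)
      rw [h2]
  · obtain ⟨s2, h1⟩ := perm_aff q r1
    obtain ⟨s1, h2⟩ := perm_aff p r2
    refine ⟨s1, s2, Equiv.ext fun x => ?_⟩
    rcases x with k | k
    · show Sum.inr (q (k + r1)) = Sum.inr (q k + s2)
      rw [h1]
    · show Sum.inl (p (k + r2)) = Sum.inl (p k + s1)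
      rw [h2]

/-- **(m3)** -/
theorem blk_of_conj {π : Equiv.Perm N6} {s1 s2 : ZMod 3} (h : π * Pr 1 0 = Pr s1 s2 * π) : ∃ t, π = blk t := by
  have hx : ∀ x, π (Pr 1 0 x) = Pr s1 s2 (π x) := fun x => by
    rw [← Equiv.Perm.mul_apply, h, Equiv.Perm.mul_apply]
  have hfix : Pr s1 s2 (π (.inr 0)) = π (.inr 0) := by
    rw [← hx, Pr_inr, add_zero]
  have hmov : ∀ j, Pr s1 s2 (π (.inl j)) ≠ π (.inl j) := by
    intro j h1
    rw [← hx, Pr_inl] at h1
    have h2 := Sum.inl_injective (π.injective h1)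
    have h3 : (1 : ZMod 3) = 0 := by linear_combination h2
    exact absurd h3 (by decide)
  have hz : s1 = 0 ∨ s2 = 0 := by
    rcases h1 : π (.inr 0) with i | i
    · left
      rw [h1, Pr_inl] at hfix
      have := Sum.inl_injective hfix
      linear_combination this
    · right
      rw [h1, Pr_inr] at hfix
      have := Sum.inr_injective hfix
      linear_combination this
  apply exists_blk
  rcases hz with rfl | rfl
  · right
    intro j
    rcases h1 : π (.inl j) with i | i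
    · exfalso
      apply hmov j
      rw [h1, Pr_inl, add_zero]
    · rfl
  · left
    intro j
    rcases h1 : π (.inl j) with i | i
    · rfl
    · exfalso
      apply hmov j
      rw [h1, Pr_inr, add_zero]

/-! ### Exponent vectors -/

theorem Ev_surj {f : N6 → ZMod 3} (hf : f ∈ E0) : ∃ a b1 b2 k, ∀ j,
    Ev a b1 b2 (∑ i, f (.inl i)) j = f j + k := by
  rw [mem_E0, Fintype.sum_sum_type] at hf
  have hs : ∀ g : ZMod 3 → ZMod 3, ∑ i, g i = g 0 + g 1 + g 2 := fun g => Fin.sum_univ_three g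
  rw [hs, hs] at hf
  rw [hs]
  have h3 : (3 : ZMod 3) = 0 := rfl
  refine ⟨f (.inr 2) - f (.inl 2), f (.inl 0) - f (.inl 1), f (.inr 1) - f (.inr 0), - f (.inl 2), fun j => ?_⟩
  have hj : j = .inl 0 ∨ j = .inl 1 ∨ j = .inl 2 ∨ j = .inr 0 ∨ j = .inr 1 ∨ j = .inr 2 := by
    revert j
    decide
  rcases hj with rfl | rfl | rfl | rfl | rfl | rfl
  · simp only [Ev, Sum.elim_inl]
    linear_combination (-f (.inl 0)) * h3
  · simp only [Ev, Sum.elim_inl]
    linear_combination (-f (.inl 0)) * h3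
  · simp only [Ev, Sum.elim_inl]
    linear_combination (-2 * f (.inl 0) - f (.inl 2)) * h3
  · simp only [Ev, Sum.elim_inr]
    linear_combination hf - f (.inr 0) * h3
  · simp only [Ev, Sum.elim_inr]
    linear_combination hf - f (.inr 0) * h3
  · simp only [Ev, Sum.elim_inr]
    linear_combination (f (.inr 1) - f (.inr 0) + f (.inl 0) + f (.inl 1) + f (.inl 2)) * h3

section

variable {K : Type u} [Field K] [StarRing K] (C : Co K)

/-- **the image of the embedding** -/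
theorem io6_surj (s1 s2 : ZMod 3) {f : N6 → ZMod 3} (hf : f ∈ E0) :
    ∃ y : PG K, io6 C y = mk (mo (Pr s1 s2) f hf) ∧ C.re y.r = s1 ∧ C.im y.r = s2 ∧ C.re y.c = ∑ i, f (.inl i) := by
  obtain ⟨a, b1, b2, k, h⟩ := Ev_surj (comp_mem (Pr s1 s2)⁻¹ hf)
  obtain ⟨r', hr1, hr2⟩ := C.surj s1 s2
  obtain ⟨a', ha1, ha2⟩ := C.surj a 0
  obtain ⟨b', hb1, hb2⟩ := C.surj b1 b2
  obtain ⟨c', hc1, hc2⟩ := C.surj (∑ i, f ((Pr s1 s2)⁻¹ (.inl i))) 0
  have hcs : ∑ i, f ((Pr s1 s2)⁻¹ (.inl i)) = ∑ i, f (.inl i) := by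
    have h1 : ∀ i, (Pr s1 s2)⁻¹ (.inl i) = .inl ((Equiv.addRight s1).symm i) := fun i => rfl
    simp only [h1]
    exact Equiv.sum_comp (Equiv.addRight s1).symm (fun i => f (.inl i))
  refine ⟨⟨r', a', b', c', C.fix_im ha2, C.fix_im hc2⟩, ?_, hr1, hr2, by rw [← hcs]; exact hc1⟩
  rw [io6_apply, io, mk_mo_eq]
  refine ⟨by rw [hr1, hr2], -k, fun j => ?_⟩
  rw [ex]
  show f j = Ev (C.re a') (C.re b') (C.im b') (C.re c') (Pr (C.re r') (C.im r') j) + -k
  rw [hr1, hr2, ha1, hb1, hb2, hc1, h]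
  have h2 : (Pr s1 s2)⁻¹ (Pr s1 s2 j) = j := (Pr s1 s2).symm_apply_apply j
  rw [h2]
  ring

variable {p n : ℕ} (hK : HypK K p n)

include hK

/-- **(nS)** the normalizer of the Sylow subgroup -/
theorem nrmS_iff {a : SUt} : (∀ x : PG K, ∃ y : PG K, mk a * io6 C x * (mk a)⁻¹ = io6 C y) ↔
    ∃ t e, ∃ he : e ∈ E0, a = mo (blk t) e he := by
  constructor
  · intro h
    have hfin := finite_PG hK
    obtain ⟨α, hα⟩ := exists_aut (io6 C) (io6_injective C) (mk a) h
    obtain ⟨π, e, he, rfl⟩ := mono_of_norm (a := a) (fun d hd => by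
      obtain ⟨y, hy, hr1, hr2, -⟩ := io6_surj C 0 0 hd
      have hyV : y ∈ PV K := by
        show y.r = 0
        exact C.ext _ _ (hr1.trans C.re_zero.symm) (hr2.trans C.im_zero.symm)
      have h1 : (α y).r = 0 := char_PV hK α hyV
      refine ⟨ex C (α y), ex_mem C (α y), ?_⟩
      have h2 := hα y
      rw [hy] at h2
      have h3 : io6 C (α y) = mk (mo 1 (ex C (α y)) (ex_mem C (α y))) := by
        rw [io6_apply, io]
        congr 2
        rw [h1, C.re_zero, C.im_zero, Pr_zero]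
      rw [← h3, h2, inv_mul_cancel_right]
      congr 3
      exact Pr_zero.symm)
    obtain ⟨y, hy, -⟩ := io6_surj C 1 0 (f := 0) E0.zero_mem
    have h1 := hα y
    rw [hy, io6_apply, io] at h1
    have h2 : mk (mo (Pr (C.re (α y).r) (C.im (α y).r)) (ex C (α y)) (ex_mem C (α y))) * mk (mo π e he) =
        mk (mo π e he) * mk (mo (Pr 1 0) 0 E0.zero_mem) := by
      rw [h1, inv_mul_cancel_right]
    rw [← map_mul, ← map_mul, mo_mul, mo_mul, mk_mo_eq] at h2
    obtain ⟨t, ht⟩ := blk_of_conj h2.1.symm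
    subst ht
    exact ⟨t, e, he, rfl⟩
  · rintro ⟨t, e, he, rfl⟩ x
    obtain ⟨s1, s2, hs⟩ := blk_conj t (C.re x.r) (C.im x.r)
    have h1 : mk (mo (blk t) e he) * io6 C x * (mk (mo (blk t) e he))⁻¹ =
        mk (mo (blk t * Pr (C.re x.r) (C.im x.r) * (blk t)⁻¹) _
          (E0.add_mem (E0.neg_mem (comp_mem (blk t)⁻¹ he)) (comp_mem (blk t)⁻¹
            (E0.add_mem (ex_mem C x) (comp_mem (Pr (C.re x.r) (C.im x.r)) he))))) := by
      rw [io6_apply, ← map_inv, ← map_mul, ← map_mul, io, mo_mul, mo_inv, mo_mul]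
      rfl
    have h2 : blk t * Pr (C.re x.r) (C.im x.r) * (blk t)⁻¹ = Pr s1 s2 := by
      rw [hs, mul_inv_cancel_right]
    obtain ⟨y, hy, -⟩ := io6_surj C s1 s2 (E0.add_mem (E0.neg_mem (comp_mem (blk t)⁻¹ he)) (comp_mem (blk t)⁻¹
            (E0.add_mem (ex_mem C x) (comp_mem (Pr (C.re x.r) (C.im x.r)) he))))
    refine ⟨y, ?_⟩
    rw [h1, hy]
    congr 2

end

end Cfsg.Agent.H12.P4
end

-- part: H12/P4/Gen
section
/-!
# S5210 (U₆(2)): automorphisms induced by normalizers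
-/

set_option autoImplicit false

namespace Cfsg.Agent.H12.P4

/-- automorphisms induced by automorphisms of an overgroup -/
theorem exists_autf {P A : Type*} [Group P] [Group A] [Finite P] (j : P →* A) (hj : Function.Injective j) (g : MulAut A)
    (h : ∀ x, ∃ y, g (j x) = j y) : ∃ α : MulAut P, ∀ x, j (α x) = g (j x) := by
  choose f hf using h
  let F : P →* P :=
    { toFun := f
      map_one' := by
        apply hj
        rw [← hf, map_one, map_one]
      map_mul' := fun x y => by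
        apply hj
        rw [← hf, map_mul, map_mul, map_mul, ← hf, ← hf] }
  have hF : Function.Injective F := by
    intro x y hxy
    have h1 : g (j x) = g (j y) := by rw [hf, hf]; exact congrArg j hxy
    exact hj (g.injective h1)
  exact ⟨MulEquiv.ofBijective F (Finite.injective_iff_bijective.1 hF), fun x => (hf x).symm⟩

section

variable {P A B : Type*} [Group P] [Group A] [Group B] [Finite P]

/-- the elements normalizing the image of `j` -/
def NJ (m : B →* A) (j : P →* A) (hj : Function.Injective j) : Subgroup B where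
  carrier := {g | ∀ x, ∃ y, m g * j x * (m g)⁻¹ = j y}
  one_mem' := fun x => ⟨x, by simp⟩
  mul_mem' := by
    intro a b ha hb x
    obtain ⟨y, hy⟩ := hb x
    obtain ⟨z, hz⟩ := ha y
    refine ⟨z, ?_⟩
    rw [map_mul, mul_inv_rev, ← hz, ← hy]
    group
  inv_mem' := by
    intro a ha x
    obtain ⟨α, hα⟩ := exists_autf j hj (MulAut.conj (m a)) ha
    refine ⟨α⁻¹ x, ?_⟩
    have h1 := hα (α⁻¹ x)
    rw [MulAut.apply_inv_self, MulAut.conj_apply] at h1
    rw [h1, map_inv]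
    group

/-- the elements centralizing the image of `j` -/
def CJ (m : B →* A) (j : P →* A) : Subgroup B where
  carrier := {g | ∀ x, m g * j x = j x * m g}
  one_mem' := fun x => by simp
  mul_mem' := by
    intro a b ha hb x
    rw [map_mul, mul_assoc, hb x, ← mul_assoc, ha x, mul_assoc]
  inv_mem' := by
    intro a ha x
    rw [map_inv, inv_mul_eq_iff_eq_mul, ← mul_assoc, ha x, mul_inv_cancel_right]

omit [Finite P] in
theorem mem_CJ {m : B →* A} {j : P →* A} {g : B} : g ∈ CJ m j ↔ ∀ x, m g * j x = j x * m g := Iff.rfl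

theorem CJ_le_NJ (m : B →* A) (j : P →* A) (hj : Function.Injective j) : CJ m j ≤ NJ m j hj := by
  intro g hg x
  exact ⟨x, by rw [hg x, mul_inv_cancel_right]⟩

/-- the order of the group of induced automorphisms -/
theorem card_induced (m : B →* A) (hm : Function.Surjective m) (j : P →* A) (hj : Function.Injective j)
    (Γ : Subgroup (MulAut P)) (hΓ : ∀ α, α ∈ Γ ↔ ∃ g : A, ∀ x, j (α x) = g * j x * g⁻¹) :
    Nat.card (CJ m j) * Nat.card Γ = Nat.card (NJ m j hj) := by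
  choose f hf using fun g : NJ m j hj => exists_autf j hj (MulAut.conj (m g)) g.2
  let θ : NJ m j hj →* MulAut P := MonoidHom.mk' f (by
    intro a b
    ext1 x
    apply hj
    rw [MulAut.mul_apply, hf, hf, hf, Subgroup.coe_mul, map_mul, map_mul]
    rfl)
  have hθ : ∀ g x, j (θ g x) = m g * j x * (m g)⁻¹ := fun g x => hf g x
  have hr : θ.range = Γ := by
    ext α
    rw [hΓ]
    constructor
    · rintro ⟨g, rfl⟩
      exact ⟨m g, hθ g⟩
    · rintro ⟨g, hg⟩
      obtain ⟨b, rfl⟩ := hm g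
      refine ⟨⟨b, fun x => ⟨α x, (hg x).symm⟩⟩, ?_⟩
      ext1 x
      apply hj
      rw [hθ, hg]
  have hk : θ.ker = (CJ m j).subgroupOf (NJ m j hj) := by
    ext g
    rw [MonoidHom.mem_ker, Subgroup.mem_subgroupOf, mem_CJ]
    constructor
    · intro h x
      have h1 := hθ g x
      rw [h, MulAut.one_apply] at h1
      rw [eq_mul_inv_iff_mul_eq] at h1
      exact h1.symm
    · intro h
      ext1 x
      apply hj
      rw [hθ, h, mul_inv_cancel_right, MulAut.one_apply]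
  have h1 := θ.ker.card_mul_index
  rw [Subgroup.index_ker, hr, hk, Nat.card_congr (Subgroup.subgroupOfEquivOfLe (CJ_le_NJ m j hj)).toEquiv] at h1
  exact h1

/-- twice as many automorphisms -/
theorem card_double {M : Type*} [Group M] [Finite M] {Γ Γ' : Subgroup M} {f : M} (hf : f ∉ Γ)
    (h : ∀ α, α ∈ Γ' ↔ α ∈ Γ ∨ α * f ∈ Γ) : Nat.card Γ' = 2 * Nat.card Γ := by
  have hle : Γ ≤ Γ' := fun α hα => (h α).2 (Or.inl hα)
  have hfi : f⁻¹ ∈ Γ' := (h _).2 (Or.inr (by rw [inv_mul_cancel]; exact Γ.one_mem))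
  have hf' : f ∈ Γ' := by
    rw [← inv_inv f]
    exact Γ'.inv_mem hfi
  have h1 : (Γ.subgroupOf Γ').index = 2 := by
    rw [Subgroup.index_eq_two_iff]
    refine ⟨⟨f, hf'⟩, fun b => ?_⟩
    rw [Subgroup.mem_subgroupOf, Subgroup.mem_subgroupOf]
    show Xor ((b : M) * f ∈ Γ) ((b : M) ∈ Γ)
    rcases (h b).1 b.2 with hb | hb
    · right
      refine ⟨hb, fun hb' => hf ?_⟩
      have := Γ.mul_mem (Γ.inv_mem hb) hb'
      rwa [inv_mul_cancel_left] at this
    · left
      refine ⟨hb, fun hb' => hf ?_⟩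
      have := Γ.mul_mem (Γ.inv_mem hb') hb
      rwa [inv_mul_cancel_left] at this
  have h2 := (Γ.subgroupOf Γ').card_mul_index
  rw [h1, Nat.card_congr (Subgroup.subgroupOfEquivOfLe hle).toEquiv] at h2
  omega

end

end Cfsg.Agent.H12.P4
end

-- part: H12/P4/NrmQ
section
/-!
# S5210 (U₆(2)): the normalizer of `Q`, centralizers
-/

set_option autoImplicit false

namespace Cfsg.Agent.H12.P4

open Cfsg.Agent.H776.P4 Cfsg.Agent.H756.PU Matrix
open Cfsg.Agent.H1.P4 (mem_PZ_of_comm char_PV char_PQ finite_PG PZ_comm PZ_le_PY PY_le_PQ)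

universe u

theorem sum_aff (α β : ZMod 3) : ∑ k : ZMod 3, (α + β * k) = 0 := by
  revert α β
  decide

/-- affine exponents -/
def Af (α1 β1 α2 β2 : ZMod 3) : N6 → ZMod 3 := Sum.elim (fun k => α1 + β1 * k) (fun k => α2 + β2 * k)

theorem Af_mem (α1 β1 α2 β2 : ZMod 3) : Af α1 β1 α2 β2 ∈ E0 := by
  rw [mem_E0, Fintype.sum_sum_type]
  show ∑ k : ZMod 3, (α1 + β1 * k) + ∑ k : ZMod 3, (α2 + β2 * k) = 0
  rw [sum_aff, sum_aff, add_zero]

theorem mm_Pr (r1 r2 : ZMod 3) (f g : ZMod 3 → ZMod 3) :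
    mm (Pr r1 r2) (Sum.elim f g) = fromBlocks (mm (Equiv.addRight r1) f) 0 0 (mm (Equiv.addRight r2) g) := by
  ext i j
  rcases i with i | i <;> rcases j with j | j
  · show (if Sum.inl i = Pr r1 r2 (Sum.inl j) then _ else _) = (if i = j + r1 then _ else _)
    rw [Pr_inl]
    by_cases h : i = j + r1
    · rw [if_pos h, if_pos (congrArg _ h)]
      rfl
    · rw [if_neg h, if_neg (fun h' => h (Sum.inl_injective h'))]
  · show (if Sum.inl i = Pr r1 r2 (Sum.inr j) then _ else _) = _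
    rw [Pr_inr, if_neg (by simp)]
    rfl
  · show (if Sum.inr i = Pr r1 r2 (Sum.inl j) then _ else _) = _
    rw [Pr_inl, if_neg (by simp)]
    rfl
  · show (if Sum.inr i = Pr r1 r2 (Sum.inr j) then _ else _) = (if i = j + r2 then _ else _)
    rw [Pr_inr]
    by_cases h : i = j + r2
    · rw [if_pos h, if_pos (congrArg _ h)]
      rfl
    · rw [if_neg h, if_neg (fun h' => h (Sum.inr_injective h'))]

theorem Rm_conj' (s : Option (ZMod 3)) (r α β : ZMod 3) : ∃ r' α' β' : ZMod 3,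
    Rm s * mm (Equiv.addRight r) (fun k => α + β * k) = mm (Equiv.addRight r') (fun k => α' + β' * k) * Rm s := by
  cases s with
  | none => exact ⟨r, α, β, by rw [Rm_none, Matrix.one_mul, Matrix.mul_one]⟩
  | some t => exact ⟨_, _, _, Rm_conj t r α β⟩

theorem RR_conj (s s' : Option (ZMod 3)) (r1 r2 α1 β1 α2 β2 : ZMod 3) : ∃ r1' r2' α1' β1' α2' β2' : ZMod 3,
    RR s s' * mo (Pr r1 r2) (Af α1 β1 α2 β2) (Af_mem _ _ _ _) =
      mo (Pr r1' r2') (Af α1' β1' α2' β2') (Af_mem _ _ _ _) * RR s s' := by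
  obtain ⟨r1', α1', β1', h1⟩ := Rm_conj' s r1 α1 β1
  obtain ⟨r2', α2', β2', h2⟩ := Rm_conj' s' r2 α2 β2
  refine ⟨r1', r2', α1', β1', α2', β2', SUt.ext' ?_⟩
  rw [SUt.coe_mul, SUt.coe_mul, coe_RR, coe_mo, coe_mo, Af, Af, mm_Pr, mm_Pr, fromBlocks_multiply,
    fromBlocks_multiply, h1, h2]
  simp only [Matrix.mul_zero, Matrix.zero_mul, add_zero, zero_add]

section

variable {K : Type u} [Field K] [StarRing K] (C : Co K)

theorem ex_of_PQ {x : PG K} (hx : x ∈ PQ K) : ∃ α1 β1 α2 β2, io C x =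
    mo (Pr (C.re x.r) (C.im x.r)) (Af α1 β1 α2 β2) (Af_mem _ _ _ _) := by
  have hc : C.re x.c = 0 := by
    have : x.c = 0 := hx
    rw [this, C.re_zero]
  refine ⟨-C.re x.b - C.re x.b * C.re x.r, - C.re x.b, C.re x.a + C.im x.b + C.im x.b * C.im x.r, C.im x.b, ?_⟩
  apply SUt.ext'
  rw [io, coe_mo, coe_mo]
  congr 1
  funext j
  rw [ex, hc]
  rcases j with j | j
  · rw [Pr_inl]
    show - C.re x.b - 0 + (0 - C.re x.b) * (j + C.re x.r) - 0 * (j + C.re x.r) * (j + C.re x.r) =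
      (-C.re x.b - C.re x.b * C.re x.r) + (- C.re x.b) * j
    ring
  · rw [Pr_inr]
    show C.re x.a + C.im x.b + 0 + (C.im x.b - 0) * (j + C.im x.r) + 0 * (j + C.im x.r) * (j + C.im x.r) =
      (C.re x.a + C.im x.b + C.im x.b * C.im x.r) + C.im x.b * j
    ring

theorem io6_PQ (s1 s2 α1 β1 α2 β2 : ZMod 3) :
    ∃ y ∈ PQ K, io6 C y = mk (mo (Pr s1 s2) (Af α1 β1 α2 β2) (Af_mem _ _ _ _)) := by
  obtain ⟨y, hy, -, -, hc⟩ := io6_surj C s1 s2 (Af_mem α1 β1 α2 β2)
  refine ⟨y, ?_, hy⟩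
  show y.c = 0
  apply C.ext
  · rw [hc, C.re_zero]
    exact sum_aff _ _
  · rw [C.im_fix y.hc, C.im_zero]

theorem RR_norm (s s' : Option (ZMod 3)) {x : PG K} (hx : x ∈ PQ K) :
    ∃ y ∈ PQ K, mk (RR s s') * io6 C x * (mk (RR s s'))⁻¹ = io6 C y := by
  obtain ⟨α1, β1, α2, β2, h1⟩ := ex_of_PQ C hx
  obtain ⟨r1', r2', α1', β1', α2', β2', h2⟩ := RR_conj s s' (C.re x.r) (C.im x.r) α1 β1 α2 β2
  obtain ⟨y, hy, h3⟩ := io6_PQ C r1' r2' α1' β1' α2' β2'
  refine ⟨y, hy, ?_⟩
  rw [h3, io6_apply, h1, ← map_mul, h2, map_mul, mul_inv_cancel_right]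

/-- elements of `V` -/
theorem io6_PV {x : PG K} (hx : x ∈ PV K) :
    io6 C x = mk (mo 1 (Ev (C.re x.a) (C.re x.b) (C.im x.b) (C.re x.c)) (Ev_mem _ _ _ _)) := by
  have hr : x.r = 0 := hx
  rw [io6_apply, io]
  have h1 : Pr (C.re x.r) (C.im x.r) = 1 := by rw [hr, C.re_zero, C.im_zero, Pr_zero]
  rw [mk_mo_eq]
  refine ⟨h1, 0, fun j => ?_⟩
  rw [ex, h1, add_zero]
  rfl

theorem exists_PV (a b1 b2 c : ZMod 3) : ∃ x ∈ PV K, C.re x.a = a ∧ C.re x.b = b1 ∧ C.im x.b = b2 ∧ C.re x.c = c ∧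
    io6 C x = mk (mo 1 (Ev a b1 b2 c) (Ev_mem _ _ _ _)) := by
  obtain ⟨a', ha1, ha2⟩ := C.surj a 0
  obtain ⟨b', hb1, hb2⟩ := C.surj b1 b2
  obtain ⟨c', hc1, hc2⟩ := C.surj c 0
  refine ⟨⟨0, a', b', c', C.fix_im ha2, C.fix_im hc2⟩, rfl, ha1, hb1, hb2, hc1, ?_⟩
  subst ha1 hb1 hb2 hc1
  exact io6_PV C rfl

theorem exists_PY (a b1 b2 : ZMod 3) : ∃ x ∈ PY K, C.re x.a = a ∧ C.re x.b = b1 ∧ C.im x.b = b2 ∧
    io6 C x = mk (mo 1 (Ev a b1 b2 0) (Ev_mem _ _ _ _)) := by
  obtain ⟨x, hx, h1, h2, h3, h4, h5⟩ := exists_PV C a b1 b2 0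
  exact ⟨x, ⟨hx, C.ext _ _ (by rw [h4, C.re_zero]) (by rw [C.im_fix x.hc, C.im_zero])⟩, h1, h2, h3, h5⟩

theorem exists_PZ (a : ZMod 3) : ∃ x ∈ PZ K, C.re x.a = a ∧
    io6 C x = mk (mo 1 (Ev a 0 0 0) (Ev_mem _ _ _ _)) := by
  obtain ⟨x, hx, h1, h2, h3, h5⟩ := exists_PY C a 0 0
  exact ⟨x, ⟨hx.1, C.ext _ _ (by rw [h2, C.re_zero]) (by rw [h3, C.im_zero]), hx.2⟩, h1, h5⟩

theorem io6_PZ {x : PG K} (hx : x ∈ PZ K) : io6 C x = mk (mo 1 (Ev (C.re x.a) 0 0 0) (Ev_mem _ _ _ _)) := by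
  rw [io6_PV C (PZ_le_PY hx).1, mk_mo_eq]
  refine ⟨rfl, 0, fun j => ?_⟩
  have h1 : x.b = 0 := hx.2.1
  have h2 : x.c = 0 := hx.2.2
  rw [h1, h2, C.re_zero, C.im_zero, add_zero]

variable {p n : ℕ} (hK : HypK K p n)

/-- the embedding of `Q` -/
def ioQ : PQ K →* GG := (io6 C).comp (PQ K).subtype

theorem ioQ_apply (x : PQ K) : ioQ C x = io6 C (x : PG K) := rfl

theorem ioQ_injective : Function.Injective (ioQ C) := fun _ _ h => Subtype.ext (io6_injective C h)

theorem RR_mem [Finite (PG K)] (s s' : Option (ZMod 3)) : RR s s' ∈ NJ mk (ioQ C) (ioQ_injective C) := by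
  intro x
  obtain ⟨y, hy, h10⟩ := RR_norm C s s' x.2
  exact ⟨⟨y, hy⟩, h10⟩

include hK

/-- **(m5')** -/
theorem block_of_NJ [Finite (PG K)] {a : SUt} (h : a ∈ NJ mk (ioQ C) (ioQ_injective C)) :
    (∀ i j, a.1 i j ≠ 0 → i.isLeft = j.isLeft) ∨ (∀ i j, a.1 i j ≠ 0 → i.isLeft = !j.isLeft) := by
  obtain ⟨α, hα⟩ := exists_aut (ioQ C) (ioQ_injective C) (mk a) h
  obtain ⟨z, hz, hz1, hz2⟩ := exists_PZ C 1
  let z' : PQ K := ⟨z, PY_le_PQ (PZ_le_PY hz)⟩
  have h1 : ((α z' : PQ K) : PG K) ∈ PZ K := by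
    apply mem_PZ_of_comm hK
    intro y hy
    have h2 : ((⟨y, hy⟩ : PQ K)) = α (α⁻¹ ⟨y, hy⟩) := (MulAut.apply_inv_self _ _ _).symm
    have h3 : α z' * ⟨y, hy⟩ = ⟨y, hy⟩ * α z' := by
      rw [h2, ← map_mul, ← map_mul]
      congr 1
      exact Subtype.ext (PZ_comm hz _)
    exact congrArg Subtype.val h3
  have h2 := io6_PZ C h1
  have h3 := hα z'
  rw [ioQ_apply, ioQ_apply, h2] at h3
  have h4 : io6 C (z' : PG K) = mk (mo 1 (Ev 1 0 0 0) (Ev_mem _ _ _ _)) := hz2
  rw [h4] at h3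
  have ht : C.re ((α z' : PQ K) : PG K).a ≠ 0 := by
    intro h0
    have h5 : ((α z' : PQ K) : PG K) = 1 := by
      apply io6_injective C
      rw [h2, map_one, ← map_one mk]
      have h6 : (1 : SUt) = mo 1 0 E0.zero_mem := SUt.ext' mm_one.symm
      rw [h6, mk_mo_eq]
      refine ⟨rfl, 0, fun j => ?_⟩
      rw [h0]
      rcases j with j | j
      · show (0 : ZMod 3) = - 0 - 0 + (0 - 0) * j - 0 * j * j + 0
        ring
      · show (0 : ZMod 3) = 0 + 0 + 0 + (0 - 0) * j + 0 * j * j + 0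
        ring
    have h7 : z' = 1 := by
      apply α.injective
      rw [map_one]
      exact Subtype.ext h5
    have h8 : z = 1 := congrArg Subtype.val h7
    rw [h8] at hz1
    have h9 : C.re (1 : PG K).a = 0 := C.re_zero
    rw [h9] at hz1
    exact absurd hz1 (by decide)
  exact block_of_norm (a := a) ht (by rw [h3, inv_mul_cancel_right])

/-- **(nQ)** -/
theorem nrmQ_iff [Finite (PG K)] {a : SUt} : a ∈ NJ mk (ioQ C) (ioQ_injective C) ↔
    ∃ s s' t e, ∃ he : e ∈ E0, a = RR s s' * mo (blk t) e he := by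
  constructor
  · intro h
    obtain ⟨s, s', h6⟩ := exists_RR (block_of_NJ C hK h)
    obtain ⟨π, e, he, h7⟩ := exists_mo h6
    have h8 : a = RR s s' * mo π e he := by rw [← h7, mul_inv_cancel_left]
    -- the monomial part is a block permutation
    have h9 : mo π e he ∈ NJ mk (ioQ C) (ioQ_injective C) := by
      rw [← h7]
      exact Subgroup.mul_mem _ (Subgroup.inv_mem _ (RR_mem C s s')) h
    have hne : ∀ j, (mo π e he).1 (π j) j ≠ 0 := fun j => by
      rw [coe_mo, mm_apply, if_pos rfl]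
      exact wp_ne _
    obtain ⟨t, ht⟩ := exists_blk (π := π) (by
      rcases block_of_NJ C hK h9 with h10 | h10
      · left
        intro j
        exact h10 _ _ (hne (.inl j))
      · right
        intro j
        exact h10 _ _ (hne (.inl j)))
    subst ht
    exact ⟨s, s', t, e, he, h8⟩
  · rintro ⟨s, s', t, e, he, rfl⟩
    have h2 : mo (blk t) e he ∈ NJ mk (ioQ C) (ioQ_injective C) := by
      intro x
      obtain ⟨α, hα⟩ := exists_aut (io6 C) (io6_injective C) (mk (mo (blk t) e he))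
        ((nrmS_iff C hK).2 ⟨t, e, he, rfl⟩)
      exact ⟨⟨α x, char_PQ hK α x.2⟩, (hα x).symm⟩
    exact Subgroup.mul_mem _ (RR_mem C s s') h2

/-! ### Centralizers -/

theorem diag_of_CJ [Finite (PG K)] {a : SUt} (h : ∀ y ∈ PY K, mk a * io6 C y = io6 C y * mk a) :
    ∃ (e : N6 → ZMod 3) (he : e ∈ E0), a = mo 1 e he := by
  apply diag_of_comm
  intro x y z
  obtain ⟨w, hw, -, -, -, h1⟩ := exists_PY C x y z
  rw [← h1]
  exact h w hw

omit hK in
theorem io6_diag {e : N6 → ZMod 3} (he : e ∈ E0) : ∃ y ∈ PV K, io6 C y = mk (mo 1 e he) := by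
  obtain ⟨y, hy, h1, h2, -⟩ := io6_surj C 0 0 he
  refine ⟨y, C.ext _ _ (h1.trans C.re_zero.symm) (h2.trans C.im_zero.symm), ?_⟩
  rw [hy, mk_mo_eq]
  exact ⟨Pr_zero, 0, fun j => (add_zero _).symm⟩

/-- **(cQ)** -/
theorem cenQ_iff [Finite (PG K)] {a : SUt} : a ∈ CJ mk (ioQ C) ↔ ∃ z ∈ PZ K, mk a = io6 C z := by
  constructor
  · intro h
    obtain ⟨e, he, rfl⟩ := diag_of_CJ C hK (a := a) (fun y hy => h ⟨y, PY_le_PQ hy⟩)
    obtain ⟨y, hy, h1⟩ := io6_diag C he
    refine ⟨y, mem_PZ_of_comm hK fun w hw => ?_, h1.symm⟩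
    apply io6_injective C
    rw [map_mul, map_mul, h1]
    exact h ⟨w, hw⟩
  · rintro ⟨z, hz, h1⟩ x
    rw [h1, ioQ_apply, ← map_mul, ← map_mul, PZ_comm hz]

/-- **(cS)** -/
theorem cenS_iff [Finite (PG K)] {a : SUt} : a ∈ CJ mk (io6 C) ↔ ∃ z ∈ PZ K, mk a = io6 C z := by
  constructor
  · intro h
    exact (cenQ_iff C hK).1 fun x => h x
  · rintro ⟨z, hz, h1⟩ x
    rw [h1, ← map_mul, ← map_mul, PZ_comm hz]

end

end Cfsg.Agent.H12.P4
end

private theorem dce_5b918f84396d : _root_.True := by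
  try have : _root_.True := by simp only [_root_.Cfsg.Agent.H12.P4.mm.congr_simp]
  try have : _root_.True := by simp only [_root_.Cfsg.Agent.H12.P4.Ev.eq_1]
  try have : _root_.True := by simp only [_root_.Cfsg.Agent.H12.P4.Af.eq_1]
  try have : _root_.True := by simp only [_root_.Cfsg.Agent.H12.P4.io.eq_1]
  try have : _root_.True := by simp only [_root_.Cfsg.Agent.H12.P4.ex.eq_1]
  exact _root_.True.intro
end

-- part: H64/P4/NrmQ
section
set_option linter.all false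
open scoped Cfsg.Agent.FastGrp

/-!
# S5210 [P4-REALa] (helper64): the clause `nrmQ` of `RData` from the Bruhat statement

`nrmQ_of` : `nrm`, `wQ` and the Bruhat statement for the normalizer of `ι(Q)` give `nrmQ`.
-/

set_option autoImplicit false

namespace Cfsg.Agent.H64.P4

open Cfsg Cfsg.FusionSystem Cfsg.Agent.H776.P4
open Cfsg.Agent.H756.PU (HypK)

universe u

theorem exists_resQ {K : Type u} [Field K] [StarRing K] {p n : ℕ} (hK : HypK K p n) (d : MulAut (PG K)) :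
    ∃ δ : MulAut (PQ K), IsRP d δ :=
  ⟨(d.subgroupMap (PQ K)).trans (MulEquiv.subgroupCongr (((H1.P4.stTI hK).2 (PQ K) (Or.inr rfl)).2.2 d)), fun _ => rfl⟩

theorem nrmQ_of {K : Type u} [Field K] [StarRing K] {p n : ℕ} (hK : HypK K p n) {G0 : Type*} [Group G0]
    (ι : PG K →* G0)
    (nrm : ∀ g : G0, (∀ x : PG K, g * ι x * g⁻¹ ∈ ι.range) →
      ∃ (u : PG K) (τ : MulAut (PG K)), TorEl τ ∧ ∀ x : PG K, g * ι x * g⁻¹ = ι (u * τ x * u⁻¹))
    (wQ : G0) {γ : MulAut (PQ K)} (hγ : IsWQ γ)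
    (hwQ : ∀ e : PQ K, wQ * ι (e : PG K) * wQ⁻¹ = ι ((γ e : PQ K) : PG K))
    (brQ : ∀ g : G0, (∀ x ∈ PQ K, ∃ y ∈ PQ K, g * ι x * g⁻¹ = ι y) →
      (∀ x : PG K, g * ι x * g⁻¹ ∈ ι.range) ∨
      ∃ (x : PG K) (h : G0), (∀ y : PG K, h * ι y * h⁻¹ ∈ ι.range) ∧ g = ι x * wQ * h) :
    ∀ g : G0, (∀ x ∈ PQ K, ∃ y ∈ PQ K, g * ι x * g⁻¹ = ι y) →
      ∃ l ∈ LamQ K, ∃ (τ : MulAut (PG K)) (δ : MulAut (PQ K)), TorEl τ ∧ IsRP τ δ ∧
        ∀ e : PQ K, g * ι (e : PG K) * g⁻¹ = ι (((l * δ) e : PQ K) : PG K) := by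
  intro g hg
  rcases brQ g hg with h | ⟨x, h, hh, rfl⟩
  · obtain ⟨u, τ, hτ, hu⟩ := nrm g h
    obtain ⟨δ, hδ⟩ := exists_resQ hK τ
    refine ⟨MulAut.conjNormal u, conj_mem_LamQ u, τ, δ, hτ, hδ, fun e => ?_⟩
    rw [hu, ← hδ]
    rfl
  · obtain ⟨u, τ, hτ, hu⟩ := nrm h hh
    obtain ⟨δ, hδ⟩ := exists_resQ hK τ
    refine ⟨MulAut.conjNormal x * γ * MulAut.conjNormal u, mul_mem (mul_mem (conj_mem_LamQ x) (W_mem_LamQ hγ))
      (conj_mem_LamQ u), τ, δ, hτ, hδ, fun e => ?_⟩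
    have h1 : ι x * wQ * h * ι (e : PG K) * (ι x * wQ * h)⁻¹ =
        ι x * (wQ * (h * ι (e : PG K) * h⁻¹) * wQ⁻¹) * (ι x)⁻¹ := by group
    have h2 : u * τ (e : PG K) * u⁻¹ = ((MulAut.conjNormal u (δ e) : PQ K) : PG K) := by
      rw [← hδ]
      rfl
    rw [h1, hu, h2, hwQ, ← map_mul, ← map_inv, ← map_mul]
    rfl

end Cfsg.Agent.H64.P4
end

-- part: H12/P4/U62
section
prune_inst 0xe4100600310002000018059451003c26c200059200680000d801070606875f4265000121f6203d01480aaa4420380060030000e0424000000a200400011d00a080885204a248a10426008f800080000000000000000000000000000000041004000000000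
set_option linter.all false
open scoped Cfsg.Agent.FastGrp

-- part: H12/P4/Card
section
/-!
# S5210 (U₆(2)): orders
-/

set_option autoImplicit false

namespace Cfsg.Agent.H12.P4

open Cfsg.Agent.H776.P4 Cfsg.Agent.H756.PU Matrix

universe u

theorem card_E0 : Nat.card E0 = 243 := by
  let s : (N6 → ZMod 3) →+ ZMod 3 :=
    { toFun := fun e => ∑ i, e i
      map_zero' := by simp
      map_add' := fun a b => by
        show ∑ i, (a i + b i) = _
        rw [Finset.sum_add_distrib] }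
  have hs : Function.Surjective s := by
    intro c
    refine ⟨Pi.single (.inl 0) c, ?_⟩
    show ∑ i, (Pi.single (.inl 0) c : N6 → ZMod 3) i = c
    rw [Finset.sum_pi_single']
    simp
  have hk : s.ker = E0 := by
    ext e
    rfl
  have h1 := s.ker.card_mul_index
  rw [AddSubgroup.index_ker, AddMonoidHom.range_eq_top.2 hs, hk] at h1
  have h2 : Nat.card ((⊤ : AddSubgroup (ZMod 3))) = 3 := by
    rw [Nat.card_congr (AddSubgroup.topEquiv (G := ZMod 3)).toEquiv, Nat.card_zmod]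
  have h3 : Nat.card (N6 → ZMod 3) = 729 := by
    rw [Nat.card_fun, Nat.card_zmod, Nat.card_sum, Nat.card_zmod]
    norm_num
  rw [h2, h3] at h1
  omega

theorem card_perm3 : Nat.card (Equiv.Perm (ZMod 3)) = 6 := by
  rw [Nat.card_perm, Nat.card_zmod]
  rfl

theorem card_blk : Nat.card (E0 × ((Equiv.Perm (ZMod 3) × Equiv.Perm (ZMod 3)) × Bool)) = 17496 := by
  rw [Nat.card_prod, Nat.card_prod, Nat.card_prod, card_E0, card_perm3, Nat.card_eq_fintype_card (α := Bool),
    Fintype.card_bool]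

section

variable {K : Type u} [Field K] [StarRing K] (C : Co K) {p n : ℕ} (hK : HypK K p n)

include hK

theorem card_NS [Finite (PG K)] : Nat.card (NJ mk (io6 C) (io6_injective C)) = 17496 := by
  rw [← card_blk]
  symm
  refine Nat.card_congr (Equiv.ofBijective (fun t => ⟨mo (blk t.2) t.1.1 t.1.2, ?_⟩) ⟨?_, ?_⟩)
  · exact (nrmS_iff C hK).2 ⟨_, _, _, rfl⟩
  · intro t t' h
    have h1 : mo (blk t.2) t.1.1 t.1.2 = mo (blk t'.2) t'.1.1 t'.1.2 := congrArg Subtype.val h
    have h2 := mm_inj (congrArg Subtype.val h1)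
    exact Prod.ext (Subtype.ext h2.2) (blk_injective h2.1)
  · rintro ⟨a, ha⟩
    obtain ⟨t, e, he, rfl⟩ := (nrmS_iff C hK).1 ha
    exact ⟨(⟨e, he⟩, t), rfl⟩

theorem card_NQ [Finite (PG K)] : Nat.card (NJ mk (ioQ C) (ioQ_injective C)) = 279936 := by
  have h0 : Nat.card ((Option (ZMod 3) × Option (ZMod 3)) ×
      (E0 × ((Equiv.Perm (ZMod 3) × Equiv.Perm (ZMod 3)) × Bool))) = 279936 := by
    rw [Nat.card_prod, card_blk, Nat.card_prod, Nat.card_eq_fintype_card (α := Option (ZMod 3)), Fintype.card_option,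
      ZMod.card]
  rw [← h0]
  symm
  refine Nat.card_congr (Equiv.ofBijective (fun t => ⟨RR t.1.1 t.1.2 * mo (blk t.2.2) t.2.1.1 t.2.1.2, ?_⟩) ⟨?_, ?_⟩)
  · exact (nrmQ_iff C hK).2 ⟨_, _, _, _, _, rfl⟩
  · rintro ⟨⟨s, s'⟩, ⟨e, he⟩, t⟩ ⟨⟨u, u'⟩, ⟨f, hf⟩, t'⟩ h
    have h1 : RR s s' * mo (blk t) e he = RR u u' * mo (blk t') f hf := congrArg Subtype.val h
    have h2 : RR s s' = RR u u' * (mo (blk t') f hf * (mo (blk t) e he)⁻¹) := by
      rw [← mul_assoc, ← h1, mul_inv_cancel_right]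
    rw [mo_inv, mo_mul] at h2
    obtain ⟨h3, h4⟩ := RR_inj h2
    subst h3 h4
    have h5 : mo (blk t) e he = mo (blk t') f hf := mul_left_cancel h1
    obtain ⟨h6, h7⟩ := mm_inj (congrArg Subtype.val h5)
    subst h7
    rw [blk_injective h6]
  · rintro ⟨a, ha⟩
    obtain ⟨s, s', t, e, he, rfl⟩ := (nrmQ_iff C hK).1 ha
    exact ⟨((s, s'), (⟨e, he⟩, t)), rfl⟩

end

theorem const_mem (t k : ZMod 3) : (fun j => Ev t 0 0 0 j + k) ∈ E0 :=
  E0.add_mem (Ev_mem _ _ _ _) (by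
    rw [mem_E0, Finset.sum_const, show (Finset.univ : Finset N6).card = 6 from rfl]
    revert k
    decide)

section

variable {K : Type u} [Field K] [StarRing K] (C : Co K) {p n : ℕ}

theorem cen_param {a : SUt} : (∃ z ∈ PZ K, mk a = io6 C z) ↔
    ∃ t k : ZMod 3, a = mo 1 (fun j => Ev t 0 0 0 j + k) (const_mem t k) := by
  constructor
  · rintro ⟨z, hz, h1⟩
    rw [io6_PZ C hz] at h1
    obtain ⟨k, hk⟩ := mk_eq_iff.1 h1.symm
    rw [coe_mo, smul_mm] at hk
    exact ⟨C.re z.a, k, SUt.ext' hk⟩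
  · rintro ⟨t, k, rfl⟩
    obtain ⟨z, hz, -, h1⟩ := exists_PZ C t
    refine ⟨z, hz, ?_⟩
    rw [h1, eq_comm, mk_mo_eq]
    exact ⟨rfl, k, fun j => rfl⟩

theorem card_cen (H : Subgroup SUt) (h : ∀ a, a ∈ H ↔ ∃ z ∈ PZ K, mk a = io6 C z) : Nat.card H = 9 := by
  have h0 : Nat.card (ZMod 3 × ZMod 3) = 9 := by rw [Nat.card_prod, Nat.card_zmod]
  rw [← h0]
  symm
  refine Nat.card_congr (Equiv.ofBijective (fun t => ⟨mo 1 (fun j => Ev t.1 0 0 0 j + t.2) (const_mem t.1 t.2), ?_⟩)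
    ⟨?_, ?_⟩)
  · rw [h, cen_param C]
    exact ⟨_, _, rfl⟩
  · rintro ⟨t, k⟩ ⟨t', k'⟩ h1
    obtain ⟨-, h2⟩ := mm_inj (congrArg Subtype.val (congrArg Subtype.val h1))
    have h3 : ∀ j, Ev t 0 0 0 j = Ev t' 0 0 0 j + (k' - k) := fun j => by
      have h4 : Ev t 0 0 0 j + k = Ev t' 0 0 0 j + k' := congrFun h2 j
      linear_combination h4
    obtain ⟨h4, -⟩ := Ev_inj h3
    subst h4
    have h5 := h3 (.inl 0)
    have h6 : k = k' := by linear_combination h5
    rw [h6]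
  · rintro ⟨a, ha⟩
    obtain ⟨t, k, rfl⟩ := (cen_param C).1 ((h a).1 ha)
    exact ⟨(t, k), rfl⟩

/-- the preimage of the Sylow subgroup -/
theorem syl_param {a : SUt} : mk a ∈ (io6 C).range ↔ ∃ s1 s2 e, ∃ he : e ∈ E0, a = mo (Pr s1 s2) e he := by
  constructor
  · rintro ⟨x, hx⟩
    rw [io6_apply, io] at hx
    obtain ⟨k, hk⟩ := mk_eq_iff.1 hx
    rw [coe_mo, smul_mm] at hk
    refine ⟨_, _, _, ?_, SUt.ext' hk⟩
    have h2 := a.2.2
    rw [hk, det_mm] at h2
    exact wp_inj _ _ h2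
  · rintro ⟨s1, s2, e, he, rfl⟩
    obtain ⟨y, hy, -⟩ := io6_surj C s1 s2 he
    exact ⟨y, hy⟩

theorem card_syl : Nat.card ((io6 C).range.comap mk) = 3 ^ 7 := by
  have h0 : Nat.card ((ZMod 3 × ZMod 3) × E0) = 3 ^ 7 := by
    rw [Nat.card_prod, Nat.card_prod, Nat.card_zmod, card_E0]
    norm_num
  rw [← h0]
  symm
  refine Nat.card_congr (Equiv.ofBijective (fun t => ⟨mo (Pr t.1.1 t.1.2) t.2.1 t.2.2, ?_⟩) ⟨?_, ?_⟩)
  · rw [Subgroup.mem_comap, syl_param C]
    exact ⟨_, _, _, _, rfl⟩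
  · rintro ⟨⟨s1, s2⟩, ⟨e, he⟩⟩ ⟨⟨u1, u2⟩, ⟨f, hf⟩⟩ h1
    obtain ⟨h2, h3⟩ := mm_inj (congrArg Subtype.val (congrArg Subtype.val h1))
    obtain ⟨h4, h5⟩ := Pr_inj h2
    have h3' : e = f := h3
    have h4' : s1 = u1 := h4
    have h5' : s2 = u2 := h5
    subst h3' h4' h5'
    rfl
  · rintro ⟨a, ha⟩
    obtain ⟨s1, s2, e, he, rfl⟩ := (syl_param C).1 ha
    exact ⟨((s1, s2), ⟨e, he⟩), rfl⟩

/-- **the Sylow property** -/
theorem index_syl (hK : HypK K p n) [Finite (PG K)] : ¬ 3 ∣ (io6 C).range.index := by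
  have h3 : Fact (Nat.Prime 3) := ⟨Nat.prime_three⟩
  rw [← Subgroup.index_comap_of_surjective (io6 C).range mk_surj]
  intro h
  have h1 : 3 ^ (7 + 1) ∣ Nat.card SUt := by
    rw [← ((io6 C).range.comap mk).card_mul_index, card_syl C, pow_succ]
    exact Nat.mul_dvd_mul_left _ h
  have h2 := Sylow.prime_dvd_card_quotient_normalizer h1 (card_syl C)
  have h4 : Subgroup.normalizer (((io6 C).range.comap mk : Subgroup SUt) : Set SUt) =
      NJ mk (io6 C) (io6_injective C) := by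
    ext a
    constructor
    · intro ha x
      obtain ⟨b, hb⟩ := mk_surj (io6 C x)
      have h5 := (Subgroup.mem_normalizer_iff.1 ha b).1 (show mk b ∈ (io6 C).range from ⟨x, hb.symm⟩)
      obtain ⟨y, hy⟩ := h5
      refine ⟨y, ?_⟩
      rw [hy, map_mul, map_mul, map_inv, hb]
    · intro ha
      have key : ∀ a, a ∈ NJ mk (io6 C) (io6_injective C) → ∀ b, mk b ∈ (io6 C).range → mk (a * b * a⁻¹) ∈ (io6 C).range := by
        rintro a ha b ⟨x, hx⟩
        obtain ⟨y, hy⟩ := ha x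
        refine ⟨y, ?_⟩
        rw [← hy, map_mul, map_mul, map_inv, hx]
      rw [Subgroup.mem_normalizer_iff]
      intro b
      constructor
      · exact key a ha b
      · intro hb
        have h5 := key a⁻¹ (Subgroup.inv_mem _ ha) _ hb
        have h6 : a⁻¹ * (a * b * a⁻¹) * a⁻¹⁻¹ = b := by group
        rw [h6] at h5
        exact h5
  have h5 : ((io6 C).range.comap mk) ≤ Subgroup.normalizer (((io6 C).range.comap mk : Subgroup SUt) : Set SUt) :=
    Subgroup.le_normalizer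
  have h6 := (((io6 C).range.comap mk).subgroupOf
    (Subgroup.normalizer (((io6 C).range.comap mk : Subgroup SUt) : Set SUt))).card_mul_index
  rw [Nat.card_congr (Subgroup.subgroupOfEquivOfLe h5).toEquiv, card_syl C, h4, card_NS C hK] at h6
  rw [h4] at h2
  have h7 : Nat.card (NJ mk (io6 C) (io6_injective C) ⧸ ((io6 C).range.comap mk).comap
      (NJ mk (io6 C) (io6_injective C)).subtype) = 8 := by
    have h8 : (((io6 C).range.comap mk).subgroupOf (NJ mk (io6 C) (io6_injective C))).index = 8 := by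
      omega
    exact h8
  rw [h7] at h2
  exact absurd h2 (by decide)

end

end Cfsg.Agent.H12.P4
end

-- part: H12/P4/Sys
section
/-!
# S5210 (U₆(2)): the fusion systems
-/

set_option autoImplicit false

namespace Cfsg.Agent.H12.P4

open Cfsg Cfsg.FusionSystem Cfsg.Agent.H776.P4 Cfsg.Agent.H756.PU Cfsg.Agent.H781 Matrix
open Cfsg.Agent.H1.P4 (exp_PG finite_PG)

universe u

section

variable {K : Type u} [Field K] [StarRing K] {p n : ℕ}

/-- the fusion system of a finite group containing `PG K` as a Sylow subgroup -/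
theorem exists_sys {A : Type u} [Group A] [Finite A] [Fact p.Prime] (hK : HypK K p n) (j : PG K →* A)
    (hj : Function.Injective j) (hidx : ¬ p ∣ j.range.index) :
    ∃ F : FusionSystem (⊤ : Subgroup (PG K)), F.IsSaturated p ∧ F.IsRealizable p ∧
      (∀ (Q : Subgroup (PG K)) (γ : MulAut Q), γ ∈ F.autGroup Q ↔
        ∃ g : A, ∀ e : Q, j ((γ e : Q) : PG K) = g * j e * g⁻¹) ∧
      (∀ α : MulAut (PG K), α ∈ AF F ↔ ∃ g : A, ∀ x, j (α x) = g * j x * g⁻¹) := by
  have hfin := finite_PG hK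
  let ι : (⊤ : Subgroup (PG K)) →* A := j.comp (Subgroup.topEquiv (G := PG K)).toMonoidHom
  have hι : ∀ x : (⊤ : Subgroup (PG K)), ι x = j (x : PG K) := fun x => rfl
  have hinj : Function.Injective ι := fun a b hab => Subtype.ext (hj hab)
  have hr : ι.range = j.range := by
    ext x
    constructor
    · rintro ⟨y, rfl⟩
      exact ⟨y, rfl⟩
    · rintro ⟨y, rfl⟩
      exact ⟨⟨y, trivial⟩, rfl⟩
  have hrangep : IsPGroup p ι.range := by
    rw [hr]
    rintro ⟨_, y, rfl⟩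
    refine ⟨2, Subtype.ext ?_⟩
    show j y ^ p ^ 2 = 1
    rw [← map_pow, exp_PG hK, map_one]
  let T : Sylow p A := hrangep.toSylow (by rw [hr]; exact hidx)
  have hT : (T : Subgroup A) = ι.range := rfl
  have hreal := pullback_isRealizedBy ι hinj
  have haut : ∀ (Q : Subgroup (PG K)) (γ : MulAut Q), γ ∈ (pullback ι hinj).autGroup Q ↔
      ∃ g : A, ∀ e : Q, j ((γ e : Q) : PG K) = g * j e * g⁻¹ := by
    intro Q γ
    rw [H802.mem_autGroup_iff _ le_top]
    constructor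
    · rintro ⟨h1, h2, g, hg⟩
      exact ⟨g, fun e => hg e⟩
    · rintro ⟨g, hg⟩
      exact ⟨le_top, fun _ => trivial, g, fun e => hg e⟩
  refine ⟨pullback ι hinj, isSaturated_of_isRealizedBy hreal T hT, ⟨A, inferInstance, inferInstance, ι, hreal, T, hT⟩,
    haut, fun α => ?_⟩
  have h1 : α ∈ AF (pullback ι hinj) ↔
      (MulAut.congr (Subgroup.topEquiv (G := PG K))).symm α ∈ (pullback ι hinj).autGroup ⊤ := by
    constructor
    · rintro ⟨β, hβ, rfl⟩
      rw [MulEquiv.coe_toMonoidHom, MulEquiv.symm_apply_apply]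
      exact hβ
    · intro h
      exact ⟨_, h, MulEquiv.apply_symm_apply _ _⟩
  rw [h1, haut]
  constructor
  · rintro ⟨g, hg⟩
    exact ⟨g, fun x => hg ⟨x, trivial⟩⟩
  · rintro ⟨g, hg⟩
    exact ⟨g, fun x => hg x⟩

/-- the same for a group in any universe -/
theorem exists_sys' {A : Type} [Group A] [Finite A] [Fact p.Prime] (hK : HypK K p n) (j : PG K →* A)
    (hj : Function.Injective j) (hidx : ¬ p ∣ j.range.index) :
    ∃ F : FusionSystem (⊤ : Subgroup (PG K)), F.IsSaturated p ∧ F.IsRealizable p ∧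
      (∀ (Q : Subgroup (PG K)) (γ : MulAut Q), γ ∈ F.autGroup Q ↔
        ∃ g : A, ∀ e : Q, j ((γ e : Q) : PG K) = g * j e * g⁻¹) ∧
      (∀ α : MulAut (PG K), α ∈ AF F ↔ ∃ g : A, ∀ x, j (α x) = g * j x * g⁻¹) := by
  let up : A ≃* ULift.{u} A := MulEquiv.ulift.symm
  have hfinA : Finite (ULift.{u} A) := Finite.of_equiv A up.toEquiv
  have hj' : Function.Injective (up.toMonoidHom.comp j) := up.injective.comp hj
  have hidx' : ¬ p ∣ (up.toMonoidHom.comp j).range.index := by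
    have h1 : (up.toMonoidHom.comp j).range = j.range.map up.toMonoidHom := by
      rw [MonoidHom.range_comp]
    rw [h1, Subgroup.index_map_of_bijective up.bijective]
    exact hidx
  obtain ⟨F, h1, h2, h3, h4⟩ := exists_sys hK (up.toMonoidHom.comp j) hj' hidx'
  refine ⟨F, h1, h2, fun Q γ => (h3 Q γ).trans ?_, fun α => (h4 α).trans ?_⟩
  · constructor
    · rintro ⟨g, hg⟩
      refine ⟨up.symm g, fun e => ?_⟩
      apply up.injective
      rw [map_mul, map_mul, map_inv, up.apply_symm_apply]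
      exact hg e
    · rintro ⟨g, hg⟩
      refine ⟨up g, fun e => ?_⟩
      have := congrArg up (hg e)
      rw [map_mul, map_mul, map_inv] at this
      exact this
  · constructor
    · rintro ⟨g, hg⟩
      refine ⟨up.symm g, fun e => ?_⟩
      apply up.injective
      rw [map_mul, map_mul, map_inv, up.apply_symm_apply]
      exact hg e
    · rintro ⟨g, hg⟩
      refine ⟨up g, fun e => ?_⟩
      have := congrArg up (hg e)
      rw [map_mul, map_mul, map_inv] at this
      exact this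

end

theorem p_eq {K : Type u} [Field K] [StarRing K] {p n : ℕ} (hK : HypK K p n) (hq : p ^ n = 3) : p = 3 := by
  have h1 : p ∣ 3 := by
    rw [← hq]
    exact dvd_pow_self p (by have := hK.hn; omega)
  exact (Nat.prime_dvd_prime_iff_eq hK.pp Nat.prime_three).1 h1

/-! ### The parabolic subgroups are not normalized -/

section

variable {K : Type u} [Field K] [StarRing K] (C : Co K) {p n : ℕ}

instance : Finite GG := Quotient.finite _

theorem normal_PV : (PV K).Normal := by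
  constructor
  intro g h1 y
  have h1' : g.r = 0 := h1
  show (y * g * y⁻¹).r = 0
  simp [h1']

theorem normal_PQ : (PQ K).Normal := by
  constructor
  intro g h1 y
  have h1' : g.c = 0 := h1
  show (y * g * y⁻¹).c = 0
  simp [h1']

theorem conj_of_norm {Q : Subgroup (PG K)} [Q.Normal] (hQ : PY K ≤ Q) {γ : MulAut Q} {a : SUt}
    (h : ∀ e : Q, io6 C (γ e : Q) = mk a * io6 C e * (mk a)⁻¹) (hn : NormAut (⊤ : Subgroup (PG K)) γ) (x : PG K) :
    ∃ s1 s2 f, ∃ hf : f ∈ E0, a * io C x = mo (Pr s1 s2) f hf * a := by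
  have h1 := hn (MulAut.conjNormal x) ((H802.mem_autInducedBy_iff _ _ _).2 ⟨x, trivial, fun e => rfl⟩)
  obtain ⟨y, -, hy⟩ := (H802.mem_autInducedBy_iff _ _ _).1 h1
  have h2 : ∀ e : Q, mk a * io6 C x * (mk a)⁻¹ * io6 C e * (mk a * io6 C x * (mk a)⁻¹)⁻¹ =
      io6 C y * io6 C e * (io6 C y)⁻¹ := by
    intro e
    have h3 := congrArg (io6 C) (hy e)
    rw [MulAut.mul_apply, MulAut.mul_apply, h, map_mul, map_mul, map_inv] at h3
    rw [← h3]
    have h4 : (((MulAut.conjNormal x (γ⁻¹ e) : Q)) : PG K) = x * ((γ⁻¹ e : Q) : PG K) * x⁻¹ := rfl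
    rw [h4, map_mul, map_mul, map_inv]
    have h5 := h (γ⁻¹ e)
    rw [MulAut.apply_inv_self] at h5
    rw [h5]
    group
  obtain ⟨f, hf, h3⟩ := diag_of_comm (a := (io C y)⁻¹ * (a * io C x * a⁻¹)) (by
    intro u v w
    obtain ⟨t, ht, -, -, -, h4⟩ := exists_PY C u v w
    have h5 := h2 ⟨t, hQ ht⟩
    have h6 : io6 C ((⟨t, hQ ht⟩ : Q) : PG K) = mk (mo 1 (Ev u v w 0) (Ev_mem _ _ _ _)) := h4
    rw [h6] at h5
    have h7 : mk ((io C y)⁻¹ * (a * io C x * a⁻¹)) = (io6 C y)⁻¹ * (mk a * io6 C x * (mk a)⁻¹) := by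
      rw [map_mul, map_mul, map_mul, map_inv, map_inv]
      rfl
    rw [h7]
    generalize io6 C y = Y at h5 ⊢
    generalize mk a * io6 C x * (mk a)⁻¹ = X at h5 ⊢
    generalize mk (mo 1 (Ev u v w 0) (Ev_mem _ _ _ _)) = E at h5 ⊢
    have h8 : Y⁻¹ * (X * E * X⁻¹) * X = Y⁻¹ * (Y * E * Y⁻¹) * X := by rw [h5]
    rw [show Y⁻¹ * (X * E * X⁻¹) * X = Y⁻¹ * X * E by group, show Y⁻¹ * (Y * E * Y⁻¹) * X = E * (Y⁻¹ * X) by group] at h8
    exact h8)
  refine ⟨C.re y.r, C.im y.r, _, E0.add_mem hf (comp_mem 1 (ex_mem C y)), ?_⟩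
  have h4 : a * io C x = io C y * ((io C y)⁻¹ * (a * io C x * a⁻¹)) * a := by group
  rw [h4, h3, io, mo_mul]
  congr 1

/-- the swap of two coordinates in different blocks -/
def sw : SUt := mo (Equiv.swap (.inl 0) (.inr 0)) 0 E0.zero_mem

theorem nnV {γ : MulAut (PV K)} (h : ∀ e : PV K, io6 C (γ e : PV K) = mk sw * io6 C e * (mk sw)⁻¹) :
    ¬ NormAut (⊤ : Subgroup (PG K)) γ := by
  intro hn
  have hN := normal_PV (K := K)
  obtain ⟨x, -, h1, h2, -⟩ := io6_surj C 1 0 E0.zero_mem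
  obtain ⟨s1, s2, f, hf, h3⟩ := conj_of_norm C Cfsg.Agent.H1.P4.PY_le_PV h hn x
  rw [sw, io, mo_mul, mo_mul, h1, h2] at h3
  obtain ⟨h4, -⟩ := mm_inj (congrArg Subtype.val h3)
  have h5 : (Equiv.swap (Sum.inl 0) (Sum.inr 0) : Equiv.Perm N6) (Pr 1 0 (.inl 0)) =
      Pr s1 s2 ((Equiv.swap (Sum.inl 0) (Sum.inr 0) : Equiv.Perm N6) (.inl 0)) := by
    rw [← Equiv.Perm.mul_apply, h4, Equiv.Perm.mul_apply]
  rw [Equiv.swap_apply_left, Pr_inr, Pr_inl, zero_add,
    Equiv.swap_apply_of_ne_of_ne (by decide) (by decide)] at h5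
  exact absurd h5 (by simp)

theorem exists_V [Finite (PG K)] : ∃ γ : MulAut (PV K), ∀ e : PV K, io6 C (γ e : PV K) = mk sw * io6 C e * (mk sw)⁻¹ := by
  have hj : Function.Injective ((io6 C).comp (PV K).subtype) := fun _ _ h => Subtype.ext (io6_injective C h)
  obtain ⟨γ, hγ⟩ := exists_aut ((io6 C).comp (PV K).subtype) hj (mk sw) (by
    intro x
    show ∃ y : PV K, mk sw * io6 C x * (mk sw)⁻¹ = io6 C y
    rw [io6_PV C x.2, sw, ← map_mul, ← map_inv, ← map_mul, mo_mul, mo_inv, mo_mul]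
    obtain ⟨y, hy, h1⟩ := io6_diag C (E0.add_mem (E0.neg_mem (comp_mem (Equiv.swap (Sum.inl 0) (Sum.inr 0))⁻¹ E0.zero_mem))
      (comp_mem (Equiv.swap (Sum.inl 0) (Sum.inr 0))⁻¹ (E0.add_mem
        (Ev_mem (C.re (x : PG K).a) (C.re (x : PG K).b) (C.im (x : PG K).b) (C.re (x : PG K).c))
        (comp_mem 1 E0.zero_mem))))
    refine ⟨⟨y, hy⟩, ?_⟩
    rw [h1, mk_mo_eq]
    refine ⟨by rw [mul_one, mul_inv_cancel], 0, fun j => (add_zero _).symm⟩)
  exact ⟨γ, hγ⟩

theorem nnQ {γ : MulAut (PQ K)} (h : ∀ e : PQ K, io6 C (γ e : PQ K) = mk (RR (some 0) none) * io6 C e *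
    (mk (RR (some 0) none))⁻¹) : ¬ NormAut (⊤ : Subgroup (PG K)) γ := by
  intro hn
  have hN := normal_PQ (K := K)
  obtain ⟨x, hx, ha, hb1, hb2, hc, -⟩ := exists_PV C 0 0 0 1
  obtain ⟨s1, s2, f, hf, h3⟩ := conj_of_norm C Cfsg.Agent.H1.P4.PY_le_PQ h hn x
  have hxr : x.r = 0 := hx
  have h4 : ∀ k : ZMod 3, s1 * k + (-1 + k - k * k) = f (.inl 0) := by
    intro k
    have h5 := congrFun (congrFun (congrArg Subtype.val h3) (.inl s1)) (.inl k)
    rw [SUt.coe_mul, SUt.coe_mul, Matrix.mul_apply, Matrix.mul_apply, Finset.sum_eq_single (.inl k),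
      Finset.sum_eq_single (.inl 0)] at h5
    · rw [coe_RR, io, coe_mo, coe_mo, mm_apply, mm_apply, hxr, C.re_zero, C.im_zero, Pr_zero,
        if_pos (show (Sum.inl k : N6) = (1 : Equiv.Perm N6) (Sum.inl k) from rfl),
        if_pos (show (Sum.inl s1 : N6) = Pr s1 s2 (Sum.inl 0) by rw [Pr_inl, zero_add])] at h5
      have h6 : wp (s1 * k + 0 * s1 * s1 - 0 * k * k) * wp (ex C x (.inl k)) =
        wp (f (.inl 0)) * wp (0 * k + 0 * 0 * 0 - 0 * k * k) := h5
      rw [← wp_add, ← wp_add] at h6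
      have h7 := wp_inj _ _ h6
      have h8 : ex C x (.inl k) = -1 + k - k * k := by
        rw [ex, ha, hb1, hb2, hc, hxr, C.re_zero, C.im_zero, Pr_inl]
        show -0 - 1 + (1 - 0) * (k + 0) - 1 * (k + 0) * (k + 0) = -1 + k - k * k
        ring
      rw [h8] at h7
      linear_combination h7
    · intro l _ hl
      rw [coe_mo, mm_apply, if_neg, zero_mul]
      intro h6
      apply hl
      rcases l with l | l
      · rw [Pr_inl] at h6
        have := Sum.inl_injective h6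
        congr 1
        linear_combination -this
      · rw [Pr_inr] at h6
        exact absurd h6 (by simp)
    · intro h; exact absurd (Finset.mem_univ _) h
    · intro l _ hl
      rw [io, coe_mo, mm_apply, hxr, C.re_zero, C.im_zero, Pr_zero, if_neg, mul_zero]
      exact hl
    · intro h; exact absurd (Finset.mem_univ _) h
  have h5 := h4 0
  have h6 := h4 1
  have h7 := h4 2
  revert h5 h6 h7
  generalize f (.inl 0) = t
  revert t
  generalize s1 = s
  revert s
  decide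

theorem exists_Q [Finite (PG K)] : ∃ γ : MulAut (PQ K), ∀ e : PQ K, io6 C (γ e : PQ K) =
    mk (RR (some 0) none) * io6 C e * (mk (RR (some 0) none))⁻¹ := by
  obtain ⟨γ, hγ⟩ := exists_aut (ioQ C) (ioQ_injective C) (mk (RR (some 0) none)) (RR_mem C _ _)
  exact ⟨γ, hγ⟩

end

end Cfsg.Agent.H12.P4
end

-- part: H12/P4/U6
section
/-!
# S5210: `U₆(2)`
-/

set_option autoImplicit false

namespace Cfsg.Agent.H12.P4

open Cfsg Cfsg.FusionSystem Cfsg.Agent.H776.P4 Cfsg.Agent.H756.PU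
open Cfsg.Agent.H1.P4 (finite_PG)

universe u

/-- **`U₆(2)`** -/
theorem stThreeP_u6 : StThreeP.{u} 8 384 := by
  intro K _ _ p n _ hK hq
  obtain ⟨C⟩ := exists_co hK hq
  have hfin := finite_PG hK
  have hp := p_eq hK hq
  subst hp
  obtain ⟨F, h1, h2, h3, h4⟩ := exists_sys' hK (io6 C) (io6_injective C) (index_syl C hK)
  refine ⟨F, h1, h2, ?_, ?_, ?_, ?_⟩
  · have h5 := card_induced mk mk_surj (io6 C) (io6_injective C) (AF F) h4
    rw [card_cen C _ (fun _ => cenS_iff C hK), card_NS C hK] at h5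
    omega
  · have h5 := card_induced mk mk_surj (ioQ C) (ioQ_injective C) (F.autGroup (PQ K)) (h3 _)
    rw [card_cen C _ (fun _ => cenQ_iff C hK), card_NQ C hK] at h5
    omega
  · obtain ⟨γ, hγ⟩ := exists_V C
    exact fun h => nnV C hγ (h γ ((h3 _ _).2 ⟨_, hγ⟩))
  · obtain ⟨γ, hγ⟩ := exists_Q C
    exact fun h => nnQ C hγ (h γ ((h3 _ _).2 ⟨_, hγ⟩))

end Cfsg.Agent.H12.P4
end

-- part: H12/P4/U62
section
/-!
# S5210: `U₆(2).2`
-/

set_option autoImplicit false

namespace Cfsg.Agent.H12.P4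

open Cfsg Cfsg.FusionSystem Cfsg.Agent.H776.P4 Cfsg.Agent.H756.PU Matrix
open Cfsg.Agent.H1.P4 (finite_PG PY_le_PQ)

universe u

/-- the Frobenius automorphism -/
def cj : SUt →* SUt where
  toFun a := ⟨a.1.map (starRingEnd L), by
    have h1 : (a.1.map (starRingEnd L))ᴴ = a.1ᴴ.map (starRingEnd L) := rfl
    rw [h1, ← Matrix.map_mul, a.2.1, Matrix.map_one _ (map_zero _) (map_one _)], by
    have h1 := (starRingEnd L).map_det a.1
    rw [a.2.2, map_one] at h1
    exact h1.symm⟩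
  map_one' := SUt.ext' (Matrix.map_one _ (map_zero _) (map_one _))
  map_mul' a b := SUt.ext' (Matrix.map_mul)

theorem cj_coe (a : SUt) : (cj a).1 = a.1.map (starRingEnd L) := rfl

theorem cj_cj (a : SUt) : cj (cj a) = a := by
  apply SUt.ext'
  ext i j
  exact star_star (a.1 i j)

theorem cj_mo (π : Equiv.Perm N6) {e : N6 → ZMod 3} (he : e ∈ E0) :
    cj (mo π e he) = mo π (-e) (E0.neg_mem he) := by
  apply SUt.ext'
  ext i j
  show star (if i = π j then wp (e j) else 0) = if i = π j then wp (- e j) else 0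
  by_cases h : i = π j
  · rw [if_pos h, if_pos h, star_wp]
  · rw [if_neg h, if_neg h, star_zero]

theorem cj_Zs : Zs ≤ Zs.comap cj := by
  rintro a ⟨k, hk⟩
  refine ⟨-k, ?_⟩
  rw [cj_coe, hk]
  ext i j
  show star (wp k * (1 : Matrix N6 N6 L) i j) = wp (-k) * (1 : Matrix N6 N6 L) i j
  rw [star_mul', star_wp, Matrix.one_apply]
  by_cases h : i = j
  · rw [if_pos h, star_one]
  · rw [if_neg h, star_zero]

/-- the Frobenius automorphism of `PSU₆(2)` -/
def fg : GG →* GG := QuotientGroup.map Zs Zs cj cj_Zs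

theorem fg_mk (a : SUt) : fg (mk a) = mk (cj a) := rfl

theorem fg_fg (x : GG) : fg (fg x) = x := by
  obtain ⟨a, rfl⟩ := mk_surj x
  rw [fg_mk, fg_mk, cj_cj]

/-- the Frobenius automorphism of `PSU₆(2)` -/
def fgE : MulAut GG := MonoidHom.toMulEquiv fg fg (MonoidHom.ext fg_fg) (MonoidHom.ext fg_fg)

theorem fgE_apply (x : GG) : fgE x = fg x := rfl

theorem fgE_sq : fgE ^ 2 = 1 := by
  ext1 x
  rw [pow_two]
  exact fg_fg x

theorem mem_zp {τ : MulAut GG} (h : τ ∈ Subgroup.zpowers fgE) : τ = 1 ∨ τ = fgE := by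
  obtain ⟨k, rfl⟩ := h
  show fgE ^ k = 1 ∨ fgE ^ k = fgE
  have h2 : fgE ^ (2 : ℤ) = 1 := by exact_mod_cast fgE_sq
  rcases Int.even_or_odd' k with ⟨m, rfl | rfl⟩
  · left
    rw [_root_.zpow_mul, h2, _root_.one_zpow]
  · right
    rw [_root_.zpow_add, _root_.zpow_mul, h2, _root_.one_zpow, one_mul, _root_.zpow_one]

theorem card_zp : ¬ 3 ∣ Nat.card (Subgroup.zpowers fgE) := by
  rw [Nat.card_zpowers]
  intro h
  exact absurd (h.trans (orderOf_dvd_of_pow_eq_one fgE_sq)) (by decide)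

/-- **the Frobenius automorphism is not induced** -/
theorem not_neg {a : SUt} (h : ∀ x y z : ZMod 3, mk a * mk (mo 1 (Ev x y z 0) (Ev_mem _ _ _ _)) =
    mk (mo 1 (-Ev x y z 0) (E0.neg_mem (Ev_mem _ _ _ _))) * mk a) : False := by
  obtain ⟨k1, hk1⟩ := entry_of_comm (h 0 1 0)
  obtain ⟨k3, hk3⟩ := entry_of_comm (h 1 0 0)
  simp only [Pi.neg_apply] at hk1 hk3
  have hk10 : k1 = 0 := by
    by_contra hne
    have hr : ∃ i0 : N6, ∀ i : N6, (0 : ZMod 3) = k1 + -Ev 0 1 0 0 i → i = i0 := by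
      revert hne
      generalize k1 = k
      revert k
      decide
    obtain ⟨i0, hi0⟩ := hr
    have hz0 : Ev 0 1 0 0 (.inr 0) = 0 := by decide
    have hz1 : Ev 0 1 0 0 (.inr 1) = 0 := by decide
    refine col_single a (i0 := i0) (j1 := .inr 0) (j2 := .inr 1) (fun i hi => hi0 i ?_) (fun i hi => hi0 i ?_)
      (by decide)
    · rw [← hz0]; exact hk1 i _ hi
    · rw [← hz1]; exact hk1 i _ hi
  subst hk10
  obtain ⟨j, hj⟩ := exists_row a (.inl 0)
  obtain ⟨j', hj'⟩ := exists_row a (.inr 0)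
  have h1 := hk1 _ _ hj
  have h3 := hk3 _ _ hj
  have h3' := hk3 _ _ hj'
  have hj1 : j = .inl 1 := by
    revert h1
    generalize j = j'
    revert j'
    decide
  subst hj1
  have hk30 : k3 = 0 := by
    revert h3
    generalize k3 = k
    revert k
    decide
  subst hk30
  revert h3'
  generalize j' = j''
  revert j''
  decide

section

variable {K : Type u} [Field K] [StarRing K] (C : Co K)

theorem fg_io6 (x : PG K) : ∃ y : PG K, fgE (io6 C x) = io6 C y := by
  obtain ⟨y, hy, -⟩ := io6_surj C (C.re x.r) (C.im x.r) (E0.neg_mem (ex_mem C x))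
  refine ⟨y, ?_⟩
  rw [hy, fgE_apply, io6_apply, fg_mk, io, cj_mo]

theorem fg_ioQ (x : PQ K) : ∃ y : PQ K, fgE (ioQ C x) = ioQ C y := by
  obtain ⟨α1, β1, α2, β2, h1⟩ := ex_of_PQ C x.2
  obtain ⟨y, hy, h2⟩ := io6_PQ C (C.re (x : PG K).r) (C.im (x : PG K).r) (-α1) (-β1) (-α2) (-β2)
  refine ⟨⟨y, hy⟩, ?_⟩
  rw [ioQ_apply, ioQ_apply, fgE_apply, io6_apply, fg_mk, h1, cj_mo, h2, mk_mo_eq]
  refine ⟨rfl, 0, fun j => ?_⟩
  rcases j with j | j
  · show -α1 + -β1 * j = -(α1 + β1 * j) + 0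
    ring
  · show -α2 + -β2 * j = -(α2 + β2 * j) + 0
    ring

theorem fg_PY {g : GG} (h : ∀ y ∈ PY K, fgE (io6 C y) = g * io6 C y * g⁻¹) : False := by
  obtain ⟨a, rfl⟩ := mk_surj g
  apply not_neg (a := a)
  intro x y z
  obtain ⟨w, hw, -, -, -, h1⟩ := exists_PY C x y z
  have h2 := h w hw
  rw [h1, fgE_apply, fg_mk, cj_mo] at h2
  rw [h2, inv_mul_cancel_right]

end

/-- **`U₆(2).2`** -/
theorem stThreeP_u62 : StThreeP.{u} 16 768 := by
  intro K _ _ p n _ hK hq
  obtain ⟨C⟩ := exists_co hK hq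
  have hfin := finite_PG hK
  have hp := p_eq hK hq
  subst hp
  obtain ⟨F1, -, -, h13, h14⟩ := exists_sys' hK (io6 C) (io6_injective C) (index_syl C hK)
  have hc1 : Nat.card (AF F1) = 1944 := by
    have h5 := card_induced mk mk_surj (io6 C) (io6_injective C) (AF F1) h14
    rw [card_cen C _ (fun _ => cenS_iff C hK), card_NS C hK] at h5
    omega
  have hc2 : Nat.card (F1.autGroup (PQ K)) = 31104 := by
    have h5 := card_induced mk mk_surj (ioQ C) (ioQ_injective C) (F1.autGroup (PQ K)) (h13 _)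
    rw [card_cen C _ (fun _ => cenQ_iff C hK), card_NQ C hK] at h5
    omega
  -- the group
  let φ : Subgroup.zpowers fgE →* MulAut GG := (Subgroup.zpowers fgE).subtype
  have hfinM : Finite (MulAut GG) := Finite.of_injective (fun e : MulAut GG => (e : GG → GG))
    (fun a b h => MulEquiv.ext (fun x => congrFun h x))
  have hfinG : Finite (GG ⋊[φ] Subgroup.zpowers fgE) := Finite.of_equiv _ SemidirectProduct.equivProd.symm
  let j2 : PG K →* GG ⋊[φ] Subgroup.zpowers fgE := SemidirectProduct.inl.comp (io6 C)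
  have hj2 : Function.Injective j2 := SemidirectProduct.inl_injective.comp (io6_injective C)
  have hidx : ¬ 3 ∣ j2.range.index := by
    have h1 : Nat.card j2.range = Nat.card (PG K) := (Nat.card_congr (MonoidHom.ofInjective hj2).toEquiv).symm
    have h2 : Nat.card (io6 C).range = Nat.card (PG K) :=
      (Nat.card_congr (MonoidHom.ofInjective (io6_injective C)).toEquiv).symm
    have h3 : Nat.card (GG ⋊[φ] Subgroup.zpowers fgE) = Nat.card GG * Nat.card (Subgroup.zpowers fgE) := by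
      rw [Nat.card_congr SemidirectProduct.equivProd, Nat.card_prod]
    have h4 := j2.range.card_mul_index
    rw [h3, ← (io6 C).range.card_mul_index, h1, h2, mul_assoc] at h4
    rw [Nat.eq_of_mul_eq_mul_left Nat.card_pos h4]
    exact Nat.prime_three.not_dvd_mul (index_syl C hK) card_zp
  obtain ⟨F, h1, h2, h3, h4⟩ := exists_sys' hK j2 hj2 hidx
  -- conjugation in the semidirect product
  have hconj : ∀ (g : GG ⋊[φ] Subgroup.zpowers fgE) (x : GG), g * SemidirectProduct.inl x * g⁻¹ =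
      SemidirectProduct.inl (g.left * (g.right : MulAut GG) x * g.left⁻¹) := by
    intro g x
    have h1 := SemidirectProduct.inl_aut (φ := φ) g.right x
    have h2 := (SemidirectProduct.inl_left_mul_inr_right g).symm
    have h3 : (g.right : MulAut GG) x = φ g.right x := rfl
    rw [map_mul, map_mul, h3, h1, map_inv]
    conv_lhs => rw [h2]
    rw [_root_.mul_inv_rev, map_inv]
    simp only [mul_assoc]
  have hmem : ∀ {P : Type u} (f f' : P → GG), (∃ g : GG ⋊[φ] Subgroup.zpowers fgE, ∀ e : P,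
      (SemidirectProduct.inl (f' e) : GG ⋊[φ] Subgroup.zpowers fgE) = g * SemidirectProduct.inl (f e) * g⁻¹) ↔
      (∃ g : GG, ∀ e, f' e = g * f e * g⁻¹) ∨ (∃ g : GG, ∀ e, f' e = g * fgE (f e) * g⁻¹) := by
    intro P f f'
    constructor
    · rintro ⟨g, hg⟩
      have h5 : ∀ e, f' e = g.left * (g.right : MulAut GG) (f e) * g.left⁻¹ := fun e =>
        SemidirectProduct.inl_injective ((hg e).trans (hconj g (f e)))
      rcases mem_zp g.right.2 with h6 | h6
      · left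
        refine ⟨g.left, fun e => ?_⟩
        rw [h5, h6, MulAut.one_apply]
      · right
        refine ⟨g.left, fun e => ?_⟩
        rw [h5, h6]
    · rintro (⟨g, hg⟩ | ⟨g, hg⟩)
      · refine ⟨SemidirectProduct.inl g, fun e => ?_⟩
        rw [hconj, hg]
        rfl
      · refine ⟨SemidirectProduct.inl g * SemidirectProduct.inr ⟨fgE, Subgroup.mem_zpowers _⟩, fun e => ?_⟩
        rw [hconj, hg, SemidirectProduct.mul_left, SemidirectProduct.mul_right]
        simp
  obtain ⟨φS, hφS⟩ := exists_autf (io6 C) (io6_injective C) fgE (fg_io6 C)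
  obtain ⟨φQ, hφQ⟩ := exists_autf (ioQ C) (ioQ_injective C) fgE (fg_ioQ C)
  have hle : ∀ (Q : Subgroup (PG K)) (γ : MulAut Q), γ ∈ F1.autGroup Q → γ ∈ F.autGroup Q := by
    intro Q γ hγ
    rw [h3]
    exact (hmem _ _).2 (Or.inl ((h13 Q γ).1 hγ))
  refine ⟨F, h1, h2, ?_, ?_, ?_, ?_⟩
  · have hfinA : Finite (MulAut (PG K)) := Finite.of_injective (fun e : MulAut (PG K) => (e : PG K → PG K))
      (fun a b h => MulEquiv.ext (fun x => congrFun h x))
    have h5 : Nat.card (AF F) = 2 * Nat.card (AF F1) := by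
      apply card_double (f := φS⁻¹)
      · intro h6
        have h7 := (AF F1).inv_mem h6
        rw [inv_inv, h14] at h7
        obtain ⟨g, hg⟩ := h7
        exact fg_PY C (fun y _ => by rw [← hφS, hg])
      · intro α
        rw [h4, h14, h14]
        refine (hmem (fun x => io6 C x) (fun x => io6 C (α x))).trans (or_congr Iff.rfl ?_)
        constructor
        · rintro ⟨g, hg⟩
          refine ⟨g, fun x => ?_⟩
          rw [MulAut.mul_apply, hg, ← hφS, MulAut.apply_inv_self]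
        · rintro ⟨g, hg⟩
          refine ⟨g, fun x => ?_⟩
          have h6 := hg (φS x)
          rw [MulAut.mul_apply, MulAut.inv_apply_self, hφS] at h6
          exact h6
    omega
  · have hfinA : Finite (MulAut (PQ K)) := Finite.of_injective (fun e : MulAut (PQ K) => (e : PQ K → PQ K))
      (fun a b h => MulEquiv.ext (fun x => congrFun h x))
    have h5 : Nat.card (F.autGroup (PQ K)) = 2 * Nat.card (F1.autGroup (PQ K)) := by
      apply card_double (f := φQ⁻¹)
      · intro h6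
        have h7 := (F1.autGroup (PQ K)).inv_mem h6
        rw [inv_inv, h13] at h7
        obtain ⟨g, hg⟩ := h7
        exact fg_PY C (fun y hy => by
          have h8 := hφQ ⟨y, PY_le_PQ hy⟩
          rw [ioQ_apply, hg] at h8
          exact h8.symm)
      · intro α
        rw [h3, h13, h13]
        refine (hmem (fun x : PQ K => io6 C x) (fun x : PQ K => io6 C (α x : PQ K))).trans (or_congr Iff.rfl ?_)
        constructor
        · rintro ⟨g, hg⟩
          refine ⟨g, fun x => ?_⟩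
          have h8 := hφQ (φQ⁻¹ x)
          rw [MulAut.apply_inv_self] at h8
          rw [MulAut.mul_apply, hg]
          rw [ioQ_apply, ioQ_apply] at h8
          rw [h8]
        · rintro ⟨g, hg⟩
          refine ⟨g, fun x => ?_⟩
          have h6 := hg (φQ x)
          have h8 := hφQ x
          rw [ioQ_apply, ioQ_apply] at h8
          rw [MulAut.mul_apply, MulAut.inv_apply_self, h8] at h6
          exact h6
    omega
  · obtain ⟨γ, hγ⟩ := exists_V C
    exact fun h => nnV C hγ (h γ (hle _ _ ((h13 _ _).2 ⟨_, hγ⟩)))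
  · obtain ⟨γ, hγ⟩ := exists_Q C
    exact fun h => nnQ C hγ (h γ (hle _ _ ((h13 _ _).2 ⟨_, hγ⟩)))

end Cfsg.Agent.H12.P4
end

private theorem dce_16d820601545 : _root_.True := by
  try have : _root_.True := by simp only [_root_.Cfsg.Agent.H12.P4.sw.eq_1]
  exact _root_.True.intro
end

-- part: H458/P4/Su
section
prune_inst 0xf4104700752200000818059473001c22f200059200480000b0010f0607cb9c40e8010021b6b03d11d098ac5460380060031001e0426000000a200800011c00800000020080480000220080000080000000000000000000000000000000041004000000000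
set_option linter.all false
open scoped Cfsg.Agent.FastGrp

/-!
# S5210 [P4-REALa]: the group `SUJ K` (helper458)

`SUJ K` is the special unitary group of the skew-hermitian form with the Gram matrix `J` on `K⁴`, basis
`e₁, e₂, f₂, f₁`; `emb : PG K →* SUJ K` is the group of the upper unitriangular matrices in it.
-/

set_option autoImplicit false

namespace Cfsg.Agent.H458.P4

open Matrix Cfsg.Agent.H776.P4

universe u

private theorem ext4 {α : Type*} {M N : Matrix (Fin 4) (Fin 4) α}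
    (h00 : M 0 0 = N 0 0) (h01 : M 0 1 = N 0 1) (h02 : M 0 2 = N 0 2) (h03 : M 0 3 = N 0 3) (h10 : M 1 0 = N 1 0) (h11 : M 1 1 = N 1 1) (h12 : M 1 2 = N 1 2) (h13 : M 1 3 = N 1 3) (h20 : M 2 0 = N 2 0) (h21 : M 2 1 = N 2 1) (h22 : M 2 2 = N 2 2) (h23 : M 2 3 = N 2 3) (h30 : M 3 0 = N 3 0) (h31 : M 3 1 = N 3 1) (h32 : M 3 2 = N 3 2) (h33 : M 3 3 = N 3 3) : M = N :=
  Matrix.ext fun i j => match i, j with
    | 0, 0 => h00
    | 0, 1 => h01
    | 0, 2 => h02
    | 0, 3 => h03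
    | 1, 0 => h10
    | 1, 1 => h11
    | 1, 2 => h12
    | 1, 3 => h13
    | 2, 0 => h20
    | 2, 1 => h21
    | 2, 2 => h22
    | 2, 3 => h23
    | 3, 0 => h30
    | 3, 1 => h31
    | 3, 2 => h32
    | 3, 3 => h33

private theorem eq4 {α : Type*} {a00 a01 a02 a03 a10 a11 a12 a13 a20 a21 a22 a23 a30 a31 a32 a33 b00 b01 b02 b03 b10 b11 b12 b13 b20 b21 b22 b23 b30 b31 b32 b33 : α}
    (h00 : a00 = b00) (h01 : a01 = b01) (h02 : a02 = b02) (h03 : a03 = b03) (h10 : a10 = b10) (h11 : a11 = b11) (h12 : a12 = b12) (h13 : a13 = b13) (h20 : a20 = b20) (h21 : a21 = b21) (h22 : a22 = b22) (h23 : a23 = b23) (h30 : a30 = b30) (h31 : a31 = b31) (h32 : a32 = b32) (h33 : a33 = b33) :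
    !![a00, a01, a02, a03; a10, a11, a12, a13; a20, a21, a22, a23; a30, a31, a32, a33] =
    !![b00, b01, b02, b03; b10, b11, b12, b13; b20, b21, b22, b23; b30, b31, b32, b33] := by
  subst_vars
  rfl

private theorem mul_ap {R : Type*} [AddCommMonoid R] [Mul R] (M N : Matrix (Fin 4) (Fin 4) R) (i j : Fin 4) :
    (M * N) i j = M i 0 * N 0 j + M i 1 * N 1 j + M i 2 * N 2 j + M i 3 * N 3 j :=
  Matrix.mul_apply.trans (Fin.sum_univ_four _)

private theorem mul4 {R : Type*} [AddCommMonoid R] [Mul R] (a00 a01 a02 a03 a10 a11 a12 a13 a20 a21 a22 a23 a30 a31 a32 a33 b00 b01 b02 b03 b10 b11 b12 b13 b20 b21 b22 b23 b30 b31 b32 b33 : R) :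
    !![a00, a01, a02, a03; a10, a11, a12, a13; a20, a21, a22, a23; a30, a31, a32, a33] *
    !![b00, b01, b02, b03; b10, b11, b12, b13; b20, b21, b22, b23; b30, b31, b32, b33] =
    !![a00 * b00 + a01 * b10 + a02 * b20 + a03 * b30, a00 * b01 + a01 * b11 + a02 * b21 + a03 * b31, a00 * b02 + a01 * b12 + a02 * b22 + a03 * b32, a00 * b03 + a01 * b13 + a02 * b23 + a03 * b33; a10 * b00 + a11 * b10 + a12 * b20 + a13 * b30, a10 * b01 + a11 * b11 + a12 * b21 + a13 * b31, a10 * b02 + a11 * b12 + a12 * b22 + a13 * b32, a10 * b03 + a11 * b13 + a12 * b23 + a13 * b33; a20 * b00 + a21 * b10 + a22 * b20 + a23 * b30, a20 * b01 + a21 * b11 + a22 * b21 + a23 * b31, a20 * b02 + a21 * b12 + a22 * b22 + a23 * b32, a20 * b03 + a21 * b13 + a22 * b23 + a23 * b33; a30 * b00 + a31 * b10 + a32 * b20 + a33 * b30, a30 * b01 + a31 * b11 + a32 * b21 + a33 * b31, a30 * b02 + a31 * b12 + a32 * b22 + a33 * b32, a30 * b03 + a31 * b13 + a32 * b23 + a33 * b33] :=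
  ext4 (mul_ap _ _ 0 0) (mul_ap _ _ 0 1) (mul_ap _ _ 0 2) (mul_ap _ _ 0 3) (mul_ap _ _ 1 0) (mul_ap _ _ 1 1) (mul_ap _ _ 1 2) (mul_ap _ _ 1 3) (mul_ap _ _ 2 0) (mul_ap _ _ 2 1) (mul_ap _ _ 2 2) (mul_ap _ _ 2 3) (mul_ap _ _ 3 0) (mul_ap _ _ 3 1) (mul_ap _ _ 3 2) (mul_ap _ _ 3 3)

private theorem one4 {R : Type*} [Zero R] [One R] : (1 : Matrix (Fin 4) (Fin 4) R) = !![1, 0, 0, 0; 0, 1, 0, 0; 0, 0, 1, 0; 0, 0, 0, 1] :=
  ext4 (Eq.refl (1 : R)) (Eq.refl (0 : R)) (Eq.refl (0 : R)) (Eq.refl (0 : R)) (Eq.refl (0 : R)) (Eq.refl (1 : R)) (Eq.refl (0 : R)) (Eq.refl (0 : R)) (Eq.refl (0 : R)) (Eq.refl (0 : R)) (Eq.refl (1 : R)) (Eq.refl (0 : R)) (Eq.refl (0 : R)) (Eq.refl (0 : R)) (Eq.refl (0 : R)) (Eq.refl (1 : R))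

private theorem ct4 {R : Type*} [Star R] (a00 a01 a02 a03 a10 a11 a12 a13 a20 a21 a22 a23 a30 a31 a32 a33 : R) :
    (!![a00, a01, a02, a03; a10, a11, a12, a13; a20, a21, a22, a23; a30, a31, a32, a33])ᴴ =
    !![star a00, star a10, star a20, star a30; star a01, star a11, star a21, star a31; star a02, star a12, star a22, star a32; star a03, star a13, star a23, star a33] :=
  ext4 (Eq.refl (star a00)) (Eq.refl (star a10)) (Eq.refl (star a20)) (Eq.refl (star a30)) (Eq.refl (star a01)) (Eq.refl (star a11)) (Eq.refl (star a21)) (Eq.refl (star a31)) (Eq.refl (star a02)) (Eq.refl (star a12)) (Eq.refl (star a22)) (Eq.refl (star a32)) (Eq.refl (star a03)) (Eq.refl (star a13)) (Eq.refl (star a23)) (Eq.refl (star a33))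

variable (K : Type u) [Field K] [StarRing K]

/-- the Gram matrix -/
def J : Matrix (Fin 4) (Fin 4) K :=
  !![0, 0, 0, 1; 0, 0, 1, 0; 0, -1, 0, 0; -1, 0, 0, 0]

/-- its inverse -/
def J' : Matrix (Fin 4) (Fin 4) K :=
  !![0, 0, 0, -1; 0, 0, -1, 0; 0, 1, 0, 0; 1, 0, 0, 0]

theorem J_mul_J' : J K * J' K = 1 := by
  rw [J, J', mul4, one4]
  refine eq4 ?_ ?_ ?_ ?_ ?_ ?_ ?_ ?_ ?_ ?_ ?_ ?_ ?_ ?_ ?_ ?_ <;> ring1

theorem J'_mul_J : J' K * J K = 1 := mul_eq_one_comm.1 (J_mul_J' K)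

theorem J'_eq : J' K = - J K := by
  ext i j
  (revert i j; simp only [J, J', _root_.Fin.forall_fin_succ, _root_.Matrix.of_apply, _root_.Matrix.cons_val', _root_.Matrix.cons_val_fin_one, _root_.Matrix.neg_apply, Fin.isValue, _root_.Matrix.cons_val_zero, _root_.Matrix.cons_val_succ, _root_.forall_const, _root_.neg_zero, _root_.and_self, _root_.neg_neg, _root_.implies_true])

variable {K}

/-- the condition -/
def FJ (M : Matrix (Fin 4) (Fin 4) K) : Prop := M * J K * Mᴴ = J K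

theorem FJ.mul {M N : Matrix (Fin 4) (Fin 4) K} (hM : FJ M) (hN : FJ N) : FJ (M * N) := by
  unfold FJ at *
  rw [Matrix.conjTranspose_mul]
  calc M * N * J K * (Nᴴ * Mᴴ) = M * (N * J K * Nᴴ) * Mᴴ := by simp only [Matrix.mul_assoc]
    _ = J K := by rw [hN, hM]

theorem FJ.one : FJ (1 : Matrix (Fin 4) (Fin 4) K) := by
  unfold FJ
  rw [Matrix.conjTranspose_one, Matrix.one_mul, Matrix.mul_one]

/-- the inverse -/
theorem FJ.inv_left {M : Matrix (Fin 4) (Fin 4) K} (hM : FJ M) : J K * Mᴴ * J' K * M = 1 := by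
  have h1 : M * (J K * Mᴴ * J' K) = 1 := by
    calc M * (J K * Mᴴ * J' K) = M * J K * Mᴴ * J' K := by simp only [Matrix.mul_assoc]
      _ = 1 := by rw [hM, J_mul_J']
  exact mul_eq_one_comm.1 h1

theorem FJ.col {M : Matrix (Fin 4) (Fin 4) K} (hM : FJ M) : Mᴴ * J K * M = J K := by
  have h1 := hM.inv_left
  have h2 : J' K * (J K * Mᴴ * J' K * M) = J' K := by rw [h1, Matrix.mul_one]
  have h3 : Mᴴ * J' K * M = J' K := by
    calc Mᴴ * J' K * M = (J' K * J K) * Mᴴ * J' K * M := by rw [J'_mul_J, Matrix.one_mul]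
      _ = J' K * (J K * Mᴴ * J' K * M) := by simp only [Matrix.mul_assoc]
      _ = J' K := h2
  rw [J'_eq, Matrix.mul_neg, Matrix.neg_mul, neg_inj] at h3
  exact h3

/-- the form on the rows -/
theorem FJ.row_rel {M : Matrix (Fin 4) (Fin 4) K} (hM : FJ M) (i j : Fin 4) :
    M i 0 * star (M j 3) + M i 1 * star (M j 2) - M i 2 * star (M j 1) - M i 3 * star (M j 0) = J K i j := by
  have h1 := congrFun (congrFun hM i) j
  simp only [Matrix.mul_apply, Fin.sum_univ_four, Matrix.conjTranspose_apply] at h1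
  rw [← h1]
  show _ = (M i 0 * 0 + M i 1 * 0 + M i 2 * 0 + M i 3 * -1) * star (M j 0) +
    (M i 0 * 0 + M i 1 * 0 + M i 2 * -1 + M i 3 * 0) * star (M j 1) +
    (M i 0 * 0 + M i 1 * 1 + M i 2 * 0 + M i 3 * 0) * star (M j 2) +
    (M i 0 * 1 + M i 1 * 0 + M i 2 * 0 + M i 3 * 0) * star (M j 3)
  ring1

/-- the form on the columns -/
theorem FJ.col_rel {M : Matrix (Fin 4) (Fin 4) K} (hM : FJ M) (i j : Fin 4) :
    star (M 0 i) * M 3 j + star (M 1 i) * M 2 j - star (M 2 i) * M 1 j - star (M 3 i) * M 0 j = J K i j := by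
  have h1 := congrFun (congrFun hM.col i) j
  simp only [Matrix.mul_apply, Fin.sum_univ_four, Matrix.conjTranspose_apply] at h1
  rw [← h1]
  show _ = (star (M 0 i) * 0 + star (M 1 i) * 0 + star (M 2 i) * 0 + star (M 3 i) * -1) * M 0 j +
    (star (M 0 i) * 0 + star (M 1 i) * 0 + star (M 2 i) * -1 + star (M 3 i) * 0) * M 1 j +
    (star (M 0 i) * 0 + star (M 1 i) * 1 + star (M 2 i) * 0 + star (M 3 i) * 0) * M 2 j +
    (star (M 0 i) * 1 + star (M 1 i) * 0 + star (M 2 i) * 0 + star (M 3 i) * 0) * M 3 j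
  ring1

variable (K) in
/-- the special unitary group -/
def SUJ : Subgroup (Matrix.SpecialLinearGroup (Fin 4) K) where
  carrier := {g | FJ (g : Matrix (Fin 4) (Fin 4) K)}
  mul_mem' := by
    intro a b ha hb
    show FJ ((a * b : Matrix.SpecialLinearGroup (Fin 4) K) : Matrix (Fin 4) (Fin 4) K)
    rw [Matrix.SpecialLinearGroup.coe_mul]
    exact FJ.mul ha hb
  one_mem' := by
    show FJ ((1 : Matrix.SpecialLinearGroup (Fin 4) K) : Matrix (Fin 4) (Fin 4) K)
    rw [Matrix.SpecialLinearGroup.coe_one]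
    exact FJ.one
  inv_mem' := by
    intro g hg
    have hg' : FJ (g : Matrix (Fin 4) (Fin 4) K) := hg
    have h1 : ((g⁻¹ : Matrix.SpecialLinearGroup (Fin 4) K) : Matrix (Fin 4) (Fin 4) K) * g = 1 := by
      rw [← Matrix.SpecialLinearGroup.coe_mul, inv_mul_cancel, Matrix.SpecialLinearGroup.coe_one]
    show FJ ((g⁻¹ : Matrix.SpecialLinearGroup (Fin 4) K) : Matrix (Fin 4) (Fin 4) K)
    generalize ((g⁻¹ : Matrix.SpecialLinearGroup (Fin 4) K) : Matrix (Fin 4) (Fin 4) K) = N at h1 ⊢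
    generalize (g : Matrix (Fin 4) (Fin 4) K) = M at h1 hg'
    have h2 : Mᴴ * Nᴴ = 1 := by rw [← Matrix.conjTranspose_mul, h1, Matrix.conjTranspose_one]
    unfold FJ at *
    calc N * J K * Nᴴ = N * (M * J K * Mᴴ) * Nᴴ := by rw [hg']
      _ = (N * M) * J K * (Mᴴ * Nᴴ) := by simp only [Matrix.mul_assoc]
      _ = J K := by rw [h1, h2, Matrix.one_mul, Matrix.mul_one]

/-- the matrix of an element of `PG K` -/
def mt (x : PG K) : Matrix (Fin 4) (Fin 4) K :=
  !![1, x.r, x.b, x.a - x.b * star x.r;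
     0, 1, x.c, star x.b - x.c * star x.r;
     0, 0, 1, - star x.r;
     0, 0, 0, 1]

set_option maxHeartbeats 2000000 in
theorem mt_mul (x y : PG K) : mt (x * y) = mt x * mt y := by
  have h1 := y.hc
  rw [mt, mt, mt, mul4, PG.mul_a, PG.mul_b, PG.mul_c, PG.mul_r, star_add, star_add, star_add, star_mul', h1]
  refine eq4 ?_ ?_ ?_ ?_ ?_ ?_ ?_ ?_ ?_ ?_ ?_ ?_ ?_ ?_ ?_ ?_ <;> ring1

set_option maxHeartbeats 2000000 in
theorem mt_form (x : PG K) : FJ (mt x) := by
  have h1 := x.ha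
  have h2 := x.hc
  unfold FJ
  rw [mt, J, ct4, mul4, mul4, star_sub, star_sub, star_mul', star_mul', star_neg, star_star, star_star, star_one,
    star_zero, h1, h2]
  refine eq4 ?_ ?_ ?_ ?_ ?_ ?_ ?_ ?_ ?_ ?_ ?_ ?_ ?_ ?_ ?_ ?_ <;> ring1

theorem mt_tri (x : PG K) : (mt x).BlockTriangular id := by
  intro i j h
  fin_cases i <;> fin_cases j <;> first | rfl | (exact absurd h (by decide))

theorem mt_det (x : PG K) : (mt x).det = 1 := by
  rw [Matrix.det_of_isUpperTriangular (mt_tri x)]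
  simp only [mt, Fin.prod_univ_four, _root_.Matrix.of_apply, _root_.Matrix.cons_val', _root_.Matrix.cons_val_fin_one, _root_.Fin.isValue, _root_.Matrix.cons_val_zero, _root_.Matrix.cons_val_one, _root_.mul_one, _root_.Matrix.cons_val]

theorem mt_one : mt (1 : PG K) = 1 := by
  ext i j
  (revert i j; simp only [mt, _root_.Fin.forall_fin_succ, _root_.Cfsg.Agent.H776.P4.PG.one_r, _root_.Cfsg.Agent.H776.P4.PG.one_b, _root_.Cfsg.Agent.H776.P4.PG.one_a, _root_.star_zero, _root_.MulZeroClass.mul_zero, _root_.sub_self, _root_.Cfsg.Agent.H776.P4.PG.one_c, _root_.neg_zero, _root_.Matrix.of_apply, _root_.Matrix.cons_val', _root_.Matrix.cons_val_fin_one, Fin.isValue, _root_.Matrix.cons_val_zero, _root_.Matrix.cons_val_succ, _root_.IsEmpty.forall_iff, _root_.and_true, _root_.Matrix.one_apply_eq, Nat.reduceAdd, _root_.Fin.succ_zero_eq_one, _root_.ne_eq, _root_.zero_ne_one, _root_.not_false_eq_true, _root_.Matrix.one_apply_ne, _root_.Fin.succ_one_eq_two,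 Fin.reduceEq, Fin.reduceSucc, _root_.and_self, _root_.Fin.succ_ne_zero, _root_.true_and])

/-- the embedding of `PG K` -/
def emb : PG K →* SUJ K where
  toFun x := ⟨⟨mt x, mt_det x⟩, mt_form x⟩
  map_one' := Subtype.ext (Subtype.ext mt_one)
  map_mul' x y := Subtype.ext (Subtype.ext (mt_mul x y))

/-- the matrix of an element of `SUJ K` -/
def mx (g : SUJ K) : Matrix (Fin 4) (Fin 4) K := ((g : Matrix.SpecialLinearGroup (Fin 4) K) : Matrix (Fin 4) (Fin 4) K)

theorem mx_emb (x : PG K) : mx (emb x) = mt x := rfl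
theorem mx_mul (g h : SUJ K) : mx (g * h) = mx g * mx h := rfl
theorem mx_one : mx (1 : SUJ K) = 1 := rfl
theorem mx_injective : Function.Injective (mx : SUJ K → _) := fun _ _ h => Subtype.ext (Subtype.ext h)
theorem mx_form (g : SUJ K) : FJ (mx g) := g.2
theorem mx_det (g : SUJ K) : (mx g).det = 1 := g.1.2

theorem mt_injective : Function.Injective (mt : PG K → _) := by
  intro x y h
  have e : ∀ i j, mt x i j = mt y i j := fun i j => by rw [h]
  have h1 : x.r = y.r := e 0 1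
  have h4 : x.b = y.b := e 0 2
  have h5 : x.c = y.c := e 1 2
  have h6 : x.a - x.b * star x.r = y.a - y.b * star y.r := e 0 3
  rw [h4, h1] at h6
  ext
  · exact h1
  · exact sub_left_injective h6
  · exact h4
  · exact h5

theorem emb_injective : Function.Injective (emb : PG K →* SUJ K) := fun x y h =>
  mt_injective (congrArg mx h)

/-- the upper unitriangular matrices of the unitary group are the matrices of `PG K` -/
theorem exists_mt {M : Matrix (Fin 4) (Fin 4) K} (hM : FJ M) (h0 : ∀ i j, j < i → M i j = 0) (h1 : ∀ i, M i i = 1) :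
    ∃ x : PG K, mt x = M := by
  have z10 : M 1 0 = 0 := h0 _ _ (by decide)
  have z20 : M 2 0 = 0 := h0 _ _ (by decide)
  have z21 : M 2 1 = 0 := h0 _ _ (by decide)
  have z30 : M 3 0 = 0 := h0 _ _ (by decide)
  have z31 : M 3 1 = 0 := h0 _ _ (by decide)
  have z32 : M 3 2 = 0 := h0 _ _ (by decide)
  have r02 := hM.row_rel 0 2
  have r11 := hM.row_rel 1 1
  have r01 := hM.row_rel 0 1
  have r00 := hM.row_rel 0 0
  have j02 : J K 0 2 = 0 := rfl
  have j11 : J K 1 1 = 0 := rfl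
  have j01 : J K 0 1 = 0 := rfl
  have j00 : J K 0 0 = 0 := rfl
  rw [j02, z20, z21, h1 0, h1 2, star_zero, star_one] at r02
  rw [j11, z10, h1 1, star_zero, star_one] at r11
  rw [j01, z10, h1 0, h1 1, star_zero, star_one] at r01
  rw [j00, h1 0, star_one] at r00
  have m23 : M 2 3 = - star (M 0 1) := by
    have h := congrArg star r02
    simp only [star_add, star_sub, star_mul', star_star, star_zero, star_one] at h
    linear_combination h
  have m12 : star (M 1 2) = M 1 2 := by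
    linear_combination r11
  have m13 : M 1 3 = star (M 0 2) - M 1 2 * star (M 0 1) := by
    have h := congrArg star r01
    simp only [star_add, star_sub, star_mul', star_star, star_zero, star_one] at h
    linear_combination h
  refine ⟨⟨M 0 1, M 0 3 + M 0 2 * star (M 0 1), M 0 2, M 1 2, ?_, m12⟩, ?_⟩
  · simp only [star_add, star_mul', star_star]
    linear_combination r00
  · ext i j
    fin_cases i <;> fin_cases j
    · exact (h1 0).symm
    · rfl
    · rfl
    · show M 0 3 + M 0 2 * star (M 0 1) - M 0 2 * star (M 0 1) = M 0 3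
      ring
    · exact z10.symm
    · exact (h1 1).symm
    · rfl
    · exact m13.symm
    · exact z20.symm
    · exact z21.symm
    · exact (h1 2).symm
    · exact m23.symm
    · exact z30.symm
    · exact z31.symm
    · exact z32.symm
    · exact (h1 3).symm

theorem mem_range_emb {g : SUJ K} (h0 : ∀ i j, j < i → mx g i j = 0) (h1 : ∀ i, mx g i i = 1) :
    ∃ x : PG K, emb x = g := by
  obtain ⟨x, hx⟩ := exists_mt (mx_form g) h0 h1
  exact ⟨x, mx_injective (by rw [mx_emb, hx])⟩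

/-! ### the torus and the field automorphisms -/

/-- conjugation with the diagonal matrix `v` after the field automorphism `τ` -/
def cjm (v : Fin 4 → K) (τ : K ≃+* K) (M : Matrix (Fin 4) (Fin 4) K) : Matrix (Fin 4) (Fin 4) K :=
  fun i j => v i * τ (M i j) * (v j)⁻¹

/-- `v` is a diagonal similitude with the multiplier `m` -/
def TV (v : Fin 4 → K) (m : K) : Prop := m ≠ 0 ∧ star m = m ∧ v 0 * star (v 3) = m ∧ v 1 * star (v 2) = m

theorem TV.rev {v : Fin 4 → K} {m : K} (h : TV v m) (i : Fin 4) : v i * star (v (Fin.rev i)) = m := by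
  obtain ⟨-, h0, h1, h2⟩ := h
  fin_cases i
  · exact h1
  · exact h2
  · have h := congrArg star h2
    rw [star_mul', star_star, h0, mul_comm] at h
    exact h
  · have h := congrArg star h1
    rw [star_mul', star_star, h0, mul_comm] at h
    exact h

theorem TV.ne {v : Fin 4 → K} {m : K} (h : TV v m) (i : Fin 4) : v i ≠ 0 := by
  intro h0
  have h1 := h.rev i
  rw [h0, zero_mul] at h1
  exact h.1 h1.symm

theorem cjm_eq (v : Fin 4 → K) (τ : K ≃+* K) (M : Matrix (Fin 4) (Fin 4) K) :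
    cjm v τ M = Matrix.diagonal v * M.map τ * Matrix.diagonal (fun i => (v i)⁻¹) := by
  ext i j
  rw [Matrix.mul_diagonal, Matrix.diagonal_mul]
  rfl

theorem cjm_mul {v : Fin 4 → K} (hv : ∀ i, v i ≠ 0) (τ : K ≃+* K) (M N : Matrix (Fin 4) (Fin 4) K) :
    cjm v τ (M * N) = cjm v τ M * cjm v τ N := by
  ext i j
  simp only [cjm, Matrix.mul_apply, map_sum, map_mul, Finset.mul_sum, Finset.sum_mul]
  refine Finset.sum_congr rfl fun k _ => ?_
  have := hv k
  field_simp

theorem cjm_one {v : Fin 4 → K} (hv : ∀ i, v i ≠ 0) (τ : K ≃+* K) : cjm v τ 1 = 1 := by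
  ext i j
  unfold cjm
  by_cases h : i = j
  · subst h
    rw [Matrix.one_apply_eq, map_one, mul_one, mul_inv_cancel₀ (hv i)]
  · rw [Matrix.one_apply_ne h, map_zero, mul_zero, zero_mul]

theorem cjm_det {v : Fin 4 → K} (hv : ∀ i, v i ≠ 0) (τ : K ≃+* K) {M : Matrix (Fin 4) (Fin 4) K} (hM : M.det = 1) :
    (cjm v τ M).det = 1 := by
  have h1 : (M.map τ).det = 1 := by
    have h2 := (RingHom.map_det (τ : K →+* K) M).symm
    rw [hM, map_one] at h2
    exact h2
  rw [cjm_eq, Matrix.det_mul, Matrix.det_mul, Matrix.det_diagonal, Matrix.det_diagonal, h1, mul_one,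
    ← Finset.prod_mul_distrib]
  exact Finset.prod_eq_one fun i _ => mul_inv_cancel₀ (hv i)

theorem J_zero {i j : Fin 4} (h : ¬ j = Fin.rev i) : J K i j = 0 := by
  revert h
  fin_cases i <;> fin_cases j <;> intro h <;> first | rfl | exact absurd rfl h

theorem cjm_form {v : Fin 4 → K} {m : K} (hv : TV v m) {τ : K ≃+* K} (hτ : ∀ x, τ (star x) = star (τ x))
    {M : Matrix (Fin 4) (Fin 4) K} (hM : FJ M) : FJ (cjm v τ M) := by
  have h1 : (M.map τ) * J K * (M.map τ)ᴴ = J K := by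
    have h2 : (M * J K * Mᴴ).map τ = (J K).map τ := by rw [hM]
    have h3 : (J K).map τ = J K := by
      ext i j
      (revert i j; simp only [J, _root_.Fin.forall_fin_succ, _root_.Matrix.map_apply, _root_.Matrix.of_apply, _root_.Matrix.cons_val', _root_.Matrix.cons_val_fin_one, Fin.isValue, _root_.Matrix.cons_val_zero, _root_.Matrix.cons_val_succ, _root_.forall_const, _root_.map_zero, _root_.map_one, _root_.and_self, _root_.RingEquiv.map_neg_one, _root_.implies_true])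
    have h4 : (Mᴴ).map τ = (M.map τ)ᴴ := by
      ext i j
      exact hτ _
    rw [Matrix.map_mul, Matrix.map_mul, h3, h4] at h2
    exact h2
  have e := hv.rev
  have hm := hv.1
  have h5 : Matrix.diagonal v * J K * (Matrix.diagonal v)ᴴ = m • J K := by
    ext i j
    rw [Matrix.diagonal_conjTranspose, Matrix.mul_diagonal, Matrix.diagonal_mul, Matrix.smul_apply, smul_eq_mul]
    by_cases h : j = Fin.rev i
    · subst h
      have h6 := e i
      calc v i * J K i (Fin.rev i) * star (v (Fin.rev i)) = (v i * star (v (Fin.rev i))) * J K i (Fin.rev i) := by ring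
        _ = m * J K i (Fin.rev i) := by rw [h6]
    · rw [J_zero h, mul_zero, zero_mul, mul_zero]
  have h6 : Matrix.diagonal (fun i => (v i)⁻¹) * J K * (Matrix.diagonal (fun i => (v i)⁻¹))ᴴ = m⁻¹ • J K := by
    ext i j
    rw [Matrix.diagonal_conjTranspose, Matrix.mul_diagonal, Matrix.diagonal_mul, Matrix.smul_apply, smul_eq_mul]
    by_cases h : j = Fin.rev i
    · subst h
      have h6 := e i
      show (v i)⁻¹ * J K i (Fin.rev i) * star (v (Fin.rev i))⁻¹ = m⁻¹ * J K i (Fin.rev i)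
      calc (v i)⁻¹ * J K i (Fin.rev i) * star (v (Fin.rev i))⁻¹
          = (v i)⁻¹ * star (v (Fin.rev i))⁻¹ * J K i (Fin.rev i) := by ring
        _ = (v i * star (v (Fin.rev i)))⁻¹ * J K i (Fin.rev i) := by rw [star_inv₀, mul_inv]
        _ = m⁻¹ * J K i (Fin.rev i) := by rw [h6]
    · rw [J_zero h, mul_zero, zero_mul, mul_zero]
  rw [cjm_eq]
  unfold FJ
  rw [Matrix.conjTranspose_mul, Matrix.conjTranspose_mul]
  calc Matrix.diagonal v * M.map τ * Matrix.diagonal (fun i => (v i)⁻¹) * J K *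
        ((Matrix.diagonal (fun i => (v i)⁻¹))ᴴ * ((M.map τ)ᴴ * (Matrix.diagonal v)ᴴ))
      = Matrix.diagonal v * M.map τ * (Matrix.diagonal (fun i => (v i)⁻¹) * J K *
        (Matrix.diagonal (fun i => (v i)⁻¹))ᴴ) * (M.map τ)ᴴ * (Matrix.diagonal v)ᴴ := by
          simp only [Matrix.mul_assoc]
    _ = m⁻¹ • (Matrix.diagonal v * (M.map τ * J K * (M.map τ)ᴴ) * (Matrix.diagonal v)ᴴ) := by
          rw [h6]
          simp only [Matrix.mul_assoc, Matrix.mul_smul, Matrix.smul_mul]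
    _ = m⁻¹ • (m • J K) := by rw [h1, h5]
    _ = J K := by rw [smul_smul, inv_mul_cancel₀ hm, one_smul]

theorem cjm_cjm {v w : Fin 4 → K} (τ σ : K ≃+* K) (M : Matrix (Fin 4) (Fin 4) K) :
    cjm v τ (cjm w σ M) = cjm (fun i => v i * τ (w i)) (σ.trans τ) M := by
  ext i j
  show v i * τ (w i * σ (M i j) * (w j)⁻¹) * (v j)⁻¹ = v i * τ (w i) * τ (σ (M i j)) * (v j * τ (w j))⁻¹
  rw [map_mul, map_mul, map_inv₀, mul_inv]
  ring

/-- the automorphism of `SUJ K` -/
def autJ (v : Fin 4 → K) {m : K} (hv : TV v m) (τ : K ≃+* K) (hτ : ∀ x, τ (star x) = star (τ x)) : SUJ K →* SUJ K where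
  toFun g := ⟨⟨cjm v τ (mx g), cjm_det hv.ne τ (mx_det g)⟩, cjm_form hv hτ (mx_form g)⟩
  map_one' := Subtype.ext (Subtype.ext (by
    show cjm v τ (mx 1) = 1
    rw [mx_one, cjm_one hv.ne]))
  map_mul' g h := Subtype.ext (Subtype.ext (by
    show cjm v τ (mx (g * h)) = cjm v τ (mx g) * cjm v τ (mx h)
    rw [mx_mul, cjm_mul hv.ne]))

set_option maxHeartbeats 2000000 in
/-- the action on `PG K` -/
theorem cjm_mt {v : Fin 4 → K} {s l : K} (e0 : v 0 = s * v 1) (e2 : v 2 = l⁻¹ * v 1) (e3 : v 3 = l⁻¹ * (star s)⁻¹ * v 1)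
    (hv : v 1 ≠ 0) {τ : K ≃+* K} {α : MulAut (PG K)} (hα : IsTorP α s l τ) (x : PG K) :
    cjm v τ (mt x) = mt (α x) := by
  have n0 := hα.ns
  have n1 := hα.nl
  have hτ := hα.tst
  have s0 : star s ≠ 0 := star_ne_zero.2 n0
  have sl := hα.sl
  have i0 := hα.r x
  have i3 := hα.a x
  have i4 := hα.b x
  have i5 := hα.c x
  have z : ∀ a b : K, a * τ 0 * b = 0 := fun a b => by rw [map_zero, mul_zero, zero_mul]
  have o : ∀ a : K, a ≠ 0 → a * τ 1 * a⁻¹ = 1 := fun a ha => by rw [map_one, mul_one, mul_inv_cancel₀ ha]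
  have v0 : v 0 ≠ 0 := by rw [e0]; exact mul_ne_zero n0 hv
  have v2 : v 2 ≠ 0 := by rw [e2]; exact mul_ne_zero (inv_ne_zero n1) hv
  have v3 : v 3 ≠ 0 := by rw [e3]; exact mul_ne_zero (mul_ne_zero (inv_ne_zero n1) (inv_ne_zero s0)) hv
  refine ext4 (o _ v0) ?_ ?_ ?_ (z _ _) (o _ hv) ?_ ?_ (z _ _) (z _ _) (o _ v2) ?_ (z _ _) (z _ _) (z _ _) (o _ v3)
  · show v 0 * τ x.r * (v 1)⁻¹ = (α x).r
    rw [i0, e0]
    field_simp
  · show v 0 * τ x.b * (v 2)⁻¹ = (α x).b
    rw [i4, e0, e2]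
    field_simp
  · show v 0 * τ (x.a - x.b * star x.r) * (v 3)⁻¹ = (α x).a - (α x).b * star (α x).r
    rw [i3, i4, i0, e0, e3, map_sub, map_mul, hτ, star_mul']
    field_simp
  · show v 1 * τ x.c * (v 2)⁻¹ = (α x).c
    rw [i5, e2]
    field_simp
  · show v 1 * τ (star x.b - x.c * star x.r) * (v 3)⁻¹ = star (α x).b - (α x).c * star (α x).r
    rw [i5, i4, i0, e3, map_sub, map_mul, hτ, hτ, star_mul', star_mul', star_mul', sl]
    field_simp
  · show v 2 * τ (- star x.r) * (v 3)⁻¹ = - star (α x).r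
    rw [i0, e2, e3, map_neg, hτ, star_mul']
    field_simp

end Cfsg.Agent.H458.P4

private theorem dce_227b68db2564 : _root_.True := by
  try have : _root_.True := by simp only [_root_.Cfsg.Agent.H458.P4.mt.eq_1]
  try have : _root_.True := by simp only [_root_.Cfsg.Agent.H458.P4.J.eq_1]
  try have : _root_.True := by simp only [_root_.Cfsg.Agent.H458.P4.J'.eq_1]
  try have : _root_.True := by simp only [_root_.Cfsg.Agent.H458.P4.cjm.eq_1]
  exact _root_.True.intro
end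

-- part: H881/P4/Auts_mg
section
prune_inst 0xf4304700152200000018059671001c06f20005920028000088010d060480cf0268040120b4b03511500eaa5460380060031000e0424000000a200c00011c008000881204a048a000220086000084000000000000000000000000000000000004000000000
set_option linter.all false
open scoped Cfsg.Agent.FastGrp

-- part: H881/P4/Form
section
/-!
# S5210: formulas in `PG K`, orders of the standard subgroups (helper881)

Field facts (`Fx`, `Tz`, `exists_tr`, `card_Fx`, `one_lt_q`, ...) are those of `Cfsg.Agent.H767.PU`.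
-/

set_option autoImplicit false

namespace Cfsg.Agent.H881.P4

open Cfsg Cfsg.FusionSystem Cfsg.Agent.H776.P4
open Cfsg.Agent.H756.PU (HypK Ess Inv Com NormAut TIAut AF)
open Cfsg.Agent.H767.PU (Fx Tz mem_Fx card_Fx exists_tr one_lt_q)

universe u

variable {K : Type u} [Field K] [StarRing K] {p n : ℕ}

/-! ### membership -/

theorem mem_PZ {g : PG K} : g ∈ PZ K ↔ g.r = 0 ∧ g.b = 0 ∧ g.c = 0 := Iff.rfl
theorem mem_PY {g : PG K} : g ∈ PY K ↔ g.r = 0 ∧ g.c = 0 := Iff.rfl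
theorem mem_PV {g : PG K} : g ∈ PV K ↔ g.r = 0 := Iff.rfl
theorem mem_PQ {g : PG K} : g ∈ PQ K ↔ g.c = 0 := Iff.rfl

/-! ### conjugates -/

section conj
variable (x y : PG K)

theorem conj_aux {x y z : PG K} (h : z * x = x * y) : z.r = y.r ∧ z.c = y.c ∧
    z.b = y.b + x.r * y.c - y.r * x.c ∧
    z.a = y.a + x.r * star y.b + star x.r * y.b + x.r * star x.r * y.c
      - y.r * star x.b - star y.r * x.b - y.r * star y.r * x.c := by
  have hr := congrArg PG.r h
  have hc := congrArg PG.c h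
  have hb := congrArg PG.b h
  have ha := congrArg PG.a h
  rw [PG.mul_r, PG.mul_r] at hr
  rw [PG.mul_c, PG.mul_c] at hc
  rw [PG.mul_b, PG.mul_b] at hb
  rw [PG.mul_a, PG.mul_a] at ha
  have h1 : z.r = y.r := by linear_combination hr
  have h2 : z.c = y.c := by linear_combination hc
  rw [h1] at hb ha
  exact ⟨h1, h2, by linear_combination hb, by linear_combination ha⟩

theorem conj_spec : (x * y * x⁻¹).r = y.r ∧ (x * y * x⁻¹).c = y.c ∧
    (x * y * x⁻¹).b = y.b + x.r * y.c - y.r * x.c ∧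
    (x * y * x⁻¹).a = y.a + x.r * star y.b + star x.r * y.b + x.r * star x.r * y.c
      - y.r * star x.b - star y.r * x.b - y.r * star y.r * x.c :=
  conj_aux (by group)

theorem conj_r : (x * y * x⁻¹).r = y.r := (conj_spec x y).1
theorem conj_c : (x * y * x⁻¹).c = y.c := (conj_spec x y).2.1
theorem conj_b : (x * y * x⁻¹).b = y.b + x.r * y.c - y.r * x.c := (conj_spec x y).2.2.1
end conj

/-! ### commutator inclusions -/

instance normal_PZ : (PZ K).Normal := ⟨fun y hy x => by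
  obtain ⟨h1, h2, h3⟩ := mem_PZ.1 hy
  exact ⟨by rw [conj_r, h1], by rw [conj_b, h1, h2, h3]; ring, by rw [conj_c, h3]⟩⟩
instance normal_PY : (PY K).Normal := ⟨fun y hy x => by
  obtain ⟨h1, h2⟩ := mem_PY.1 hy
  exact ⟨by rw [conj_r, h1], by rw [conj_c, h2]⟩⟩
instance normal_PV : (PV K).Normal := ⟨fun y hy x => mem_PV.2 (by rw [conj_r, mem_PV.1 hy])⟩
instance normal_PQ : (PQ K).Normal := ⟨fun y hy x => mem_PQ.2 (by rw [conj_c, mem_PQ.1 hy])⟩

/-! ### standard elements -/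

/-- `u_r` -/
def eu (r : K) : PG K := { r := r, a := 0, b := 0, c := 0, ha := by simp, hc := by simp }
/-- `(0; a, 0, 0)` -/
def ea (a : K) (ha : star a = a) : PG K := { r := 0, a := a, b := 0, c := 0, ha := ha, hc := by simp }
/-- `(0; 0, b, 0)` -/
def eb (b : K) : PG K := { r := 0, a := 0, b := b, c := 0, ha := by simp, hc := by simp }
/-- `(0; 0, 0, c)` -/
def ec (c : K) (hc : star c = c) : PG K := { r := 0, a := 0, b := 0, c := c, ha := by simp, hc := hc }

@[simp] theorem eu_r (r : K) : (eu r).r = r := rfl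
@[simp] theorem eu_a (r : K) : (eu r).a = 0 := rfl
@[simp] theorem eu_b (r : K) : (eu r).b = 0 := rfl
@[simp] theorem eu_c (r : K) : (eu r).c = 0 := rfl
@[simp] theorem ea_r (a : K) (ha : star a = a) : (ea a ha).r = 0 := rfl
@[simp] theorem ea_a (a : K) (ha : star a = a) : (ea a ha).a = a := rfl
@[simp] theorem ea_b (a : K) (ha : star a = a) : (ea a ha).b = 0 := rfl
@[simp] theorem ea_c (a : K) (ha : star a = a) : (ea a ha).c = 0 := rfl
@[simp] theorem eb_r (b : K) : (eb b).r = 0 := rfl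
@[simp] theorem eb_a (b : K) : (eb b).a = 0 := rfl
@[simp] theorem eb_b (b : K) : (eb b).b = b := rfl
@[simp] theorem eb_c (b : K) : (eb b).c = 0 := rfl
@[simp] theorem ec_r (c : K) (hc : star c = c) : (ec c hc).r = 0 := rfl
@[simp] theorem ec_a (c : K) (hc : star c = c) : (ec c hc).a = 0 := rfl
@[simp] theorem ec_b (c : K) (hc : star c = c) : (ec c hc).b = 0 := rfl
@[simp] theorem ec_c (c : K) (hc : star c = c) : (ec c hc).c = c := rfl

/-! ### orders -/

theorem fin_PG (h : HypK K p n) : Finite (PG K) := by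
  have := h.fin
  refine Finite.of_injective (fun g : PG K => (g.r, g.a, g.b, g.c)) ?_
  intro x y hxy
  simp only [Prod.mk.injEq] at hxy
  obtain ⟨h1, h2, h3, h4⟩ := hxy
  exact PG.ext h1 h2 h3 h4

variable (K) in
/-- coordinates `(r, b, a, c)` -/
def coord : (K × K × Fx K × Fx K) ≃ PG K where
  toFun t := { r := t.1, b := t.2.1, a := t.2.2.1, c := t.2.2.2, ha := t.2.2.1.2, hc := t.2.2.2.2 }
  invFun g := (g.r, g.b, ⟨g.a, g.ha⟩, ⟨g.c, g.hc⟩)
  left_inv _ := rfl
  right_inv _ := rfl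

@[simp] theorem coord_r (t) : (coord K t).r = t.1 := rfl
@[simp] theorem coord_b (t) : (coord K t).b = t.2.1 := rfl
@[simp] theorem coord_a (t) : (coord K t).a = t.2.2.1 := rfl
@[simp] theorem coord_c (t) : (coord K t).c = t.2.2.2 := rfl

theorem card_PG (h : HypK K p n) : Nat.card (PG K) = (p ^ n) ^ 6 := by
  rw [← Nat.card_congr (coord K)]
  simp only [Nat.card_prod, h.card, card_Fx h]
  ring

theorem isPGroup_top (h : HypK K p n) : IsPGroup p (⊤ : Subgroup (PG K)) := by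
  have : Fact p.Prime := ⟨h.pp⟩
  refine IsPGroup.of_card (n := n * 6) ?_
  rw [Subgroup.card_top, card_PG h, pow_mul]

/-! ### elementary abelian groups -/

end Cfsg.Agent.H881.P4
end

-- part: H881/P4/Auts
section
/-!
# S5210: the automorphisms of `PG K`, (GRP) (helper881)
-/

set_option autoImplicit false

namespace Cfsg.Agent.H881.P4

open Cfsg Cfsg.FusionSystem Cfsg.Agent.H776.P4
open Cfsg.Agent.H756.PU (HypK Ess Inv Com NormAut TIAut AF)
open Cfsg.Agent.H767.PU (Fx Tz mem_Fx card_Fx exists_tr one_lt_q)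

universe u

variable {K : Type u} [Field K] [StarRing K] {p n : ℕ}

theorem star_ne {x : K} (h : x ≠ 0) : star x ≠ 0 := star_ne_zero.mpr h

theorem tau_star (h : HypK K p n) (τ : K ≃+* K) (x : K) : τ (star x) = star (τ x) := by
  rw [h.star_eq, h.star_eq, map_pow]

theorem tau_symm_star {τ : K ≃+* K} (hτ : ∀ x, τ (star x) = star (τ x)) (x : K) :
    τ.symm (star x) = star (τ.symm x) := by
  apply τ.injective
  rw [RingEquiv.apply_symm_apply, hτ, RingEquiv.apply_symm_apply]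

/-! ### `tor` -/

/-- the map underlying `IsTorP` -/
def torFun (s l : K) (hl : star l = l) (τ : K ≃+* K) (hτ : ∀ x, τ (star x) = star (τ x)) (g : PG K) : PG K where
  r := s * τ g.r
  a := s * star s * l * τ g.a
  b := s * l * τ g.b
  c := l * τ g.c
  ha := by
    have h : star (τ g.a) = τ g.a := by rw [← hτ, g.ha]
    simp only [star_mul', star_star, hl, h]
    ring
  hc := by
    have h : star (τ g.c) = τ g.c := by rw [← hτ, g.hc]
    simp only [star_mul', hl, h]

theorem torFun_mul (s l : K) (hl : star l = l) (τ : K ≃+* K) (hτ : ∀ x, τ (star x) = star (τ x)) (g g' : PG K) :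
    torFun s l hl τ hτ (g * g') = torFun s l hl τ hτ g * torFun s l hl τ hτ g' := by
  ext
  · simp only [PG.mul_r, torFun, map_add]; ring
  · simp only [PG.mul_a, torFun, map_add, map_mul, hτ, star_mul', hl]; ring
  · simp only [PG.mul_b, torFun, map_add, map_mul]; ring
  · simp only [PG.mul_c, torFun, map_add]; ring

theorem torFun_inj {s l : K} (hs : s ≠ 0) (h0 : l ≠ 0) (hl : star l = l) (τ : K ≃+* K)
    (hτ : ∀ x, τ (star x) = star (τ x)) : Function.Injective (torFun s l hl τ hτ) := by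
  intro g g' h
  have h1 := congrArg PG.r h
  have h2 := congrArg PG.a h
  have h3 := congrArg PG.b h
  have h4 := congrArg PG.c h
  have hs' := star_ne hs
  ext
  · exact τ.injective (mul_left_cancel₀ hs h1)
  · exact τ.injective (mul_left_cancel₀ (mul_ne_zero (mul_ne_zero hs hs') h0) h2)
  · exact τ.injective (mul_left_cancel₀ (mul_ne_zero hs h0) h3)
  · exact τ.injective (mul_left_cancel₀ h0 h4)

/-- the automorphism `tor(s, l, τ)` -/
noncomputable def tor (h : HypK K p n) (s l : K) (hs : s ≠ 0) (h0 : l ≠ 0) (hl : star l = l) (τ : K ≃+* K) :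
    MulAut (PG K) :=
  have := fin_PG h
  MulEquiv.ofBijective (MonoidHom.mk' (torFun s l hl τ (tau_star h τ)) (torFun_mul s l hl τ (tau_star h τ)))
    (Finite.injective_iff_bijective.1 (torFun_inj hs h0 hl τ (tau_star h τ)))

theorem isTorP_tor (h : HypK K p n) (s l : K) (hs : s ≠ 0) (h0 : l ≠ 0) (hl : star l = l) (τ : K ≃+* K) :
    IsTorP (tor h s l hs h0 hl τ) s l τ :=
  ⟨hs, h0, hl, tau_star h τ, fun _ => rfl, fun _ => rfl, fun _ => rfl, fun _ => rfl⟩

theorem isTorP_one : IsTorP (1 : MulAut (PG K)) 1 1 (RingEquiv.refl K) := by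
  refine ⟨one_ne_zero, one_ne_zero, star_one K, fun _ => rfl, ?_, ?_, ?_, ?_⟩ <;> intro g <;> simp

theorem isTorP_mul {α β : MulAut (PG K)} {s l s' l' : K} {τ ρ : K ≃+* K} (hα : IsTorP α s l τ)
    (hβ : IsTorP β s' l' ρ) : IsTorP (α * β) (s * τ s') (l * τ l') (ρ.trans τ) := by
  refine ⟨mul_ne_zero hα.ns (by simpa using hβ.ns), mul_ne_zero hα.nl (by simpa using hβ.nl), ?_, ?_, ?_, ?_, ?_, ?_⟩
  · rw [star_mul', hα.sl, ← hα.tst, hβ.sl]
  · intro x; simp only [hα.tst, hβ.tst, _root_.RingEquiv.coe_trans, _root_.Function.comp_apply]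
  · intro g
    rw [MulAut.mul_apply, hα.r, hβ.r]
    simp only [map_mul, RingEquiv.coe_trans, Function.comp_apply]
    ring
  · intro g
    rw [MulAut.mul_apply, hα.a, hβ.a]
    simp only [map_mul, RingEquiv.coe_trans, Function.comp_apply, hα.tst, star_mul']
    ring
  · intro g
    rw [MulAut.mul_apply, hα.b, hβ.b]
    simp only [map_mul, RingEquiv.coe_trans, Function.comp_apply]
    ring
  · intro g
    rw [MulAut.mul_apply, hα.c, hβ.c]
    simp only [map_mul, RingEquiv.coe_trans, Function.comp_apply]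
    ring

theorem isTorP_inv {α : MulAut (PG K)} {s l : K} {τ : K ≃+* K} (hα : IsTorP α s l τ) :
    IsTorP α⁻¹ (τ.symm s)⁻¹ (τ.symm l)⁻¹ τ.symm := by
  have hs : τ.symm s ≠ 0 := by simpa using hα.ns
  have hl : τ.symm l ≠ 0 := by simpa using hα.nl
  have hs' := star_ne hs
  have hg : ∀ g : PG K, α (α⁻¹ g) = g := fun g => by rw [← MulAut.mul_apply, mul_inv_cancel, MulAut.one_apply]
  have hst := tau_symm_star hα.tst
  have hls : star (τ.symm l) = τ.symm l := by rw [← hst, hα.sl]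
  refine ⟨inv_ne_zero hs, inv_ne_zero hl, ?_, hst, ?_, ?_, ?_, ?_⟩
  · rw [star_inv₀, hls]
  · intro g
    have h1 := congrArg τ.symm ((hα.r (α⁻¹ g)).symm.trans (congrArg PG.r (hg g)))
    rw [map_mul, RingEquiv.symm_apply_apply] at h1
    rw [← h1]; field_simp
  · intro g
    have h1 := congrArg τ.symm ((hα.a (α⁻¹ g)).symm.trans (congrArg PG.a (hg g)))
    rw [map_mul, map_mul, map_mul, RingEquiv.symm_apply_apply, hst] at h1
    rw [← h1, star_inv₀]; field_simp
  · intro g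
    have h1 := congrArg τ.symm ((hα.b (α⁻¹ g)).symm.trans (congrArg PG.b (hg g)))
    rw [map_mul, map_mul, RingEquiv.symm_apply_apply] at h1
    rw [← h1]; field_simp
  · intro g
    have h1 := congrArg τ.symm ((hα.c (α⁻¹ g)).symm.trans (congrArg PG.c (hg g)))
    rw [map_mul, RingEquiv.symm_apply_apply] at h1
    rw [← h1]; field_simp

/-- `TP K` is the set of all the `tor(s, l, τ)` -/
theorem mem_TP {α : MulAut (PG K)} : α ∈ TP K ↔ ∃ s l τ, IsTorP α s l τ := by
  constructor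
  · intro h
    refine Subgroup.closure_induction (p := fun α _ => ∃ s l τ, IsTorP α s l τ) ?_ ?_ ?_ ?_ h
    · intro x hx; exact hx
    · exact ⟨_, _, _, isTorP_one⟩
    · rintro x y _ _ ⟨x1, x2, τ, hx⟩ ⟨y1, y2, ρ, hy⟩
      exact ⟨_, _, _, isTorP_mul hx hy⟩
    · rintro x _ ⟨x1, x2, τ, hx⟩
      exact ⟨_, _, _, isTorP_inv hx⟩
  · intro h
    exact Subgroup.subset_closure h

/-! ### `θ_ψ` -/

/-- the map underlying `IsTh` -/
def thFun (ψ : K → K) (hf : ∀ x : K, star x = x → star (ψ x) = ψ x) (g : PG K) : PG K where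
  r := g.r
  a := g.a + ψ g.c
  b := g.b
  c := g.c
  ha := by rw [star_add, g.ha, hf _ g.hc]
  hc := g.hc

theorem exists_th (ψ : K → K) (hadd : ∀ x y : K, star x = x → star y = y → ψ (x + y) = ψ x + ψ y)
    (hf : ∀ x : K, star x = x → star (ψ x) = ψ x) : ∃ θ : MulAut (PG K), Cfsg.Agent.H776.P4.IsTh ψ θ := by
  have hmul : ∀ g g' : PG K, thFun ψ hf (g * g') = thFun ψ hf g * thFun ψ hf g' := by
    intro g g'
    ext
    · rfl
    · simp only [PG.mul_a, thFun, PG.mul_c, hadd _ _ g.hc g'.hc]; ring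
    · rfl
    · rfl
  have h0 : ψ 0 = 0 := by
    have h := hadd 0 0 (star_zero K) (star_zero K)
    rw [add_zero] at h
    exact left_eq_add.1 h
  have hneg : ∀ x : K, star x = x → ψ (-x) = -ψ x := by
    intro x hx
    have h := hadd x (-x) hx (by rw [star_neg, hx])
    rw [add_neg_cancel, h0] at h
    linear_combination -h
  have hf' : ∀ x : K, star x = x → star ((fun y => ψ (-y)) x) = (fun y => ψ (-y)) x := by
    intro x hx
    exact hf _ (by rw [star_neg, hx])
  have hl : ∀ g : PG K, thFun (fun y => ψ (-y)) hf' (thFun ψ hf g) = g := by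
    intro g
    ext
    · rfl
    · simp only [thFun, hneg _ g.hc]; ring
    · rfl
    · rfl
  have hr : ∀ g : PG K, thFun ψ hf (thFun (fun y => ψ (-y)) hf' g) = g := by
    intro g
    ext
    · rfl
    · simp only [thFun, hneg _ g.hc]; ring
    · rfl
    · rfl
  let e : PG K ≃ PG K := ⟨thFun ψ hf, thFun (fun y => ψ (-y)) hf', hl, hr⟩
  exact ⟨MulEquiv.mk' e hmul, ⟨hadd, hf, fun _ => rfl, fun _ => rfl, fun _ => rfl, fun _ => rfl⟩⟩

/-! ### `ε_κ` -/

/-- the map underlying `IsEp` -/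
def epFun (κ : K) (g : PG K) : PG K where
  r := g.r
  a := g.a - (star κ * (g.r * g.r) + κ * star (g.r * g.r))
  b := g.b + κ * star g.r
  c := g.c
  ha := by
    simp only [star_sub, star_add, star_mul', star_star, g.ha]
    ring
  hc := g.hc

theorem epFun_mul (h3 : (3 : K) = 0) (κ : K) (g g' : PG K) : epFun κ (g * g') = epFun κ g * epFun κ g' := by
  ext
  · rfl
  · simp only [PG.mul_a, PG.mul_r, epFun, star_mul', star_add, star_star]
    linear_combination (-(star κ * g.r * g'.r) - κ * star g.r * star g'.r) * h3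
  · simp only [PG.mul_b, PG.mul_r, epFun, star_add]; ring
  · rfl

theorem exists_ep (h : HypK K p n) (hp : p = 3) (κ : K) : ∃ ε, IsEp κ ε := by
  have hch := h.char
  have h3 : (3 : K) = 0 := by
    have := CharP.cast_eq_zero K p
    rw [hp] at this
    exact_mod_cast this
  have := fin_PG h
  have hinj : Function.Injective (epFun κ : PG K → PG K) := by
    intro g g' hg
    have h1 : g.r = g'.r := (congrArg PG.r hg : (epFun κ g).r = (epFun κ g').r)
    have h2 : g.a - (star κ * (g.r * g.r) + κ * star (g.r * g.r)) =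
      g'.a - (star κ * (g'.r * g'.r) + κ * star (g'.r * g'.r)) := congrArg PG.a hg
    have h3 : g.b + κ * star g.r = g'.b + κ * star g'.r := congrArg PG.b hg
    have h4 : g.c = g'.c := (congrArg PG.c hg : (epFun κ g).c = (epFun κ g').c)
    rw [h1] at h2 h3
    exact PG.ext h1 (sub_left_injective h2) (add_right_cancel h3) h4
  exact ⟨MulEquiv.ofBijective (MonoidHom.mk' (epFun κ) (epFun_mul h3 κ)) (Finite.injective_iff_bijective.1 hinj),
    ⟨fun _ => rfl, fun _ => rfl, fun _ => rfl, fun _ => rfl⟩⟩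

/-! ### the Weyl elements -/

/-- the map underlying `IsWV` -/
def wvFun (g : PV K) : PV K := ⟨
  { r := 0, a := (g : PG K).c, b := - star (g : PG K).b, c := (g : PG K).a
    ha := (g : PG K).hc
    hc := (g : PG K).ha }, rfl⟩

theorem wvFun_mul (g g' : PV K) : wvFun (g * g') = wvFun g * wvFun g' := by
  apply Subtype.ext
  have hg : (g : PG K).r = 0 := g.2
  ext
  · simp only [wvFun, _root_.Subgroup.coe_mul, _root_.Cfsg.Agent.H776.P4.PG.mul_c, _root_.Cfsg.Agent.H776.P4.PG.mul_r, _root_.add_zero]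
  · simp only [wvFun, PG.mul_a, _root_.Subgroup.coe_mul, _root_.Cfsg.Agent.H776.P4.PG.mul_c, _root_.star_neg, _root_.star_star, _root_.mul_neg, _root_.MulZeroClass.zero_mul, _root_.neg_zero, _root_.add_zero, _root_.star_zero, _root_.MulZeroClass.mul_zero]
  · simp only [wvFun, Subgroup.coe_mul, PG.mul_b, star_add, star_mul', hg, star_zero]; ring
  · simp only [wvFun, Subgroup.coe_mul, PG.mul_a, PG.mul_c, hg, star_zero]; ring

theorem wvFun_invol (g : PV K) : wvFun (wvFun g) = g := by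
  apply Subtype.ext
  ext
  · exact (mem_PV.1 g.2).symm
  · rfl
  · simp only [wvFun, _root_.star_neg, _root_.star_star, _root_.neg_neg]
  · rfl

variable (K) in
/-- the Weyl element on `V` -/
noncomputable def wv : MulAut (PV K) where
  toFun := wvFun
  invFun := wvFun
  left_inv := wvFun_invol
  right_inv := wvFun_invol
  map_mul' := wvFun_mul

theorem isWV_wv : IsWV (wv K) := ⟨fun _ => rfl, fun _ => rfl, fun _ => rfl⟩

/-- the map underlying `IsWQ` -/
def wqFun (g : PQ K) : PQ K := ⟨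
  { r := (g : PG K).b, a := (g : PG K).a - ((g : PG K).r * star (g : PG K).b + star (g : PG K).r * (g : PG K).b)
    b := - (g : PG K).r, c := 0
    ha := by
      simp only [star_sub, star_add, star_mul', star_star, (g : PG K).ha]
      ring
    hc := star_zero K }, rfl⟩

theorem wqFun_mul (g g' : PQ K) : wqFun (g * g') = wqFun g * wqFun g' := by
  apply Subtype.ext
  have hg : (g : PG K).c = 0 := g.2
  have hg' : (g' : PG K).c = 0 := g'.2
  ext
  · simp only [wqFun, Subgroup.coe_mul, PG.mul_b, PG.mul_r, hg']; ring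
  · simp only [wqFun, Subgroup.coe_mul, PG.mul_a, PG.mul_b, PG.mul_r, hg', star_add, star_neg, star_mul', star_zero]; ring
  · simp only [wqFun, Subgroup.coe_mul, PG.mul_b, PG.mul_r]; ring
  · simp only [wqFun, _root_.Subgroup.coe_mul, _root_.Cfsg.Agent.H776.P4.PG.mul_r, _root_.StarAddMonoid.star_add, _root_.neg_add_rev, _root_.Cfsg.Agent.H776.P4.PG.mul_c, _root_.add_zero]

theorem wqFun_four (g : PQ K) : wqFun (wqFun (wqFun (wqFun g))) = g := by
  apply Subtype.ext
  have hg : (g : PG K).c = 0 := g.2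
  ext
  · simp only [wqFun, _root_.star_neg, _root_.mul_neg, _root_.neg_mul, _root_.neg_neg]
  · simp only [wqFun, star_neg]; ring
  · simp only [wqFun, _root_.star_neg, _root_.mul_neg, _root_.neg_mul, _root_.neg_neg]
  · simp only [wqFun, hg, _root_.star_neg, _root_.mul_neg, _root_.neg_mul, _root_.neg_neg]

variable (K) in
/-- the Weyl element on `Q` -/
noncomputable def wq : MulAut (PQ K) where
  toFun := wqFun
  invFun g := wqFun (wqFun (wqFun g))
  left_inv := wqFun_four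
  right_inv := wqFun_four
  map_mul' := wqFun_mul

theorem isWQ_wq : IsWQ (wq K) := ⟨fun _ => rfl, fun _ => rfl, fun _ => rfl⟩

/-- (GRP) -/
theorem stGrp : StGrp.{u} := by
  intro K _ _ p n h
  exact ⟨card_PG h, isPGroup_top h, fun s l τ hs h0 hl => ⟨_, isTorP_tor h s l hs h0 hl τ⟩, fun α hα => mem_TP.mp hα,
    fun ψ h1 h2 => exists_th ψ h1 h2, fun h3 κ => exists_ep h h3 κ, ⟨wv K, isWV_wv⟩, ⟨wq K, isWQ_wq⟩⟩

end Cfsg.Agent.H881.P4
end

-- part: H575/P4/Act
section
/-!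
# S5210, `q = 3`: the action on `Q/Z` (helper575)

* `Act γ f` : `γ` acts on the coordinates `(r, b)` as `f`; `AcC κ γ f` : the same after the shift `ε_κ`;
* `mem_of_trivial` : automorphisms of `Q` trivial on `Q/Z` are inner (`|K| = 9`);
* `xAut` : the automorphism `x`.
-/

set_option autoImplicit false
set_option linter.unusedSectionVars false

namespace Cfsg.Agent.H575.P4

open Cfsg Cfsg.FusionSystem Cfsg.Agent.H776.P4
open Cfsg.Agent.H756.PU (HypK NormAut TIAut)

universe u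

variable {K : Type u} [Field K] [StarRing K]

/-- the action on the coordinates `(r, b)` -/
def Act (γ : MulAut (PQ K)) (f : K × K → K × K) : Prop :=
  ∀ e : PQ K, (((γ e : PQ K) : PG K).r, ((γ e : PQ K) : PG K).b) = f ((e : PG K).r, (e : PG K).b)

/-- `ε_κ` on `(r, b)` -/
def fE (κ : K) (p : K × K) : K × K := (p.1, p.2 + κ * star p.1)

/-- the Weyl element on `(r, b)` -/
def fW (p : K × K) : K × K := (p.2, - p.1)

/-- `x` on `(r, b)` -/
def fX (p : K × K) : K × K := (p.1, p.2 - p.1)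

theorem fE_fE (κ μ : K) (p : K × K) : fE κ (fE μ p) = fE (κ + μ) p := by
  ext
  · rfl
  · simp only [fE]; ring

theorem fE_zero (p : K × K) : fE (0 : K) p = p := by
  ext
  · rfl
  · simp only [fE, _root_.MulZeroClass.zero_mul, _root_.add_zero, _root_.Prod.mk.eta]

theorem fE_neg (κ : K) (p : K × K) : fE κ (fE (-κ) p) = p := by
  rw [fE_fE, add_neg_cancel, fE_zero]

theorem fE_neg' (κ : K) (p : K × K) : fE (-κ) (fE κ p) = p := by
  rw [fE_fE, neg_add_cancel, fE_zero]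

theorem fE_fX (κ : K) (p : K × K) : fE κ (fX p) = fX (fE κ p) := by
  ext
  · rfl
  · simp only [fE, fX]; ring

theorem Act.mul {γ δ : MulAut (PQ K)} {f g : K × K → K × K} (h : Act γ f) (k : Act δ g) :
    Act (γ * δ) (f ∘ g) := by
  intro e
  rw [MulAut.mul_apply, h, k]
  rfl

theorem Act.inv {γ : MulAut (PQ K)} {f g : K × K → K × K} (h : Act γ f) (hgf : ∀ p, g (f p) = p) :
    Act γ⁻¹ g := by
  intro e
  obtain ⟨e', rfl⟩ : ∃ e', γ e' = e := ⟨γ⁻¹ e, MulAut.apply_inv_self _ _ _⟩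
  rw [MulAut.inv_apply_self, h, hgf]

/-- the action after the shift -/
def AcC (κ : K) (γ : MulAut (PQ K)) (f : K × K → K × K) : Prop :=
  Act γ (fun p => fE κ (f (fE (-κ) p)))

theorem AcC.mul {κ : K} {γ δ : MulAut (PQ K)} {f g : K × K → K × K} (h : AcC κ γ f) (k : AcC κ δ g) :
    AcC κ (γ * δ) (f ∘ g) := by
  intro e
  have := Act.mul h k e
  rw [this]
  simp only [Function.comp_apply, fE_neg']

theorem AcC.inv {κ : K} {γ : MulAut (PQ K)} {f g : K × K → K × K} (h : AcC κ γ f) (hgf : ∀ p, g (f p) = p) :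
    AcC κ γ⁻¹ g := by
  refine Act.inv h ?_
  intro p
  simp only [fE_neg', hgf, fE_neg]

theorem AcC.of_fX {κ : K} {γ : MulAut (PQ K)} (h : Act γ fX) : AcC κ γ fX := by
  intro e
  rw [h]
  change _ = fE κ (fX (fE (-κ) _))
  rw [fE_fX, fE_neg]

theorem AcC.congr {κ : K} {γ : MulAut (PQ K)} {f g : K × K → K × K} (h : AcC κ γ f) (hfg : ∀ p, f p = g p) :
    AcC κ γ g := by
  intro e
  rw [h]
  simp only [hfg]

theorem act_ep {κ : K} {ε : MulAut (PG K)} {t : MulAut (PQ K)} (hε : IsEp κ ε) (ht : IsRP ε t) : Act t (fE κ) := by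
  intro e
  rw [ht, hε.r, hε.b]
  rfl

theorem act_wq {n : MulAut (PQ K)} (hn : IsWQ n) : Act n fW := by
  intro e
  rw [hn.r, hn.b]
  rfl

theorem act_wk {κ : K} {γ : MulAut (PQ K)} (h : IsWk κ γ) : AcC κ γ fW := by
  obtain ⟨ε, n, t, hε, hn, ht, rfl⟩ := h
  have h1 := act_ep hε ht
  exact ((h1.mul (act_wq hn)).mul (h1.inv (g := fE (-κ)) (fE_neg' κ)))

theorem act_wk_add {κ v : K} {γ : MulAut (PQ K)} (h : IsWk (κ + v) γ) :
    AcC κ γ (fun p => fE v (fW (fE (-v) p))) := by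
  intro e
  rw [act_wk h]
  change fE (κ + v) (fW (fE (-(κ + v)) _)) = fE κ (fE v (fW (fE (-v) (fE (-κ) _))))
  rw [fE_fE, fE_fE, neg_add_rev]

/-- conjugation by the elements of `PG K` -/
instance pq_normal : (PQ K).Normal := by
  refine ⟨fun n hn g => ?_⟩
  have hn' : n.c = 0 := hn
  change (g * n * g⁻¹).c = 0
  simp [hn']

/-- the automorphism of `Q` induced by an element of `PG K` -/
def cjQ (g : PG K) : MulAut (PQ K) := MulAut.conjNormal g

theorem cjQ_coe (g : PG K) (e : PQ K) : ((cjQ g e : PQ K) : PG K) = g * e * g⁻¹ := MulAut.conjNormal_apply g e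

theorem cjQ_mem (g : PG K) : cjQ g ∈ autInducedBy (⊤ : Subgroup (PG K)) (PQ K) :=
  Subgroup.subset_closure ⟨g, Subgroup.mem_top g, cjQ_coe g⟩

/-- the element `(0; 0, 0, 1)` -/
def gx : PG K where
  r := 0
  a := 0
  b := 0
  c := 1
  ha := star_zero K
  hc := star_one K

/-- the automorphism `x` -/
def xAut : MulAut (PQ K) := cjQ gx

theorem act_x : Act (xAut : MulAut (PQ K)) fX := by
  intro e
  have he : (e : PG K).c = 0 := e.2
  unfold xAut
  rw [cjQ_coe]
  ext
  · simp only [fX, gx, _root_.Cfsg.Agent.H776.P4.PG.mul_r, _root_.zero_add, _root_.Cfsg.Agent.H776.P4.PG.inv_r, _root_.neg_zero, _root_.add_zero]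
  · simp only [fX, gx, PG.mul_b, PG.inv_b, he, _root_.zero_add, _root_.MulZeroClass.mul_zero, _root_.add_zero, _root_.neg_zero, _root_.mul_one, _root_.Cfsg.Agent.H776.P4.PG.mul_r, _root_.Cfsg.Agent.H776.P4.PG.inv_c, _root_.mul_neg]
    ring

end Cfsg.Agent.H575.P4
end

-- part: H575/P4/Triv
section
/-!
# S5210, `q = 3`: automorphisms of `Q` trivial on `Q/Z` are inner (helper575)
-/

set_option autoImplicit false
set_option linter.unusedSectionVars false

namespace Cfsg.Agent.H575.P4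

open Cfsg Cfsg.FusionSystem Cfsg.Agent.H776.P4
open Cfsg.Agent.H756.PU (HypK NormAut TIAut)

universe u

variable {K : Type u} [Field K] [StarRing K]

section field

variable {p n : ℕ}

theorem p_eq {p n : ℕ} (hp : p.Prime) (h : p ^ n = 3) : p = 3 := by
  have hn : n ≠ 0 := by
    rintro rfl
    simp at h
  have h1 : p ∣ 3 := h ▸ dvd_pow_self p hn
  exact (Nat.prime_dvd_prime_iff_eq hp Nat.prime_three).1 h1

theorem char3 (hK : HypK K p n) (h : p ^ n = 3) : (3 : K) = 0 := by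
  have hp := p_eq hK.pp h
  have := hK.char
  have := CharP.cast_eq_zero K p
  rw [hp] at this
  exact_mod_cast this

theorem star3 (hK : HypK K p n) (h : p ^ n = 3) (x : K) : star x = x ^ 3 := by
  rw [hK.star_eq, h]

theorem pow9 (hK : HypK K p n) (h : p ^ n = 3) (x : K) : x ^ 9 = x := by
  have h1 : star (star x) = x := star_star x
  rw [star3 hK h, star3 hK h, ← pow_mul] at h1
  exact h1

theorem pow8 (hK : HypK K p n) (h : p ^ n = 3) (x : K) (hx : x ≠ 0) : x ^ 8 = 1 := by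
  have h1 := pow9 hK h x
  have h2 : x * (x ^ 8 - 1) = 0 := by
    linear_combination h1
  rcases mul_eq_zero.1 h2 with h3 | h3
  · exact absurd h3 hx
  · exact sub_eq_zero.1 h3

theorem exists_iota (hK : HypK K p n) (h : p ^ n = 3) : ∃ ι : K, ι * ι = -1 := by
  classical
  have := hK.fin
  let _ : Fintype K := Fintype.ofFinite K
  have hc : Fintype.card K = 9 := by
    rw [← Nat.card_eq_fintype_card, hK.card, h]
    norm_num
  have h1 : IsSquare (-1 : K) := by
    rw [FiniteField.isSquare_neg_one_iff, hc]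
    norm_num
  obtain ⟨ι, hι⟩ := h1
  exact ⟨ι, hι.symm⟩

theorem self_cases (hK : HypK K p n) (h : p ^ n = 3) (x : K) (hx : star x = x) : x = 0 ∨ x = 1 ∨ x = -1 := by
  rw [star3 hK h] at hx
  have h2 : x * ((x - 1) * (x + 1)) = 0 := by
    linear_combination hx
  rcases mul_eq_zero.1 h2 with h3 | h3
  · exact Or.inl h3
  · rcases mul_eq_zero.1 h3 with h4 | h4
    · exact Or.inr (Or.inl (sub_eq_zero.1 h4))
    · exact Or.inr (Or.inr (eq_neg_of_add_eq_zero_left h4))

/-- additive maps `K → k` are traces -/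
theorem trace_form (hK : HypK K p n) (h : p ^ n = 3) (φ : K → K) (hadd : ∀ x y, φ (x + y) = φ x + φ y)
    (hst : ∀ x, star (φ x) = φ x) : ∃ w : K, ∀ x, φ x = w * star x + star w * x := by
  obtain ⟨ι, hι⟩ := exists_iota hK h
  have h3 := char3 hK h
  have hsι : star ι = - ι := by
    rw [star3 hK h]
    linear_combination ι * hι
  have h0 : φ 0 = 0 := by
    have := hadd 0 0
    rw [add_zero] at this
    linear_combination - this
  have hneg : ∀ x, φ (-x) = - φ x := by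
    intro x
    have := hadd x (-x)
    rw [add_neg_cancel, h0] at this
    linear_combination - this
  have hsm : ∀ m x : K, star m = m → φ (m * x) = m * φ x := by
    intro m x hm
    rcases self_cases hK h m hm with rfl | rfl | rfl
    · rw [zero_mul, h0, zero_mul]
    · rw [one_mul, one_mul]
    · rw [neg_one_mul, hneg, neg_one_mul]
  refine ⟨- φ 1 - ι * φ ι, fun x => ?_⟩
  have hx : x = -(x + star x) * 1 + (ι * (x - star x)) * ι := by
    linear_combination - (x - star x) * hι + x * h3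
  have hm : star (-(x + star x)) = -(x + star x) := by
    rw [star_neg, star_add, star_star]
    ring
  have hn : star (ι * (x - star x)) = ι * (x - star x) := by
    rw [star_mul', star_sub, star_star, hsι]
    ring
  have hw : star (- φ 1 - ι * φ ι) = - φ 1 + ι * φ ι := by
    rw [star_sub, star_neg, star_mul', hst, hst, hsι]
    ring
  rw [hw]
  conv_lhs => rw [hx]
  rw [hadd, hsm _ _ hm, hsm _ _ hn]
  ring

end field

/-- `(0; a, 0, 0)` -/
def qz (a : K) (ha : star a = a) : PQ K := ⟨⟨0, a, 0, 0, ha, star_zero K⟩, rfl⟩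

/-- `(0; 0, b, 0)` -/
def qb (b : K) : PQ K := ⟨⟨0, 0, b, 0, star_zero K, star_zero K⟩, rfl⟩

/-- `(r; 0, 0, 0)` -/
def qr (r : K) : PQ K := ⟨⟨r, 0, 0, 0, star_zero K, star_zero K⟩, rfl⟩

theorem qb_add (b b' : K) : qb (b + b') = qb b * qb b' := by
  apply Subtype.ext
  rw [Subgroup.coe_mul]
  ext <;> simp only [qb, PG.mul_a, PG.mul_b, _root_.Cfsg.Agent.H776.P4.PG.mul_r, _root_.add_zero, _root_.MulZeroClass.zero_mul, _root_.star_zero, _root_.MulZeroClass.mul_zero, _root_.Cfsg.Agent.H776.P4.PG.mul_c]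

theorem qr_add (b b' : K) : qr (b + b') = qr b * qr b' := by
  apply Subtype.ext
  rw [Subgroup.coe_mul]
  ext <;> simp only [qr, PG.mul_a, PG.mul_b, _root_.Cfsg.Agent.H776.P4.PG.mul_r, _root_.add_zero, _root_.star_zero, _root_.MulZeroClass.mul_zero, _root_.Cfsg.Agent.H776.P4.PG.mul_c]

theorem q_dec (e : PQ K) : e = qz (e : PG K).a (e : PG K).ha * qb (e : PG K).b * qr (e : PG K).r := by
  have he : (e : PG K).c = 0 := e.2
  apply Subtype.ext
  rw [Subgroup.coe_mul, Subgroup.coe_mul]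
  ext <;> simp only [qr, qb, qz, PG.mul_a, PG.mul_b, he, _root_.Cfsg.Agent.H776.P4.PG.mul_r, _root_.add_zero, _root_.zero_add, _root_.MulZeroClass.zero_mul, _root_.star_zero, _root_.MulZeroClass.mul_zero, _root_.Cfsg.Agent.H776.P4.PG.mul_c]

theorem qr_comm (r b : K) : qr r * qb b =
    qz (r * star b + star r * b) (by simp only [star_add, star_mul', star_star]; ring) * (qb b * qr r) := by
  apply Subtype.ext
  simp only [Subgroup.coe_mul]
  ext <;> simp only [qr, qb, qz, PG.mul_a, PG.mul_b, _root_.Cfsg.Agent.H776.P4.PG.mul_r, _root_.add_zero, _root_.zero_add, _root_.MulZeroClass.mul_zero, _root_.star_zero, _root_.MulZeroClass.zero_mul, _root_.Cfsg.Agent.H776.P4.PG.mul_c]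

/-- an automorphism of `Q` which is trivial on `Q/Z` is inner -/
theorem mem_of_trivial {p n : ℕ} (hK : HypK K p n) (h : p ^ n = 3) {δ : MulAut (PQ K)} (hδ : Act δ id) :
    δ ∈ autInducedBy (⊤ : Subgroup (PG K)) (PQ K) := by
  have h3 := char3 hK h
  have hr : ∀ e : PQ K, ((δ e : PQ K) : PG K).r = (e : PG K).r := fun e => congrArg Prod.fst (hδ e)
  have hb : ∀ e : PQ K, ((δ e : PQ K) : PG K).b = (e : PG K).b := fun e => congrArg Prod.snd (hδ e)
  have hc : ∀ e : PQ K, (e : PG K).c = 0 := fun e => e.2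
  set φ : PQ K → K := fun e => ((δ e : PQ K) : PG K).a - (e : PG K).a with hφ
  have hadd : ∀ e f, φ (e * f) = φ e + φ f := by
    intro e f
    simp only [hφ, map_mul, Subgroup.coe_mul, PG.mul_a, hr, hb, hc]
    ring
  have hsta : ∀ e, star (φ e) = φ e := by
    intro e
    simp only [hφ, star_sub, PG.ha]
  have hz : ∀ a ha, φ (qz a ha) = 0 := by
    intro a ha
    have h1 := qr_comm (1 : K) (-a)
    have h2 := congrArg φ h1
    rw [hadd, hadd, hadd] at h2
    have h4 : qz ((1 : K) * star (-a) + star (1 : K) * (-a)) (by simp only [star_add, star_mul', star_star, star_neg, star_one]; ring) = qz a ha := by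
      apply Subtype.ext
      ext
      · rfl
      · simp only [qz, star_neg, ha, star_one]
        linear_combination - a * h3
      · rfl
      · rfl
    rw [h4] at h2
    linear_combination - h2
  obtain ⟨w1, hw1⟩ := trace_form hK h (fun r => φ (qr r)) (fun x y => by rw [qr_add, hadd]) (fun x => hsta _)
  obtain ⟨w2, hw2⟩ := trace_form hK h (fun r => φ (qb r)) (fun x y => by rw [qb_add, hadd]) (fun x => hsta _)
  refine Subgroup.subset_closure ⟨⟨w2, 0, - w1, 0, star_zero K, star_zero K⟩, Subgroup.mem_top _, fun e => ?_⟩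
  have he : φ e = w1 * star (e : PG K).r + star w1 * (e : PG K).r + (w2 * star (e : PG K).b + star w2 * (e : PG K).b) := by
    conv_lhs => rw [q_dec e]
    rw [hadd, hadd, hz, hw1, hw2]
    ring
  ext
  · rw [hr]; simp only [_root_.Cfsg.Agent.H776.P4.PG.mul_r, _root_.Cfsg.Agent.H776.P4.PG.inv_r, _root_.add_neg_cancel_comm]
  · have : ((δ e : PQ K) : PG K).a = (e : PG K).a + φ e := by simp only [hφ]; ring
    rw [this, he]
    simp only [PG.mul_a, PG.mul_b, PG.inv_a, PG.inv_b, PG.mul_r, PG.inv_r, PG.mul_c, PG.inv_c, hc, star_neg, star_add,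
      star_mul', star_zero]
    ring
  · rw [hb]
    simp only [PG.mul_b, PG.inv_b, PG.mul_r, PG.inv_r, PG.mul_c, PG.inv_c, hc]
    ring
  · simp only [hc, _root_.Cfsg.Agent.H776.P4.PG.mul_c, _root_.add_zero, _root_.Cfsg.Agent.H776.P4.PG.inv_c, _root_.neg_zero]

theorem xAut_not_inn : (xAut : MulAut (PQ K)) ∉ Inn (PQ K) := by
  rintro ⟨e, he⟩
  have h1 := act_x (qr (1 : K))
  rw [← he] at h1
  have h2 := congrArg Prod.snd h1
  have hc : (e : PG K).c = 0 := e.2
  simp only [fX, qr, PG.mul_b, PG.inv_b, hc, _root_.MulAut.conj_apply, _root_.Subgroup.coe_mul, _root_.InvMemClass.coe_inv, _root_.add_zero, _root_.MulZeroClass.mul_zero, _root_.add_neg_cancel, _root_.Cfsg.Agent.H776.P4.PG.mul_r, _root_.Cfsg.Agent.H776.P4.PG.inv_c, _root_.neg_zero, _root_.zero_sub, _root_.zero_eq_neg, _root_.one_ne_zero] at h2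

end Cfsg.Agent.H575.P4
end

-- part: H575/P4/ThreeC
section
/-!
# S5210, `q = 3`: the statement (3C) (helper575)

`stThreeC : StGrp → StThreeC`.
-/

set_option autoImplicit false
set_option linter.unusedSectionVars false

namespace Cfsg.Agent.H575.P4

open Cfsg Cfsg.FusionSystem Cfsg.Agent.H776.P4
open Cfsg.Agent.H756.PU (HypK NormAut TIAut)

universe u

variable {K : Type u} [Field K] [StarRing K]

/-- inverse of `fX` -/
def fXi (p : K × K) : K × K := (p.1, p.2 + p.1)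

theorem fXi_fX (p : K × K) : fXi (fX p) = p := by
  ext
  · rfl
  · simp only [fXi, fX]; ring

theorem fX_fXi (p : K × K) : fX (fXi p) = p := by
  ext
  · rfl
  · simp only [fXi, fX]; ring

/-- conjugation by `ε_v` of the Weyl element -/
def fV (v : K) (p : K × K) : K × K := fE v (fW (fE (-v) p))

/-- the reflection, square direction -/
def fR1 (v : K) (p : K × K) : K × K := (v * star p.1, v * star p.2 - v * star p.1)

/-- the reflection, non-square direction -/
def fR2 (v : K) (p : K × K) : K × K := (- (v * star p.1), p.1 + v * star p.2)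

theorem word1 {v : K} (h3 : (3 : K) = 0) (hv : v * star v = 1) (p : K × K) :
    (fW ∘ fX ∘ fV v ∘ fXi ∘ fW ∘ fX ∘ fV v) p = fR1 v p := by
  obtain ⟨r, b⟩ := p
  ext
  · simp only [Function.comp_apply, fW, fX, fV, fE, fXi, fR1, star_add, star_sub, star_mul', star_star, star_neg]
    linear_combination (3 * b + 7 * r - v * star b - 3 * v * star r + v * star v * r) * hv +
      (2 * b + 3 * r - 2 * v * star b - 3 * v * star r) * h3
  · simp only [Function.comp_apply, fW, fX, fV, fE, fXi, fR1, star_add, star_sub, star_mul', star_star, star_neg]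
    linear_combination (b + 2 * r - v * star r) * hv + (b + r - v * star b - v * star r) * h3

theorem word2 {v : K} (hv : v * star v = -1) (p : K × K) :
    (fW ∘ fV v ∘ fW) p = fR2 v p := by
  obtain ⟨r, b⟩ := p
  ext
  · simp only [Function.comp_apply, fW, fV, fE, fR2, star_add, star_mul', star_star, star_neg]
    linear_combination - b * hv
  · simp only [Function.comp_apply, fW, fV, fE, fR2, star_add, star_mul', star_star, star_neg]
    ring

/-- inverse of `fR1` -/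
def fR1i (v : K) (p : K × K) : K × K := (v * star p.1, v * star p.2 + v * star p.1)

theorem fR1i_fR1 {v : K} (hv : v * star v = 1) (p : K × K) : fR1i v (fR1 v p) = p := by
  obtain ⟨r, b⟩ := p
  ext
  · simp only [fR1, fR1i, star_mul', star_star]
    linear_combination r * hv
  · simp only [fR1, fR1i, star_mul', star_star, star_sub]
    linear_combination b * hv

/-- inverse of `fR2` -/
def fR2i (v : K) (p : K × K) : K × K := (v * star p.1, - (v * star p.2) - p.1)

theorem fR2i_fR2 {v : K} (hv : v * star v = -1) (p : K × K) : fR2i v (fR2 v p) = p := by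
  obtain ⟨r, b⟩ := p
  ext
  · simp only [fR2, fR2i, star_mul', star_star, star_neg]
    linear_combination - r * hv
  · simp only [fR2, fR2i, star_mul', star_star, star_add, star_neg]
    linear_combination - b * hv

theorem fR1_fX (v : K) (p : K × K) : (fR1 v ∘ fX) p = (fX ∘ fR1 v) p := by
  obtain ⟨r, b⟩ := p
  ext
  · rfl
  · simp only [fR1, fX, star_sub, Function.comp_apply]
    ring

theorem fR2_fX (v : K) (p : K × K) : (fR2 v ∘ fX) p = (fXi ∘ fR2 v) p := by
  obtain ⟨r, b⟩ := p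
  ext
  · rfl
  · simp only [fR2, fX, fXi, star_sub, Function.comp_apply]
    ring

theorem xAut_mem : (xAut : MulAut (PQ K)) ∈ autInducedBy (⊤ : Subgroup (PG K)) (PQ K) := cjQ_mem _

/-- an element normalizing `x` modulo inner automorphisms -/
theorem normAut_of_conj {p n : ℕ} (hK : HypK K p n) (h : p ^ n = 3) {Γ : Subgroup (MulAut (PQ K))}
    (hti : TIAut (⊤ : Subgroup (PG K)) Γ) {γ : MulAut (PQ K)} (hγ : γ ∈ Γ) {κ : K} {f f' : K × K → K × K}
    (hf : AcC κ γ f) (hff : ∀ p, f' (f p) = p)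
    (hc : (∀ p, f (fX p) = fX (f p)) ∨ (∀ p, f (fX p) = fXi (f p))) : NormAut (⊤ : Subgroup (PG K)) γ := by
  have hx : AcC κ (xAut : MulAut (PQ K)) fX := AcC.of_fX act_x
  have hxi : AcC κ (xAut : MulAut (PQ K))⁻¹ fXi := hx.inv fXi_fX
  have hfi : AcC κ γ⁻¹ f' := hf.inv hff
  have hf'f : ∀ p, f (f' p) = p := by
    intro p
    have h1 := (hf.mul hfi)
    rw [mul_inv_cancel] at h1
    have h2 : ∀ e : PQ K, ((e : PG K).r, (e : PG K).b) =
        fE κ (f (f' (fE (-κ) ((e : PG K).r, (e : PG K).b)))) := fun e => h1 e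
    set q := fE κ p with hq
    have h3 := h2 ⟨⟨q.1, 0, q.2, 0, star_zero K, star_zero K⟩, rfl⟩
    have h4 : ((q.1, q.2) : K × K) = q := rfl
    simp only [h4] at h3
    rw [hq, fE_neg'] at h3
    have h5 := congrArg (fE (-κ)) h3
    rw [fE_neg', fE_neg'] at h5
    exact h5.symm
  refine hti γ hγ xAut xAut_mem xAut_not_inn ?_
  have key : ∀ δ : MulAut (PQ K), AcC κ δ id → δ ∈ autInducedBy (⊤ : Subgroup (PG K)) (PQ K) := by
    intro δ hδ
    refine mem_of_trivial hK h ?_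
    intro e
    rw [hδ e]
    simp only [id, fE_neg]
  rcases hc with hc | hc
  · have h1 : AcC κ (γ * xAut * γ⁻¹ * xAut⁻¹) id := by
      refine (((hf.mul hx).mul hfi).mul hxi).congr ?_
      intro p
      simp only [Function.comp_apply, id, hc, hf'f, fX_fXi]
    have h2 := mul_mem (key _ h1) (xAut_mem (K := K))
    rwa [inv_mul_cancel_right] at h2
  · have h1 : AcC κ (γ * xAut * γ⁻¹ * xAut) id := by
      refine (((hf.mul hx).mul hfi).mul hx).congr ?_
      intro p
      simp only [Function.comp_apply, id, hc, hf'f, fXi_fX]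
    have h2 := mul_mem (key _ h1) (_root_.InvMemClass.inv_mem (xAut_mem (K := K)))
    rwa [mul_inv_cancel_right] at h2

/-- comparison with the element of `D` -/
theorem exists_tor {p n : ℕ} (hG : StGrp.{u}) (hK : HypK K p n) {Γ : Subgroup (MulAut (PQ K))}
    {D : Subgroup (MulAut (PG K))} (hP : ParP p (PQ K) Γ D) {γ : MulAut (PQ K)} (hγ : γ ∈ Γ)
    (hn : NormAut (⊤ : Subgroup (PG K)) γ) {κ : K} {f : K × K → K × K} (hf : AcC κ γ f)
    {s l : K} (hs : s ≠ 0) (h1 : ∀ r b, (f (r, b)).1 = s * star r) (h2 : ∀ b, (f (0, b)).2 = s * l * star b) :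
    ∃ d ∈ D, ∃ τ : K ≃+* K, IsTorP d s l τ ∧ ∀ x, τ x = star x := by
  obtain ⟨x0, d, hd, hxd⟩ := hP.norm γ hγ hn
  obtain ⟨s', l', τ, hτ⟩ := (hG hK).2.2.2.1 d (hP.D_le hd)
  have hr : ∀ r : K, s * star r = s' * τ r := by
    intro r
    have e1 := congrArg Prod.fst (hf (qr r))
    rw [hxd] at e1
    simp only [PG.mul_r, PG.inv_r, hτ.r] at e1
    have e2 : (fE κ (f (fE (-κ) (((qr r : PQ K) : PG K).r, ((qr r : PQ K) : PG K).b)))).1 = s * star r := h1 _ _
    rw [e2] at e1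
    change x0.r + s' * τ r + - x0.r = _ at e1
    linear_combination - e1
  have hb : ∀ b : K, s * l * star b = s' * l' * τ b := by
    intro b
    have e1 := congrArg Prod.snd (hf (qb b))
    rw [hxd] at e1
    have e3 : (fE (-κ) (((qb b : PQ K) : PG K).r, ((qb b : PQ K) : PG K).b)) = (0, b) := by
      ext
      · rfl
      · simp [fE, qb]
    simp only [e3] at e1
    have e2 : (fE κ (f (0, b))).2 = s * l * star b := by
      have : (f (0, b)).1 = 0 := by rw [h1]; simp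
      simp only [fE, this, h2, star_zero, mul_zero, add_zero]
    rw [e2] at e1
    have hc : ((d (qb b : PQ K) : PG K)).c = 0 := by rw [hτ.c]; simp [qb]
    have hr0 : ((d (qb b : PQ K) : PG K)).r = 0 := by rw [hτ.r]; simp [qb]
    simp only [PG.mul_b, PG.inv_b, PG.mul_r, hτ.b, hc, hr0, PG.inv_c] at e1
    change _ = _ at e1
    have e4 : ((qb b : PQ K) : PG K).b = b := rfl
    rw [e4] at e1
    linear_combination - e1
  have hs' : s' = s := by
    have := hr 1
    rw [star_one, map_one, mul_one, mul_one] at this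
    exact this.symm
  subst hs'
  have hτs : ∀ x, τ x = star x := fun x => (mul_left_cancel₀ hs (hr x)).symm
  have hl : l' = l := by
    have := hb 1
    rw [star_one, map_one, mul_one, mul_one] at this
    exact (mul_left_cancel₀ hs this).symm
  subst hl
  exact ⟨d, hd, τ, hτ, hτs⟩

/-- the kernel of the action on the plane is in `D` -/
theorem mem_of_act {p n : ℕ} (hK : HypK K p n) (h : p ^ n = 3) {D : Subgroup (MulAut (PG K))}
    (hT : HasTorP D (fun t => t ^ 2) (fun t => (t * star t)⁻¹)) {α d : MulAut (PG K)} (hd : d ∈ D)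
    {s l s' l' : K} {τ τ' : K ≃+* K} (hα : IsTorP α s l τ) (hd' : IsTorP d s' l' τ')
    (hact : ∀ x, actK s l τ x = actK s' l' τ' x) : α ∈ D := by
  classical
  have hs := hα.ns
  have hl := hα.nl
  have hs' := hd'.ns
  have hl' := hd'.nl
  have hss : star s ≠ 0 := by rwa [Ne, star_eq_zero]
  have hss' : star s' ≠ 0 := by rwa [Ne, star_eq_zero]
  have h1 := hact 1
  simp only [actK, map_one, mul_one] at h1
  have hτ : ∀ x, τ x = τ' x := by
    intro x
    have h2 := hact x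
    simp only [actK] at h2
    rw [h1] at h2
    exact mul_left_cancel₀ (mul_ne_zero (mul_ne_zero hl' hs') (inv_ne_zero hss')) h2
  set σ := s * s'⁻¹ with hσ
  set lm := l * l'⁻¹ with hlm
  have hσ0 : σ ≠ 0 := mul_ne_zero hs (inv_ne_zero hs')
  have hlm0 : lm ≠ 0 := mul_ne_zero hl (inv_ne_zero hl')
  have hsσ : star σ = star s * (star s')⁻¹ := by
    rw [hσ, star_mul', star_inv₀]
  have hslm : star lm = lm := by
    rw [hlm, star_mul', star_inv₀, hα.sl, hd'.sl]
  have hrel : lm * σ = star σ := by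
    rw [hsσ, hσ, hlm]
    field_simp
    field_simp at h1
    linear_combination h1
  have hβ : IsTorP (α * d⁻¹) σ lm (RingEquiv.refl K) := by
    have hinv : ∀ g : PG K, d (d⁻¹ g) = g := fun g => MulAut.apply_inv_self _ _ _
    refine ⟨hσ0, hlm0, hslm, fun _ => rfl, fun g => ?_, fun g => ?_, fun g => ?_, fun g => ?_⟩
    · have e1 := hd'.r (d⁻¹ g)
      rw [hinv] at e1
      rw [MulAut.mul_apply, hα.r, hτ, RingEquiv.refl_apply, e1, hσ]
      field_simp
    · have e1 := hd'.a (d⁻¹ g)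
      rw [hinv] at e1
      rw [MulAut.mul_apply, hα.a, hτ, RingEquiv.refl_apply, e1, hsσ, hσ, hlm]
      field_simp
    · have e1 := hd'.b (d⁻¹ g)
      rw [hinv] at e1
      rw [MulAut.mul_apply, hα.b, hτ, RingEquiv.refl_apply, e1, hσ, hlm]
      field_simp
    · have e1 := hd'.c (d⁻¹ g)
      rw [hinv] at e1
      rw [MulAut.mul_apply, hα.c, hτ, RingEquiv.refl_apply, e1, hlm]
      field_simp
  have hlm2 : lm * lm = 1 := by
    rcases self_cases hK h lm hslm with h0 | h0 | h0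
    · exact absurd h0 hlm0
    · rw [h0, one_mul]
    · rw [h0]; ring
  have hσl : lm = σ ^ 2 := by
    rw [star3 hK h] at hrel
    have : σ * (lm - σ ^ 2) = 0 := by linear_combination hrel
    rcases mul_eq_zero.1 this with h0 | h0
    · exact absurd h0 hσ0
    · exact sub_eq_zero.1 h0
  have hσ4 : σ ^ 4 = 1 := by
    have : σ ^ 4 = lm * lm := by rw [hσl]; ring
    rw [this, hlm2]
  have := hK.fin
  let _ : Fintype K := Fintype.ofFinite K
  have hcard : Fintype.card K = 9 := by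
    rw [← Nat.card_eq_fintype_card, hK.card, h]
    norm_num
  have hchar : ringChar K ≠ 2 := by
    have hp := p_eq hK.pp h
    have := hK.char
    rw [ringChar.eq K p, hp]
    norm_num
  have hsq : IsSquare σ := by
    rw [FiniteField.isSquare_iff hchar hσ0, hcard]
    exact hσ4
  obtain ⟨t, ht⟩ := hsq
  have ht0 : t ≠ 0 := by
    rintro rfl
    exact hσ0 (by rw [ht, mul_zero])
  have ht2 : σ = t ^ 2 := by rw [ht, sq]
  have htt : (t * star t)⁻¹ = lm := by
    have h8 := pow8 hK h t ht0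
    rw [star3 hK h, hσl, ht2]
    refine inv_eq_of_mul_eq_one_right ?_
    linear_combination h8
  have hβD : α * d⁻¹ ∈ D := by
    refine hT t ht0 _ ?_
    simp only
    rw [← ht2, htt]
    exact hβ
  have := mul_mem hβD hd
  rwa [inv_mul_cancel_right] at this

/-- **(3C)** the elements of `D` forced by two points `κ`, `κ + v` -/
theorem stThreeC (hG : StGrp.{u}) : StThreeC.{u} := by
  intro K _ _ p n hK h Γ D hP hT κ hκ v hv0 hκv α s l τ hα hact
  obtain ⟨γ1, hγ1, hw1⟩ := hκ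
  obtain ⟨γ2, hγ2, hw2⟩ := hκv
  have h3 := char3 hK h
  have hx : (xAut : MulAut (PQ K)) ∈ Γ := hP.indu xAut_mem
  have a1 : AcC κ γ1 fW := act_wk hw1
  have a2 : AcC κ γ2 (fV v) := act_wk_add hw2
  have ax : AcC κ (xAut : MulAut (PQ K)) fX := AcC.of_fX act_x
  have axi : AcC κ (xAut : MulAut (PQ K))⁻¹ fXi := ax.inv fXi_fX
  rcases hact with ⟨hv4, hact⟩ | ⟨hv4, hact⟩
  · have hvv : v * star v = 1 := by
      rw [star3 hK h]
      linear_combination hv4
    have hγ : γ1 * (xAut * (γ2 * (xAut⁻¹ * (γ1 * (xAut * γ2))))) ∈ Γ :=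
      mul_mem hγ1 (mul_mem hx (mul_mem hγ2 (mul_mem (_root_.InvMemClass.inv_mem hx) (mul_mem hγ1 (mul_mem hx hγ2)))))
    have hac : AcC κ (γ1 * (xAut * (γ2 * (xAut⁻¹ * (γ1 * (xAut * γ2)))))) (fR1 v) :=
      (a1.mul (ax.mul (a2.mul (axi.mul (a1.mul (ax.mul a2)))))).congr (word1 h3 hvv)
    have hn := normAut_of_conj hK h hP.ti hγ hac (fR1i_fR1 hvv) (Or.inl (fR1_fX v))
    obtain ⟨d, hd, τ', hτ', hst⟩ := exists_tor hG hK hP hγ hn hac (s := v) (l := 1) hv0 (fun r b => rfl)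
      (fun b => by simp only [fR1, _root_.star_zero, _root_.MulZeroClass.mul_zero, _root_.sub_zero, _root_.mul_one])
    refine mem_of_act hK h hT hd hα hτ' (fun x => ?_)
    rw [hact, actK, hst]
    ring
  · have hvv : v * star v = -1 := by
      rw [star3 hK h]
      linear_combination hv4
    have hγ : γ1 * (γ2 * γ1) ∈ Γ := mul_mem hγ1 (mul_mem hγ2 hγ1)
    have hac : AcC κ (γ1 * (γ2 * γ1)) (fR2 v) := (a1.mul (a2.mul a1)).congr (word2 hvv)
    have hn := normAut_of_conj hK h hP.ti hγ hac (fR2i_fR2 hvv) (Or.inr (fR2_fX v))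
    obtain ⟨d, hd, τ', hτ', hst⟩ := exists_tor hG hK hP hγ hn hac (s := -v) (l := -1) (neg_ne_zero.2 hv0)
      (fun r b => by simp only [fR2, _root_.neg_mul]) (fun b => by simp only [fR2, _root_.star_zero, _root_.MulZeroClass.mul_zero, _root_.neg_zero, _root_.zero_add, _root_.mul_neg, _root_.mul_one, _root_.neg_neg])
    refine mem_of_act hK h hT hd hα hτ' (fun x => ?_)
    rw [hact, actK, hst, star_neg, inv_neg]
    ring

end Cfsg.Agent.H575.P4
end

private theorem dce_f8e5fbb92afc : _root_.True := by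
  try have : _root_.True := by simp only [_root_.Cfsg.Agent.H575.P4.fR1.eq_1]
  try have : _root_.True := by simp only [_root_.Cfsg.Agent.H575.P4.fXi.eq_1]
  try have : _root_.True := by simp only [_root_.Cfsg.Agent.H575.P4.gx.eq_1]
  try have : _root_.True := by simp only [_root_.Cfsg.Agent.H575.P4.fR2i.eq_1]
  try have : _root_.True := by simp only [_root_.Cfsg.Agent.H575.P4.fR1i.eq_1]
  try have : _root_.True := by simp only [_root_.Cfsg.Agent.H881.P4.thFun.eq_1]
  try have : _root_.True := by simp only [_root_.Cfsg.Agent.H881.P4.wqFun.eq_1]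
  try have : _root_.True := by simp only [_root_.Cfsg.Agent.H575.P4.qz.congr_simp]
  try have : _root_.True := by simp only [_root_.Cfsg.Agent.H575.P4.qb.eq_1]
  try have : _root_.True := by simp only [_root_.Cfsg.Agent.H881.P4.epFun.eq_1]
  try have : _root_.True := by simp only [_root_.Cfsg.Agent.H575.P4.fR2.eq_1]
  try have : _root_.True := by simp only [_root_.Cfsg.Agent.H575.P4.qr.eq_1]
  try have : _root_.True := by simp only [_root_.Cfsg.Agent.H575.P4.fX.eq_1]
  try have : _root_.True := by simp only [_root_.Cfsg.Agent.H575.P4.qz.eq_1]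
  try have : _root_.True := by simp only [_root_.Cfsg.Agent.H575.P4.fE.eq_1]
  try have : _root_.True := by simp only [_root_.Cfsg.Agent.H776.P4.actK.eq_1]
  try have : _root_.True := by simp only [_root_.Cfsg.Agent.H575.P4.fW.eq_1]
  try have : _root_.True := by simp only [_root_.Cfsg.Agent.H575.P4.fV.eq_1]
  try have : _root_.True := by simp only [_root_.Cfsg.Agent.H881.P4.wvFun.eq_1]
  try have : _root_.True := by simp only [_root_.Cfsg.Agent.H776.P4.PG.mk.congr_simp]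
  try have : _root_.True := by simp only [_root_.Cfsg.Agent.H881.P4.torFun.eq_1]
  exact _root_.True.intro
end
end
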